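import Mathlib
import Cfsg.Agent.Core.Basic
import Cfsg.Agent.PGrp.Basic

set_option autoImplicit false

namespace Cfsg.Agent.H23.Sims

open Subgroup
open scoped commutatorElement Pointwise

variable {G : Type*} [Group G]

def X (x : ℤ → G) (a b : ℤ) : Subgroup G := closure (x '' Set.Icc a b)

theorem mem_X {x : ℤ → G} {a b i : ℤ} (h1 : a ≤ i) (h2 : i ≤ b) : x i ∈ X x a b :=
  subset_closure ⟨i, ⟨h1, h2⟩, rfl⟩

theorem X_le {x : ℤ → G} {a b : ℤ} {H : Subgroup G} (h : ∀ i, a ≤ i → i ≤ b → x i ∈ H) :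
    X x a b ≤ H := by
  rw [X, closure_le]
  rintro _ ⟨i, hi, rfl⟩
  exact h i hi.1 hi.2

theorem X_mono {x : ℤ → G} {a b c d : ℤ} (h1 : c ≤ a) (h2 : b ≤ d) : X x a b ≤ X x c d :=
  X_le fun _ h3 h4 => mem_X (h1.trans h3) (h4.trans h2)

theorem X_comm {x : ℤ → G} {a b c d : ℤ}
    (h : ∀ i j, a ≤ i → i ≤ b → c ≤ j → j ≤ d → Commute (x i) (x j)) {y z : G}
    (hy : y ∈ X x a b) (hz : z ∈ X x c d) : Commute y z :=
  mem_centralizer_singleton_iff.1 (X_le (H := centralizer {z}) (fun i h1 h2 =>
    mem_centralizer_singleton_iff.2 (mem_centralizer_singleton_iff.1 (X_le (H := centralizer {x i})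
      (fun j h3 h4 => mem_centralizer_singleton_iff.2 (h i j h1 h2 h3 h4).symm) hz)).symm) hy)

theorem g1 {w x y : G} (h1 : Commute w y) (h2 : Commute ⁅w, x⁆ y) (h3 : Commute ⁅w, x⁆ ⁅x, y⁆) :
    Commute w ⁅x, y⁆ := by
  have e1 : w * ⁅x, y⁆ * w⁻¹ = ⁅⁅w, x⁆ * x, w * y * w⁻¹⁆ := by
    simp only [commutatorElement_def]; group
  rw [h1.mul_inv_cancel] at e1
  have e2 : ⁅⁅w, x⁆ * x, y⁆ = ⁅w, x⁆ * ⁅x, y⁆ * ⁅w, x⁆⁻¹ * ⁅⁅w, x⁆, y⁆ := by
    simp only [commutatorElement_def]; group
  rw [e2, h3.mul_inv_cancel, commutatorElement_eq_one_iff_commute.2 h2, mul_one] at e1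
  exact mul_inv_eq_iff_eq_mul.1 e1

theorem core [Finite G] {p : ℕ} (hp : p.Prime) {x : ℤ → G} {t n : ℤ} (hn : 1 ≤ n)
    (hS : ∀ i k, Commute (x 0) (x i) ↔ Commute (x k) (x (k + i)))
    (hc : ∀ (l : ℕ) (b : ℤ), l ≤ t → Nat.card (X x (b - l + 1) b) = p ^ l)
    (hZ : ∀ i, 1 - t ≤ i → i ≤ 0 → ¬ ∀ j, 1 - t ≤ j → j ≤ n → Commute (x i) (x j)) :
    t ≤ 3 * n ∧ t ≠ 3 * n - 1 := by
  classical
  haveI := Fact.mk hp
  by_cases htn : t ≤ n
  · omega
  have hc' : ∀ a b : ℤ, a ≤ b + 1 → b - a < t → ∃ l : ℕ, b - a + 1 = l ∧ Nat.card (X x a b) = p ^ l := by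
    intro a b h1 h2
    obtain ⟨l, hl⟩ := Int.eq_ofNat_of_zero_le (show 0 ≤ b - a + 1 by omega)
    exact ⟨l, hl, by rw [← hc l b (by omega), show b - l + 1 = a by omega]⟩
  have hi : ∀ a b c d : ℤ, a ≤ c → d ≤ b → c ≤ d + 1 → b - a < t → d - c + 1 = b - a →
      (X x c d).relIndex (X x a b) = p := by
    intro a b c d h1 h2 h3 h4 h5
    obtain ⟨l, hl, e1⟩ := hc' a b (by omega) h4
    obtain ⟨m, hm, e2⟩ := hc' c d h3 (by omega)
    have := PGrp.card_eq_card_mul_relIndex (X_mono (x := x) h1 h2)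
    rw [e1, e2, show l = m + 1 by omega, pow_succ] at this
    exact (Nat.eq_of_mul_eq_mul_left (pow_pos hp.pos m) this).symm
  have hcm : ∀ a b : ℤ, a < b → b - a < t → ⁅x a, x b⁆ ∈ X x (a + 1) (b - 1) := by
    intro a b h1 h2
    obtain ⟨l, hl, e1⟩ := hc' a b (by omega) h2
    have hP : IsPGroup p (X x a b) := IsPGroup.of_card e1
    have k1 := hi a b (a + 1) b (by omega) le_rfl (by omega) h2 (by omega)
    have k2 := hi a b a (b - 1) le_rfl (by omega) (by omega) h2 (by omega)
    have k3 := hi a (b - 1) (a + 1) (b - 1) (by omega) le_rfl (by omega) (by omega) (by omega)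
    have m1 : X x (a + 1) b ≤ X x a b := X_mono (by omega) le_rfl
    have m2 : X x a (b - 1) ≤ X x a b := X_mono le_rfl (by omega)
    have c0 := commutator_mem_commutator (mem_X (x := x) le_rfl h1.le) (mem_X (x := x) h1.le le_rfl)
    have c1 := PGrp.commutator_le_of_relIndex_prime hp m1
      (PGrp.le_normalizer_of_relIndex_prime hP m1 k1) k1 c0
    have c2 := PGrp.commutator_le_of_relIndex_prime hp m2
      (PGrp.le_normalizer_of_relIndex_prime hP m2 k2) k2 c0
    rcases PGrp.eq_or_eq_of_relIndex_prime (K := X x a (b - 1) ⊓ X x (a + 1) b) hp k3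
      (le_inf (X_mono (by omega) le_rfl) (X_mono le_rfl (by omega))) inf_le_left with e | e
    · exact e ▸ ⟨c2, c1⟩
    · exfalso
      have : X x a b ≤ X x (a + 1) b := X_le fun i h3 h4 => by
        by_cases h : i = a
        · exact h ▸ inf_eq_left.1 e (mem_X le_rfl (by omega))
        · exact mem_X (by omega) h4
      rw [relIndex_eq_one.2 this] at k1
      exact hp.one_lt.ne k1
  have hcom : ∀ u : ℤ, (∀ k : ℕ, k < u → Commute (x 0) (x k)) → ∀ i j, i - j < u → j - i < u →
      Commute (x i) (x j) := by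
    intro u h i j h1 h2
    rcases le_total i j with h3 | h3
    · obtain ⟨k, hk⟩ := Int.eq_ofNat_of_zero_le (show 0 ≤ j - i by omega)
      have := (hS k i).1 (h k (by omega))
      rwa [show i + k = j by omega] at this
    · obtain ⟨k, hk⟩ := Int.eq_ofNat_of_zero_le (show 0 ≤ i - j by omega)
      have := (hS k j).1 (h k (by omega))
      rw [show j + k = i by omega] at this
      exact this.symm
  have hex : ∃ k : ℕ, k < t ∧ ¬ Commute (x 0) (x k) := by
    by_contra h
    push Not at h
    exact hZ 0 (by omega) le_rfl fun j h1 h2 => hcom t h 0 j (by omega) (by omega)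
  obtain ⟨u, ⟨hut, hu1⟩, hu2⟩ : ∃ u : ℕ, (u < t ∧ ¬ Commute (x 0) (x u)) ∧
      ∀ k : ℕ, k < u → ¬ (k < t ∧ ¬ Commute (x 0) (x k)) :=
    ⟨Nat.find hex, Nat.find_spec hex, fun k hk => Nat.find_min hex hk⟩
  have hu := hcom u fun k hk => by
    by_contra h; exact hu2 k (by omega) ⟨by omega, h⟩
  have hnu : ∀ i j : ℤ, j = i + u → ¬ Commute (x i) (x j) := by
    rintro i _ rfl h
    exact hu1 ((hS u i).2 h)
  have hu0 : u ≠ 0 := by
    rintro rfl; exact hu1 (Commute.refl _)
  have h1 : 2 * u ≤ t + n := by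
    by_contra h
    exact hZ (u - t) (by omega) (by omega) fun j h1 h2 => hu _ _ (by omega) (by omega)
  have h2 : 2 * t ≤ 3 * u := by
    set c := ⁅x 1, x (u + 1)⁆ with hcdef
    have hc1 : c ≠ 1 := fun h => hnu 1 (u + 1) (by omega) (commutatorElement_eq_one_iff_commute.1 h)
    have hc2 : c ∈ X x 2 u := by simpa using hcm 1 (u + 1) (by omega) (by omega)
    have hb : ∀ a b, c ∈ X x a b → a ≤ b := fun a b h => by
      by_contra h'
      exact hc1 (Subgroup.mem_bot.1 (X_le (H := ⊥) (fun i h1 h2 => by omega) h))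
    obtain ⟨a, ha1, ha2⟩ := Int.exists_greatest_of_bdd (P := fun z => c ∈ X x z u)
      ⟨u, fun z hz => hb z u hz⟩ ⟨2, hc2⟩
    obtain ⟨b, hb1, hb2⟩ := Int.exists_least_of_bdd (P := fun z => c ∈ X x a z)
      ⟨a, fun z hz => hb a z hz⟩ ⟨u, ha1⟩
    have := ha2 2 hc2
    have := hb2 u ha1
    have hab := hb a b hb1
    have key : ∀ (a' b' i j : ℤ), a ≤ a' → b' ≤ b → b' - a' + 1 = b - a → c ∉ X x a' b' →
        a ≤ i → i ≤ b → ¬ Commute (x j) (x i) →
        (∀ k, a' ≤ k → k ≤ b' → Commute (x j) (x k)) → ¬ Commute (x j) c := by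
      intro a' b' i j h1 h2 h3 h4 h5 h6 h7 h8 h9
      have e := PGrp.sup_zpowers_eq_of_relIndex_prime hp
        (hi a b a' b' h1 h2 (by omega) (by omega) h3) (X_mono h1 h2) hb1 h4
      have : X x a b ≤ centralizer {x j} := e ▸ sup_le
        (X_le fun k k1 k2 => mem_centralizer_singleton_iff.2 (h8 k k1 k2).symm)
        (zpowers_le.2 (mem_centralizer_singleton_iff.2 h9.symm))
      exact h7 (mem_centralizer_singleton_iff.1 (this (mem_X h5 h6))).symm
    have k1 : t < a + u := by
      by_contra h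
      have hd : ⁅x (a + u), x 1⁆ ∈ X x (1 + 1) (a + u - 1) := by
        rw [← commutatorElement_inv]; exact inv_mem (hcm 1 (a + u) (by omega) (by omega))
      refine key (a + 1) b a (a + u) (by omega) le_rfl (by omega)
        (fun h => by have := ha2 _ (X_mono le_rfl (by omega) h); omega) le_rfl hab
        (fun h => hnu _ _ rfl h.symm) (fun k _ _ => hu _ _ (by omega) (by omega))
        (g1 (hu _ _ (by omega) (by omega)) ?_ ?_)
      · exact X_comm (fun i j _ _ _ _ => hu _ _ (by omega) (by omega)) hd (mem_X le_rfl le_rfl)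
      · exact X_comm (fun i j _ _ _ _ => hu _ _ (by omega) (by omega)) hd hb1
    have k2 : t ≤ 2 * u + 1 - b := by
      by_contra h
      have hd := hcm (b - u) (u + 1) (by omega) (by omega)
      refine key a (b - 1) b (b - u) le_rfl (by omega) (by omega)
        (fun h => by have := hb2 _ h; omega) hab le_rfl
        (hnu _ _ (by omega)) (fun k _ _ => hu _ _ (by omega) (by omega)) ?_
      rw [hcdef, ← commutatorElement_inv]
      refine (g1 (hu _ _ (by omega) (by omega)) ?_ ?_).inv_right
      · exact X_comm (fun i j _ _ _ _ => hu _ _ (by omega) (by omega)) hd (mem_X le_rfl le_rfl)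
      · rw [← commutatorElement_inv (x 1)]
        exact (X_comm (fun i j _ _ _ _ => hu _ _ (by omega) (by omega)) hd hb1).inv_right
    omega
  omega

def D (α : MulAut G) (P : Subgroup G) : ℕ → Subgroup G
  | 0 => P
  | m + 1 => D α P m ⊓ α • D α P m

theorem card_smul (α : MulAut G) (H : Subgroup G) : Nat.card (α • H : Subgroup G) = Nat.card H :=
  (Nat.card_congr (equivSMul α H).toEquiv).symm

theorem D_le (α : MulAut G) (P : Subgroup G) (m : ℕ) : D α P m ≤ P := by
  induction m with
  | zero => exact le_rfl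
  | succ m ih => exact inf_le_left.trans ih

theorem smul_mono (α : MulAut G) {H K : Subgroup G} (h : H ≤ K) : α • H ≤ α • K :=
  pointwise_smul_le_pointwise_smul_iff.2 h

theorem smul_normalizer (α : MulAut G) (H : Subgroup G) :
    α • normalizer (H : Set G) = normalizer ((α • H : Subgroup G) : Set G) :=
  map_equiv_normalizer_eq H α

theorem isPGroup [Finite G] {p : ℕ} (hp : p.Prime) {α : MulAut G} {P : Subgroup G}
    (hN : α • P ≤ normalizer ((P ⊓ α • P : Subgroup G) : Set G))
    (hidx : (P ⊓ α • P).relIndex (α • P) = p)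
    (h1 : ∀ Q : Subgroup G, Q ≤ P → P ≤ normalizer (Q : Set G) → α • Q = Q → Q = ⊥) :
    IsPGroup p P := by
  haveI := Fact.mk hp
  let S : Set G := {y | y ∈ P ∧ p.Coprime (orderOf y)}
  have hR : closure S = ⊥ := by
    refine h1 _ ((closure_le _).2 fun y hy => hy.1) (fun g hg => ?_)
      (PGrp.eq_of_le_of_card_le ?_ (card_smul _ _).ge)
    · refine mem_normalizer_fintype fun y hy => ?_
      have : (closure S).map (MulAut.conj g).toMonoidHom ≤ closure S := by
        rw [MonoidHom.map_closure]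
        refine closure_mono ?_
        rintro _ ⟨y, hy, rfl⟩
        exact ⟨mul_mem (mul_mem hg hy.1) (inv_mem hg), by
          rw [show orderOf ((MulAut.conj g).toMonoidHom y) = orderOf y from
            MulEquiv.orderOf_eq _ _]; exact hy.2⟩
      exact this ⟨y, hy, rfl⟩
    · rw [smul_closure]
      refine closure_mono ?_
      rintro _ ⟨y, hy, rfl⟩
      have h2 : p.Coprime (orderOf (α • y)) := by
        rw [show orderOf (α • y) = orderOf y from MulEquiv.orderOf_eq α y]; exact hy.2
      exact ⟨(Core.mem_of_pow_mem_of_coprime (PGrp.pow_mem_of_relIndex_eq hN hidx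
        (smul_mem_pointwise_smul _ _ _ hy.1)) h2).1, h2⟩
  refine IsPGroup.of_card (Nat.eq_prime_pow_of_unique_prime_dvd Nat.card_pos.ne' fun {q} hq hd => ?_)
  by_contra hne
  haveI := Fact.mk hq
  obtain ⟨y, hy⟩ := exists_prime_orderOf_dvd_card' q hd
  have : (y : G) ∈ closure S := subset_closure ⟨y.2, by
    rw [Subgroup.orderOf_coe, hy]; exact (Nat.coprime_primes hp hq).2 (Ne.symm hne)⟩
  rw [hR, Subgroup.mem_bot, OneMemClass.coe_eq_one] at this
  rw [this, orderOf_one] at hy
  exact hq.one_lt.ne hy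

theorem main [Finite G] {p : ℕ} (hp : p.Prime) {α : MulAut G} {P : Subgroup G}
    (hN : α • P ≤ normalizer ((P ⊓ α • P : Subgroup G) : Set G))
    (hidx : (P ⊓ α • P).relIndex (α • P) = p) {n : ℕ} (hn : 1 ≤ n)
    (h1 : ∀ Q : Subgroup G, Q ≤ P → P ≤ normalizer (Q : Set G) → α • Q = Q → Q = ⊥)
    (h2 : ∀ y ∈ P, (∀ i ≤ n, α ^ i • P ≤ centralizer {y}) → y = 1) :
    ∃ t : ℕ, Nat.card P = p ^ t ∧ 1 ≤ t ∧ t ≤ 3 * n ∧ t ≠ 3 * n - 1 := by
  classical
  haveI := Fact.mk hp
  have hP := isPGroup hp hN hidx h1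
  have hD : ∀ m, IsPGroup p (D α P m) := fun m => hP.to_le (D_le α P m)
  have hle : ∀ m, (D α P m).relIndex (α • D α P m) ≤ p := by
    intro m
    induction m with
    | zero => rw [← inf_relIndex_right]; exact hidx.le
    | succ m ih =>
      have h3 : α • D α P (m + 1) ≤ α • D α P m := smul_mono α inf_le_left
      refine le_trans ?_ ((relIndex_le_of_le_right h3 index_ne_zero_of_finite).trans ih)
      rw [← inf_relIndex_right, ← inf_relIndex_right (D α P m)]
      exact le_of_eq (by
        rw [show D α P (m + 1) ⊓ α • D α P (m + 1) = D α P m ⊓ (α • D α P m ⊓ α • D α P (m + 1)) from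
          inf_assoc _ _ _, inf_eq_right.2 h3])
  have hst : ∀ m, α • D α P m ≠ D α P m → Nat.card (D α P m) = Nat.card (D α P (m + 1)) * p := by
    intro m hm
    have h3 := PGrp.card_inf_mul_relIndex (D α P m) (α • D α P m)
    rw [card_smul] at h3
    obtain ⟨k, hk⟩ := IsPGroup.iff_card.1 (hD m)
    obtain ⟨j, -, hj⟩ := (Nat.dvd_prime_pow hp).1 (hk ▸ Dvd.intro_left _ h3)
    have h4 := hle m
    rw [hj] at h4
    have h5 := (Nat.pow_le_pow_iff_right hp.one_lt).1 (h4.trans_eq (pow_one p).symm)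
    have h6 : j ≠ 0 := by
      rintro rfl
      exact hm (PGrp.eq_of_le_of_card_le (relIndex_eq_one.1 hj) (card_smul _ _).ge)
    rw [← h3, hj, show j = 1 by omega, pow_one, D]
  have hex : ∃ m, α • D α P m = D α P m := by
    by_contra h
    push Not at h
    have : ∀ m, Nat.card P = Nat.card (D α P m) * p ^ m := fun m => by
      induction m with
      | zero => simp [D]
      | succ m ih => rw [ih, hst m (h m)]; ring
    have h3 := Nat.le_of_dvd Nat.card_pos (Dvd.intro_left _ (this (Nat.card P)).symm)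
    exact (Nat.lt_pow_self hp.one_lt).not_ge h3
  obtain ⟨t, ht1, ht2⟩ : ∃ t, α • D α P t = D α P t ∧ ∀ m < t, α • D α P m ≠ D α P m :=
    ⟨Nat.find hex, Nat.find_spec hex, fun k hk => Nat.find_min hex hk⟩
  have hri : ∀ m < t, (D α P (m + 1)).relIndex (D α P m) = p := fun m hm => by
    have := PGrp.card_eq_card_mul_relIndex (show D α P (m + 1) ≤ D α P m from inf_le_left)
    rw [hst m (ht2 m hm)] at this
    exact (Nat.eq_of_mul_eq_mul_left Nat.card_pos this).symm
  have hsup : ∀ m, m + 1 < t → D α P m = D α P (m + 1) ⊔ α⁻¹ • D α P (m + 1) := by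
    intro m hm
    refine ((PGrp.eq_or_eq_of_relIndex_prime hp (hri m (by omega)) le_sup_left
      (sup_le inf_le_left ?_)).resolve_left fun e => ht2 _ hm ?_).symm
    · exact (smul_mono _ inf_le_right).trans_eq (inv_smul_smul _ _)
    · have := PGrp.eq_of_le_of_card_le (sup_eq_left.1 e) (card_smul _ _).ge
      nth_rewrite 1 [← this]
      exact smul_inv_smul _ _
  have hbot : D α P t = ⊥ := by
    refine h1 _ (D_le α P t) ?_ ht1
    have : ∀ j m, m + j = t → D α P m ≤ normalizer (D α P t : Set G) := by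
      intro j
      induction j with
      | zero => rintro m rfl; exact le_normalizer
      | succ j ih =>
        intro m hm
        by_cases h : m + 1 < t
        · have := ih (m + 1) (by omega)
          rw [hsup m h]
          refine sup_le this ((smul_mono _ this).trans_eq ?_)
          rw [smul_normalizer, inv_smul_eq_iff.2 ht1.symm]
        · rw [show t = m + 1 by omega]
          exact PGrp.le_normalizer_of_relIndex_prime (hD m) inf_le_left (hri m (by omega))
    exact this t 0 (by omega)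
  have hcard : ∀ l m, m + l = t → Nat.card (D α P m) = p ^ l := by
    intro l
    induction l with
    | zero => rintro m rfl; exact card_eq_one.2 hbot
    | succ l ih => intro m hm; rw [hst m (ht2 m (by omega)), ih _ (by omega), pow_succ]
  have ht0 : 1 ≤ t := by
    by_contra h
    obtain rfl : t = 0 := by omega
    have : α • P = P := ht1
    rw [this, inf_idem, relIndex_self] at hidx
    exact hp.one_lt.ne hidx
  refine ⟨t, hcard t 0 (by omega), ht0, ?_⟩
  have hc1 : Nat.card (D α P (t - 1)) = p := by simpa using hcard 1 (t - 1) (by omega)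
  obtain ⟨x0, hx0⟩ := (Subgroup.isCyclic_iff_exists_zpowers_eq_top _).1 (isCyclic_of_prime_card hc1)
  let x : ℤ → G := fun i => (α ^ i) x0
  have hX : ∀ (l m : ℕ) (b : ℤ), m + l = t → X x (b - l + 1) b = α ^ b • D α P m := by
    intro l
    induction l with
    | zero =>
      rintro m b rfl
      simp only [add_zero] at hbot
      rw [hbot, smul_bot, eq_bot_iff]
      exact X_le fun i _ _ => by omega
    | succ l ih =>
      intro m b hm
      by_cases h : m + 1 < t
      · rw [hsup m h, smul_sup, ← mul_smul, ← zpow_sub_one, ← ih _ _ (by omega), ← ih _ _ (by omega)]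
        refine le_antisymm (X_le fun i k1 k2 => ?_) (sup_le (X_mono (by omega) le_rfl)
          (X_mono (by omega) (by omega)))
        by_cases hi : i = b
        · exact mem_sup_left (mem_X (by omega) k2)
        · exact mem_sup_right (mem_X (by omega) (by omega))
      · rw [show m = t - 1 by omega, ← hx0, X, show b - (l + 1 : ℕ) + 1 = b by omega, Set.Icc_self,
          Set.image_singleton, zpowers_eq_closure, smul_closure, Set.smul_set_singleton]
        rfl
  have := core (x := x) (t := t) (n := n) hp (by omega) (fun i k => ?_) (fun l b hl => ?_)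
    fun i k1 k2 h => ?_
  · omega
  · have : ∀ j, x (k + j) = (α ^ k) (x j) := fun j => by simp [x, zpow_add]
    rw [this, show x k = (α ^ k) (x 0) by simp [x]]
    exact ⟨fun h => h.map _, fun h => h.of_map (α ^ k).injective⟩
  · rw [hX l (t - l) b (by omega), card_smul, hcard l _ (by omega)]
  · have h3 := h2 (x i) (by
      have := hX t 0 0 (by omega)
      rw [zpow_zero, one_smul, D] at this
      rw [← this]
      exact mem_X (by omega) k2) fun j hj => by
        have := hX t 0 j (by omega)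
        rw [zpow_natCast, D] at this
        rw [← this]
        exact X_le fun k k3 k4 => mem_centralizer_singleton_iff.2 (h k (by omega) (by omega)).symm
    rw [← hx0, Nat.card_zpowers, (MulEquiv.map_eq_one_iff _).1 h3, orderOf_one] at hc1
    exact hp.one_lt.ne hc1

end Cfsg.Agent.H23.Sims
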