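import Mathlib
import Cfsg.Agent.H23.Fpf3

/-!
# Fixed-point-free actions of the symmetric group of degree three
-/

set_option autoImplicit false

namespace Cfsg.Agent.H23.HH

open Module Cfsg.Agent.BG Cfsg.Agent.BG.Amb Cfsg.Agent.BG.RepGlue Cfsg.Agent.BG.RepWeight
  Cfsg.Agent.BG.RepFrob Cfsg.Agent.BG.RepExtra Cfsg.Agent.BG.RepPrime
open scoped commutatorElement Pointwise
open Subgroup (zpowers)

universe u

section Rep

variable {k G W : Type*} [Field k] [Group G] [AddCommGroup W] [Module k W]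

/-- The faithful representation of `stabU / kerU` on `U`. -/
def resQ (ρ : Representation k G W) (U : Submodule k W) :
    Representation k (stabU ρ U ⧸ (resU ρ U).ker) U :=
  QuotientGroup.lift _ (resU ρ U) fun _ h => h

variable {ρ : Representation k G W} {U : Submodule k W}

theorem resQ_faithful (g : stabU ρ U ⧸ (resU ρ U).ker) (h : resQ ρ U g = 1) : g = 1 := by
  obtain ⟨g, rfl⟩ := QuotientGroup.mk_surjective g
  exact (QuotientGroup.eq_one_iff g).2 h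

theorem mem_ker_resU {g : stabU ρ U} : g ∈ (resU ρ U).ker ↔ (g : G) ∈ kerU ρ U :=
  ⟨fun h v hv => congrArg Subtype.val (LinearMap.congr_fun h ⟨v, hv⟩),
    fun h => LinearMap.ext fun v => Subtype.ext (h v v.2)⟩

/-- The image of a subgroup in `stabU / kerU`. -/
abbrev imQ (ρ : Representation k G W) (U : Submodule k W) (A : Subgroup G) :
    Subgroup (stabU ρ U ⧸ (resU ρ U).ker) :=
  (A.subgroupOf (stabU ρ U)).map (QuotientGroup.mk' _)

theorem imQ_eq_bot_iff {A : Subgroup G} (hA : A ≤ stabU ρ U) : imQ ρ U A = ⊥ ↔ A ≤ kerU ρ U := by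
  rw [Subgroup.map_eq_bot_iff, QuotientGroup.ker_mk']
  exact ⟨fun h g hg => mem_ker_resU.1 (h (x := ⟨g, hA hg⟩) hg), fun h g hg => mem_ker_resU.2 (h hg)⟩

theorem imQ_comm {A B : Subgroup G} (hA : A ≤ stabU ρ U) (hB : B ≤ stabU ρ U) :
    imQ ρ U ⁅A, B⁆ = ⁅imQ ρ U A, imQ ρ U B⁆ := by
  rw [imQ, QuoApi.subgroupOf_commutator hA hB, Subgroup.map_commutator]

theorem imQ_norm {A B : Subgroup G} (h : A ≤ 𝐍(B)) : imQ ρ U A ≤ 𝐍(imQ ρ U B) :=
  Core.map_le_normalizer_map (Core.subgroupOf_le_normalizer_subgroupOf h _) _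

theorem imQ_mono {A B : Subgroup G} (h : A ≤ B) : imQ ρ U A ≤ imQ ρ U B :=
  Subgroup.map_mono (Subgroup.subgroupOf_mono _ h)

theorem card_imQ_dvd {A : Subgroup G} (hA : A ≤ stabU ρ U) : Nat.card (imQ ρ U A) ∣ Nat.card A :=
  (Subgroup.card_map_dvd _ _).trans (Core.card_subgroupOf_of_le hA).dvd

theorem fixSub_imQ {A : Subgroup G} (hA : A ≤ stabU ρ U) (h : U ⊓ fixSub ρ A = ⊥) :
    fixSub (resQ ρ U) (imQ ρ U A) = ⊥ := by
  rw [eq_bot_iff]
  intro v hv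
  have : (v : W) ∈ U ⊓ fixSub ρ A :=
    ⟨v.2, fun g hg => congrArg Subtype.val (hv _ ⟨⟨g, hA hg⟩, hg, rfl⟩)⟩
  rw [h] at this
  exact (Submodule.mem_bot k).2 (Subtype.ext ((Submodule.mem_bot k).1 this))

theorem cast_ne_zero_of_dvd {a b : ℕ} (h : a ∣ b) (hb : (b : k) ≠ 0) : (a : k) ≠ 0 := fun h0 => by
  obtain ⟨c, rfl⟩ := h
  exact hb (by rw [Nat.cast_mul, h0, zero_mul])

variable [Finite G] [IsAlgClosed k] [FiniteDimensional k W]

theorem comm_le_kerU {N X : Subgroup G} (hs : Group.IsSolvable N) (hX : (Nat.card X).Prime)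
    (hXN : X ≤ 𝐍(N)) (hcop : (Nat.card N).Coprime (Nat.card X)) (hk : (Nat.card N : k) ≠ 0)
    (hkX : (Nat.card X : k) ≠ 0) (hNU : N ≤ stabU ρ U) (hXU : X ≤ stabU ρ U)
    (hnm : ∀ v ∈ U, nm ρ X v = 0) (hex : ¬ (2 ∣ Nat.card N ∧ ∃ m, Nat.card X = 2 ^ m + 1)) :
    ⁅N, X⁆ ≤ kerU ρ U := by
  rw [← imQ_eq_bot_iff (comm_le_of_le hNU hXU), imQ_comm hNU hXU, ← le_cent_iff_comm_eq_bot']
  by_contra hc
  have d1 := card_imQ_dvd hNU
  have e1 : Nat.card (imQ ρ U X) = Nat.card X := ((Nat.dvd_prime hX).1 (card_imQ_dvd hXU)).resolve_left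
    fun h => hc (by rw [Subgroup.card_eq_one.1 h]; exact bot_le)
  have hcop' : (Nat.card (imQ ρ U N)).Coprime (Nat.card (imQ ρ U X)) :=
    e1 ▸ hcop.coprime_dvd_left d1
  obtain ⟨q, hq, hqN, Q, hQN, hQ, hmin⟩ := exists_minAct_of_coprime (imQ_norm hXN) le_rfl
    Subgroup.le_normalizer hcop' (Or.inr (Core.solvable_map (Core.solvable_subgroupOf hs) _)) hc
  obtain ⟨rfl, h2, -⟩ := prime_fpf (ρ := resQ ρ U) hq hQ (e1 ▸ hX)
    (fun h => hq.one_lt.ne' (Nat.eq_one_of_dvd_coprimes hcop' hqN h.dvd)) hmin.norm hmin.nle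
    (cast_ne_zero_of_dvd ((Subgroup.card_dvd_of_le hQN).trans d1) hk) (e1 ▸ hkX)
    (fun g _ => resQ_faithful g) (fixSub_imQ hXU (inf_fixSub_eq_bot hkX hnm))
  exact hex ⟨hqN.trans d1, e1 ▸ h2⟩

end Rep

section Grp

variable {X : Type*} [Group X]

theorem comm_sup_le_sup {G S T : Subgroup X} (hS : S ≤ 𝐍(G)) (hT : T ≤ 𝐍(G)) :
    ⁅G, S ⊔ T⁆ ≤ ⁅G, S⁆ ⊔ ⁅G, T⁆ := by
  have h : ⁅G, S⁆ ⊔ ⁅G, T⁆ ≤ G := sup_le (comm_le_left hS) (comm_le_left hT)
  exact comm_sup_right_le (sup_le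
    (le_norm_of_comm_le_left ((Subgroup.commutator_mono h le_rfl).trans le_sup_left))
    (le_norm_of_comm_le_left ((Subgroup.commutator_mono h le_rfl).trans le_sup_right)))
    le_sup_left le_sup_right

theorem conj_inv_of_conj {b c : X} (h : b * c * b⁻¹ = c⁻¹) : b * c⁻¹ * b⁻¹ = c := by
  rw [show b * c⁻¹ * b⁻¹ = (b * c * b⁻¹)⁻¹ by group, h, inv_inv]

theorem s3_elem {x a b : X} (ha : a ^ 3 = 1) (hb : b * a * b⁻¹ = a⁻¹) (hx : b * x * b⁻¹ = x)
    (h1 : Commute x (a * x * a⁻¹)) (h2 : Commute x (a⁻¹ * x * a))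
    (h3 : Commute (a * x * a⁻¹) (a⁻¹ * x * a)) :
    a * (x * (a * x * a⁻¹) * (a⁻¹ * x * a)) * a⁻¹ = x * (a * x * a⁻¹) * (a⁻¹ * x * a) ∧
      b * (x * (a * x * a⁻¹) * (a⁻¹ * x * a)) * b⁻¹ = x * (a * x * a⁻¹) * (a⁻¹ * x * a) := by
  have e1 : a * a = a⁻¹ := by
    rw [eq_inv_iff_mul_eq_one, ← ha, pow_three']
  have e2 : a⁻¹ * a⁻¹ = a := by rw [← mul_inv_rev, e1, inv_inv]
  constructor
  · calc a * (x * (a * x * a⁻¹) * (a⁻¹ * x * a)) * a⁻¹
        = (a * x * a⁻¹) * ((a * a) * x * (a⁻¹ * a⁻¹)) * x := by group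
      _ = x * (a * x * a⁻¹) * (a⁻¹ * x * a) := by
        rw [e1, e2, mul_assoc (a * x * a⁻¹), ← h2.eq, ← mul_assoc, ← h1.eq]
  · calc b * (x * (a * x * a⁻¹) * (a⁻¹ * x * a)) * b⁻¹
        = (b * x * b⁻¹) * ((b * a * b⁻¹) * (b * x * b⁻¹) * (b * a * b⁻¹)⁻¹) *
          ((b * a * b⁻¹)⁻¹ * (b * x * b⁻¹) * (b * a * b⁻¹)) := by group
      _ = x * (a * x * a⁻¹) * (a⁻¹ * x * a) := by
        rw [hb, hx, inv_inv, mul_assoc x, ← h3.eq, ← mul_assoc]

theorem der_le_comm_inv [Finite X] {G : Subgroup X} [G.Normal] {a b : X} (hs : Group.IsSolvable G)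
    (ha : a ^ 3 = 1) (hb : b * a * b⁻¹ = a⁻¹) (htop : G ⊔ (zpowers a ⊔ zpowers b) = ⊤)
    (hcop : (Nat.card G).Coprime (Nat.card ↥(zpowers a ⊔ zpowers b)))
    (hC : G ⊓ 𝐂(zpowers a ⊔ zpowers b) = ⊥) : ⁅G, G⁆ ≤ ⁅G, zpowers b⁆ := by
  have hn : ∀ B : Subgroup X, B ≤ 𝐍(G) := fun B => Subgroup.le_normalizer_of_normal
  have e1 : a * a = a⁻¹ := by
    rw [eq_inv_iff_mul_eq_one, ← ha, pow_three']
  have e2 : a⁻¹ * a⁻¹ = a := by rw [← mul_inv_rev, e1, inv_inv]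
  have hcG : ∀ g : X, MulAut.conj g • G = G := fun g =>
    conj_eq_of_mem_normalizer (hn ⊤ (Subgroup.mem_top g))
  let N : X → Subgroup X := fun g => MulAut.conj g • ⁅G, zpowers b⁆
  have hN : ∀ g, N g = ⁅G, zpowers (g * b * g⁻¹)⁆ := fun g => by
    simp only [N, conj_commutator, hcG, conj_zpowers]
  have hN1 : N 1 = ⁅G, zpowers b⁆ := conj_one _
  have hNG : ∀ g, N g ≤ G := fun g => hN g ▸ comm_le_left (hn _)
  have hGN : ∀ g, G ≤ 𝐍(N g) := fun g => hN g ▸ Subgroup.normalizer_commutator_ge_left _ _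
  have hmul : ∀ g h, MulAut.conj g • N h = N (g * h) := fun g h => conj_conj g h _
  have hNb : ∀ g, N (g * b) = N g := fun g => by rw [hN, hN]; group
  have hb1 : MulAut.conj b • N 1 = N 1 := by rw [hmul, mul_one, ← hNb 1, one_mul]
  have hb2 : MulAut.conj b • N a = N a⁻¹ := by
    rw [hmul, ← hNb a⁻¹, ← hb, inv_mul_cancel_right]
  have hb3 : MulAut.conj b • N a⁻¹ = N a := by
    rw [hmul, ← hNb a, ← mul_inv_eq_iff_eq_mul.1 (conj_inv_of_conj hb)]
  have ha1 : MulAut.conj a • N 1 = N a := by rw [hmul, mul_one]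
  have ha2 : MulAut.conj a • N a = N a⁻¹ := by rw [hmul, e1]
  have ha3 : MulAut.conj a • N a⁻¹ = N 1 := by rw [hmul, mul_inv_cancel]
  have hM : (N 1 ⊓ N a ⊓ N a⁻¹).Normal := Subgroup.normalizer_eq_top_iff.1 (top_le_iff.1
    (htop.ge.trans (sup_le (le_norm_inf (le_norm_inf (hGN _) (hGN _)) (hGN _)) (sup_le
      (Subgroup.zpowers_le.2 (mem_normalizer_iff_conj.2 (by
        rw [conj_inf, conj_inf, ha1, ha2, ha3, inf_comm, inf_assoc])))
      (Subgroup.zpowers_le.2 (mem_normalizer_iff_conj.2 (by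
        rw [conj_inf, conj_inf, hb1, hb2, hb3, inf_right_comm])))))))
  have step1 : N a ⊓ N a⁻¹ ≤ N 1 := by
    intro x hx
    let π := QuotientGroup.mk' (N 1 ⊓ N a ⊓ N a⁻¹)
    have hx' : a * x * a⁻¹ ∈ N a⁻¹ ⊓ N 1 := ⟨ha2 ▸ conj_mem_conj.2 hx.1, ha3 ▸ conj_mem_conj.2 hx.2⟩
    have hx'' : a⁻¹ * x * a ∈ N 1 ⊓ N a := ⟨mem_conj.1 (ha1 ▸ hx.1), mem_conj.1 (ha2 ▸ hx.2)⟩
    have hl : ∀ g, ∀ u ∈ N g, ∀ v ∈ G, ⁅u, v⁆ ∈ N g := fun g u hu v hv =>
      comm_le_left (hGN g) (Subgroup.commutator_mem_commutator hu hv)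
    have hr : ∀ g, ∀ u ∈ G, ∀ v ∈ N g, ⁅u, v⁆ ∈ N g := fun g u hu v hv =>
      comm_le_right (hGN g) (Subgroup.commutator_mem_commutator hu hv)
    have hcm : ∀ u v, ⁅u, v⁆ ∈ N 1 ⊓ N a ⊓ N a⁻¹ → Commute (π u) (π v) := fun u v h => by
      rw [← commutatorElement_eq_one_iff_commute, ← map_commutatorElement]
      exact (QuotientGroup.eq_one_iff _).2 h
    have g1 := hNG _ hx.1
    have g2 := hNG _ hx'.1
    have g3 := hNG _ hx''.1
    have c1 := hcm _ _ ⟨⟨hr _ _ g1 _ hx'.2, hl _ _ hx.1 _ g2⟩, hl _ _ hx.2 _ g2⟩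
    have c2 := hcm _ _ ⟨⟨hr _ _ g1 _ hx''.1, hl _ _ hx.1 _ g3⟩, hl _ _ hx.2 _ g3⟩
    have c3 := hcm _ _ ⟨⟨hl _ _ hx'.2 _ g3, hr _ _ g2 _ hx''.2⟩, hl _ _ hx'.1 _ g3⟩
    have c4 : Commute (π x) (π b) := hcm _ _ (by
      have h1 : b * x⁻¹ * b⁻¹ ∈ N a⁻¹ ⊓ N a :=
        ⟨hb2 ▸ conj_mem_conj.2 (Subgroup.inv_mem _ hx.1),
          hb3 ▸ conj_mem_conj.2 (Subgroup.inv_mem _ hx.2)⟩
      have h2 : ⁅x, b⁆ = x * (b * x⁻¹ * b⁻¹) := by rw [commutatorElement_def]; group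
      exact ⟨⟨hN1 ▸ Subgroup.commutator_mem_commutator g1 (Subgroup.mem_zpowers b),
        h2 ▸ Subgroup.mul_mem _ hx.1 h1.2⟩, h2 ▸ Subgroup.mul_mem _ hx.2 h1.1⟩)
    simp only [map_mul, map_inv] at c1 c2 c3
    obtain ⟨d1, d2⟩ := s3_elem (x := π x) (a := π a) (b := π b) (by rw [← map_pow, ha, map_one])
      (by simp only [← map_mul, ← map_inv, hb]) (by rw [← c4.eq, mul_inv_cancel_right]) c1 c2 c3
    have hw : π (x * (a * x * a⁻¹) * (a⁻¹ * x * a)) ∈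
        G.map π ⊓ 𝐂((zpowers a ⊔ zpowers b).map π) := by
      refine ⟨⟨_, G.mul_mem (G.mul_mem g1 g2) g3, rfl⟩, ?_⟩
      rw [Subgroup.map_sup, MonoidHom.map_zpowers, MonoidHom.map_zpowers, cent_sup, cent_zpowers,
        cent_zpowers]
      simp only [map_mul, map_inv]
      exact ⟨mem_cent1.2 (mul_inv_eq_iff_eq_mul.1 d1).symm,
        mem_cent1.2 (mul_inv_eq_iff_eq_mul.1 d2).symm⟩
    rw [map_fpf π (hn _) hcop (Or.inr hs) hC] at hw
    have hw' : _ ∈ N 1 := ((QuotientGroup.eq_one_iff _).1 (Subgroup.mem_bot.1 hw)).1.1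
    rwa [Subgroup.mul_mem_cancel_right _ hx''.1, Subgroup.mul_mem_cancel_right _ hx'.2] at hw'
  have step2 : ∀ c : X, b * c * b⁻¹ = c⁻¹ → a ∈ zpowers (c * c) → G ≤ N 1 ⊔ N c := by
    intro c hc hac
    rw [hN1, hN]
    refine (comm_le_of_cop (hn _) hcop hs hC).trans ((Subgroup.commutator_mono le_rfl
      (sup_le (Subgroup.zpowers_le.2 (Subgroup.zpowers_le.2 ?_ hac)) le_sup_left)).trans
      (comm_sup_le_sup (hn _) (hn _)))
    rw [show c * c = (c * b * c⁻¹) * b⁻¹ by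
      rw [mul_assoc c, mul_assoc c, conj_inv_of_conj hc]]
    exact Subgroup.mul_mem _ (Subgroup.mem_sup_right (Subgroup.mem_zpowers _))
      (Subgroup.mem_sup_left (Subgroup.inv_mem _ (Subgroup.mem_zpowers _)))
  have s2 := step2 a hb (by rw [e1]; exact Subgroup.zpowers_inv (g := a) ▸ Subgroup.mem_zpowers a)
  have s3 := step2 a⁻¹ (by rw [inv_inv, conj_inv_of_conj hb])
    (by rw [e2]; exact Subgroup.mem_zpowers a)
  rw [← hN1]
  refine (Subgroup.commutator_mono s2 s3).trans (comm_sup_left_le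
    ((sup_le (hNG _) (hNG _)).trans (hGN _)) (comm_le_left ((sup_le (hNG _) (hNG _)).trans (hGN _)))
    (comm_sup_right_le ((sup_le (hNG _) (hNG _)).trans (hGN _))
      (comm_le_right ((hNG _).trans (hGN _))) (le_trans (le_inf
        (comm_le_left ((hNG _).trans (hGN _))) (comm_le_right ((hNG _).trans (hGN _)))) step1)))

theorem der_le_comm_s3 [Finite X] {G S : Subgroup X} [G.Normal] {a b : X}
    (hs : Group.IsSolvable G) (ha : orderOf a = 3) (hb2 : b ^ 2 = 1) (hb : b * a * b⁻¹ = a⁻¹)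
    (htop : G ⊔ (zpowers a ⊔ zpowers b) = ⊤)
    (hcop : (Nat.card G).Coprime (Nat.card ↥(zpowers a ⊔ zpowers b)))
    (hC : G ⊓ 𝐂(zpowers a ⊔ zpowers b) = ⊥) (hS : S ≤ zpowers a ⊔ zpowers b) (hS1 : S ≠ ⊥) :
    ⁅G, G⁆ ≤ ⁅G, S⁆ := by
  have hn : ∀ B : Subgroup X, B ≤ 𝐍(G) := fun B => Subgroup.le_normalizer_of_normal
  obtain ⟨e, he, he1⟩ := exists_mem_ne_one hS1
  have hba : zpowers b ≤ 𝐍(zpowers a) := Subgroup.zpowers_le.2 (mem_normalizer_iff_conj.2 (by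
    rw [conj_zpowers, hb, Subgroup.zpowers_inv]))
  obtain ⟨u, hu, v, hv, rfl⟩ := (Core.mem_sup_of_le_normalizer hba).1 (hS he)
  refine le_trans ?_ (Subgroup.commutator_mono le_rfl (Subgroup.zpowers_le.2 he))
  have hv' : v = 1 ∨ v = b := by
    obtain ⟨i, rfl⟩ := mem_powers_iff_mem_zpowers.2 hv
    change b ^ i = 1 ∨ b ^ i = b
    rcases Nat.even_or_odd' i with ⟨j, rfl | rfl⟩
    · left; rw [pow_mul, hb2, one_pow]
    · right; rw [pow_succ, pow_mul, hb2, one_pow, one_mul]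
  rcases hv' with rfl | rfl
  · rw [mul_one] at he1 ⊢
    refine le_trans ?_ (Subgroup.commutator_mono le_rfl
      (le_zpowers_of_prime (by rw [Nat.card_zpowers, ha]; exact Nat.prime_three) u hu he1))
    have h1 := coprime_comm_sup_cent (hn (zpowers a)) (Core.coprime_of_le_right hcop le_sup_left)
      (Or.inr hs)
    have h2 := der_sup_le_of_comm (N := ⁅G, zpowers a⁆) (H := G ⊓ 𝐂(zpowers a))
      (inf_le_left.trans (Subgroup.normalizer_commutator_ge_left _ _))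
      (comm_of_fpf_sq (x := b) (le_norm_inf_cent (hn _) hba (Subgroup.mem_zpowers b))
        (by rw [hb2]; exact Subgroup.one_mem _) (by rw [inf_assoc, ← cent_zpowers, ← cent_sup, hC]))
    rwa [h1] at h2
  · have h1 : zpowers a ⊔ zpowers (u * v) = zpowers a ⊔ zpowers v := by
      have h2 : u ∈ zpowers a ⊔ zpowers (u * v) := Subgroup.mem_sup_left hu
      refine le_antisymm (sup_le le_sup_left (Subgroup.zpowers_le.2 (hS he)))
        (sup_le le_sup_left (Subgroup.zpowers_le.2 ?_))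
      exact (Subgroup.mul_mem_cancel_left _ h2).1 (Subgroup.mem_sup_right (Subgroup.mem_zpowers _))
    refine der_le_comm_inv hs (ha ▸ pow_orderOf_eq_one a) ?_ (h1 ▸ htop) (h1 ▸ hcop) (h1 ▸ hC)
    have h2 : Commute u a⁻¹ := commute_of_mem_zpowers hu (Subgroup.inv_mem _ (Subgroup.mem_zpowers a))
    rw [show u * v * a * (u * v)⁻¹ = u * (v * a * v⁻¹) * u⁻¹ by group, hb, h2.eq,
      mul_inv_cancel_right]

end Grp

theorem nilpotent_der_s3 {X : Type u} [Group X] [Finite X] {G : Subgroup X} [G.Normal] {a b : X}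
    (hs : Group.IsSolvable G) (ha : a ^ 3 = 1) (hb2 : b ^ 2 = 1) (hb : b * a * b⁻¹ = a⁻¹)
    (htop : G ⊔ (zpowers a ⊔ zpowers b) = ⊤) (hc : Nat.card ↥(zpowers a ⊔ zpowers b) = 2 * 3)
    (hcop : (Nat.card G).Coprime 6) (hC : G ⊓ 𝐂(zpowers a ⊔ zpowers b) = ⊥) :
    Group.IsNilpotent ↥⁅G, G⁆ := by
  have hcop0 : (Nat.card G).Coprime (Nat.card ↥(zpowers a ⊔ zpowers b)) := hc ▸ hcop
  refine nilpotent_of_reps (der_le G) hs ?_
  intro X' _ _ f hf ℓ _ hℓ k _ _ _ d ρ hρ hO _ hfix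
  have hG' : (G.map f).Normal := Subgroup.Normal.map inferInstance f hf
  rw [Subgroup.map_commutator, der_eq_bot_iff]
  have hC' := map_fpf f Subgroup.le_normalizer_of_normal hcop0 (Or.inr hs) hC
  have hcop' := coprime_map f hcop0
  have hkA := cast_card_map_ne_zero (k := k) f hℓ hcop0
  have hfix' := hfix _ Subgroup.le_normalizer_of_normal hcop0 hC
  have hs' := Core.solvable_map hs f
  have hd := Subgroup.card_map_dvd (zpowers a ⊔ zpowers b) f
  have htop' := congrArg (Subgroup.map f) htop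
  rw [Subgroup.map_top_of_surjective f hf, Subgroup.map_sup] at htop'
  have hodd : ¬ 2 ∣ Nat.card (G.map f) := fun h => absurd (Nat.eq_one_of_dvd_coprimes hcop
    (h.trans (Subgroup.card_map_dvd G f)) (by norm_num)) (by norm_num)
  rw [Subgroup.map_sup, MonoidHom.map_zpowers, MonoidHom.map_zpowers] at hC' hcop' hkA hfix' hd htop'
  have ha' : f a ^ 3 = 1 := by rw [← map_pow, ha, map_one]
  have hb2' : f b ^ 2 = 1 := by rw [← map_pow, hb2, map_one]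
  have hb' : f b * f a * (f b)⁻¹ = (f a)⁻¹ := by simp only [← map_mul, ← map_inv, hb]
  generalize G.map f = G' at *
  generalize f a = a' at *
  generalize f b = b' at *
  have hn : ∀ B : Subgroup X', B ≤ 𝐍(G') := fun B => Subgroup.le_normalizer_of_normal
  by_cases ha1 : a' = 1
  · rw [ha1, Subgroup.zpowers_one_eq_bot, bot_sup_eq, cent_zpowers] at hC'
    exact comm_of_fpf_sq (hn ⊤ (Subgroup.mem_top b')) (by rw [hb2']; exact Subgroup.one_mem _) hC'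
  have := Fact.mk Nat.prime_three
  have ho : orderOf a' = 3 := orderOf_eq_prime ha' ha1
  have hna : ¬ a' * b' = b' * a' := fun h => ha1 (eq_one_of_pow_coprime (m := 2) (n := 3)
    (by norm_num) (by
      rw [← h, mul_inv_cancel_right, eq_inv_iff_mul_eq_one] at hb'
      rw [sq, hb']) ha')
  have ho2 : orderOf b' = 2 := orderOf_eq_prime hb2' fun h => hna (by rw [h, mul_one, one_mul])
  have hc' : Nat.card ↥(zpowers a' ⊔ zpowers b') = 2 * 3 := Nat.dvd_antisymm (hc ▸ hd)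
    (Nat.Coprime.mul_dvd_of_dvd_of_dvd (by norm_num)
      (by rw [← ho2, ← Nat.card_zpowers]; exact Subgroup.card_dvd_of_le le_sup_right)
      (by rw [← ho, ← Nat.card_zpowers]; exact Subgroup.card_dvd_of_le le_sup_left))
  have hnil := nilpotent_pq_rep hs' Nat.prime_two Nat.prime_three (by norm_num) hc'
    (fun h => hna (mem_cent_of_le_cent (comm_le_cent h)
      (Subgroup.mem_sup_left (Subgroup.mem_zpowers _))
      (Subgroup.mem_sup_right (Subgroup.mem_zpowers _)))) hcop' hC' hρ hO hkA hfix'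
  have hk : (Nat.card G' : k) ≠ 0 := by
    rw [Ne, CharP.cast_eq_zero_iff k ℓ]
    intro h
    rw [← fittingOf_eq_self hnil] at h
    exact ne_of_piCoreOf_ne_bot Fact.out hO (piCoreOf_ne_bot_of_dvd_fittingOf h) rfl
  by_contra hab
  have hN := Core.inf_centralizer_ne_bot_of_nilpotent hnil (der_le G') le_rfl (le_norm_der G')
    fun h => hab (der_eq_bot_iff.1 h)
  let Z := G' ⊓ 𝐂(G')
  obtain ⟨l, hl, hwt⟩ : ∃ l : Z →* kˣ, ¬ ⁅G', G'⁆ ⊓ 𝐂(G') ≤ kerG l ∧ wt ρ Z l ≠ ⊥ :=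
    exists_center_wt hk (fun g _ => hρ g) (inf_le_inf_right _ (der_le G')) hN
  have hZ : ∀ B : Subgroup X', B ≤ 𝐍(Z) := fun B => le_norm_inf_cent (hn B) (hn B)
  have hA2 := len2_of_card Nat.prime_two Nat.prime_three hc'
  obtain ⟨h1, h2, h3, -⟩ := common_stab (P := ⊥) hA2 (hZ _) bot_le le_norm_bot
    (comm_le_of_cop (hZ _) (Core.coprime_of_le_left hcop' inf_le_left)
      (solvable_mono hs' inf_le_left)
      (le_bot_iff.1 ((inf_le_inf_right _ inf_le_left).trans hC'.le))) (by simp) inferInstance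
    (cast_card_ne_zero_of_le inf_le_left hk) hfix'
    (fun h => hl ((inf_le_inf_right _ (der_le G')).trans (eq_one_iff_le_kerG.1 h))) hwt
  refine hl ((le_inf (inf_le_inf_right _ (der_le G')) (inf_le_left.trans
    ((der_le_comm_s3 hs' ho hb2' hb' htop' hcop' hC' inf_le_left h1).trans
      (comm_le_kerU hs' (hA2 _ inf_le_left h1 h2) (hn _) (Core.coprime_of_le_right hcop' inf_le_left)
        hk (cast_card_ne_zero_of_le inf_le_left hkA)
        (((le_cent_symm inf_le_right).trans (cent_le_stab l)).trans (stab_le_stabU l))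
        (inf_le_right.trans (stab_le_stabU l)) h3 fun h => hodd h.1)))).trans
    (inf_kerU_le le_rfl hwt))

end Cfsg.Agent.H23.HH
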