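import Mathlib
import Cfsg.Agent.H23.Lie2
import Cfsg.Agent.H23.PL4
import Cfsg.Agent.S0033

/-!
# Automorphisms of prime order with few fixed points
-/

set_option autoImplicit false

namespace Cfsg.Agent.H23.Kr

open Cfsg.Agent.H23.HH
open scoped commutatorElement

universe u

section FP

variable {G H : Type*} [Group G] [Group H] {p m : ℕ}

/-- The fixed points of an automorphism. -/
def fx (α : MulAut G) : Subgroup G := (α : G →* G).eqLocus (MonoidHom.id G)

theorem mem_fx {α : MulAut G} {g : G} : g ∈ fx α ↔ α g = g := Iff.rfl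

/-- An automorphism of order dividing `p` with at most `m` fixed points. -/
structure FP (p m : ℕ) (α : MulAut G) : Prop where
  pow : α ^ p = 1
  card : Nat.card (fx α) ≤ m

theorem pow_intertwine {α : MulAut G} {β : MulAut H} (f : G →* H) (h : ∀ g, β (f g) = f (α g))
    (n : ℕ) (g : G) : (β ^ n) (f g) = f ((α ^ n) g) := by
  induction n with
  | zero => rfl
  | succ n ih => rw [pow_succ', pow_succ', MulAut.mul_apply, MulAut.mul_apply, ih, h]

theorem FP.of_inj [Finite H] {α : MulAut G} {β : MulAut H} (hβ : FP p m β) (f : G →* H)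
    (hf : Function.Injective f) (h : ∀ g, β (f g) = f (α g)) : FP p m α := by
  refine ⟨MulEquiv.ext fun g => hf ?_, le_trans (Nat.card_le_card_of_injective
    (fun x : fx α => (⟨f x, mem_fx.2 (by rw [h, mem_fx.1 x.2])⟩ : fx β)) fun x y e => ?_) hβ.card⟩
  · rw [← pow_intertwine f h, hβ.pow]
    rfl
  · exact Subtype.ext (hf (congrArg Subtype.val e))

theorem FP.quot [Finite G] {α : MulAut G} (hα : FP p m α) {N : Subgroup G} [N.Normal]
    {β : MulAut (G ⧸ N)} (h : ∀ g : G, β g = (α g : G)) : FP p m β := by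
  refine ⟨MulEquiv.ext fun g => ?_, le_trans ?_ hα.card⟩
  · obtain ⟨g, rfl⟩ := QuotientGroup.mk'_surjective N g
    rw [pow_intertwine (QuotientGroup.mk' N) h, hα.pow]
    rfl
  let K := (fx β).comap (QuotientGroup.mk' N)
  have h2 : fx α ≤ K := fun g hg => mem_fx.2 ((h g).trans (congrArg _ hg))
  have h1 : (fx α).relIndex K ≤ Nat.card N := by
    refine Nat.card_le_card_of_injective (fun x => Quotient.liftOn' x
      (fun g : K => (⟨α g * (g : G)⁻¹, ?_⟩ : N)) fun a b hab => Subtype.ext ?_) ?_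
    · have : ((α g : G) : G ⧸ N) = (g : G) := (h g).symm.trans g.2
      rw [← QuotientGroup.eq_one_iff, QuotientGroup.mk_mul, this, QuotientGroup.mk_inv,
        mul_inv_cancel]
    · have : α ((a : G)⁻¹ * b) = (a : G)⁻¹ * b := QuotientGroup.leftRel_apply.1 hab
      rw [map_mul, map_inv, inv_mul_eq_iff_eq_mul] at this
      change α a * (a : G)⁻¹ = α b * (b : G)⁻¹
      rw [this]
      group
    · rintro ⟨a⟩ ⟨b⟩ e
      have e' : α a * (a : G)⁻¹ = α b * (b : G)⁻¹ := congrArg Subtype.val e
      refine QuotientGroup.eq.2 ?_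
      change α ((a : G)⁻¹ * b) = (a : G)⁻¹ * b
      rw [map_mul, map_inv, inv_mul_eq_iff_eq_mul, ← mul_assoc, e', inv_mul_cancel_right]
  have h3 := PGrp.card_eq_card_mul_relIndex h2
  have h4 : Nat.card K = Nat.card N * Nat.card (fx β) := Core.card_comap_mk' N _
  refine Nat.le_of_mul_le_mul_left (c := Nat.card N) ?_ Nat.card_pos
  rw [← h4, h3, mul_comm]
  exact Nat.mul_le_mul_right _ h1

theorem exists_res (α : MulAut G) {N : Subgroup G} (hN : N.map (α : G →* G) = N) :
    ∃ β : MulAut N, ∀ g : N, α (N.subtype g) = N.subtype (β g) :=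
  ⟨(α.subgroupMap N).trans (MulEquiv.subgroupCongr hN), fun _ => rfl⟩

theorem exists_quo (α : MulAut G) {N : Subgroup G} [N.Normal] (hN : N.map (α : G →* G) = N) :
    ∃ β : MulAut (G ⧸ N), ∀ g : G, β g = (α g : G) :=
  ⟨QuotientGroup.congr N N α hN, fun _ => rfl⟩

theorem map_char (α : MulAut G) (N : Subgroup G) [h : N.Characteristic] :
    N.map (α : G →* G) = N := Subgroup.characteristic_iff_map_eq.1 h α

theorem card_le_of_nilp {W : Type*} [AddCommGroup W] [Finite W] (φ : Module.End ℤ W) (n : ℕ) :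
    Nat.card W ≤ Nat.card (LinearMap.ker φ) ^ n * Nat.card (LinearMap.range (φ ^ n)) := by
  induction n with
  | zero =>
    rw [pow_zero, pow_zero, one_mul]
    exact Nat.card_le_card_of_injective (fun x => ⟨x, x, rfl⟩) fun x y e => congrArg Subtype.val e
  | succ n ih =>
    refine ih.trans ?_
    rw [pow_succ, mul_assoc]
    refine Nat.mul_le_mul_left _ ?_
    have h1 : Nat.card (LinearMap.range (φ ^ (n + 1))) = φ.toAddMonoidHom.ker.relIndex
        (LinearMap.range (φ ^ n)).toAddSubgroup := by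
      rw [AddSubgroup.relIndex_ker, pow_succ', Module.End.mul_eq_comp, LinearMap.range_comp]
      rfl
    have h2 := AddSubgroup.card_mul_index (φ.toAddMonoidHom.ker.addSubgroupOf
      (LinearMap.range (φ ^ n)).toAddSubgroup)
    rw [h1]
    exact h2.ge.trans (Nat.mul_le_mul_right _ (Nat.card_le_card_of_injective
      (fun x => ⟨x.1, x.2⟩) fun x y e => Subtype.ext (Subtype.ext (Subtype.mk.inj e))))

theorem card_le_of_pow {W : Type*} [AddCommGroup W] [Finite W] (hp : p.Prime) (a : Module.End ℤ W)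
    (hap : a ^ p = 1) {k : ℕ} (he : ∀ w : W, p ^ k • w = 0) :
    Nat.card W ≤ Nat.card (LinearMap.ker (a - 1)) ^ (p * k) := by
  obtain ⟨r, hr⟩ := (Commute.one_right (a - 1)).exists_add_pow_prime_eq hp
  rw [sub_add_cancel, hap, one_pow, mul_one, mul_assoc] at hr
  have h1 : (a - 1) ^ p = p * -((a - 1) * r) := by
    rw [mul_neg, eq_neg_iff_add_eq_zero, ← add_left_inj 1, zero_add, add_right_comm, ← hr]
  have h2 : (a - 1) ^ (p * k) = 0 := by
    rw [pow_mul, h1, (Nat.cast_commute p _).mul_pow, ← Nat.cast_pow]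
    refine LinearMap.ext fun x => ?_
    rw [Module.End.mul_apply, Module.End.natCast_apply]
    exact he _
  have h3 := card_le_of_nilp (a - 1) (p * k)
  rwa [h2, LinearMap.range_zero, Nat.card_unique (α := (⊥ : Submodule ℤ W)), mul_one] at h3

theorem FP.card_le [Finite G] (hp : p.Prime) {α : MulAut G} (hα : FP p m α)
    (hc : IsMulCommutative G) {k : ℕ} (he : ∀ g : G, g ^ p ^ k = 1) : Nat.card G ≤ m ^ (p * k) := by
  let _ : CommGroup G := { (inferInstance : Group G) with mul_comm := hc.is_comm.comm }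
  let a : Module.End ℤ (Additive G) := (MonoidHom.toAdditive (α : G →* G)).toIntLinearMap
  have ha : ∀ n x, (a ^ n) (Additive.ofMul x) = Additive.ofMul ((α ^ n) x) := fun n x => by
    induction n with
    | zero => rfl
    | succ n ih => rw [pow_succ', pow_succ', Module.End.mul_apply, ih]; rfl
  have h3 := card_le_of_pow hp a (LinearMap.ext fun x => (ha p x).trans (by rw [hα.pow]; rfl))
    (k := k) he
  refine h3.trans (Nat.pow_le_pow_left (le_trans (Nat.card_le_card_of_injective
    (fun x => (⟨Additive.toMul x.1, mem_fx.2 ((sub_eq_zero (a := a x.1)).1 x.2)⟩ : fx α)) fun x y e => ?_)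
    hα.card) _)
  exact Subtype.ext (Subtype.mk.inj e)

theorem FP.relIndex_le [Finite G] (hp : p.Prime) {α : MulAut G} (hα : FP p m α) (A B : Subgroup G)
    [A.Characteristic] [B.Characteristic] (hc : ⁅A, A⁆ ≤ B) {k : ℕ} (he : ∀ g ∈ A, g ^ p ^ k ∈ B) :
    B.relIndex A ≤ m ^ (p * k) := by
  obtain ⟨β, hβ⟩ := exists_quo α (map_char α B)
  obtain ⟨γ, hγ⟩ := exists_res β (N := A.map (QuotientGroup.mk' B)) (by
    rw [Subgroup.map_map, show (β : G ⧸ B →* G ⧸ B).comp (QuotientGroup.mk' B) =
      (QuotientGroup.mk' B).comp (α : G →* G) from MonoidHom.ext hβ, ← Subgroup.map_map, map_char])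
  have := ((hα.quot hβ).of_inj _ (Subgroup.subtype_injective _) hγ).card_le hp (k := k) (by
    rw [← BG.Amb.der_eq_bot_iff, ← Subgroup.map_commutator, Subgroup.map_eq_bot_iff,
      QuotientGroup.ker_mk']
    exact hc) (by
    rintro ⟨_, g, hg, rfl⟩
    exact Subtype.ext ((QuotientGroup.eq_one_iff _).2 (he g hg)))
  rwa [← Subgroup.relIndex_ker, QuotientGroup.ker_mk'] at this

theorem pow_le_relIndex [Finite G] [hp : Fact p.Prime] (hG : IsPGroup p G) (n : ℕ)
    {A N : Subgroup G} [A.Normal] (hN : N ≤ (⊤ : Subgroup G).lowerCentralSeries n)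
    (hne : ⁅A, N⁆ ≠ ⊥) : p ^ (n + 1) ≤ ⁅A, N⁆.relIndex A := by
  let c : ℕ → Subgroup G := fun i => (fun K => ⁅K, ⊤⁆)^[i] A
  have hc : ∀ i, c (i + 1) = ⁅c i, ⊤⁆ := fun i => Function.iterate_succ_apply' _ _ _
  have hn : ∀ i, (c i).Normal := fun i => by
    induction i with
    | zero => assumption
    | succ i ih => rw [hc]; infer_instance
  have hle : ∀ i, c (i + 1) ≤ c i := fun i => by
    have := hn i
    rw [hc]
    exact Subgroup.commutator_le_left _ _
  have hA : ∀ i, c i ≤ A := fun i => by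
    induction i with
    | zero => exact le_rfl
    | succ i ih => exact (hle i).trans ih
  have h1 : ⁅A, N⁆ ≤ c (n + 1) := (Subgroup.commutator_mono le_rfl hN).trans
    ((FGS.commutator_lowerCentralSeries_le c hn ⊤ (fun i => (hc i).ge) 0 n).trans
      (by rw [zero_add]))
  have h2 : ∀ i, c i ≠ ⊥ → p ^ i ≤ (c i).relIndex A := fun i => by
    induction i with
    | zero => exact fun _ => (Subgroup.relIndex_self A).ge
    | succ i ih =>
      intro h
      have h' : c i ≠ ⊥ := fun e => h (eq_bot_iff.2 ((hle i).trans e.le))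
      have h3 : c (i + 1) < c i := by
        have := hn i
        rw [hc]
        exact Core.commutator_lt_of_isPGroup (hG.to_subgroup _) (hG.to_subgroup _)
          Subgroup.le_normalizer_of_normal h'
      rw [← Subgroup.relIndex_mul_relIndex _ _ _ (hle i) (hA i), pow_succ']
      refine Nat.mul_le_mul (Nat.le_of_dvd (Nat.pos_of_ne_zero Subgroup.index_ne_zero_of_finite) ?_)
        (ih h')
      obtain ⟨k, hk⟩ := (hG.to_subgroup (c i)).index ((c (i + 1)).subgroupOf (c i))
      rw [Subgroup.relIndex, hk]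
      refine dvd_pow_self p ?_
      rintro rfl
      exact h3.not_ge (Subgroup.subgroupOf_eq_top.1 (Subgroup.index_eq_one.1 hk))
  exact (h2 _ fun e => hne (eq_bot_iff.2 (h1.trans e.le))).trans
    (Subgroup.relIndex_le_of_le_left h1 Subgroup.index_ne_zero_of_finite)

theorem dser_le_lcs (N : Subgroup G) (n : ℕ) : dser N n ≤ N.lowerCentralSeries n := by
  induction n with
  | zero => exact le_rfl
  | succ n ih =>
    rw [dser_succ]
    exact Subgroup.commutator_mono ih (dser_le _ _)

theorem dser_eq_bot_of_card [Finite G] {K : Subgroup G} (hK : Group.IsSolvable K) {c : ℕ}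
    (hc : Nat.card K ≤ c) : dser K c = ⊥ := by
  have h : ∀ i, dser K i ≠ ⊥ → Nat.card (dser K i) + i ≤ Nat.card K := fun i => by
    induction i with
    | zero => exact fun _ => le_rfl
    | succ i ih =>
      intro h
      have h' : dser K i ≠ ⊥ := fun e => h (eq_bot_iff.2 ((dser_anti K (by omega)).trans e.le))
      have h3 : dser K (i + 1) < dser K i := by
        rw [dser_succ]
        exact Core.commutator_lt_of_solvable (Core.solvable_of_le (dser_le _ _) hK) h'
      have := Core.card_lt_of_lt h3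
      have := ih h'
      omega
  by_contra e
  have := h c e
  have := Nat.card_pos (α := dser K c)
  omega

end FP

theorem alperin_pgroup (p m : ℕ) [hp : Fact p.Prime] : ∃ l, ∀ (G : Type u) [Group G] [Finite G],
    IsPGroup p G → ∀ α : MulAut G, FP p m α → derivedSeries G l = ⊥ := by
  obtain ⟨h, hK⟩ : ∃ h, Bound.{u} p h := ⟨_, fun _ _ _ hF h0 => hkk hF h0⟩
  refine ⟨h + 1 + m ^ (p * (m + (h + 1))), fun G _ _ hG α hα => ?_⟩
  let N := (⊤ : Subgroup G).lowerCentralSeries (m ^ (p * (m + (h + 1))))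
  obtain ⟨β, hβ⟩ := exists_res α (map_char α N)
  have hβ' := hα.of_inj _ N.subtype_injective hβ
  have h1 := pow_mem_lcs (m := p ^ m) hK β hβ'.pow fun i g _ hg => by
    have : (Γ N (i + 1)).Characteristic := Subgroup.lowerCentralSeries_characteristic _ _
    obtain ⟨γ, hγ⟩ := exists_quo β (map_char β (Γ N (i + 1)))
    have h2 : (g : N ⧸ Γ N (i + 1)) ∈ fx γ := by
      rw [mem_fx, hγ, ← mul_inv_eq_one, ← QuotientGroup.mk_inv, ← QuotientGroup.mk_mul,
        QuotientGroup.eq_one_iff]
      exact hg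
    obtain ⟨j, hj⟩ := IsPGroup.iff_orderOf.1 ((hG.to_subgroup N).to_quotient (Γ N (i + 1))) g
    have h3 := (Nat.le_of_dvd Nat.card_pos (Subgroup.orderOf_dvd_natCard _ h2)).trans
      (hβ'.quot hγ).card
    rw [← QuotientGroup.eq_one_iff, QuotientGroup.mk_pow, ← orderOf_dvd_iff_pow_eq_one, hj]
    exact pow_dvd_pow _ ((Nat.lt_pow_self hp.out.one_lt).le.trans (hj ▸ h3))
  have h2 := hβ'.relIndex_le hp.out ((⊤ : Subgroup N).lowerCentralSeries h)
    ((⊤ : Subgroup N).lowerCentralSeries (h + 1)) (Subgroup.commutator_mono le_rfl le_top)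
    (k := m + (h + 1)) fun g hg => by rw [pow_add]; exact h1 g hg
  rw [← Subgroup.relIndex_map_map_of_injective _ _ N.subtype_injective,
    Subgroup.top_subtype_lowerCentralSeries, Subgroup.top_subtype_lowerCentralSeries] at h2
  have h3 : N.lowerCentralSeries (h + 1) = ⊥ := by
    by_contra e
    have := (pow_le_relIndex hG _ (A := N.lowerCentralSeries h) (N := N) le_rfl e).trans h2
    exact this.not_gt ((Nat.lt_succ_self _).trans (Nat.lt_pow_self hp.out.one_lt))
  rw [← dser_top, dser_add]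
  exact eq_bot_iff.2 ((dser_mono (dser_le_lcs _ _) _).trans ((dser_le_lcs _ _).trans h3.le))

theorem alperin (p m : ℕ) [hp : Fact p.Prime] : ∃ l, ∀ (G : Type u) [Group G] [Finite G],
    Group.IsSolvable G → ∀ α : MulAut G, FP p m α → IsPGroup p (fx α) → derivedSeries G l = ⊥ := by
  obtain ⟨h, hK⟩ : ∃ h, Bound.{u} p h := ⟨_, fun _ _ _ hF h0 => hkk hF h0⟩
  obtain ⟨l, hl⟩ := alperin_pgroup.{u} p m
  refine ⟨h + (l + (m ^ (p * 1)).factorial), fun G _ _ hG α hα hx => ?_⟩
  let O := pPrimeCore p G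
  obtain ⟨β, hβ⟩ := exists_res α (map_char α O)
  have hβ' := hα.of_inj _ O.subtype_injective hβ
  have hf : ∀ g, β g = g → g = 1 := fun g hg => Subtype.ext
    (Subgroup.disjoint_def.1 (Core.disjoint_pPrimeCore_of_isPGroup hx)
      (mem_fx.2 ((hβ g).trans (congrArg _ hg))) g.2)
  have hO : Group.IsNilpotent O := by
    by_cases h1 : β = 1
    · have : Subsingleton O := ⟨fun a b => by rw [hf a (by rw [h1]; rfl), hf b (by rw [h1]; rfl)]⟩
      infer_instance
    · exact S0033.result β hf p hp.out (orderOf_eq_prime hβ'.pow h1)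
  have h1 : dser O h = ⊥ := dser_eq_bot_iff.2 (eq_bot_iff.2 ((Subgroup.derived_le_lower_central h).trans
    (lcs_eq_bot_of_fpf hK β hβ'.pow hf).le))
  obtain ⟨γ, hγ⟩ := exists_quo α (map_char α O)
  let P := pCore p (G ⧸ O)
  have hP : IsPGroup p P := Core.pCore_isPGroup p
  obtain ⟨δ, hδ⟩ := exists_res γ (map_char γ P)
  have hδ' := (hα.quot hγ).of_inj _ P.subtype_injective hδ
  have h2 : dser P l = ⊥ := dser_eq_bot_iff.2 (hl P hP δ hδ')
  have h3 := hδ'.relIndex_le hp.out ⊤ (frattini P) (PGrp.commutator_le_frattini hP) (k := 1)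
    fun g _ => by rw [pow_one]; exact PGrp.pow_mem_frattini hP g
  rw [Subgroup.relIndex_top_right] at h3
  let f : G ⧸ O →* MulAut (P ⧸ frattini P) := (PGrp.autQuot (frattini P)).comp MulAut.conjNormal
  have h4 : f.ker ≤ P := fun g hg => Core.mem_pCore_of_frattini
    (Core.centralizer_pCore_le p (Core.pPrimeCore_quotient_pPrimeCore p)) fun x hx => by
    have := (PGrp.autQuot_eq_one_iff _).1 hg ⟨x, hx⟩
    have := Subgroup.Normal.conj_mem inferInstance _ this ⟨x, hx⟩
    refine ⟨_, this, ?_⟩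
    simp [mul_assoc]
  have h5 : dser (⊤ : Subgroup (G ⧸ O)) (m ^ (p * 1)).factorial ≤ P := by
    refine le_trans ((Subgroup.map_eq_bot_iff _).1 ?_) h4
    rw [map_dser]
    refine dser_eq_bot_of_card ?_ ?_
    · exact Group.isSolvable_of_surjective (f.subgroupMap_surjective ⊤)
    · classical
      have := Fintype.ofFinite (P ⧸ frattini P)
      refine (Subgroup.card_le_card_group _).trans ((Nat.card_le_card_of_injective _
        MulEquiv.toEquiv_injective).trans ?_)
      rw [Nat.card_eq_fintype_card, Fintype.card_perm, ← Nat.card_eq_fintype_card]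
      exact Nat.factorial_le h3
  rw [← dser_top, dser_add]
  refine eq_bot_iff.2 ((dser_mono (dser_le_of_map ?_) _).trans h1.le)
  rw [Subgroup.map_top_of_surjective _ (QuotientGroup.mk'_surjective _), dser_add]
  exact eq_bot_iff.2 ((dser_mono h5 _).trans h2.le)

end Cfsg.Agent.H23.Kr
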