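import Mathlib
import Cfsg.Agent.Core.Basic
import Cfsg.Agent.PGrp.Comm
import Cfsg.Agent.PGrp.Sect2
import Cfsg.Agent.Char.Central
import Cfsg.Agent.Char.Kernel
import Cfsg.Agent.Char.Expand

set_option autoImplicit false

namespace Cfsg.Agent.H23.AutOrb

open Subgroup MulAction
open scoped commutatorElement

theorem card_quot (H X : Type*) [Group H] [MulAction H X] [Fintype X] :
    (Nat.card (orbitRel.Quotient H X) : ℚ) = ∑ x : X, ((orbit H x).ncard : ℚ)⁻¹ := by
  classical
  haveI := Fintype.ofFinite (orbitRel.Quotient H X)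
  rw [← Finset.sum_fiberwise Finset.univ (fun x => (Quotient.mk'' x : orbitRel.Quotient H X)),
    Nat.card_eq_fintype_card, Fintype.card_eq_sum_ones, Nat.cast_sum]
  refine Finset.sum_congr rfl fun q _ => ?_
  induction q using Quotient.inductionOn' with | h y => ?_
  have h1 : ∀ x, (Quotient.mk'' x : orbitRel.Quotient H X) = Quotient.mk'' y ↔ x ∈ orbit H y :=
    fun x => by rw [Quotient.eq'', orbitRel_apply]
  rw [Finset.sum_congr rfl (g := fun _ => ((orbit H y).ncard : ℚ)⁻¹) fun x hx => by
    rw [orbit_eq_iff.2 ((h1 x).1 (Finset.mem_filter.1 hx).2)], Finset.sum_const, nsmul_eq_mul]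
  have h2 : (Finset.univ.filter fun x =>
      (Quotient.mk'' x : orbitRel.Quotient H X) = Quotient.mk'' y).card = (orbit H y).ncard := by
    rw [← Set.ncard_coe_finset]; congr 1; ext x; simp [← h1]
  rw [h2, mul_inv_cancel₀]
  · simp
  · exact_mod_cast ((Set.ncard_pos (Set.toFinite _)).2 ⟨y, mem_orbit_self y⟩).ne'

variable {G : Type*} [Group G] [Finite G]

theorem cls_bound (h : (Nat.card G).minFac < Nat.card (commutator G)) :
    Nat.card (ConjClasses G) * (Nat.card G).minFac ≤ Nat.card G := by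
  classical
  haveI := Fintype.ofFinite G
  set p := (Nat.card G).minFac
  choose d hd0 hdd hd using fun χ : IrrCharacter G => Char.isIrr_degree' χ.2
  have h1 : ∑ χ, d χ ^ 2 = Nat.card G := by
    have := Char.sum_irr_one_sq (G := G)
    simp only [hd] at this
    exact_mod_cast this
  have h2 : (Finset.univ.filter fun χ => d χ = 1).card = (commutator G).index := by
    rw [← Char.card_irr_degree_one, Nat.card_eq_fintype_card, Fintype.card_subtype]
    congr 1; ext χ; simp [hd]
  have h3 : ∑ χ : IrrCharacter G, p ^ 2 ≤ ∑ χ, (d χ ^ 2 + if d χ = 1 then p ^ 2 - 1 else 0) := by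
    refine Finset.sum_le_sum fun χ _ => ?_
    split_ifs with e
    · rw [e]; omega
    · exact Nat.pow_le_pow_left (Nat.minFac_le_of_dvd (by have := hd0 χ; omega) (hdd χ)) 2
  rw [Finset.sum_add_distrib, h1, ← Finset.sum_filter, Finset.sum_const, Finset.sum_const, h2,
    Finset.card_univ, ← Nat.card_eq_fintype_card, Char.card_irr_eq_card_conjClasses, smul_eq_mul,
    smul_eq_mul] at h3
  have h4 := (commutator G).index_mul_card
  have hp : 0 < p := Nat.minFac_pos _
  obtain ⟨q, hq⟩ : ∃ q, p = q + 1 := ⟨p - 1, by omega⟩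
  rw [hq] at h h3 ⊢
  rw [show (q + 1) ^ 2 - 1 = q * (q + 2) from Nat.sub_eq_of_eq_add (by ring)] at h3
  generalize Nat.card (ConjClasses G) = k at *
  generalize (commutator G).index = l at *
  generalize Nat.card (commutator G) = c at *
  generalize Nat.card G = n at *
  refine Nat.le_of_mul_le_mul_right (c := q + 1) ?_ (by omega)
  have : l * (q + 2) ≤ n := h4 ▸ Nat.mul_le_mul_left l h
  nlinarith

theorem exists_ext {M : Subgroup G} [M.Normal] {p : ℕ} (hp : p.Prime) (hM : M.index = p)
    {b y : G} (hb : b ∉ M) (hy : y ∈ M) (hc : y ∈ centralizer (M : Set G))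
    (h : (b * y) ^ p = b ^ p) : ∃ σ : MulAut G, (∀ m ∈ M, σ m = m) ∧ σ b = b * y := by
  haveI := Fact.mk hp
  have hb1 : (b : G ⧸ M) ≠ 1 := fun e => hb ((QuotientGroup.eq_one_iff b).1 e)
  have ho : orderOf (b : G ⧸ M) = p := orderOf_eq_prime (by
    rw [← hM]; exact pow_card_eq_one') hb1
  have hex : ∀ x : G, ∃ k : ℤ, x * b ^ (-k) ∈ M := fun x => by
    obtain ⟨k, hk⟩ := mem_zpowers_iff.1 (mem_zpowers_of_prime_card (p := p) hM hb1 (g' := (x : G ⧸ M)))
    refine ⟨k, (QuotientGroup.eq_one_iff _).1 ?_⟩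
    simp [← hk]
  choose f hf using hex
  let u : ℤ → G := fun k => b ^ (-k) * (b * y) ^ k
  have hu : ∀ k l : ℤ, b ^ (k - l) ∈ M → u k = u l := by
    intro k l hkl
    rw [← QuotientGroup.eq_one_iff, QuotientGroup.mk_zpow, ← orderOf_dvd_iff_zpow_eq_one, ho] at hkl
    obtain ⟨j, hj⟩ := hkl
    have e : (b * y) ^ ((p : ℤ) * j) = b ^ ((p : ℤ) * j) := by
      rw [zpow_mul, zpow_mul, zpow_natCast, zpow_natCast, h]
    simp only [u]
    rw [show k = p * j + l by omega, zpow_add, e]
    group
  have huc : ∀ k, u k ∈ centralizer (M : Set G) := fun k => by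
    rw [← QuotientGroup.eq_one_iff]
    simp [u, (QuotientGroup.eq_one_iff y).2 hc]
  have huM : ∀ k, u k ∈ M := fun k => by
    rw [← QuotientGroup.eq_one_iff]
    simp [u, (QuotientGroup.eq_one_iff y).2 hy]
  have hfu : ∀ x k, x * b ^ (-k) ∈ M → u (f x) = u k := fun x k hk => hu _ _ (by
    have := mul_mem (inv_mem (hf x)) hk
    convert this using 1
    group)
  let σ : G →* G := MonoidHom.mk' (fun x => x * u (f x)) fun x x' => by
    have h1 : x * x' * b ^ (-(f x + f x')) ∈ M := by
      have := mul_mem (hf x) (Normal.conj_mem inferInstance _ (hf x') (b ^ f x))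
      convert this using 1
      group
    have h2 := huc (f x) _ (hf x')
    rw [hfu _ _ h1]
    calc x * x' * u (f x + f x') = x * (x' * b ^ (-f x') * u (f x)) * (b * y) ^ f x' := by
          simp only [u]; rw [zpow_add (b * y)]; group
      _ = _ := by rw [h2]; simp only [u]; group
  have hM1 : ∀ m ∈ M, σ m = m := fun m hm => by
    show m * u (f m) = m
    rw [hfu m 0 (by simpa using hm)]
    simp [u]
  have hinj : Function.Injective σ := by
    rw [injective_iff_map_eq_one]
    intro x hx
    have : x ∈ M := by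
      have e : x = (u (f x))⁻¹ := eq_inv_of_mul_eq_one_left hx
      rw [e]; exact inv_mem (huM _)
    rw [← hM1 x this, hx]
  refine ⟨MulEquiv.ofBijective σ (Finite.injective_iff_bijective.1 hinj), hM1, ?_⟩
  show b * u (f b) = b * y
  rw [hfu b 1 (by simp)]
  simp [u]

theorem minFac_mul_le {H K : Subgroup G} (h : H < K) :
    (Nat.card G).minFac * Nat.card H ≤ Nat.card K := by
  rw [← Core.card_subgroupOf_of_le h.le, ← (H.subgroupOf K).index_mul_card]
  refine Nat.mul_le_mul_right _ (Nat.minFac_le_of_dvd ?_ ?_)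
  · have h0 : H.relIndex K ≠ 0 := index_ne_zero_of_finite
    have h1 : H.relIndex K ≠ 1 := fun e => h.not_ge (relIndex_eq_one.1 e)
    rw [relIndex] at h0 h1
    omega
  · exact (relIndex_dvd_card H K).trans (card_subgroup_dvd_card K)

section

variable {p : ℕ} (hp : p.Prime) (hc : Nat.card (commutator G) = p)
  (hz : commutator G ≤ center G)
include hp hc hz

theorem exists_pair (hmin : (Nat.card G).minFac = p) (hna : ¬ IsMulCommutative G) :
    ∃ a b y : G, ¬ Commute a b ∧ y ∉ commutator G ∧ y ∈ centralizer {a} ∧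
      y ∈ centralizer (centralizer {a} : Set G) ∧ (b * y) ^ p = b ^ p := by
  classical
  have hcc := PGrp.commute_of_commutator_le_center hz
  have hcp : ∀ g ∈ commutator G, g ^ p = 1 := fun g hg => by
    rw [← hc]; exact congrArg Subtype.val (pow_card_eq_one' (x := (⟨g, hg⟩ : commutator G)))
  have hcm : ∀ x y : G, ⁅x, y⁆ ∈ commutator G := fun x y =>
    commutator_mem_commutator (mem_top x) (mem_top y)
  obtain ⟨a, b, hab⟩ : ∃ a b : G, ¬ Commute a b := by
    by_contra h; push Not at h; exact hna ⟨⟨h⟩⟩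
  by_cases h1 : ∃ y ∈ center G, y ^ p = 1 ∧ y ∉ commutator G
  · obtain ⟨y, hy, h2, h3⟩ := h1
    refine ⟨a, b, y, hab, h3, center_le_centralizer _ hy, center_le_centralizer _ hy, ?_⟩
    rw [(show Commute b y from mem_center_iff.1 hy b).mul_pow, h2, mul_one]
  push Not at h1
  by_contra hno
  have key : ∀ u v : G, u ^ p = v ^ p → Commute u v := by
    intro u v huv
    by_contra hn
    have hn' : ¬ Commute (u⁻¹ * v) u := fun h => hn (by
      simpa using ((Commute.refl u).mul_left h).symm)
    refine hno ⟨u⁻¹ * v, u, u⁻¹ * v, hn', fun h => hn' (mem_center_iff.1 (hz h) u).symm,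
      mem_centralizer_singleton_iff.2 rfl, fun x hx => mem_centralizer_singleton_iff.1 hx, ?_⟩
    simp [huv]
  have hpz : ∀ x : G, x ^ p ∈ center G := fun x => mem_center_iff.2 fun g => by
    symm
    rw [← commutatorElement_eq_one_iff_mul_comm, PGrp.commutator_pow_left_of_commute (hcc _ _ _)]
    exact hcp _ (hcm _ _)
  by_cases h2 : ∃ e : G, e ^ p = 1 ∧ e ∉ center G
  swap
  · push Not at h2
    haveI := Fintype.ofFinite G
    have h3 := Finset.card_le_mul_card_image_of_maps_to (s := Finset.univ)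
      (t := Finset.univ.filter (· ∈ center G)) (f := fun x : G => x ^ p)
      (fun x _ => by simpa using hpz x) p (fun z _ => by
        by_cases hz' : ∃ u : G, u ^ p = z
        · obtain ⟨u, rfl⟩ := hz'
          refine le_trans ?_ hc.le
          rw [Nat.card_eq_fintype_card, Fintype.card_subtype]
          refine Finset.card_le_card_of_injOn (fun v => u⁻¹ * v) (fun v hv => ?_)
            fun v _ w _ e => mul_left_cancel e
          have hv' : v ^ p = u ^ p := by simpa using hv
          have : (u⁻¹ * v) ^ p = 1 := by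
            rw [(key v u hv').symm.inv_left.mul_pow, inv_pow, hv', inv_mul_cancel]
          simpa using h1 _ (h2 _ this) this
        · rw [Finset.filter_eq_empty_iff.2 fun x _ h => hz' ⟨x, h⟩]; simp)
    rw [Finset.card_univ, ← Fintype.card_subtype, ← Nat.card_eq_fintype_card,
      ← Nat.card_eq_fintype_card] at h3
    have h4 := minFac_mul_le (H := center G) (K := centralizer {a}) (lt_of_le_of_ne
      (center_le_centralizer _) fun e => hab (mem_center_iff.1
        (e ▸ mem_centralizer_singleton_iff.2 rfl : a ∈ center G) b).symm)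
    have h5 := minFac_mul_le (H := centralizer {a}) (K := ⊤) (lt_top_iff_ne_top.2 fun e =>
      hab (mem_centralizer_singleton_iff.1 (e ▸ mem_top b : b ∈ centralizer {a})).symm)
    rw [card_top, hmin] at h5
    rw [hmin] at h4
    have h6 : 0 < Nat.card (center G) := Nat.card_pos
    have := hp.two_le
    nlinarith
  obtain ⟨e, he, hez⟩ := h2
  obtain ⟨y, hy⟩ : ∃ y : G, ¬ Commute y e := by
    by_contra h; push Not at h; exact hez (mem_center_iff.2 h)
  have f1 : ∀ y : G, (y * e) ^ p = y ^ p * ⁅e, y⁆ ^ p.choose 2 := fun y => by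
    rw [PGrp.mul_pow_of_commute (hcc _ _ _) (hcc _ _ _), he, mul_one]
  by_cases hp2 : p = 2
  swap
  · have := key y (y * e) (by
      rw [f1, PGrp.pow_eq_one_of_dvd (hcp _ (hcm _ _)) (PGrp.prime_dvd_choose_two hp hp2), mul_one])
    exact hy (by simpa using (Commute.refl y).inv_right.mul_right this)
  subst hp2
  simp only [Nat.choose_self, pow_one] at f1
  have hu : ∀ x ∈ commutator G, ∀ y ∈ commutator G, x ≠ 1 → y ≠ 1 → x = y := by
    intro x hx y hy hx1 hy1
    obtain ⟨z, -, hz⟩ := (Nat.card_eq_two_iff' (1 : commutator G)).1 hc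
    exact congrArg Subtype.val ((hz ⟨x, hx⟩ fun e => hx1 (congrArg Subtype.val e)).trans
      (hz ⟨y, hy⟩ fun e => hy1 (congrArg Subtype.val e)).symm)
  have hne : ∀ y : G, ¬ Commute y e → ⁅e, y⁆ ≠ 1 := fun y hy h =>
    hy (commutatorElement_eq_one_iff_commute.1 h).symm
  have h4 : ∀ w ∈ center G, w ^ 4 = 1 → w ^ 2 = 1 := by
    intro w hw h
    by_contra hn
    have h5 := hu _ (h1 _ (pow_mem hw 2) (by rw [← pow_mul, h])) _ (hcm e y) hn (hne y hy)
    have hwc : ∀ g, Commute g w := mem_center_iff.1 hw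
    have h6 := key y (y * e * w) (by
      rw [(hwc _).mul_pow, f1, h5, mul_assoc, ← pow_two, hcp _ (hcm _ _), mul_one])
    exact hy (by simpa [mul_assoc] using ((Commute.refl y).inv_right.mul_right h6).mul_right (hwc y).inv_right)
  obtain ⟨k, m, hm, hkm⟩ := Nat.exists_eq_two_pow_mul_odd (orderOf_pos y).ne'
  have hy' : ¬ Commute (y ^ m) e := fun h => by
    obtain ⟨j, rfl⟩ := hm
    refine hy ?_
    have := (show Commute ((y ^ 2) ^ j) e from (mem_center_iff.1 (pow_mem (hpz y) j) e).symm)
    have := this.inv_left.mul_left h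
    rwa [pow_succ y (2 * j), pow_mul, inv_mul_cancel_left] at this
  have h5 : ∀ (k : ℕ), ∀ w ∈ center G, w ^ 2 ^ k = 1 → w ^ 2 = 1 := by
    intro k
    induction k with
    | zero => intro w _ h; rw [pow_zero, pow_one] at h; rw [h, one_pow]
    | succ k ih =>
      intro w hw h
      refine h4 w hw ?_
      have := ih (w ^ 2) (pow_mem hw 2) (by rwa [← pow_mul, ← pow_succ'])
      rwa [← pow_mul] at this
  set x := y ^ m with hx
  have h6 := h5 k _ (hpz x) (by
    rw [hx, ← pow_mul, ← pow_mul, ← orderOf_dvd_iff_pow_eq_one, hkm]; exact ⟨2, by ring⟩)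
  by_cases h7 : x ^ 2 = 1
  · exact hy' (key _ _ (h7.trans he.symm))
  · have h8 := hu _ (h1 _ (hpz x) h6) _ (hcm e x) h7 (hne x hy')
    have h9 := key (x * e) e (by rw [f1, h8, ← pow_two, hcp _ (hcm _ _), he])
    exact hy' (by simpa using h9.mul_left (Commute.refl e).inv_left)

theorem exists_big (hmin : (Nat.card G).minFac = p) (hna : ¬ IsMulCommutative G) :
    ∃ M : Subgroup G, M.index = p ∧ center G < M ∧
      ∀ x, x ∉ M → p ^ 2 ≤ (orbit (MulAut G) x).ncard := by
  haveI := Fact.mk hp
  obtain ⟨a, b, y, hab, hy1, hy2, hy3, hy4⟩ := exists_pair hp hc hz hmin hna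
  have hcc := PGrp.commute_of_commutator_le_center hz
  set M := centralizer ({a} : Set G) with hMdef
  have hbM : b ∉ M := fun h => hab (mem_centralizer_singleton_iff.1 h).symm
  have hZM : center G ≤ M := center_le_centralizer _
  let φ : G →* commutator G := MonoidHom.mk'
    (fun x => ⟨⁅x, a⁆, commutator_mem_commutator (mem_top x) (mem_top a)⟩) fun x x' => Subtype.ext (by
      show ⁅x * x', a⁆ = ⁅x, a⁆ * ⁅x', a⁆
      rw [PGrp.commutator_mul_left_of_commute (hcc _ _ _), (hcc _ _ _).eq])
  have hk : φ.ker = M := by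
    ext x
    rw [MonoidHom.mem_ker, Subtype.ext_iff, mem_centralizer_singleton_iff]
    exact commutatorElement_eq_one_iff_mul_comm
  haveI : M.Normal := hk ▸ inferInstance
  have hi : M.index = p := by
    have h1 : M.index ∣ p := by rw [← hk, index_ker, ← hc]; exact card_subgroup_dvd_card _
    exact ((Nat.dvd_prime hp).1 h1).resolve_left fun e => hbM (index_eq_one.1 e ▸ mem_top b)
  refine ⟨M, hi, lt_of_le_of_ne hZM fun e => hab (mem_center_iff.1
    (e ▸ mem_centralizer_singleton_iff.2 rfl : a ∈ center G) b).symm, fun x hx => ?_⟩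
  let Y : Subgroup G :=
    { carrier := {y | y ∈ M ∧ ∃ σ : MulAut G, (∀ m ∈ M, σ m = m) ∧ σ b = b * y}
      one_mem' := ⟨one_mem _, 1, fun _ _ => rfl, by simp⟩
      mul_mem' := by
        rintro y y' ⟨h1, σ, h2, h3⟩ ⟨h4, τ, h5, h6⟩
        refine ⟨mul_mem h1 h4, σ * τ, fun m hm => ?_, ?_⟩
        · rw [MulAut.mul_apply, h5 m hm, h2 m hm]
        · rw [MulAut.mul_apply, h6, map_mul, h3, h2 _ h4, mul_assoc]
      inv_mem' := by
        rintro y ⟨h1, σ, h2, h3⟩
        refine ⟨inv_mem h1, σ⁻¹, fun m hm => σ.injective ?_, σ.injective ?_⟩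
        · rw [MulAut.apply_inv_self, h2 m hm]
        · rw [MulAut.apply_inv_self, map_mul, h3, h2 _ (inv_mem h1), mul_inv_cancel_right] }
  have h1 : commutator G < Y := by
    refine lt_of_le_of_ne (fun g hg => ⟨hZM (hz hg), exists_ext hp hi hbM (hZM (hz hg))
      (center_le_centralizer _ (hz hg)) ?_⟩) fun e => hy1 ?_
    · rw [(show Commute b g from mem_center_iff.1 (hz hg) b).mul_pow,
        show g ^ p = 1 from by
          rw [← hc]; exact congrArg Subtype.val (pow_card_eq_one' (x := (⟨g, hg⟩ : commutator G))),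
        mul_one]
    · rw [e]; exact ⟨hy2, exists_ext hp hi hbM hy2 hy3 hy4⟩
  have h2 := minFac_mul_le h1
  rw [hmin, hc, ← pow_two] at h2
  refine h2.trans ?_
  have h3 : ∀ y : Y, ∃ σ : MulAut G, (∀ m ∈ M, σ m = m) ∧ σ b = b * y := fun y => y.2.2
  choose σ hσ1 hσ2 using h3
  refine Nat.card_le_card_of_injective (β := orbit (MulAut G) x)
    (fun y => ⟨σ y x, mem_orbit x (σ y)⟩) fun y y' e => ?_
  have e' : σ y x = σ y' x := congrArg Subtype.val e
  have h4 : M ⊔ zpowers x ≤ MonoidHom.eqLocus (σ y).toMonoidHom (σ y').toMonoidHom :=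
    sup_le (fun m hm => (hσ1 y m hm).trans (hσ1 y' m hm).symm) (zpowers_le.2 e')
  rw [PGrp.sup_zpowers_eq_top_of_index_prime hp hi hx] at h4
  have h5 : σ y b = σ y' b := h4 (mem_top b)
  rw [hσ2, hσ2] at h5
  exact Subtype.ext (mul_left_cancel h5)

end

theorem cls_le (x : G) : (centralizer ({x} : Set G)).index ≤ (orbit (MulAut G) x).ncard := by
  rw [← Char.card_isConj]
  refine Set.ncard_le_ncard (s := {y | IsConj x y}) fun y hy => ?_
  obtain ⟨g, rfl⟩ := isConj_iff.1 hy
  exact ⟨MulAut.conj g, rfl⟩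

theorem minFac_le_index {x : G} (hx : x ∉ center G) :
    (Nat.card G).minFac ≤ (centralizer ({x} : Set G)).index := by
  refine Nat.minFac_le_of_dvd ?_ (index_dvd_card _)
  have h0 : (centralizer ({x} : Set G)).index ≠ 0 := index_ne_zero_of_finite
  have h1 : (centralizer ({x} : Set G)).index ≠ 1 := fun e => hx (mem_center_iff.2 fun g =>
    mem_centralizer_singleton_iff.1 (index_eq_one.1 e ▸ mem_top g))
  omega

theorem main (hna : ¬ IsMulCommutative G) :
    Nat.card (orbitRel.Quotient (MulAut G) G) ≤ Nat.card G / (Nat.card G).minFac := by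
  classical
  rw [Nat.le_div_iff_mul_le (Nat.minFac_pos _)]
  by_cases h : (Nat.card G).minFac < Nat.card (commutator G)
  · refine le_trans (Nat.mul_le_mul_right _ ?_) (cls_bound h)
    refine Nat.card_le_card_of_surjective (Quotient.lift (fun x => Quotient.mk'' x) ?_) ?_
    · intro a b hab
      obtain ⟨g, rfl⟩ := isConj_iff.1 hab
      exact (Quotient.sound' (orbitRel_apply.2 ⟨MulAut.conj g, rfl⟩)).symm
    · rintro ⟨x⟩; exact ⟨ConjClasses.mk x, rfl⟩
  have hc1 : commutator G ≠ ⊥ := fun e => hna ((commutator_eq_bot_iff G).1 e)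
  have hc2 := (commutator G).one_lt_card_iff_ne_bot.2 hc1
  have hc : Nat.card (commutator G) = (Nat.card G).minFac :=
    le_antisymm (not_lt.1 h) (Nat.minFac_le_of_dvd hc2 (card_subgroup_dvd_card _))
  have hp : (Nat.card G).minFac.Prime := Nat.minFac_prime fun e => by
    have := card_le_card_group (commutator G); omega
  have hz : commutator G ≤ center G := fun x hx => by
    by_contra hn
    have h1 := minFac_le_index hn
    rw [← Char.card_isConj, ← hc] at h1
    have h2 : {y | IsConj x y} ⊂ (commutator G : Set G) := by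
      refine ⟨fun y hy => ?_, fun h => hn ?_⟩
      · obtain ⟨g, rfl⟩ := isConj_iff.1 hy
        exact Normal.conj_mem inferInstance _ hx g
      · rw [isConj_one_left.1 (h (one_mem _))]; exact one_mem _
    exact (Set.ncard_lt_ncard h2).not_ge h1
  obtain ⟨M, hi, hZM, hM⟩ := exists_big hp hc hz rfl hna
  have h1 := minFac_mul_le hZM
  have h2 := M.index_mul_card
  rw [hi] at h2
  have h3 := fun x (hx : x ∉ center G) => (minFac_le_index hx).trans (cls_le x)
  haveI := Fintype.ofFinite G
  have h4 := card_quot (MulAut G) G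
  generalize (Nat.card G).minFac = p at *
  have hp2 : (2 : ℚ) ≤ p := by exact_mod_cast hp.two_le
  have h5 : ∑ x : G, (p : ℚ) ^ 2 * ((orbit (MulAut G) x).ncard : ℚ)⁻¹ ≤
      ∑ x : G, (1 + (if x ∈ M then (p : ℚ) - 1 else 0) + if x ∈ center G then (p : ℚ) ^ 2 - p else 0) := by
    refine Finset.sum_le_sum fun x _ => ?_
    have h0 : (1 : ℚ) ≤ (orbit (MulAut G) x).ncard := by
      exact_mod_cast (Set.ncard_pos (Set.toFinite _)).2 ⟨x, mem_orbit_self x⟩
    rw [← div_eq_mul_inv, div_le_iff₀ (by linarith)]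
    by_cases hx : x ∈ center G
    · rw [if_pos hx, if_pos (hZM.le hx)]; nlinarith
    rw [if_neg hx]
    by_cases hx' : x ∈ M
    · have : (p : ℚ) ≤ (orbit (MulAut G) x).ncard := by exact_mod_cast h3 x hx
      rw [if_pos hx']; nlinarith
    · have : (p : ℚ) ^ 2 ≤ (orbit (MulAut G) x).ncard := by exact_mod_cast hM x hx'
      rw [if_neg hx']; linarith
  rw [← Finset.mul_sum, ← h4, Finset.sum_add_distrib, Finset.sum_add_distrib, ← Finset.sum_filter,
    ← Finset.sum_filter, Finset.sum_const, Finset.sum_const, Finset.sum_const, Finset.card_univ,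
    ← Fintype.card_subtype, ← Fintype.card_subtype, ← Nat.card_eq_fintype_card,
    ← Nat.card_eq_fintype_card, ← Nat.card_eq_fintype_card, ← h2] at h5
  rw [← h2]
  have h6 : (p : ℚ) * Nat.card (center G) ≤ Nat.card M := by exact_mod_cast h1
  simp only [nsmul_eq_mul, Nat.cast_mul] at h5
  have h7 : (0 : ℚ) ≤ Nat.card M := by positivity
  have h8 : (p : ℚ) * (Nat.card (orbitRel.Quotient (MulAut G) G) * p) ≤ p * (p * Nat.card M) := by
    have h9 := mul_le_mul_of_nonneg_left h6 (show (0 : ℚ) ≤ p - 1 by linarith)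
    have h10 := mul_nonneg (mul_nonneg (show (0 : ℚ) ≤ p - 1 by linarith)
      (show (0 : ℚ) ≤ p - 2 by linarith)) h7
    nlinarith
  exact_mod_cast le_of_mul_le_mul_left h8 (by linarith)

end Cfsg.Agent.H23.AutOrb
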