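import Mathlib
import Cfsg.Agent.H23.B2a

set_option autoImplicit false

namespace Cfsg.Agent.H23.B2

open Subgroup RegO
open scoped commutatorElement _root_.Classical

universe u

section
variable {M V : Type*} [Group M] [CommGroup V] [MulDistribMulAction M V]

theorem of_range (h : Bs (MulDistribMulAction.toMulAut M V).range V) : Bs M V := by
  obtain ⟨v, w, h⟩ := h
  exact ⟨v, w, fun a => h ((MulDistribMulAction.toMulAut M V).rangeRestrict a)⟩

theorem cr_range (h : CR M V) : CR (MulDistribMulAction.toMulAut M V).range V := fun U hU => by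
  obtain ⟨W, h1, h2⟩ := h U fun a => hU ((MulDistribMulAction.toMulAut M V).rangeRestrict a)
  refine ⟨W, ?_, h2⟩
  rintro ⟨_, a, rfl⟩
  exact h1 a

theorem exists_fix' [Finite M] [Nontrivial V] {B : Subgroup M} (hV : (Nat.card V).Coprime (Nat.card B))
    (hBc : IsMulCommutative B) (hn : ¬ IsCyclic B) : ∃ b ∈ B, b ≠ 1 ∧ ∃ v : V, v ≠ 1 ∧ b • v = v := by
  by_contra hne
  push Not at hne
  letI : CommGroup B := { (inferInstance : Group B) with mul_comm := hBc.is_comm.comm }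
  obtain ⟨q, a, b, hq, ha, hb, hb1, hab⟩ := Core.exists_two_of_not_isCyclic hn
  have ho := orderOf_eq_prime (hp := ⟨hq⟩) hb hb1
  let f : B →* Monoid.End V := (MulDistribMulAction.toMonoidEnd M V).comp B.subtype
  have hf : ∀ c : B, c ≠ 1 → ∀ w, f c w = w → w ∈ (⊥ : Subgroup V) := fun c hc w hw => by
    by_contra h
    exact hne c c.2 (fun e => hc (Subtype.ext e)) w h hw
  obtain ⟨w, hw⟩ := exists_ne (1 : V)
  have := Core.pow_mem_of_fixed_le (f a) (f b) ((Commute.all a b).map f) (by rw [← map_pow, ha, map_one])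
    (by rw [← map_pow, hb, map_one]) ⊥ (fun i _ => by
      rw [← map_pow, ← map_mul]
      refine hf _ fun e => hab ?_
      rw [eq_inv_of_mul_eq_one_left e]
      exact inv_mem (pow_mem (mem_zpowers b) i)) (fun j h1 h2 => by
      rw [← map_pow]
      exact hf _ (pow_ne_one_of_lt_orderOf h1.ne' (ho ▸ h2))) w
  rw [mem_bot, ← one_pow q] at this
  exact hw ((hV.coprime_dvd_right (ho ▸ orderOf_dvd_natCard b)).pow_left_bijective.1 this)

end

variable {n : ℕ} {M V : Type u} [Group M] [Finite M] [CommGroup V] [Finite V] [MulDistribMulAction M V]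

theorem sub (ih : IH.{u} (Nat.card M * Nat.card V)) (ho : Odd (Nat.card M)) (hs : Group.IsSolvable M)
    (L : Subgroup M) (W : Subgroup V) (h : ∀ g ∈ L, ∀ w ∈ W, g • w ∈ W) (hW : W ≠ ⊤) (hW1 : W ≠ ⊥)
    (hcr : ∀ U ≤ W, (∀ g ∈ L, ∀ w ∈ U, g • w ∈ U) → ∃ U' ≤ W, (∀ g ∈ L, ∀ w ∈ U', g • w ∈ U') ∧
      U ⊓ U' = ⊥ ∧ U ⊔ U' = W) :
    ∃ v ∈ W, ∃ w ∈ W, v ≠ w ∧ ∀ a ∈ L, a • v = v → a • w = w → ∀ x ∈ W, a • x = x := by
  letI := res L W h
  haveI : Nontrivial W := (nontrivial_iff_ne_bot _).mpr hW1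
  obtain ⟨v, w, -, h1, h2⟩ := (ih L W (Nat.mul_lt_mul_of_le_of_lt (card_le_card_group L) (by
      rw [← card_top (G := V)]; exact PGrp.card_lt_of_lt (lt_top_iff_ne_top.mpr hW)) Nat.card_pos)
    (ho.of_dvd_nat (card_subgroup_dvd_card L)) inferInstance fun U hU => by
      obtain ⟨U', h1, h2, h3, h4⟩ := hcr (U.map W.subtype) (map_subtype_le U) (by
        rintro g hg _ ⟨x, hx, rfl⟩
        exact ⟨_, hU ⟨g, hg⟩ x hx, rfl⟩)
      refine ⟨U'.subgroupOf W, fun g x hx => h2 g g.2 x hx, ?_, ?_⟩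
      · exact eq_bot_iff.mpr fun x hx => Subtype.ext (h3.le ⟨⟨x, hx.1, rfl⟩, hx.2⟩)
      · apply map_injective W.subtype_injective
        rw [Subgroup.map_sup, map_subgroupOf_eq_of_le h1, h4, ← MonoidHom.range_eq_map, range_subtype]).ne
  exact ⟨v, v.2, w, w.2, fun e => h1 (Subtype.ext e), fun a ha h3 h4 x hx =>
    congrArg Subtype.val (h2 ⟨a, ha⟩ (Subtype.ext h3) (Subtype.ext h4) ⟨x, hx⟩)⟩

theorem red (ih : IH.{u} (Nat.card M * Nat.card V)) (ho : Odd (Nat.card M)) (hs : Group.IsSolvable M)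
    (hcr : CR M V) {U : Subgroup V} (hU : Inv M U) (h1 : U ≠ ⊥) (h2 : U ≠ ⊤) : Bs M V := by
  obtain ⟨W, hW, h3, h4⟩ := hcr U hU
  have k : ∀ U : Subgroup V, Inv M U → U ≠ ⊥ → U ≠ ⊤ →
      ∃ v ∈ U, ∃ w ∈ U, v ≠ w ∧ ∀ a ∈ (⊤ : Subgroup M), a • v = v → a • w = w → ∀ x ∈ U, a • x = x :=
    fun U hU h1 h2 => sub ih ho hs ⊤ U (fun g _ => hU g) h2 h1 fun X hX h => by
      obtain ⟨Y, h5, h6, h7⟩ := hcr X fun g => h g (mem_top g)
      exact ⟨Y ⊓ U, inf_le_right, fun g _ w hw => ⟨h5 g w hw.1, hU g w hw.2⟩, by rw [← inf_assoc, h6, bot_inf_eq],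
        by rw [← sup_inf_assoc_of_le _ hX, h7, top_inf_eq]⟩
  obtain ⟨v, hv, w, hw, -, k1⟩ := k U hU h1 h2
  obtain ⟨v', hv', w', hw', -, k2⟩ := k W hW (fun h => h2 (by rw [← h4, h, sup_bot_eq]))
    fun h => h1 (by rw [← h3, h, inf_top_eq])
  have sep : ∀ (a : M), ∀ x ∈ U, ∀ y ∈ W, a • (x * y) = x * y → a • x = x ∧ a • y = y := fun a x hx y hy h => by
    rw [smul_mul'] at h
    have e : a • x / x = y / a • y := by rw [div_eq_div_iff_mul_eq_mul, h, mul_comm]
    have : a • x / x = 1 := mem_bot.mp (h3 ▸ ⟨U.div_mem (hU a x hx) hx, e ▸ W.div_mem hy (hW a y hy)⟩)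
    exact ⟨div_eq_one.mp this, (div_eq_one.mp (e ▸ this)).symm⟩
  refine ⟨v * v', w * w', fun a h5 h6 x => ?_⟩
  obtain ⟨y, hy, z, hz, rfl⟩ := mem_sup.mp (h4 ▸ mem_top x)
  rw [smul_mul', k1 a (mem_top a) (sep a v hv v' hv' h5).1 (sep a w hw w' hw' h6).1 y hy,
    k2 a (mem_top a) (sep a v hv v' hv' h5).2 (sep a w hw w' hw' h6).2 z hz]

theorem blocks [Nontrivial V] (ih : IH.{u} (Nat.card M * Nat.card V)) (ho : Odd (Nat.card M))
    (hs : Group.IsSolvable M) (irr : ∀ U : Subgroup V, Inv M U → U = ⊥ ∨ U = ⊤) {B H : Subgroup M}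
    [hBn : B.Normal] (hV : (Nat.card V).Coprime (Nat.card H)) (hBc : ∀ a ∈ B, ∀ b ∈ B, a * b = b * a)
    (hHB : H ≤ B) (hmax : ∀ K, H ≤ K → K ≤ B → fx V K ≠ ⊥ → K ≤ H) (hW1 : fx V H ≠ ⊥) (hW2 : fx V H ≠ ⊤) :
    Bs M V := by
  let N := normalizer (H : Set M)
  have n1 : ∀ w ∈ fx V H, ∀ n : M, n ∉ N → nm H (n • w) = 1 := fun w hw n hn => by
    by_contra h
    refine hn (PGrp.mem_normalizer_of_conj_mem fun a ha => ?_)
    refine hmax (B ⊓ MulAction.stabilizer M (nm H (n • w))) (le_inf hHB fun b hb => nm_fix hb _) inf_le_left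
      (ne_bot_iff_exists_ne_one.mpr ⟨⟨_, fun b hb => hb.2⟩, fun e => h (congrArg Subtype.val e)⟩)
      ⟨hBn.conj_mem _ (hHB ha) n, ?_⟩
    change _ • _ = _
    rw [nm_comm fun b hb => hBc _ (hBn.conj_mem _ (hHB ha) n) _ (hHB hb), smul_smul, inv_mul_cancel_right,
      mul_smul, hw a ha]
  have finv : ∀ g ∈ N, ∀ w ∈ fx V H, g • w ∈ fx V H := fun g hg w hw a ha => by
    rw [smul_smul, show a * g = g * (g⁻¹ * a * g) by group, mul_smul,
      hw _ (PGrp.conj_mem_of_mem_normalizer' hg ha)]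
  obtain ⟨v, hv, w, hw, hvw, reg⟩ := sub ih ho hs N (fx V H) finv hW2 hW1 fun U hU h => by
    by_cases h1 : U = ⊥
    · exact ⟨_, le_rfl, finv, by rw [h1, bot_inf_eq], by rw [h1, bot_sup_eq]⟩
    refine ⟨⊥, bot_le, fun g _ w hw => by rw [mem_bot.mp hw, smul_one]; exact one_mem _, inf_bot_eq _, ?_⟩
    rw [sup_bot_eq]
    let S : Subgroup V := ⨅ a : M, U.comap ((nm H).comp (MulDistribMulAction.toMonoidHom V a))
    have mS : ∀ x, x ∈ S ↔ ∀ a : M, nm H (a • x) ∈ U := fun x => mem_iInf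
    rcases irr S (fun a x hx => (mS _).mpr fun b => by rw [smul_smul]; exact (mS _).mp hx _) with h2 | h2
    · refine absurd (eq_bot_iff.mpr (h2 ▸ fun x hx => (mS x).mpr fun a => ?_)) h1
      by_cases ha : a ∈ N
      · rw [nm_of_fix (finv a ha x (hU hx))]
        exact pow_mem (h a ha x hx) _
      · rw [n1 x (hU hx) a ha]
        exact one_mem _
    · refine le_antisymm hU fun x hx => ?_
      have := (mS x).mp (h2 ▸ mem_top x) 1
      rw [one_smul, nm_of_fix hx] at this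
      exact PGrp.mem_of_pow_mem_of_coprime hV (by rw [pow_card_eq_one']; exact one_mem _) this
  obtain ⟨f, f1, f2⟩ := gluck ih _ (lt_mul_of_one_lt_right Nat.card_pos Finite.one_lt_card) ho hs N rfl
  haveI := Fintype.ofFinite (M ⧸ N)
  have n3 : ∀ y : M ⧸ N → V, (∀ q, y q ∈ fx V H) → ∀ (c : M) (q : M ⧸ N), c * q.out ∈ N →
      nm H (c • ∏ q : M ⧸ N, q.out • y q) = ((c * q.out) • y q) ^ Nat.card H := fun y hy c q hq => by
    rw [Finset.smul_prod', map_prod, Finset.prod_eq_single q (fun r _ hr => ?_) (by simp), smul_smul,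
      nm_of_fix (finv _ hq _ (hy q))]
    rw [smul_smul]
    refine n1 _ (hy r) _ fun h => hr ?_
    rw [← q.out_eq', ← r.out_eq', QuotientGroup.eq,
      show r.out⁻¹ * q.out = (c * r.out)⁻¹ * (c * q.out) by group]
    exact mul_mem (inv_mem h) hq
  have n4 : ∀ y : M ⧸ N → V, (∀ q, y q ∈ fx V H) → ∀ a : M,
      a • ∏ q : M ⧸ N, q.out • y q = ∏ q : M ⧸ N, q.out • y q → ∀ q r : M ⧸ N, q.out⁻¹ * a * r.out ∈ N →
      (q.out⁻¹ * a * r.out) • y r = y q := fun y hy a ha q r h => by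
    have e1 := n3 y hy _ r h
    rw [mul_smul, ha, n3 y hy _ q (by simp), inv_mul_cancel, one_smul] at e1
    exact hV.pow_left_bijective.1 e1.symm
  refine ⟨∏ q : M ⧸ N, q.out • (if f q.out then v else w), ∏ q : M ⧸ N, q.out • (if f q.out then w else v),
    fun a h1 h2 => ?_⟩
  have k1 := n4 _ (fun q => by split_ifs; exacts [hv, hw]) a h1
  have k2 := n4 _ (fun q => by split_ifs; exacts [hw, hv]) a h2
  have fo : ∀ x : M, f (x : M ⧸ N).out ↔ f x := fun x => by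
    obtain ⟨n, e⟩ := QuotientGroup.mk_out_eq_mul N x
    rw [e, f1 _ _ n.2]
  have sw : ∀ c : M, c • v = w → c • w = v → False := fun c h1 h2 =>
    hvw ((mem_of_sq (H := MulAction.stabilizer M v) ho (by
      change _ • _ = _
      rw [mul_smul, h1, h2]) : c • v = v).symm.trans h1)
  have ha : a ∈ N.normalCore := f2 a fun x => by
    have h3 : ((a * x : M) : M ⧸ N).out⁻¹ * a * (x : M ⧸ N).out ∈ N := by
      rw [mul_assoc, ← QuotientGroup.eq, QuotientGroup.out_eq', QuotientGroup.eq,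
        show (a * x)⁻¹ * (a * (x : M ⧸ N).out) = x⁻¹ * (x : M ⧸ N).out by group, ← QuotientGroup.eq,
        QuotientGroup.out_eq']
    have e1 := k1 _ _ h3
    have e2 := k2 _ _ h3
    simp only [fo] at e1 e2
    by_contra h
    by_cases h4 : f x
    · have h5 : ¬ f (a * x) := fun h5 => h (iff_of_true h5 h4)
      rw [if_pos h4, if_neg h5] at e1 e2
      exact sw _ e1 e2
    · have h5 : f (a * x) := by by_contra h5; exact h (iff_of_false h5 h4)
      rw [if_neg h4, if_pos h5] at e1 e2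
      exact sw _ e2 e1
  have k3 : ∀ m : M, ∀ x ∈ fx V H, (m⁻¹ * a * m) • x = x := fun m x hx => by
    obtain ⟨n, e⟩ := QuotientGroup.mk_out_eq_mul N m
    have h3 : (m : M ⧸ N).out⁻¹ * a * (m : M ⧸ N).out ∈ N := by simpa using ha (m : M ⧸ N).out⁻¹
    have e1 := k1 _ _ h3
    have e2 := k2 _ _ h3
    have := reg _ h3 (by split_ifs at e1 e2; exacts [e1, e2]) (by split_ifs at e1 e2; exacts [e2, e1]) _
      (finv _ (inv_mem n.2) x hx)
    rw [e, smul_smul, show (m * n)⁻¹ * a * (m * n) * (n : M)⁻¹ = (n : M)⁻¹ * (m⁻¹ * a * m) by group, mul_smul,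
      smul_left_cancel_iff] at this
    exact this
  rcases irr (fx V (normalClosure {a})) (fun g x hx b hb => by
    rw [smul_smul, show b * g = g * (g⁻¹ * b * g⁻¹⁻¹) by group, mul_smul,
      hx _ (normalClosure_normal.conj_mem b hb _)]) with h | h
  · refine absurd (eq_bot_iff.mpr (h ▸ fun x hx => ?_)) hW1
    have : normalClosure {a} ≤ MulAction.stabilizer M x := (closure_le _).mpr fun c hc => by
      obtain ⟨b, hb, hc'⟩ := Group.mem_conjugatesOfSet_iff.mp hc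
      obtain ⟨m, rfl⟩ := isConj_iff.mp hc'
      rw [show b = a from hb]
      simpa using k3 m⁻¹ x hx
    exact fun b hb => this hb
  · exact fun x => h.ge (mem_top x) a (subset_normalClosure rfl)

end Cfsg.Agent.H23.B2
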