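import Mathlib
import Cfsg.Agent.H23.B2a
import Cfsg.Agent.PGrp.Aut

set_option autoImplicit false

namespace Cfsg.Agent.H23.B2

open Subgroup RegO
open scoped commutatorElement _root_.Classical

variable {T V : Type*} [Group T] [CommGroup V] [MulDistribMulAction T V] {U : Subgroup T}

def fe (V : Type*) [CommGroup V] [MulDistribMulAction T V] (x : T) : Subgroup V :=
  (MulDistribMulAction.toMonoidHom V x).eqLocus (MonoidHom.id V)

theorem mem_fe {x : T} {v : V} : v ∈ fe V x ↔ x • v = v := Iff.rfl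

theorem indep (hZ : U ≤ center T) (hf : ∀ c ∈ U, c ≠ 1 → ∀ v : V, c • v = v → v = 1) (x : T) {ι : Type*}
    (c : ι → T) (hc : ∀ i, c i ∈ U) (hi : Function.Injective c) (s : Finset ι) :
    ∀ t : ι → V, (∀ i, x • t i = c i • t i) → ∏ i ∈ s, t i = 1 → ∀ i ∈ s, t i = 1 := by
  have cz : ∀ i g, g * c i = c i * g := fun i => mem_center_iff.mp (hZ (hc i))
  induction s using Finset.induction_on with
  | empty => simp
  | insert j s hj ih =>
  intro t ht e
  have h1 : ∀ i ∈ s, t i = 1 := fun i his => by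
    have := ih (fun i => c i • t i / c j • t i) (fun i => by
      rw [smul_div', smul_div', smul_smul, smul_smul, cz, cz, mul_smul, mul_smul, ht, smul_smul (c j), cz,
        mul_smul]) (by
      have e2 : x • (∏ i ∈ insert j s, t i) / c j • (∏ i ∈ insert j s, t i) = 1 := by
        rw [e, smul_one, smul_one, div_one]
      rw [Finset.smul_prod', Finset.smul_prod', ← Finset.prod_div_distrib, Finset.prod_insert hj, ht, div_self',
        one_mul] at e2
      simpa only [ht] using e2) i his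
    refine hf _ (mul_mem (inv_mem (hc j)) (hc i)) (fun h => hj (hi (inv_mul_eq_one.mp h) ▸ his)) _ ?_
    rw [mul_smul, div_eq_one.mp this, inv_smul_smul]
  rw [Finset.prod_insert hj, Finset.prod_eq_one h1, mul_one] at e
  intro i hi
  rcases Finset.mem_insert.mp hi with rfl | hi
  exacts [e, h1 i hi]

theorem card_pow_le [Finite V] (hZ : U ≤ center T) (hf : ∀ c ∈ U, c ≠ 1 → ∀ v : V, c • v = v → v = 1) {x y : T}
    (hz : ⁅x, y⁆ ∈ U) {W : Subgroup V} (hW : ∀ w ∈ W, y • w ∈ W) {k : ℕ} (hk : k ≤ orderOf ⁅x, y⁆) :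
    Nat.card ↥(W ⊓ fe V x) ^ k ≤ Nat.card W := by
  have h1 : ∀ i : ℕ, ∀ w ∈ W, y ^ i • w ∈ W := fun i => by
    induction i with
    | zero => simp
    | succ i ih => intro w hw; rw [pow_succ', mul_smul]; exact hW _ (ih w hw)
  have h2 : ∀ i : ℕ, x * y ^ i = ⁅x, y⁆ ^ i * (y ^ i * x) := fun i => by
    induction i with
    | zero => simp
    | succ i ih =>
      rw [pow_succ, ← mul_assoc, ih, mul_assoc, mul_assoc, show x * y = ⁅x, y⁆ * (y * x) by group, ← mul_assoc (y ^ i),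
        mem_center_iff.mp (hZ hz) (y ^ i), pow_succ]
      simp only [mul_assoc]
  rw [← Nat.card_fin k, ← Nat.card_fun]
  refine Nat.card_le_card_of_injective (fun w => ⟨∏ i : Fin k, y ^ (i : ℕ) • (w i : V),
    prod_mem fun i _ => h1 i _ (w i).2.1⟩) fun w w' e => funext fun i => ?_
  have := indep hZ hf x (fun i : Fin k => ⁅x, y⁆ ^ (i : ℕ)) (fun i => pow_mem hz _)
    (fun i j e => Fin.ext (pow_injOn_Iio_orderOf (i.2.trans_le hk) (j.2.trans_le hk) e)) Finset.univ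
    (fun i => y ^ (i : ℕ) • ((w i / w' i : ↥(W ⊓ fe V x)) : V)) (fun i => by
      rw [smul_smul, h2, mul_smul, mul_smul, mem_fe.mp (w i / w' i).2.2]) (by
      simp only [coe_div, smul_div', Finset.prod_div_distrib, div_eq_one]
      exact congrArg Subtype.val e) i (Finset.mem_univ i)
  rw [smul_eq_iff_eq_inv_smul, smul_one] at this
  exact div_eq_one.mp (Subtype.ext this)

def cm (hZ : U ≤ center T) (hc : ∀ x y : T, ⁅x, y⁆ ∈ U) (x : T) : T →* T :=
  MonoidHom.mk' (fun g => ⁅x, g⁆) fun a b => by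
    rw [show ⁅x, a * b⁆ = ⁅x, a⁆ * (a * ⁅x, b⁆) * a⁻¹ by group, mem_center_iff.mp (hZ (hc x b)) a]
    group

theorem cm_pow (hZ : U ≤ center T) (hc : ∀ x y : T, ⁅x, y⁆ ∈ U) (x y : T) (k : ℕ) : ⁅x, y⁆ ^ k = ⁅x, y ^ k⁆ :=
  (map_pow (cm hZ hc x) y k).symm

theorem cm_pow' (hZ : U ≤ center T) (hc : ∀ x y : T, ⁅x, y⁆ ∈ U) (x y : T) (k : ℕ) : ⁅x, y⁆ ^ k = ⁅x ^ k, y⁆ := by
  rw [← commutatorElement_inv, inv_pow, cm_pow hZ hc, commutatorElement_inv]

theorem ri [Finite T] (hZ : U ≤ center T) (hc : ∀ x y : T, ⁅x, y⁆ ∈ U) (hU : IsCyclic U) {r : ℕ} (hr : r.Prime)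
    {x : T} {K : Subgroup T} (h : ∀ g ∈ K, ⁅x, g⁆ ^ r = 1) {y : T} (hy : y ∈ K) (hxy : ⁅x, y⁆ ≠ 1) :
    (cm hZ hc x).ker.relIndex K = r := by
  rw [relIndex_ker]
  have h1 : Nat.card (K.map (cm hZ hc x)) ∣ r := by
    haveI := Subgroup.isCyclic_of_le (show K.map (cm hZ hc x) ≤ U by rintro _ ⟨g, -, rfl⟩; exact hc x g)
    rw [← IsCyclic.exponent_eq_card]
    refine Monoid.exponent_dvd_of_forall_pow_eq_one ?_
    rintro ⟨_, g, hg, rfl⟩
    exact Subtype.ext (h g hg)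
  exact ((Nat.dvd_prime hr).mp h1).resolve_left fun e => hxy (mem_bot.mp (card_eq_one.mp e ▸ mem_map_of_mem _ hy))

theorem dim [Finite T] [Finite V] (hZ : U ≤ center T) (hc : ∀ x y : T, ⁅x, y⁆ ∈ U) (hU : IsCyclic U)
    (hf : ∀ c ∈ U, c ≠ 1 → ∀ v : V, c • v = v → v = 1) (hV : (Nat.card V).Coprime (Nat.card T))
    (hS : ∀ (x : T) (r k : ℕ), r.Prime → orderOf x = r ^ k → ∃ u ∈ U, (x * u) ^ r = 1) (n : ℕ) :
    ∀ (Q : Subgroup T) (W : Subgroup V), Nat.card Q = n → U ≤ Q → (∀ g ∈ Q, ∀ w ∈ W, g • w ∈ W) → W ≠ ⊥ →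
      ∃ e, (centralizer (Q : Set T)).relIndex Q = e ^ 2 ∧ (Nat.card U + 1) ^ e ≤ Nat.card W := by
  induction n using Nat.strong_induction_on with
  | _ n ih =>
  intro Q W hn hUQ hW hW1
  obtain ⟨⟨w₀, hw₀⟩, hw₁⟩ := ne_bot_iff_exists_ne_one.mp hW1
  by_cases hQ : Q ≤ centralizer (Q : Set T)
  · refine ⟨1, relIndex_eq_one.mpr hQ, ?_⟩
    rw [pow_one, ← Finite.card_option]
    have k : ∀ u : U, (u : T) • w₀ ≠ 1 := fun u h =>
      hw₁ (Subtype.ext (by rwa [smul_eq_iff_eq_inv_smul, smul_one] at h))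
    refine Nat.card_le_card_of_injective (fun o => o.elim 1 fun u => ⟨(u : T) • w₀, hW _ (hUQ u.2) _ hw₀⟩) ?_
    rintro (_ | a) (_ | b) e
    · rfl
    · exact absurd (congrArg Subtype.val e).symm (k b)
    · exact absurd (congrArg Subtype.val e) (k a)
    · by_contra h
      refine hw₁ (Subtype.ext (hf (b⁻¹ * a : U) (b⁻¹ * a).2 (fun e => h ?_) _ ?_))
      · rw [(inv_mul_eq_one.mp (Subtype.ext e : b⁻¹ * a = 1))]
      · rw [coe_mul, mul_smul, show (a : T) • w₀ = (b : T) • w₀ from congrArg Subtype.val e, coe_inv,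
          inv_smul_smul]
  have cz : ∀ c ∈ U, ∀ g, g * c = c * g := fun c h => mem_center_iff.mp (hZ h)
  have cu : ∀ x y, ∀ u ∈ U, ⁅x * u, y⁆ = ⁅x, y⁆ := fun x y u hu => by
    rw [commutatorElement_def, mul_assoc x, ← cz u hu]
    group
  obtain ⟨r, hr, x, hx, hxr, y, hy, hxy⟩ : ∃ r : ℕ, r.Prime ∧ ∃ x ∈ Q, x ^ r = 1 ∧ ∃ y ∈ Q, ⁅x, y⁆ ≠ 1 := by
    obtain ⟨r, hr, hd⟩ := Nat.exists_prime_and_dvd (mt relIndex_eq_one.mp hQ)
    obtain ⟨a, ha, h1, -, k, hk⟩ := PGrp.exists_of_prime_dvd_relIndex hr hd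
    obtain ⟨u, hu, e⟩ := hS a r k hr hk
    refine ⟨r, hr, a * u, mul_mem ha (hUQ hu), e, ?_⟩
    by_contra h
    push Not at h
    exact h1 fun y hy => (commutatorElement_eq_one_iff_mul_comm.mp (cu a y u hu ▸ h y hy)).symm
  have hzr : ∀ g : T, ⁅x, g⁆ ^ r = 1 := fun g => by rw [cm_pow' hZ hc, hxr, commutatorElement_one_left]
  have ho := orderOf_eq_prime (hp := ⟨hr⟩) (hzr y) hxy
  obtain ⟨x, hx, hzr, hxy, w₀, hw₀, hw₁, hxw⟩ : ∃ x ∈ Q, (∀ g : T, ⁅x, g⁆ ^ r = 1) ∧ ⁅x, y⁆ ≠ 1 ∧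
      ∃ w ∈ W, w ≠ 1 ∧ x • w = w := by
    by_contra hne
    push Not at hne
    letI := res Q W hW
    let f := MulDistribMulAction.toMonoidEnd Q W
    let z : Q := ⟨_, hUQ (hc x y)⟩
    have := Core.pow_mem_of_fixed_le (f ⟨x, hx⟩) (f z) (Commute.map (Subtype.ext (cz _ (hc x y) x)) f) (q := r)
      (by rw [← map_pow, ← map_one f]; exact congrArg f (Subtype.ext hxr))
      (by rw [← map_pow, ← map_one f]; exact congrArg f (Subtype.ext (hzr y))) ⊥ (fun i _ w hw => by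
        rw [← map_pow, ← map_mul] at hw
        by_contra h
        have hu := pow_mem (hc x y) i
        exact hne (x * ⁅x, y⁆ ^ i) (mul_mem hx (hUQ hu)) (fun g => by rw [cu _ _ _ hu, hzr])
          (by rwa [cu _ _ _ hu]) w w.2 (fun e => h (Subtype.ext e)) (congrArg Subtype.val hw))
      (fun j h1 h2 w hw => by
        rw [← map_pow] at hw
        exact Subtype.ext (hf _ (pow_mem (hc x y) j) (pow_ne_one_of_lt_orderOf h1.ne' (ho ▸ h2)) _
          (congrArg Subtype.val hw))) ⟨w₀, hw₀⟩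
    rw [mem_bot, ← one_pow r] at this
    exact hw₁ (((hV.coprime_dvd_right (ho ▸ orderOf_dvd_natCard _)).coprime_dvd_left
      (card_subgroup_dvd_card W)).pow_left_bijective.1 this)
  have i1 := ri hZ hc hU hr (fun g _ => hzr g) hy hxy
  let Q₁ := (cm hZ hc x).ker ⊓ Q
  have mQ : ∀ g, g ∈ (cm hZ hc x).ker ↔ x * g = g * x := fun g => commutatorElement_eq_one_iff_mul_comm
  obtain ⟨e, he1, he2⟩ := ih _ (hn ▸ PGrp.card_lt_of_lt (H := Q₁) (lt_of_le_of_ne inf_le_right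
      fun h => hxy (h.ge hy).1)) Q₁ (W ⊓ fe V x) rfl (le_inf (fun u hu => (mQ u).mpr (cz u hu x)) hUQ)
    (fun g hg w hw => ⟨hW g hg.2 w hw.1, by
      change x • g • w = g • w
      rw [smul_smul, (mQ g).mp hg.1, mul_smul, mem_fe.mp hw.2]⟩)
    (ne_bot_iff_exists_ne_one.mpr ⟨⟨w₀, hw₀, hxw⟩, fun h => hw₁ (congrArg Subtype.val h)⟩)
  refine ⟨e * r, ?_, ?_⟩
  swap
  · rw [pow_mul]
    exact (Nat.pow_le_pow_left he2 r).trans (card_pow_le hZ hf (hc x y) (hW y hy)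
      (orderOf_eq_prime (hp := ⟨hr⟩) (hzr y) hxy).ge)
  have hyr : y ^ r ∈ Q₁ := ⟨MonoidHom.mem_ker.mpr (by rw [map_pow]; exact hzr y), pow_mem hy r⟩
  have i2 := ri hZ hc hU hr (x := y) (K := centralizer Q₁ ⊓ Q₁)
    (fun g hg => by rw [cm_pow' hZ hc]; exact commutatorElement_eq_one_iff_mul_comm.mpr (hg.1 _ hyr))
    (y := x) ⟨fun g hg => ((mQ g).mp hg.1).symm, (mQ x).mpr rfl, hx⟩
    (by rwa [← commutatorElement_inv, inv_ne_one])
  have hQ1 : Q₁ ⊔ zpowers y = Q := PGrp.sup_zpowers_eq_of_relIndex_prime hr (by rwa [inf_relIndex_right])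
    inf_le_right hy fun h => hxy h.1
  have i3 : centralizer (Q : Set T) ⊓ Q = (cm hZ hc y).ker ⊓ (centralizer Q₁ ⊓ Q₁) := by
    refine le_antisymm (fun g hg => ⟨commutatorElement_eq_one_iff_mul_comm.mpr (hg.1 y hy),
      fun a ha => hg.1 a ha.2, (mQ g).mpr (hg.1 x hx), hg.2⟩) fun g hg => ⟨fun a ha => ?_, hg.2.2.2⟩
    have : Q₁ ⊔ zpowers y ≤ centralizer {g} := sup_le (fun b hb => mem_centralizer_singleton_iff.mpr (hg.2.1 b hb))
      (zpowers_le.mpr (mem_centralizer_singleton_iff.mpr (commutatorElement_eq_one_iff_mul_comm.mp hg.1)))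
    exact mem_centralizer_singleton_iff.mp (this (hQ1.ge ha))
  rw [← inf_relIndex_right, i3, ← relIndex_mul_relIndex _ Q₁ _ (inf_le_right.trans inf_le_right) inf_le_right,
    ← relIndex_mul_relIndex _ (centralizer Q₁ ⊓ Q₁) _ inf_le_right inf_le_right, inf_relIndex_right,
    inf_relIndex_right, inf_relIndex_right, i1, i2, he1]
  ring

end Cfsg.Agent.H23.B2
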