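import Mathlib
import Cfsg.Agent.H23.B2c
import Cfsg.Agent.Core.Fitting

set_option autoImplicit false

namespace Cfsg.Agent.H23.B2

open Subgroup RegO
open scoped commutatorElement _root_.Classical

variable {H E : Type*} [Group H] [Finite H] [CommGroup E] [Finite E] [MulDistribMulAction H E]

theorem fx_inv (S : Subgroup H) [hS : S.Normal] : Inv H (fx E S) := fun g w hw a ha => by
  rw [smul_smul, show a * g = g * (g⁻¹ * a * g⁻¹⁻¹) by group, mul_smul, hw _ (hS.conj_mem a ha _)]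

theorem fx_ne_bot {r : ℕ} [Fact r.Prime] {S : Subgroup H} (hS : IsPGroup r S) (hr : r ∣ Nat.card E) :
    fx E S ≠ ⊥ := by
  obtain ⟨b, hb, h⟩ := hS.exists_fixed_point_of_prime_dvd_card_of_fixed_point E hr (a := 1) fun g => smul_one g
  exact ne_bot_iff_exists_ne_one.mpr ⟨⟨b, fun a ha => hb ⟨a, ha⟩⟩, fun e => h (congrArg Subtype.val e).symm⟩

theorem noP (hF : ∀ a : H, (∀ x : E, a • x = x) → a = 1) (hcr : CR H E) {r : ℕ} [Fact r.Prime]
    (hE : IsPGroup r E) : pCore r H = ⊥ := by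
  obtain ⟨Y, h1, h2, h3⟩ := hcr _ (fx_inv (pCore r H))
  by_cases hY : Y = ⊥
  · rw [hY, sup_bot_eq] at h3
    exact eq_bot_iff.mpr fun a ha => hF a fun x => h3.ge (mem_top x) a ha
  letI := res ⊤ Y fun g _ => h1 g
  obtain ⟨⟨y, hy⟩, h4⟩ := ne_bot_iff_exists_ne_one.mp (fx_ne_bot (E := Y)
    (S := (pCore r H).subgroupOf ⊤) (Core.pCore_isPGroup r).comap_subtype
    (Core.prime_dvd_card_of_isPGroup (hE.to_subgroup Y) hY))
  exact absurd (Subtype.ext (Subtype.ext (mem_bot.mp (h2.le ⟨fun a ha => congrArg Subtype.val (hy ⟨a, mem_top a⟩ ha), y.2⟩)))) h4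

theorem sqfree (hcr : CR H E) (r k : ℕ) (e : E) (h : e ^ r ^ k = 1) : e ^ r = 1 := by
  obtain ⟨Y, -, h2, h3⟩ := hcr (powMonoidHom r : E →* E).range (by
    rintro a _ ⟨x, rfl⟩
    exact ⟨a • x, (smul_pow' a x r).symm⟩)
  let f : (powMonoidHom r : E →* E).range → (powMonoidHom r : E →* E).range := fun x => x ^ r
  have hf : Function.Surjective f := by
    rintro ⟨_, x, rfl⟩
    obtain ⟨a, ha, b, hb, rfl⟩ := mem_sup.mp (h3 ▸ mem_top x)
    refine ⟨⟨a, ha⟩, Subtype.ext ?_⟩
    have : b ^ r = 1 := mem_bot.mp (h2 ▸ ⟨⟨b, rfl⟩, Y.pow_mem hb r⟩)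
    simp [f, mul_pow, this]
  have hi := Finite.injective_iff_surjective.mpr hf
  have : ∀ (j : ℕ) (x : (powMonoidHom r : E →* E).range), x ^ r ^ j = 1 → x = 1 := fun j => by
    induction j with
    | zero => simp
    | succ j ih => exact fun x hx => ih x (hi (by rw [pow_succ, pow_mul] at hx; simpa [f] using hx))
  exact congrArg Subtype.val (this k ⟨e ^ r, e, rfl⟩ (Subtype.ext (by
    change (e ^ r) ^ r ^ k = 1
    rw [← pow_mul, mul_comm, pow_mul, h, one_pow])))

theorem pc_bot {p : ℕ} [Fact p.Prime] (h : ¬ p ∣ Nat.card H) : pCore p H = ⊥ := by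
  by_contra h1
  exact h ((Core.prime_dvd_card_of_isPGroup (Core.pCore_isPGroup p) h1).trans (card_subgroup_dvd_card _))

theorem fit (ho : Odd (Nat.card H)) (hs : Group.IsSolvable H) {q : ℕ} (hq : q = 3 ∨ q = 5)
    (h1 : ¬ q ^ 2 ∣ Nat.card H) (h2 : ∀ p : ℕ, p.Prime → p ≠ q → pCore p H = ⊥) : Nat.card H ≤ q := by
  have hqp : q.Prime := by rcases hq with rfl | rfl <;> norm_num
  haveI := Fact.mk hqp
  have h3 : fittingSubgroup H ≤ pCore q H := by
    rw [Core.fitting_eq_iSup_pCore]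
    refine iSup_le fun p => ?_
    by_cases h : (p : ℕ) = q
    · rw [h]
    · rw [h2 p p.2 h]; exact bot_le
  obtain ⟨k, hk⟩ := ((Core.pCore_isPGroup q).to_le h3).exists_card_eq
  have h4 : k ≤ 1 := by
    by_contra h
    exact h1 ((pow_dvd_pow q (by omega)).trans (hk ▸ card_subgroup_dvd_card _))
  have h5 : Nat.card (fittingSubgroup H) ∣ q := hk ▸ (pow_dvd_pow q h4).trans (pow_one q).dvd
  haveI := isCyclic_of_card_dvd_prime h5
  have h6 := PGrp.relIndex_centralizer_dvd_card_mulAut (R := fittingSubgroup H) (A := ⊤)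
    fun g _ => PGrp.mem_normalizer_of_normal _ g
  rw [IsCyclic.card_mulAut, relIndex_top_right] at h6
  have h7 : (centralizer (fittingSubgroup H : Set H)).index ∣ 2 ^ 2 := h6.trans (by
    rcases (Nat.dvd_prime hqp).mp h5 with h | h <;> rw [h]
    · simp
    · rcases hq with rfl | rfl <;> decide)
  have h8 := Nat.eq_one_of_dvd_coprimes ((Nat.coprime_two_left.mpr ho).pow_left 2) h7 (index_dvd_card _)
  rw [← card_top (G := H), ← index_eq_one.mp h8]
  exact (card_le_of_le Core.centralizer_fitting_le).trans (Nat.le_of_dvd hqp.pos h5)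

theorem card_dvd_GL (hF : ∀ a : H, (∀ x : E, a • x = x) → a = 1) (hcr : CR H E) {r d : ℕ} [Fact r.Prime]
    (hE : Nat.card E = r ^ d) : Nat.card H ∣ ∏ i : Fin d, (r ^ d - r ^ (i : ℕ)) := by
  obtain ⟨φ, hφ⟩ := PGrp.exists_autMatrix (V := E) inferInstance
    (fun v => sqfree hcr r d v (hE ▸ pow_card_eq_one')) hE
  have := PGrp.card_dvd_card_GL (φ.comp (MulDistribMulAction.toMulAut H E)) (hφ.comp
    ((injective_iff_map_eq_one _).mpr fun a ha => hF a fun x => MulEquiv.congr_fun ha x))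
  rwa [Matrix.card_GL_field, ZMod.card] at this

theorem small (hF : ∀ a : H, (∀ x : E, a • x = x) → a = 1) (hcr : CR H E) (ho : Odd (Nat.card H))
    (hs : Group.IsSolvable H) (nc : ∀ X : Subgroup E, Inv H X → IsCyclic X → X = ⊥) :
    (Nat.card E = 3 ^ 2 → Nat.card H = 1) ∧ (Nat.card E = 5 ^ 2 → Nat.card H ≤ 3) ∧
      (Nat.card E = 7 ^ 2 → Nat.card H ≤ 63) ∧ (Nat.card E = 3 ^ 4 → Nat.card H ≤ 5) := by
  haveI : Fact (Nat.Prime 5) := ⟨by norm_num⟩
  haveI : Fact (Nat.Prime 7) := ⟨by norm_num⟩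
  haveI : Fact (Nat.Prime 13) := ⟨by norm_num⟩
  have od : ∀ k m, Nat.card H ∣ 2 ^ k * m → Nat.card H ∣ m := fun k m h =>
    ((Nat.coprime_two_right.mpr ho).pow_right k).dvd_of_dvd_mul_left h
  refine ⟨fun h => ?_, fun h => ?_, fun h => ?_, fun h => ?_⟩
  · have h1 := od 4 (3 ^ 1) (card_dvd_GL hF hcr h)
    have h2 := noP hF hcr (IsPGroup.of_card h)
    rw [Core.pCore_eq_top_iff.mpr (IsPGroup.of_card_dvd_pow h1)] at h2
    rw [← card_top, h2, card_bot]
  · have h1 := od 5 15 (card_dvd_GL hF hcr h)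
    refine fit ho hs (Or.inl rfl) (fun h2 => absurd (h2.trans h1) (by norm_num)) fun p hp h3 => ?_
    haveI := Fact.mk hp
    by_cases h4 : p = 5
    · subst h4
      exact noP hF hcr (IsPGroup.of_card h)
    · refine pc_bot fun h5 => ?_
      rcases (Nat.Prime.dvd_mul hp (m := 3) (n := 5)).mp (h5.trans h1) with h | h
      · exact h3 ((Nat.prime_dvd_prime_iff_eq hp (by norm_num)).mp h)
      · exact h4 ((Nat.prime_dvd_prime_iff_eq hp (by norm_num)).mp h)
  · exact Nat.le_of_dvd (by norm_num) (od 5 63 (card_dvd_GL hF hcr h))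
  · have h1 := od 9 (3 ^ 6 * (5 * 13)) (card_dvd_GL hF hcr h)
    refine fit ho hs (Or.inr rfl) (fun h2 => absurd (h2.trans h1) (by norm_num)) fun p hp h3 => ?_
    haveI := Fact.mk hp
    by_cases h4 : p = 3
    · subst h4
      exact noP hF hcr (IsPGroup.of_card h)
    by_cases h6 : p = 13
    · subst h6
      have h7 := (Core.pCore_isPGroup (G := H) 13).card_modEq_card_fixedPoints E
      have h8 : Nat.card (MulAction.fixedPoints (pCore 13 H) E) = Nat.card (fx E (pCore 13 H)) :=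
        Nat.card_congr (Equiv.subtypeEquivRight fun x => ⟨fun hx a ha => hx ⟨a, ha⟩, fun hx a => hx a a.2⟩)
      obtain ⟨k, hk, h9⟩ := (Nat.dvd_prime_pow Nat.prime_three).mp (h ▸ card_subgroup_dvd_card (fx E (pCore 13 H)))
      rw [h8, h, h9] at h7
      interval_cases k
      · exact absurd h7 (by decide)
      · rw [nc _ (fx_inv _) (isCyclic_of_prime_card (p := 3) h9), card_bot] at h9
        exact absurd h9 (by norm_num)
      · exact absurd h7 (by decide)
      · exact absurd h7 (by decide)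
      · exact eq_bot_iff.mpr fun a ha => hF a fun x => ((card_eq_iff_eq_top _).mp (h9.trans h.symm)).ge (mem_top x) a ha
    · refine pc_bot fun h5 => ?_
      rcases (Nat.Prime.dvd_mul hp).mp (h5.trans h1) with h | h
      · exact h4 ((Nat.prime_dvd_prime_iff_eq hp (by norm_num)).mp (hp.dvd_of_dvd_pow h))
      rcases (Nat.Prime.dvd_mul hp (m := 5) (n := 13)).mp h with h | h
      · exact h3 ((Nat.prime_dvd_prime_iff_eq hp (by norm_num)).mp h)
      · exact h6 ((Nat.prime_dvd_prime_iff_eq hp (by norm_num)).mp h)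

theorem num1 {r d u y n m : ℕ} (hr : 1 ≤ r) (hd : 1 ≤ d) (hy : y < (u + 1) ^ (d * (r - 1)))
    (hn : (u + 1) ^ (d * r) ≤ n) (hm : m ^ r ≤ n) : u * y + y * m < 2 * n := by
  obtain ⟨r, rfl⟩ : ∃ k, r = k + 1 := ⟨r - 1, by omega⟩
  rw [Nat.add_sub_cancel] at hy
  have h1 : u * y < n := by
    refine lt_of_lt_of_le ?_ (le_trans (Nat.pow_le_pow_right u.succ_pos (show d * r + 1 ≤ d * (r + 1) by nlinarith)) hn)
    rw [pow_succ]
    nlinarith
  have h2 : y * m ≤ n := by
    refine (Nat.pow_le_pow_iff_left r.succ_ne_zero).mp ?_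
    rw [mul_pow, pow_succ n]
    refine Nat.mul_le_mul ?_ hm
    calc y ^ (r + 1) ≤ ((u + 1) ^ (d * r)) ^ (r + 1) := Nat.pow_le_pow_left hy.le _
      _ = ((u + 1) ^ (d * (r + 1))) ^ r := by rw [← pow_mul, ← pow_mul]; congr 1; ring
      _ ≤ n ^ r := Nat.pow_le_pow_left hn _
  omega

theorem num2 (e : ℕ) (he : 30 ≤ e) : e ^ 6 ≤ 2 ^ e := by
  induction e, he using Nat.le_induction with
  | base => norm_num
  | succ k hk ih =>
    have : (k + 1) ^ 6 ≤ 2 * k ^ 6 := by
      have h1 : (30 * (k + 1)) ^ 6 ≤ (31 * k) ^ 6 := Nat.pow_le_pow_left (by omega) 6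
      rw [mul_pow, mul_pow] at h1
      omega
    rw [pow_succ 2]
    omega

theorem num3 {e u h : ℕ} (ho : Odd e) (h5 : 5 ≤ e) (hu : ∀ p : ℕ, p.Prime → p ∣ e → p ∣ u) (hu0 : 0 < u)
    (h1 : h ≤ e ^ 4) (h2 : e = 5 → h ≤ 3) (h3 : e = 7 → h ≤ 63) (h4 : e = 9 → h ≤ 5) :
    h * e ^ 2 * u < (u + 1) ^ (e / e.minFac * (e.minFac - 1)) := by
  have key : ∀ u₀ k, u₀ ≤ u → h * e ^ 2 ≤ (u₀ + 1) ^ k → k + 1 ≤ e / e.minFac * (e.minFac - 1) →
      h * e ^ 2 * u < (u + 1) ^ (e / e.minFac * (e.minFac - 1)) := fun u₀ k a b c => by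
    refine lt_of_lt_of_le ?_ (Nat.pow_le_pow_right u.succ_pos c)
    have := Nat.pow_le_pow_left (Nat.succ_le_succ a) k
    have h0 : 0 < (u + 1) ^ k := by positivity
    calc h * e ^ 2 * u ≤ (u + 1) ^ k * u := Nat.mul_le_mul_right _ (b.trans this)
      _ < (u + 1) ^ k * (u + 1) := Nat.mul_lt_mul_of_pos_left (Nat.lt_succ_self u) h0
  have h6 : h * e ^ 2 ≤ e ^ 6 := by
    rw [show e ^ 6 = e ^ 4 * e ^ 2 by ring]
    exact Nat.mul_le_mul_right _ h1
  have lp : ∀ p : ℕ, p.Prime → p ∣ e → p ≤ u := fun p a b => Nat.le_of_dvd hu0 (hu p a b)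
  by_cases h7 : 30 ≤ e
  · have hp := Nat.minFac_prime (show e ≠ 1 by omega)
    have h8 : 3 ≤ e.minFac := by
      have := hp.two_le
      have : e.minFac ≠ 2 := fun h => (Nat.not_even_iff_odd.mpr ho) (even_iff_two_dvd.mpr (h ▸ e.minFac_dvd))
      omega
    refine key 3 (e / 2 + 1) (h8.trans (lp _ hp e.minFac_dvd)) (h6.trans ((num2 e h7).trans ?_)) ?_
    · rw [show 3 + 1 = 2 ^ 2 by norm_num, ← pow_mul]
      exact Nat.pow_le_pow_right two_pos (by omega)
    · obtain ⟨d, hd⟩ := e.minFac_dvd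
      obtain ⟨r, hr⟩ : ∃ r, e.minFac = r + 1 := ⟨e.minFac - 1, by omega⟩
      rw [hr] at hd h8 ⊢
      rw [Nat.div_eq_of_eq_mul_right r.succ_pos hd, Nat.add_sub_cancel]
      have : 2 * d ≤ d * r := by nlinarith
      have : e = d * r + d := by rw [hd]; ring
      omega
  have h8 : e = 15 → 15 ≤ u := fun h => Nat.le_of_dvd hu0 ((show Nat.Coprime 3 5 by norm_num).mul_dvd_of_dvd_of_dvd
    (hu 3 (by norm_num) (by rw [h]; norm_num)) (hu 5 (by norm_num) (by rw [h]; norm_num)))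
  obtain ⟨j, rfl⟩ := ho
  have h9 : j < 15 := by omega
  have h10 : 2 ≤ j := by omega
  interval_cases j
  · exact key 5 3 (lp 5 (by norm_num) (by norm_num)) (by have := h2 rfl; omega) (by norm_num)
  · exact key 7 5 (lp 7 (by norm_num) (by norm_num)) (by have := h3 rfl; omega) (by norm_num)
  · exact key 3 5 (lp 3 (by norm_num) (by norm_num)) (by have := h4 rfl; omega) (by norm_num)
  · exact key 11 9 (lp 11 (by norm_num) (by norm_num)) (h6.trans (by norm_num)) (by norm_num)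
  · exact key 13 9 (lp 13 (by norm_num) (by norm_num)) (h6.trans (by norm_num)) (by norm_num)
  · exact key 15 9 (h8 rfl) (h6.trans (by norm_num)) (by norm_num)
  · exact key 17 9 (lp 17 (by norm_num) (by norm_num)) (h6.trans (by norm_num)) (by norm_num)
  · exact key 19 9 (lp 19 (by norm_num) (by norm_num)) (h6.trans (by norm_num)) (by norm_num)
  · exact key 7 13 (lp 7 (by norm_num) (by norm_num)) (h6.trans (by norm_num)) (by norm_num)
  · exact key 23 9 (lp 23 (by norm_num) (by norm_num)) (h6.trans (by norm_num)) (by norm_num)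
  · exact key 5 19 (lp 5 (by norm_num) (by norm_num)) (h6.trans (by norm_num)) (by norm_num)
  · exact key 3 17 (lp 3 (by norm_num) (by norm_num)) (h6.trans (by norm_num)) (by norm_num)
  · exact key 29 9 (lp 29 (by norm_num) (by norm_num)) (h6.trans (by norm_num)) (by norm_num)

theorem count (ho : Odd (Nat.card H)) (hn : ¬ Bs H E) (C : Subgroup H) (m : ℕ)
    (h : ∀ g : H, g ≠ 1 → Nat.card (fe E g) ^ 2 ≤ Nat.card E * (1 + if g ∈ C then m else 0)) :
    2 * Nat.card E ≤ Nat.card H + Nat.card C * m := by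
  haveI := Fintype.ofFinite H
  haveI := Fintype.ofFinite E
  have h1 := Finset.sum_card_bipartiteAbove_eq_sum_card_bipartiteBelow (s := Finset.univ) (t := Finset.univ)
    (fun (g : H) (x : E × E) => g • x = x)
  have h2 : ∀ g : H, (Finset.univ.bipartiteAbove (fun (g : H) (x : E × E) => g • x = x) g).card =
      Nat.card (fe E g) ^ 2 := fun g => by
    rw [sq, ← Nat.card_prod, ← Nat.card_eq_finsetCard]
    exact Nat.card_congr ⟨fun x => (⟨x.1.1, congrArg Prod.fst (Finset.mem_filter.mp x.2).2⟩,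
      ⟨x.1.2, congrArg Prod.snd (Finset.mem_filter.mp x.2).2⟩),
      fun x => ⟨(x.1.1, x.2.1), Finset.mem_filter.mpr ⟨Finset.mem_univ _, Prod.ext x.1.2 x.2.2⟩⟩,
      fun _ => rfl, fun _ => rfl⟩
  have h3 : ∀ x : E × E, 3 ≤ (Finset.univ.bipartiteBelow (fun (g : H) (x : E × E) => g • x = x) x).card :=
    fun x => by
      have e : (Finset.univ.bipartiteBelow (fun (g : H) (x : E × E) => g • x = x) x).card =
          Nat.card (MulAction.stabilizer H x) := by
        rw [← Nat.card_eq_finsetCard]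
        exact Nat.card_congr (Equiv.subtypeEquivRight fun g => by simp)
      have h4 : Nat.card (MulAction.stabilizer H x) ≠ 1 := fun h4 => hn ⟨x.1, x.2, fun a h5 h6 y => by
        rw [show a = 1 from mem_bot.mp (card_eq_one.mp h4 ▸ (Prod.ext h5 h6 : a ∈ MulAction.stabilizer H x)), one_smul]⟩
      obtain ⟨k, hk⟩ := ho.of_dvd_nat (card_subgroup_dvd_card (MulAction.stabilizer H x))
      omega
  have h4 := Finset.sum_le_sum (s := Finset.univ) fun x _ => h3 x
  rw [← h1, Finset.sum_congr rfl fun g _ => h2 g, Finset.sum_const, Finset.card_univ, Fintype.card_prod,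
    ← Nat.card_eq_fintype_card, smul_eq_mul, ← Finset.add_sum_erase _ _ (Finset.mem_univ 1)] at h4
  have h5 := (Finset.sum_le_sum (s := Finset.univ.erase 1) fun g hg => h g (Finset.ne_of_mem_erase hg)).trans
    (Finset.sum_le_sum_of_subset (Finset.erase_subset _ _))
  rw [← Finset.mul_sum, Finset.sum_add_distrib, Finset.sum_ite, Finset.sum_const, Finset.sum_const,
    Finset.sum_const_zero, Finset.card_univ, ← Nat.card_eq_fintype_card, ← Nat.subtype_card (p := (· ∈ C)) _ (fun x => by simp),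
    smul_eq_mul, smul_eq_mul, mul_one, add_zero] at h5
  have h6 := Nat.pow_le_pow_left (card_le_card_group (fe E (1 : H))) 2
  refine Nat.le_of_mul_le_mul_left ?_ (Nat.card_pos (α := E))
  nlinarith

end Cfsg.Agent.H23.B2
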