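import Mathlib
import Cfsg.Agent.H23.B2d

set_option autoImplicit false

namespace Cfsg.Agent.H23.B2

open Subgroup RegO
open scoped commutatorElement _root_.Classical

variable {M : Type*} [Group M] [Finite M]

theorem perp_le {U T D : Subgroup M} (hU : IsCyclic U) (hT : T ≤ centralizer U) (hTT : ⁅T, T⁆ ≤ U)
    (hDT : ∀ d ∈ D, ∀ t ∈ T, ⁅d, t⁆ ∈ U) (hD : D ≤ centralizer U) (n : ℕ) : ∀ B : Subgroup M, Nat.card B = n →
    U ≤ B → B ≤ T → (centralizer (B : Set M)).relIndex D ≤ U.relIndex B := by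
  induction n using Nat.strong_induction_on with
  | _ n ih =>
  intro B hn h1 h2
  rcases h1.eq_or_lt with rfl | h3
  · rw [relIndex_eq_one.mpr hD, relIndex_self]
  obtain ⟨K, ⟨hK1, hK2⟩, hmax⟩ := Set.Finite.exists_maximal (Set.toFinite {K | U ≤ K ∧ K < B}) ⟨U, le_rfl, h3⟩
  obtain ⟨b, hb, hbK⟩ := SetLike.exists_of_lt hK2
  have hB : K ⊔ zpowers b = B := by
    by_contra h
    exact hbK (hmax ⟨hK1.trans le_sup_left, lt_of_le_of_ne (sup_le hK2.le (zpowers_le.mpr hb)) h⟩ le_sup_left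
      (mem_sup_right (mem_zpowers b)))
  have hbm : b ^ K.relIndex B ∈ K := PGrp.pow_mem_of_relIndex_eq (PGrp.le_normalizer_of_commutator_le hK1
    ((commutator_mono (hK2.le.trans h2) h2).trans hTT)) rfl hb
  have h4 := PGrp.relIndex_centralizer_singleton_le (H := centralizer K ⊓ D) (x := b)
    (W := Core.powKer U inferInstance (K.relIndex B)) fun g hg => Core.mem_powKer.mpr ⟨hDT g hg.2 b (h2 hb), by
      rw [← PGrp.commutator_pow_right_of_commute (hT (h2 hb) _ (hDT g hg.2 b (h2 hb))).symm]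
      exact commutatorElement_eq_one_iff_mul_comm.mpr (hg.1 _ hbm).symm⟩
  have h5 : Nat.card (Core.powKer U inferInstance (K.relIndex B)) ≤ K.relIndex B := by
    haveI := Subgroup.isCyclic_of_le (show Core.powKer U inferInstance (K.relIndex B) ≤ U from
      fun x hx => (Core.mem_powKer.mp hx).1)
    rw [← IsCyclic.exponent_eq_card]
    exact Nat.le_of_dvd (Nat.pos_of_ne_zero index_ne_zero_of_finite)
      (Monoid.exponent_dvd_of_forall_pow_eq_one fun x => Subtype.ext (Core.mem_powKer.mp x.2).2)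
  have h6 : centralizer (B : Set M) ⊓ D = centralizer {b} ⊓ (centralizer K ⊓ D) := by
    refine le_antisymm (fun g hg => ⟨mem_centralizer_singleton_iff.mpr (hg.1 b hb).symm,
      fun a ha => hg.1 a (hK2.le ha), hg.2⟩) fun g hg => ⟨fun a ha => ?_, hg.2.2⟩
    have : K ⊔ zpowers b ≤ centralizer {g} := sup_le (fun b hb => mem_centralizer_singleton_iff.mpr (hg.2.1 b hb))
      (zpowers_le.mpr (mem_centralizer_singleton_iff.mpr (mem_centralizer_singleton_iff.mp hg.1).symm))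
    exact mem_centralizer_singleton_iff.mp (this (hB.ge ha))
  rw [← inf_relIndex_right, h6, ← relIndex_mul_relIndex _ (centralizer K ⊓ D) _ inf_le_right inf_le_right,
    inf_relIndex_right, inf_relIndex_right, ← relIndex_mul_relIndex _ K _ hK1 hK2.le, mul_comm]
  exact Nat.mul_le_mul (ih _ (hn ▸ PGrp.card_lt_of_lt hK2) K rfl hK1 (hK2.le.trans h2)) (h4.trans h5)

theorem sup_eq_of_le {B D L : Subgroup M} [L.Normal] [D.Normal] (h : B ≤ D) (h1 : L.relIndex D ≤ L.relIndex B) :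
    B ⊔ (D ⊓ L) = D := by
  have h2 := PGrp.relIndex_sup_of_le_normalizer (N := D ⊓ L) (H := B) fun g _ => PGrp.mem_normalizer_of_normal _ g
  have h3 := relIndex_mul_relIndex (D ⊓ L) (D ⊓ L ⊔ B) D le_sup_left (sup_le inf_le_left h)
  rw [h2, inf_relIndex_left, ← inf_relIndex_right (D ⊓ L) B, inf_right_comm, inf_eq_right.mpr h,
    inf_relIndex_left] at h3
  have h4 : L.relIndex B ≠ 0 := index_ne_zero_of_finite
  have h5 : (D ⊓ L ⊔ B).relIndex D ≠ 0 := index_ne_zero_of_finite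
  have h6 : (D ⊓ L ⊔ B).relIndex D = 1 := by
    have := Nat.le_of_mul_le_mul_left (h3.le.trans (h1.trans (mul_one _).ge)) (Nat.pos_of_ne_zero h4)
    exact le_antisymm this (Nat.pos_of_ne_zero h5)
  exact le_antisymm (sup_le h inf_le_left) ((relIndex_eq_one.mp h6).trans (sup_comm _ _).le)

theorem struct [Nontrivial M] (hs : Group.IsSolvable M)
    (hcyc : ∀ B : Subgroup M, B.Normal → IsMulCommutative B → IsCyclic B) :
    ∃ U T : Subgroup M, U.Normal ∧ T.Normal ∧ U ≠ ⊥ ∧ IsCyclic U ∧ U ≤ T ∧ T ≤ centralizer U ∧ ⁅T, T⁆ ≤ U ∧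
      (∀ B : Subgroup M, B.Normal → IsMulCommutative B → U ≤ B → B = U) ∧
      (∀ c ∈ centralizer (U : Set M), (∀ t ∈ T, ⁅c, t⁆ ∈ U) → c ∈ T) ∧
      ∀ B : Subgroup M, B.Normal → U ≤ B → B ≤ T → B ⊔ (T ⊓ centralizer B) = T ∧ B ⊓ centralizer B = U := by
  obtain ⟨N, q, hN, hN1, -, -, hE, -⟩ := Core.exists_minimal_normal_elementary_le (⊤ : Subgroup M)
    inferInstance top_ne_bot
  obtain ⟨U, hNU, ⟨hU, hUc⟩, hUm⟩ := Set.Finite.exists_le_maximal
    (Set.toFinite {K : Subgroup M | K.Normal ∧ IsMulCommutative K}) (a := N) ⟨hN, hE.1⟩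
  have hab : ∀ B : Subgroup M, B.Normal → IsMulCommutative B → U ≤ B → B = U := fun B h1 h2 h3 =>
    le_antisymm (hUm ⟨h1, h2⟩ h3) h3
  obtain ⟨T, hUT, ⟨hT, hTC, hTT⟩, hTm⟩ := Set.Finite.exists_le_maximal
    (Set.toFinite {K : Subgroup M | K.Normal ∧ K ≤ centralizer U ∧ ⁅K, K⁆ ≤ U}) (a := U)
    ⟨hU, le_centralizer U, commutator_le_left _ _⟩
  have hZ : ∀ B : Subgroup M, B.Normal → U ≤ B → B ≤ T → B ⊓ centralizer B = U := fun B h1 h2 h3 =>
    hab _ inferInstance ⟨⟨fun a b => Subtype.ext (b.2.2 a a.2.1)⟩⟩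
      (le_inf h2 (le_centralizer_iff.mp (h3.trans hTC)))
  have hp : ∀ B D : Subgroup M, B.Normal → D.Normal → U ≤ B → B ≤ T → B ≤ D → (∀ d ∈ D, ∀ t ∈ T, ⁅d, t⁆ ∈ U) →
      D ≤ centralizer U → B ⊔ (D ⊓ centralizer B) = D := fun B D h1 h2 h3 h4 h5 h6 h7 =>
    sup_eq_of_le h5 (by
      rw [← inf_relIndex_left (H := B), hZ B h1 h3 h4]
      exact perp_le (hcyc U hU hUc) hTC hTT h6 h7 _ B rfl h3 h4)
  have hTT' : ∀ d ∈ T, ∀ t ∈ T, ⁅d, t⁆ ∈ U := commutator_le.mp hTT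
  refine ⟨U, T, hU, hT, fun h => hN1 (le_bot_iff.mp (h ▸ hNU)), hcyc U hU hUc, hUT, hTC, hTT, hab, fun c h1 h2 => ?_,
    fun B h1 h2 h3 => ⟨hp B T h1 hT h2 h3 h3 hTT' hTC, hZ B h1 h2 h3⟩⟩
  let π := QuotientGroup.mk' U
  haveI : (T.map π).Normal := hT.map π (QuotientGroup.mk'_surjective U)
  have mD : ∀ c, c ∈ (centralizer (T.map π : Set (M ⧸ U))).comap π ↔ ∀ t ∈ T, ⁅c, t⁆ ∈ U := fun c => by
    refine ⟨fun h t ht => (QuotientGroup.eq_one_iff _).mp ?_, ?_⟩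
    · rw [← QuotientGroup.mk'_apply, map_commutatorElement, commutatorElement_eq_one_iff_mul_comm]
      exact (h _ ⟨t, ht, rfl⟩).symm
    · rintro h _ ⟨t, ht, rfl⟩
      have := (QuotientGroup.eq_one_iff _).mpr (h t ht)
      rw [← QuotientGroup.mk'_apply, map_commutatorElement, commutatorElement_eq_one_iff_mul_comm] at this
      exact this.symm
  have h3 := hp T (centralizer U ⊓ (centralizer (T.map π : Set (M ⧸ U))).comap π) hT inferInstance hUT le_rfl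
    (le_inf hTC fun t ht => (mD t).mpr (hTT' t ht)) (fun d hd => (mD d).mp hd.2) inf_le_left
  refine (h3.ge.trans (sup_le le_rfl (inf_le_right.trans ?_))) ⟨h1, (mD c).mpr h2⟩
  by_contra h4
  obtain ⟨K, ⟨k1, k2, k3⟩, hmin⟩ := Set.Finite.exists_minimal
    (Set.toFinite {K : Subgroup M | K.Normal ∧ K ≤ centralizer T ∧ ¬ K ≤ T}) ⟨_, inferInstance, le_rfl, h4⟩
  have k4 := Group.IsSolvable.commutator_lt_of_ne_bot (H := K) fun h => k3 (h ▸ bot_le)
  have k5 : ⁅K, K⁆ ≤ U := by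
    rw [← hZ T hT hUT le_rfl]
    refine le_inf ?_ (k4.le.trans k2)
    by_contra h
    exact k4.not_ge (hmin ⟨inferInstance, k4.le.trans k2, h⟩ k4.le)
  refine k3 (le_sup_right.trans (hTm (y := T ⊔ K) ⟨inferInstance, sup_le hTC (k2.trans (centralizer_le hUT)), ?_⟩
    le_sup_left))
  rw [commutator_le]
  intro a₀ ha₀ b₀ hb₀
  obtain ⟨a, ha, a', ha', rfl⟩ := (PGrp.mem_sup_of_le_normalizer fun g _ => PGrp.mem_normalizer_of_normal T g).mp ha₀
  obtain ⟨b, hb, b', hb', rfl⟩ := (PGrp.mem_sup_of_le_normalizer fun g _ => PGrp.mem_normalizer_of_normal T g).mp hb₀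
  have : ⁅a * a', b * b'⁆ = a * b * ⁅a', b'⁆ * (a * b)⁻¹ * ⁅a, b⁆ := by
    rw [show ⁅a * a', b * b'⁆ = a * (a' * b) * b' * a'⁻¹ * (b' * a)⁻¹ * b⁻¹ by group, ← k2 ha' b hb, ← k2 hb' a ha]
    group
  exact this ▸ mul_mem (hU.conj_mem _ (k5 (commutator_mem_commutator ha' hb')) _) (hTT' a ha b hb)

theorem split (ho : Odd (Nat.card M)) {U T : Subgroup M} [hU : U.Normal] [hT : T.Normal] (hUc : IsCyclic U)
    (hUT : U ≤ T) (hTC : T ≤ centralizer U) (hTT : ⁅T, T⁆ ≤ U)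
    (hab : ∀ B : Subgroup M, B.Normal → IsMulCommutative B → U ≤ B → B = U)
    (hp : ∀ B : Subgroup M, B.Normal → U ≤ B → B ≤ T → B ⊔ (T ⊓ centralizer B) = T ∧ B ⊓ centralizer B = U)
    (hsq : ∀ x ∈ T, ∀ r k : ℕ, x ^ r ^ k = 1 → x ^ r ∈ U) (x : T) (r k : ℕ) (hr : r.Prime)
    (hx : orderOf x = r ^ k) : ∃ u ∈ U.subgroupOf T, (x * u) ^ r = 1 := by
  haveI := Fact.mk hr
  rcases k with _ | k
  · exact ⟨1, one_mem _, by rw [orderOf_eq_one_iff.mp hx, one_mul, one_pow]⟩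
  have hro : Odd r := ho.of_dvd_nat (((dvd_pow_self r k.succ_ne_zero).trans
    (hx ▸ orderOf_dvd_natCard x)).trans (card_subgroup_dvd_card T))
  haveI : Group.IsNilpotent T := Core.nilpotent_of_commutator_le_centralizer (hTT.trans (le_centralizer_iff.mp hTC))
  let P := (pCore r T).map T.subtype
  have hPT : P ≤ T := map_subtype_le _
  have hP : IsPGroup r P := (Core.pCore_isPGroup r).map _
  have hxP : (x : M) ∈ P := mem_map_of_mem _ (Core.le_pCore_of_le_fitting (P := zpowers x)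
    (IsPGroup.of_card ((Nat.card_zpowers x).trans hx)) (le_top.trans (Core.fitting_eq_top_iff.mpr inferInstance).ge)
    (mem_zpowers x))
  have hPU : ∀ a ∈ P, a ^ r ∈ U := fun a ha => by
    obtain ⟨j, hj⟩ := hP ⟨a, ha⟩
    exact hsq a (hPT ha) r j (congrArg Subtype.val hj)
  have cU : ∀ u ∈ U, ∀ t ∈ T, u * t = t * u := fun u hu t ht => hTC ht u hu
  let f : P →* U := MonoidHom.mk' (fun a => ⟨a ^ r, hPU a a.2⟩) fun a b => Subtype.ext
    (PGrp.mul_pow_of_critical hro (H := P) (fun y hy g hg => (cU _ (hPU y hy) g (hPT hg)).symm)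
      (commutator_eq_bot_iff_le_centralizer.mpr (((commutator_mono hPT hPT).trans hTT).trans
        fun u hu g hg => (cU u hu g (hPT hg)).symm)) a.2 b.2)
  let Ω := f.ker.map P.subtype
  haveI : Ω.Normal := ⟨by
    rintro _ ⟨a, ha, rfl⟩ g
    refine ⟨⟨_, (inferInstance : P.Normal).conj_mem a a.2 g⟩, Subtype.ext ?_, rfl⟩
    change (g * a * g⁻¹) ^ r = 1
    rw [conj_pow, show (a : M) ^ r = 1 from congrArg Subtype.val ha, mul_one, mul_inv_cancel]⟩
  obtain ⟨h1, h2⟩ := hp (U ⊔ Ω) inferInstance le_sup_left (sup_le hUT ((map_subtype_le _).trans hPT))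
  let D := P ⊓ centralizer ((U ⊔ Ω : Subgroup M) : Set M)
  have h3 : IsMulCommutative D := (f.comp (inclusion inf_le_left)).isMulCommutative_of_isCyclic_of_ker_le_center
    fun d hd => mem_center_iff.mpr fun g => Subtype.ext (cU _ (h2.le
      ⟨mem_sup_right ⟨_, hd, rfl⟩, d.2.2⟩) _ (hPT g.2.1)).symm
  have h4 : D ≤ U := le_sup_right.trans (hab (U ⊔ D) inferInstance (Core.isMulCommutative_of_forall fun a₀ ha₀ b₀ hb₀ => by
    obtain ⟨a, ha, a', ha', rfl⟩ := (PGrp.mem_sup_of_le_normalizer fun g _ => PGrp.mem_normalizer_of_normal U g).mp ha₀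
    obtain ⟨b, hb, b', hb', rfl⟩ := (PGrp.mem_sup_of_le_normalizer fun g _ => PGrp.mem_normalizer_of_normal U g).mp hb₀
    rw [mul_assoc, ← mul_assoc a', ← cU b hb a' (hPT ha'.1), mul_assoc, Core.comm_of_isMulCommutative h3 ha' hb',
      ← mul_assoc, cU a ha b (hUT hb), mul_assoc, ← mul_assoc a, cU a ha b' (hPT hb'.1)]
    simp only [mul_assoc]) le_sup_left).le
  obtain ⟨b, hb, d, hd, e⟩ := (PGrp.mem_sup_of_le_normalizer fun g _ => PGrp.mem_normalizer_of_normal _ g).mp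
    (h1.ge x.2)
  obtain ⟨u, hu, _, ⟨w, hw, rfl⟩, rfl⟩ := (PGrp.mem_sup_of_le_normalizer
    fun g _ => PGrp.mem_normalizer_of_normal U g).mp hb
  have e' : (w : M)⁻¹ * x = u * d := by
    rw [← e, coe_subtype, cU u hu _ (hPT w.2)]
    simp [mul_assoc]
  have h5 : (w : M)⁻¹ * x ∈ U := h4 ⟨P.mul_mem (P.inv_mem w.2) hxP, e' ▸ Subgroup.mul_mem _
    ((h2.ge hu).2) hd.2⟩
  refine ⟨⟨_, hUT (inv_mem h5)⟩, inv_mem h5, Subtype.ext ?_⟩
  change ((x : M) * ((w : M)⁻¹ * x)⁻¹) ^ r = 1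
  rw [mul_inv_rev, inv_inv, mul_inv_cancel_left]
  exact congrArg Subtype.val hw

end Cfsg.Agent.H23.B2
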