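import Mathlib
import Cfsg.Agent.H23.B2e
import Cfsg.Agent.H23.B2b

set_option autoImplicit false

namespace Cfsg.Agent.H23.B2

open Subgroup RegO
open scoped commutatorElement _root_.Classical

universe u

section
variable {M V : Type*} [Group M] [Finite M] [CommGroup V] [Finite V] [MulDistribMulAction M V]

theorem cop (hf : ∀ N : Subgroup M, N.Normal → N ≠ ⊥ → fx V N = ⊥) (N : Subgroup M) [N.Normal]
    (hN : Group.IsNilpotent N) : (Nat.card V).Coprime (Nat.card N) := by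
  refine Nat.coprime_of_dvd fun q hq h1 h2 => ?_
  haveI := Fact.mk hq
  obtain ⟨P⟩ : Nonempty (Sylow q N) := inferInstance
  refine fx_ne_bot ((Core.pCore_isPGroup (G := N) q).map N.subtype) h1 (hf _ inferInstance fun h => ?_)
  rw [map_eq_bot_iff_of_injective _ N.subtype_injective, Core.pCore_eq_sylow_of_nilpotent P] at h
  exact P.not_dvd_index (by rwa [h, index_bot])

theorem two (g x : M) : Nat.card (fe V g) ^ 2 ≤ Nat.card V * Nat.card (fe V ⁅g⁻¹, x⁆) := by
  have h1 := PGrp.card_sup_mul_card_inf (N := fe V g) (H := fe V (x * g * x⁻¹))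
    fun v _ => PGrp.mem_normalizer_of_normal _ v
  have h2 : Nat.card (fe V g) ≤ Nat.card (fe V (x * g * x⁻¹)) := Nat.card_le_card_of_injective
    (fun v => ⟨x • (v : V), by rw [mem_fe, smul_smul, inv_mul_cancel_right, mul_smul, mem_fe.mp v.2]⟩)
    fun a b e => Subtype.ext (smul_left_cancel x (congrArg Subtype.val e))
  rw [sq]
  refine (Nat.mul_le_mul_left _ h2).trans (h1 ▸ Nat.mul_le_mul (card_le_card_group _) (card_le_of_le fun v hv => ?_))
  rw [mem_fe, show ⁅g⁻¹, x⁆ = g⁻¹ * (x * g * x⁻¹) by group, mul_smul, mem_fe.mp hv.2, inv_smul_eq_iff,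
    mem_fe.mp hv.1]

theorem card_le_sq (hF : ∀ a : M, (∀ x : V, a • x = x) → a = 1) (h : Bs M V) : Nat.card M ≤ Nat.card V ^ 2 := by
  obtain ⟨v, w, h⟩ := h
  rw [sq, ← Nat.card_prod]
  exact Nat.card_le_card_of_injective (fun a => (a • v, a • w)) fun a b e => by
    rw [← inv_mul_eq_one]
    exact hF _ (h _ (by rw [mul_smul, inv_smul_eq_iff]; exact (congrArg Prod.fst e).symm)
      (by rw [mul_smul, inv_smul_eq_iff]; exact (congrArg Prod.snd e).symm))

end

variable {M V : Type u} [Group M] [Finite M] [CommGroup V] [Finite V] [MulDistribMulAction M V]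

theorem top (ih : IH.{u} (Nat.card M)) (ho : Odd (Nat.card M)) (hs : Group.IsSolvable M)
    {U T : Subgroup M} [hU : U.Normal] [hT : T.Normal] (hU1 : U ≠ ⊥) (hUT : U ≤ T) (hTC : T ≤ centralizer U)
    (hTT : ⁅T, T⁆ ≤ U) (hab : ∀ B : Subgroup M, B.Normal → IsMulCommutative B → U ≤ B → B = U)
    (hD : ∀ c ∈ centralizer (U : Set M), (∀ t ∈ T, ⁅c, t⁆ ∈ U) → c ∈ T)
    (hp : ∀ B : Subgroup M, B.Normal → U ≤ B → B ≤ T → B ⊔ (T ⊓ centralizer B) = T ∧ B ⊓ centralizer B = U) :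
    (∀ x ∈ T, ∀ r k : ℕ, x ^ r ^ k = 1 → x ^ r ∈ U) ∧ ∃ h, Nat.card (centralizer (U : Set M)) ≤ h * Nat.card T ∧
      h ≤ U.relIndex T ^ 2 ∧ (U.relIndex T = 3 ^ 2 → h = 1) ∧ (U.relIndex T = 5 ^ 2 → h ≤ 3) ∧
      (U.relIndex T = 7 ^ 2 → h ≤ 63) ∧ (U.relIndex T = 3 ^ 4 → h ≤ 5) := by
  let π := QuotientGroup.mk' U
  have hπ : ∀ x, π x = 1 ↔ x ∈ U := fun x => QuotientGroup.eq_one_iff x
  let E := T.map π
  haveI : E.Normal := hT.map π (QuotientGroup.mk'_surjective U)
  letI : CommGroup E := { (inferInstance : Group E) with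
    mul_comm := by
      rintro ⟨_, a, ha, rfl⟩ ⟨_, b, hb, rfl⟩
      refine Subtype.ext (commutatorElement_eq_one_iff_mul_comm.mp ?_)
      exact (map_commutatorElement π a b).symm.trans ((hπ _).mpr (hTT (commutator_mem_commutator ha hb))) }
  letI : MulDistribMulAction M E := MulDistribMulAction.compHom E ((MulAut.conjNormal (H := E)).comp π)
  have hsm : ∀ (a : M) (x : E), ((a • x : E) : M ⧸ U) = π a * x * (π a)⁻¹ := fun _ _ => rfl
  have hE : Nat.card E = U.relIndex T := by rw [← relIndex_ker, QuotientGroup.ker_mk']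
  have pre : ∀ X : Subgroup E, Inv M X → ∃ B : Subgroup M, B.Normal ∧ U ≤ B ∧ B ≤ T ∧
      ∀ t (ht : t ∈ T), t ∈ B ↔ (⟨π t, t, ht, rfl⟩ : E) ∈ X := fun X hX => by
    refine ⟨T ⊓ (X.map E.subtype).comap π, ⟨fun x hx g => ⟨hT.conj_mem x hx.1 g, ?_⟩⟩,
      le_inf hUT fun u hu => by rw [mem_comap, (hπ u).mpr hu]; exact one_mem _, inf_le_left,
      fun t ht => ⟨fun h => ?_, fun h => ⟨ht, _, h, rfl⟩⟩⟩
    · obtain ⟨y, hy, e⟩ := hx.2
      exact ⟨_, hX g y hy, by rw [coe_subtype, hsm, map_mul, map_mul, map_inv, ← e, coe_subtype]⟩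
    · obtain ⟨y, hy, e⟩ := h.2
      exact (Subtype.ext e : y = ⟨π t, t, ht, rfl⟩) ▸ hy
  have hcr : CR M E := fun X hX => by
    obtain ⟨B, h1, h2, h3, h4⟩ := pre X hX
    obtain ⟨h5, h6⟩ := hp B h1 h2 h3
    refine ⟨((T ⊓ centralizer B).map π).subgroupOf E, ?_, eq_bot_iff.mpr ?_, eq_top_iff.mpr ?_⟩
    · rintro a ⟨_, hx⟩ ⟨t, ht, rfl⟩
      exact ⟨_, (inferInstance : (T ⊓ centralizer (B : Set M)).Normal).conj_mem t ht a, by simp [hsm]⟩
    · rintro ⟨_, hx⟩ ⟨h7, t, ht, rfl⟩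
      exact Subtype.ext ((hπ t).mpr (h6.le ⟨(h4 t ht.1).mpr h7, ht.2⟩))
    · rintro ⟨_, t, ht, rfl⟩ -
      obtain ⟨b, hb, d, hd, rfl⟩ := (PGrp.mem_sup_of_le_normalizer
        fun g _ => PGrp.mem_normalizer_of_normal B g).mp (h5.ge ht)
      exact mem_sup.mpr ⟨_, (h4 b (h3 hb)).mp hb, ⟨π d, d, hd.1, rfl⟩, ⟨d, hd, rfl⟩, Subtype.ext (map_mul π b d).symm⟩
  refine ⟨fun x hx r k h => (hπ _).mp ?_, ?_⟩
  · rw [map_pow]
    exact congrArg Subtype.val (sqfree hcr r k ⟨π x, x, hx, rfl⟩ (Subtype.ext (by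
      change π x ^ r ^ k = 1
      rw [← map_pow, h, map_one])))
  let ρ := MulDistribMulAction.toMulAut M E
  have mk : ∀ a, a ∈ ρ.ker ↔ ∀ t ∈ T, ⁅a, t⁆ ∈ U := fun a => by
    refine ⟨fun h t ht => (hπ _).mp ?_, fun h => MulEquiv.ext ?_⟩
    · have := congrArg Subtype.val (MulEquiv.congr_fun h ⟨π t, t, ht, rfl⟩)
      rw [map_commutatorElement, commutatorElement_def, mul_inv_eq_one]
      exact this
    · rintro ⟨_, t, ht, rfl⟩
      have := (hπ _).mpr (h t ht)
      rw [map_commutatorElement, commutatorElement_def, mul_inv_eq_one] at this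
      exact Subtype.ext this
  have hF : ∀ a : ρ.range, (∀ x : E, a • x = x) → a = 1 := fun a h => Subtype.ext (MulEquiv.ext h)
  have hr := index_ker ρ
  have ho' := ho.of_dvd_nat (hr ▸ index_dvd_card ρ.ker)
  have hs' : Group.IsSolvable ρ.range := Group.isSolvable_of_surjective ρ.rangeRestrict_surjective
  have hTk : T ≤ ρ.ker := fun t ht => (mk t).mpr fun s hs => hTT (commutator_mem_commutator ht hs)
  refine ⟨Nat.card ρ.range, ?_, hE ▸ card_le_sq hF (ih _ _ ?_ ho' hs' (cr_range hcr)),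
    hE ▸ small hF (cr_range hcr) ho' hs' fun X hX hc => ?_⟩
  · rw [← PGrp.card_inf_mul_relIndex ρ.ker, mul_comm, ← hr]
    exact Nat.mul_le_mul (relIndex_le_of_le_right le_top index_ne_zero_of_finite |>.trans (relIndex_top_right _).le)
      (card_le_of_le fun c hc => hD c hc.2 ((mk c).mp hc.1))
  · rw [← hr, hE, ← U.card_mul_index, ← relIndex_mul_index hUT, mul_comm]
    exact lt_of_le_of_lt (Nat.mul_le_mul_left _ (index_antitone hTk))
      (lt_mul_of_one_lt_left (Nat.mul_pos (Nat.pos_of_ne_zero index_ne_zero_of_finite)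
        (Nat.pos_of_ne_zero index_ne_zero_of_finite)) ((one_lt_card_iff_ne_bot U).mpr hU1))
  · obtain ⟨B, h1, h2, h3, h4⟩ := pre X fun a => hX (ρ.rangeRestrict a)
    let f : B →* X := (((π.comp T.subtype).codRestrict E fun t => mem_map_of_mem π t.2).comp (inclusion h3)).codRestrict X
      fun b => (h4 b (h3 b.2)).mp b.2
    have h5 := hab B h1 (f.isMulCommutative_of_isCyclic_of_ker_le_center fun b hb =>
      mem_center_iff.mpr fun g => Subtype.ext (hTC (h3 g.2) _ ((hπ b).mp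
        (congrArg Subtype.val (congrArg Subtype.val hb)))).symm) h2
    refine eq_bot_iff.mpr ?_
    rintro ⟨_, t, ht, rfl⟩ hx
    exact Subtype.ext ((hπ t).mpr (h5.le ((h4 t ht).mpr hx)))

theorem prim [Nontrivial V] (ih : IH.{u} (Nat.card M)) (ho : Odd (Nat.card M)) (hs : Group.IsSolvable M)
    (hf : ∀ N : Subgroup M, N.Normal → N ≠ ⊥ → fx V N = ⊥)
    (hcyc : ∀ B : Subgroup M, B.Normal → IsMulCommutative B → IsCyclic B) : Bs M V := by
  rcases subsingleton_or_nontrivial M with h | h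
  · exact ⟨1, 1, fun a _ _ x => by rw [Subsingleton.elim a 1, one_smul]⟩
  obtain ⟨U, T, hU, hT, hU1, hUc, hUT, hTC, hTT, hab, hD, hp⟩ := struct hs hcyc
  obtain ⟨hsq, h, h1, h2, h3, h4, h5, h6⟩ := top ih ho hs hU1 hUT hTC hTT hab hD hp
  have fU : ∀ c ∈ U, c ≠ 1 → ∀ v : V, c • v = v → v = 1 := fun c hc hc1 v hv => by
    have := hf (zpowers c) (PGrp.normal_iff_top_le_normalizer.mpr ((PGrp.normal_iff_top_le_normalizer.mp hU).trans
      (H2.normalizer_le_normalizer_of_isCyclic hUc (zpowers_le.mpr hc)))) (by simpa using hc1)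
    exact mem_bot.mp (this ▸ fun a ha => (zpowers_le.mpr (show c ∈ MulAction.stabilizer M v from hv) ha :))
  obtain ⟨u₀, hu₀⟩ := PGrp.exists_zpowers_eq_of_isCyclic hUc
  have hu₁ : u₀ ∈ U := hu₀ ▸ mem_zpowers u₀
  have cU : ∀ g, ⁅g, u₀⁆ = 1 → g ∈ centralizer (U : Set M) := fun g hg => le_centralizer_iff.mp
    (hu₀ ▸ zpowers_le.mpr fun a ha => by
      obtain ⟨k, rfl⟩ := ha
      exact ((commutatorElement_eq_one_iff_commute.mp hg).zpow_left k).eq) (mem_zpowers g)
  have cmU : ∀ g, ⁅g, u₀⁆ ∈ U := fun g => mul_mem (hU.conj_mem _ hu₁ g) (inv_mem hu₁)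
  have hZ := (hp T hT hUT le_rfl).2
  have hZ' : U.subgroupOf T ≤ center T := fun u hu => mem_center_iff.mpr fun g => Subtype.ext (hTC g.2 u hu).symm
  have hc' : ∀ x y : T, ⁅x, y⁆ ∈ U.subgroupOf T := fun x y => hTT (commutator_mem_commutator x.2 y.2)
  have fU' : ∀ c ∈ U.subgroupOf T, c ≠ 1 → ∀ v : V, c • v = v → v = 1 := fun c hc hc1 =>
    fU c hc fun e => hc1 (Subtype.ext e)
  obtain ⟨e, he1, he2⟩ := dim hZ' hc' (isCyclic_of_surjective _ (subgroupOfEquivOfLe hUT).symm.surjective) fU'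
    (cop hf T (Core.nilpotent_of_commutator_le_centralizer (hTT.trans (le_centralizer_iff.mp hTC))))
    (split ho hUc hUT hTC hTT hab hp hsq) _ ⊤ ⊤ rfl le_top (fun _ _ _ _ => mem_top _) top_ne_bot
  have nc : ∀ x : T, (x : M) ∉ U → ∃ y : T, ⁅x, y⁆ ≠ 1 := fun x hx => by
    by_contra h
    push Not at h
    exact hx (hZ.le ⟨x.2, fun y hy => congrArg Subtype.val
      (commutatorElement_eq_one_iff_mul_comm.mp (h ⟨y, hy⟩)).symm⟩)
  rw [relIndex_top_right, coe_top, centralizer_univ, show center T = U.subgroupOf T from le_antisymm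
    (fun x hx => hZ.le ⟨x.2, fun y hy => congrArg Subtype.val (mem_center_iff.mp hx ⟨y, hy⟩)⟩) hZ'] at he1
  change U.relIndex T = _ at he1
  rw [card_top, Nat.card_congr (subgroupOfEquivOfLe hUT).toEquiv] at he2
  have hTc := PGrp.card_eq_card_mul_relIndex hUT
  have heo : Odd e := (ho.of_dvd_nat ((relIndex_dvd_card U T).trans (card_subgroup_dvd_card T))).of_dvd_nat
    (he1 ▸ dvd_pow_self e two_ne_zero)
  rw [he1] at h2 h3 h4 h5 h6 hTc
  by_cases e1 : e = 1
  · subst e1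
    have hC : centralizer (U : Set M) ≤ U := (PGrp.eq_of_le_of_card_le (hUT.trans hTC) (by nlinarith)).ge
    obtain ⟨v, hv⟩ := exists_ne (1 : V)
    refine ⟨v, u₀ • v, fun a k1 k2 x => ?_⟩
    have k3 : ⁅a⁻¹, u₀⁆ = 1 := by
      by_contra k3
      refine hv ((smul_eq_iff_eq_inv_smul u₀).mp (fU _ (cmU _) k3 (u₀ • v) ?_) |>.trans (smul_one _))
      rw [commutatorElement_def, inv_inv, mul_smul, mul_smul, mul_smul, inv_smul_smul, k1, inv_smul_eq_iff, k2]
    by_cases k4 : a = 1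
    · rw [k4, one_smul]
    · exact absurd (fU a (by simpa using inv_mem (hC (cU _ k3))) k4 v k1) hv
  have fT : ∀ c ∈ T, c ≠ 1 → Nat.card (fe V c) ^ e.minFac ≤ Nat.card V := fun c hc hc1 => by
    by_cases hcU : c ∈ U
    · rw [show fe V c = ⊥ from eq_bot_iff.mpr fun v hv => fU c hcU hc1 v hv, card_bot, one_pow]
      exact Nat.card_pos
    obtain ⟨y, hy⟩ := nc ⟨c, hc⟩ hcU
    have := card_pow_le hZ' fU' (hc' ⟨c, hc⟩ y) (W := ⊤) (fun _ _ => mem_top _) (k := e.minFac) (by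
      have k1 : orderOf ⁅(⟨c, hc⟩ : T), y⁆ ∣ e ^ 2 := by
        refine orderOf_dvd_of_pow_eq_one ?_
        rw [cm_pow hZ' hc', commutatorElement_eq_one_iff_mul_comm]
        exact mem_center_iff.mp (hZ' (he1 ▸ pow_index_mem (U.subgroupOf T) y)) _
      have k2 := Nat.minFac_prime (mt orderOf_eq_one_iff.mp hy)
      exact (Nat.minFac_le_of_dvd k2.two_le (k2.dvd_of_dvd_pow ((Nat.minFac_dvd _).trans k1))).trans
        (Nat.minFac_le (orderOf_pos _)))
    rwa [top_inf_eq, card_top] at this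
  have fC : ∀ g ∉ centralizer (U : Set M), Nat.card (fe V g) ^ 2 ≤ Nat.card V := fun g hg => by
    have := two (V := V) g u₀
    rwa [show fe V ⁅g⁻¹, u₀⁆ = ⊥ from eq_bot_iff.mpr fun v hv => fU _ (cmU _)
      (fun e => hg (by simpa using inv_mem (cU _ e))) v hv, card_bot, mul_one] at this
  have hM : Nat.card M ≤ Nat.card U * (h * e ^ 2 * Nat.card U) := by
    have k1 := PGrp.relIndex_centralizer_singleton_le (H := ⊤) (x := u₀) (W := U) fun g _ => cmU g
    rw [relIndex_top_right] at k1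
    rw [← (centralizer (U : Set M)).index_mul_card]
    refine Nat.mul_le_mul ((index_antitone fun g hg => cU g ?_).trans k1) (by rwa [mul_assoc, mul_comm (e ^ 2), ← hTc])
    exact commutatorElement_eq_one_iff_mul_comm.mpr (mem_centralizer_singleton_iff.mp hg)
  have hu : ∀ p : ℕ, p.Prime → p ∣ e → p ∣ Nat.card U := fun p hp hd => by
    obtain ⟨a, ha, k1, k2, -⟩ := PGrp.exists_of_prime_dvd_relIndex (A := T) (B := U) hp
      (he1 ▸ hd.trans (dvd_pow_self e two_ne_zero))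
    obtain ⟨y, hy⟩ := nc ⟨a, ha⟩ k1
    have := orderOf_eq_prime (hp := ⟨hp⟩) (by
      rw [cm_pow' hZ' hc', commutatorElement_eq_one_iff_mul_comm]
      exact (mem_center_iff.mp (hZ' k2) y).symm) hy
    rw [← this, ← Nat.card_congr (subgroupOfEquivOfLe hUT).toEquiv]
    exact (U.subgroupOf T).orderOf_dvd_natCard (hc' ⟨a, ha⟩ y)
  by_contra hn
  by_cases e3 : e = 3
  · subst e3
    rw [h3 rfl] at h1 hM
    have hC := PGrp.eq_of_le_of_card_le hTC (by omega)
    have := count ho hn ⊥ 0 fun g hg => by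
      rw [ite_self, add_zero, mul_one]
      by_cases k : g ∈ T
      · exact (Nat.pow_le_pow_right Nat.card_pos (by norm_num)).trans (fT g k hg)
      · exact fC g (hC ▸ k)
    have k1 := Nat.le_of_dvd Nat.card_pos (hu 3 Nat.prime_three dvd_rfl)
    nlinarith
  have e5 : 5 ≤ e := by
    obtain ⟨j, rfl⟩ := heo
    omega
  let m := Nat.findGreatest (fun m => m ^ e.minFac ≤ Nat.card V) (Nat.card V)
  have hm : ∀ c ∈ T, c ≠ 1 → Nat.card (fe V c) ≤ m := fun c hc hc1 =>
    Nat.le_findGreatest (card_le_card_group _) (fT c hc hc1)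
  have k1 := count ho hn (centralizer U) m fun g hg => by
    split_ifs with k
    · by_cases k' : g ∈ T
      · rw [sq]
        exact Nat.mul_le_mul (card_le_card_group _) ((hm g k' hg).trans (Nat.le_add_left _ _))
      · obtain ⟨x, hx, hx'⟩ : ∃ x ∈ T, ⁅g⁻¹, x⁆ ∉ U := by
          by_contra h
          push Not at h
          exact k' (by simpa using inv_mem (hD _ (inv_mem k) h))
        exact (two g x).trans (Nat.mul_le_mul_left _ ((hm _ (mul_mem (hT.conj_mem x hx _) (inv_mem hx))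
          fun e => hx' ((show ⁅g⁻¹, x⁆ = 1 from e) ▸ one_mem U)).trans (Nat.le_add_left _ _)))
    · simpa using fC g k
  have k2 := num1 (u := Nat.card U) (n := Nat.card V) (m := m) e.minFac_pos
    (Nat.div_pos (Nat.minFac_le (by omega)) e.minFac_pos)
    (num3 heo e5 hu Nat.card_pos (h2.trans (by rw [← pow_mul])) (fun h => h4 (by rw [h])) (fun h => h5 (by rw [h]))
      fun h => h6 (by rw [h]; norm_num)) (by rwa [Nat.div_mul_cancel e.minFac_dvd])
    (Nat.findGreatest_spec (P := fun m => m ^ e.minFac ≤ Nat.card V) (m := 0) (Nat.zero_le _) (by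
      rw [zero_pow e.minFac_pos.ne']; exact Nat.zero_le _))
  have k3 := Nat.mul_le_mul_right m (show Nat.card (centralizer (U : Set M)) ≤ h * e ^ 2 * Nat.card U by
    rwa [mul_assoc, mul_comm (e ^ 2), ← hTc])
  omega

theorem all (n : ℕ) : IH.{u} n := by
  induction n with
  | zero => exact fun _ _ _ _ _ _ _ h => absurd h (Nat.not_lt_zero _)
  | succ n ih =>
  intro M V _ _ _ _ _ hn ho hs hcr
  suffices h : ∀ (M : Type u) [Group M] [Finite M] [MulDistribMulAction M V], Nat.card M * Nat.card V ≤ n →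
      Odd (Nat.card M) → Group.IsSolvable M → CR M V → (∀ a : M, (∀ x : V, a • x = x) → a = 1) → Bs M V by
    have hd := index_ker (MulDistribMulAction.toMulAut M V) ▸ index_dvd_card (MulDistribMulAction.toMulAut M V).ker
    exact of_range (h _ ((Nat.mul_le_mul_right _ (Nat.le_of_dvd Nat.card_pos hd)).trans (Nat.le_of_lt_succ hn))
      (ho.of_dvd_nat hd) (Group.isSolvable_of_surjective (MonoidHom.rangeRestrict_surjective _)) (cr_range hcr)
      fun a h => Subtype.ext (MulEquiv.ext h))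
  intro M _ _ _ hn ho hs hcr hF
  have ih' : ∀ k ≤ n, IH.{u} k := fun k hk M V _ _ _ _ _ h => ih M V (h.trans_le hk)
  rcases subsingleton_or_nontrivial V with h | h
  · exact ⟨1, 1, fun _ _ _ _ => Subsingleton.elim _ _⟩
  by_cases irr : ∀ U : Subgroup V, Inv M U → U = ⊥ ∨ U = ⊤
  swap
  · push Not at irr
    obtain ⟨U, h1, h2, h3⟩ := irr
    exact red (ih' _ hn) ho hs hcr h1 h2 h3
  have ntop : ∀ N : Subgroup M, N ≠ ⊥ → fx V N ≠ ⊤ := fun N hN h =>
    hN (eq_bot_iff.mpr fun a ha => hF a fun v => h.ge (mem_top v) a ha)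
  have hf : ∀ N : Subgroup M, N.Normal → N ≠ ⊥ → fx V N = ⊥ := fun N h1 h2 =>
    (irr _ (fx_inv N)).resolve_right (ntop N h2)
  by_cases hcyc : ∀ B : Subgroup M, B.Normal → IsMulCommutative B → IsCyclic B
  · exact prim (ih' _ ((Nat.le_mul_of_pos_right _ Nat.card_pos).trans hn)) ho hs hf hcyc
  push Not at hcyc
  obtain ⟨B, h1, h2, h3⟩ := hcyc
  have hV := cop hf B (Core.nilpotent_of_commutator_le_centralizer
    ((commutator_le_left _ _).trans (le_centralizer B)))
  obtain ⟨b, hb, hb1, v, hv1, hv⟩ := exists_fix' hV h2 h3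
  obtain ⟨H, hbH, ⟨hHB, hH⟩, hmax⟩ := Set.Finite.exists_le_maximal (Set.toFinite {K | K ≤ B ∧ fx V K ≠ ⊥})
    (a := zpowers b) ⟨zpowers_le.mpr hb, ne_bot_iff_exists_ne_one.mpr ⟨⟨v, fun a ha =>
      (zpowers_le.mpr (show b ∈ MulAction.stabilizer M v from hv) ha :)⟩, fun h => hv1 (congrArg Subtype.val h)⟩⟩
  exact blocks (ih' _ hn) ho hs irr (hV.coprime_dvd_right (card_dvd_of_le hHB))
    (fun a ha b hb => Core.comm_of_isMulCommutative h2 ha hb) hHB (fun K h1 h2 h3 => hmax ⟨h2, h3⟩ h1) hH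
    (ntop H fun h => hb1 (mem_bot.mp (h ▸ hbH (mem_zpowers b))))

theorem odd_base {M : Type*} {V : Type u} [Group M] [Finite M] [CommGroup V] [Finite V] [MulDistribMulAction M V]
    (ho : Odd (Nat.card M)) (hs : Group.IsSolvable M) (hcr : CR M V) : Bs M V :=
  of_range (all _ _ _ (Nat.lt_succ_self _) (ho.of_dvd_nat (index_ker (MulDistribMulAction.toMulAut M V) ▸
    index_dvd_card _)) (Group.isSolvable_of_surjective (MonoidHom.rangeRestrict_surjective _)) (cr_range hcr))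

end Cfsg.Agent.H23.B2
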