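import Mathlib
import Cfsg.Agent.Core.Cores
import Cfsg.Agent.Core.CoprimeGen
import Cfsg.Agent.H23.Ord3

set_option autoImplicit false

namespace Cfsg.Agent.H23.Ord3b

open Subgroup
open scoped commutatorElement

variable {G : Type*} [Group G]

theorem isP {W : Subgroup G} (hW : IsElementaryAbelian 2 W) : IsPGroup 2 W :=
  fun x => ⟨1, Subtype.ext (by simpa using hW.2 x x.2)⟩

theorem two_or_four [Finite G] {V : Subgroup G} (hV : IsPGroup 2 V) (h1 : V ≠ ⊥)
    (h8 : Nat.card V < 8) : Nat.card V = 2 ∨ Nat.card V = 4 := by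
  haveI : Fact (Nat.Prime 2) := ⟨Nat.prime_two⟩
  obtain ⟨k, hk⟩ := IsPGroup.iff_card.mp hV
  have h0 : k ≠ 0 := by
    rintro rfl
    exact h1 (card_eq_one.mp hk)
  have h3 : k < 3 := by
    rw [hk] at h8
    exact (Nat.pow_lt_pow_iff_right (by norm_num : 1 < 2)).mp h8
  rw [hk]
  interval_cases k
  · exact absurd rfl h0
  · left; rfl
  · right; rfl

theorem elem_sup {W : Subgroup G} (hW : IsElementaryAbelian 2 W) {x : G} (hx2 : x ^ 2 = 1)
    (hxc : x ∈ centralizer (W : Set G)) : IsElementaryAbelian 2 (W ⊔ zpowers x) := by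
  refine ⟨PGrp.isMulCommutative_sup_zpowers hW.1 hxc, fun g hg => ?_⟩
  obtain ⟨y, hy, k, rfl⟩ := (PGrp.mem_sup_zpowers (centralizer_le_normalizer _ hxc)).mp hg
  have hyx : Commute y x := hxc y hy
  rw [(hyx.zpow_right k).mul_pow, hW.2 y hy, one_mul, ← zpow_natCast, ← zpow_mul, mul_comm,
    zpow_mul, zpow_natCast, hx2, one_zpow]

theorem norm_inf [Finite G] {V : Subgroup G} {S : Set G} {d : G} (hd : d ∈ normalizer (V : Set G))
    (hS : ∀ s ∈ S, d⁻¹ * s * d ∈ S) : d ∈ normalizer ((V ⊓ centralizer S : Subgroup G) : Set G) := by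
  refine PGrp.mem_normalizer_of_conj_mem fun x hx => ⟨PGrp.conj_mem_of_mem_normalizer hd hx.1, ?_⟩
  intro y hy
  have h1 := hx.2 _ (hS y hy)
  calc y * (d * x * d⁻¹) = d * (d⁻¹ * y * d * x) * d⁻¹ := by group
    _ = d * x * d⁻¹ * y := by rw [h1]; group

theorem main [Finite G] (hchar : centralizer (pCore 2 G : Set G) ≤ pCore 2 G) {g : G}
    (hg : orderOf g = 6) {d : G} (hd1 : d ≠ 1) (hd : IsPGroup 3 ↥(zpowers d)) {W : Subgroup G}
    (hW : IsElementaryAbelian 2 W) (hW1 : W ≠ ⊥) (hdW : d ∈ normalizer (W : Set G))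
    (hfpf : W ⊓ centralizer {d} = ⊥)
    (no8 : ∀ E : Subgroup G, IsElementaryAbelian 2 E → Nat.card E < 8) : False := by
  haveI : Fact (Nat.Prime 2) := ⟨Nat.prime_two⟩
  haveI : Fact (Nat.Prime 3) := ⟨Nat.prime_three⟩
  set Q := pCore 2 G with hQdef
  have hQ : IsPGroup 2 Q := Core.pCore_isPGroup 2
  haveI hQn : Q.Normal := inferInstanceAs (pCore 2 G).Normal
  have four : ∀ V : Subgroup G, V ≤ W → V ≠ ⊥ → d ∈ normalizer (V : Set G) → Nat.card V = 4 := by
    intro V hVW hV1 hdV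
    rcases two_or_four ((isP hW).to_le hVW) hV1
      (lt_of_le_of_lt (card_le_of_le hVW) (no8 W hW)) with h | h
    · exfalso
      have h1 := PGrp.normalizer_le_centralizer_of_card_eq_two h hdV
      apply hV1
      rw [eq_bot_iff, ← hfpf]
      exact fun y hy => ⟨hVW hy, mem_centralizer_singleton_iff.mpr (h1 y hy)⟩
    · exact h
  have hW4 := four W le_rfl hW1 hdW
  have hmax : ∀ x : G, x ^ 2 = 1 → x ∈ centralizer (W : Set G) → x ∈ W := by
    intro x hx2 hxc
    by_contra hx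
    have := no8 _ (elem_sup hW hx2 hxc)
    rw [PGrp.card_sup_zpowers Nat.prime_two (centralizer_le_normalizer _ hxc)
      (by rw [hx2]; exact one_mem _) hx, hW4] at this
    omega
  have hWQ : W ≤ centralizer (Q : Set G) := by
    have hR : IsPGroup 2 ↥(Q ⊔ W) := IsPGroup.to_sup_of_normal_left hQ (isP hW)
    obtain ⟨z, hz, hz1, hz2, hz3⟩ := PGrp.exists_central_mod (p := 2) (P := Q ⊔ W) (M := Q ⊔ W)
      (N := ⊥) hR le_rfl le_normalizer (by rw [normalizer_eq_top_iff.mpr inferInstance]; exact le_top)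
      (fun h => hW1 (le_bot_iff.mp (le_sup_right.trans h)))
    have hzc : ∀ y ∈ Q ⊔ W, y * z = z * y := fun y hy =>
      (commutatorElement_eq_one_iff_mul_comm.mp (mem_bot.mp (hz3 y hy))).symm
    have hzW : z ∈ W := hmax z (mem_bot.mp hz2) fun y hy => hzc y (mem_sup_right hy)
    have h4 := four (W ⊓ centralizer (Q : Set G)) inf_le_left
      (fun h => hz1 (h ▸ ⟨hzW, fun y hy => hzc y (mem_sup_left hy)⟩))
      (norm_inf hdW fun s hs => by simpa using hQn.conj_mem s hs d⁻¹)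
    have := PGrp.eq_of_le_of_card_le (inf_le_left : W ⊓ centralizer (Q : Set G) ≤ W) (by omega)
    rw [← this]; exact inf_le_right
  have hWle : W ≤ Q := hWQ.trans hchar
  have hinv : ∀ x ∈ Q, x ^ 2 = 1 → x ∈ W := fun x hx hx2 =>
    hmax x hx2 fun y hy => (hWQ hy x hx).symm
  haveI hWn : W.Normal := ⟨fun x hx s => hinv _ (hQn.conj_mem x (hWle hx) s)
    (by rw [conj_pow, hW.2 x hx]; group)⟩
  have hnW : ∀ x : G, x ∈ normalizer (W : Set G) := fun x => by
    rw [normalizer_eq_top_iff.mpr hWn]; trivial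
  have hnQ : ∀ x : G, x ∈ normalizer (Q : Set G) := fun x => by
    rw [normalizer_eq_top_iff.mpr hQn]; trivial
  have hfree : ∀ x : G, W ⊓ centralizer {x} = ⊥ → Q ⊓ centralizer {x} = ⊥ := by
    intro x hx
    by_contra h
    obtain ⟨z, hz, hz1, hz2, -⟩ := PGrp.exists_central_mod (p := 2) (P := Q ⊓ centralizer {x})
      (M := Q ⊓ centralizer {x}) (N := ⊥) (hQ.to_le inf_le_left) le_rfl le_normalizer
      (by rw [normalizer_eq_top_iff.mpr inferInstance]; exact le_top) (fun h' => h (le_bot_iff.mp h'))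
    exact hz1 (hx ▸ ⟨hinv z hz.1 (mem_bot.mp hz2), hz.2⟩)
  have hno3 : ∀ x : G, orderOf x = 3 → x ∉ centralizer (Q : Set G) := by
    intro x hx h
    obtain ⟨k, hk⟩ := hQ ⟨x, hchar h⟩
    have h1 : x ^ 2 ^ k = 1 := by simpa using congrArg Subtype.val hk
    rw [← orderOf_dvd_iff_pow_eq_one, hx] at h1
    have := Nat.Prime.dvd_of_dvd_pow Nat.prime_three h1
    omega
  -- the order of d
  obtain ⟨m, hm⟩ := IsPGroup.iff_card.mp hd
  rw [Nat.card_zpowers] at hm
  obtain ⟨n, rfl⟩ : ∃ n, m = n + 1 := by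
    refine ⟨m - 1, ?_⟩
    have : m ≠ 0 := by
      rintro rfl
      exact hd1 (orderOf_eq_one_iff.mp hm)
    omega
  have hn0 : n = 0 := by
    by_contra hn
    have h3 : orderOf (d ^ 3 ^ n) = 3 := by
      rw [orderOf_pow_of_dvd (by positivity) (by rw [hm]; exact pow_dvd_pow _ (by omega)),
        hm, pow_succ, Nat.mul_div_cancel_left _ (by positivity)]
    obtain ⟨E, -, hE, h8⟩ := Ord3.main (by omega) hm hQ (hnQ d) (hno3 _ h3) (hfree d hfpf)
    have := no8 E hE
    omega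
  subst hn0
  have hd3 : d ^ 3 = 1 := by rw [← orderOf_dvd_iff_pow_eq_one, hm]; rfl
  -- an element of order 3 centralizing W
  have hy3 : orderOf (g ^ 2) = 3 ^ (0 + 1) := by
    rw [orderOf_pow_of_dvd (by norm_num) (by rw [hg]; norm_num), hg]; rfl
  have ht2 : (g ^ 3) ^ 2 = 1 := by rw [← pow_mul, ← orderOf_dvd_iff_pow_eq_one, hg]
  have ht1 : g ^ 3 ≠ 1 := by
    rw [Ne, ← orderOf_dvd_iff_pow_eq_one, hg]; norm_num
  have hgg : Commute (g ^ 2) (g ^ 3) := (Commute.refl g).pow_pow _ _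
  have hne : W ⊓ centralizer {g ^ 2} ≠ ⊥ := by
    have hT : IsPGroup 2 (zpowers (g ^ 3)) := by
      refine IsPGroup.of_card (n := 1) ?_
      rw [Nat.card_zpowers]
      exact orderOf_eq_prime ht2 ht1
    have hR : IsPGroup 2 ↥(W ⊔ zpowers (g ^ 3)) := IsPGroup.to_sup_of_normal_left (isP hW) hT
    obtain ⟨z, hz, hz1, -, hz3⟩ := PGrp.exists_central_mod (p := 2) (P := W ⊔ zpowers (g ^ 3)) (M := W)
      (N := ⊥) hR le_sup_left (fun x _ => hnW x)
      (by rw [normalizer_eq_top_iff.mpr inferInstance]; exact le_top) (fun h' => hW1 (le_bot_iff.mp h'))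
    have hzV : z ∈ W ⊓ centralizer {g ^ 3} := ⟨hz, mem_centralizer_singleton_iff.mpr
      (commutatorElement_eq_one_iff_mul_comm.mp (mem_bot.mp (hz3 _ (mem_sup_right (mem_zpowers _)))))⟩
    rcases two_or_four (V := W ⊓ centralizer {g ^ 3}) ((isP hW).to_le inf_le_left) (fun h => hz1 (h ▸ hzV))
      (lt_of_le_of_lt (card_le_of_le inf_le_left) (no8 W hW)) with h | h
    · have h1 := PGrp.normalizer_le_centralizer_of_card_eq_two h
        (norm_inf (hnW (g ^ 2)) (S := {g ^ 3}) (by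
          rintro s rfl
          rw [Set.mem_singleton_iff, mul_assoc, ← hgg.eq, inv_mul_cancel_left]))
      intro hb
      exact hz1 (hb ▸ ⟨hz, mem_centralizer_singleton_iff.mpr (h1 z hzV)⟩)
    · have h1 := PGrp.eq_of_le_of_card_le (inf_le_left : W ⊓ centralizer {g ^ 3} ≤ W) (by omega)
      have h2 : g ^ 3 ∈ W := hmax _ ht2 fun y hy =>
        mem_centralizer_singleton_iff.mp (h1.ge hy).2
      intro hb
      exact ht1 (mem_bot.mp (hb ▸ ⟨h2, mem_centralizer_singleton_iff.mpr hgg.eq.symm⟩))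
  have hyW : g ^ 2 ∈ centralizer (W : Set G) := by
    have hc := Ord3.count hy3 (hnW (g ^ 2))
    rw [pow_zero, pow_one (g ^ 2), hW4] at hc
    rcases two_or_four (V := W ⊓ centralizer {g ^ 2}) ((isP hW).to_le inf_le_left) hne
      (lt_of_le_of_lt (card_le_of_le inf_le_left) (no8 W hW)) with h | h
    · rw [h] at hc; omega
    · have h1 := PGrp.eq_of_le_of_card_le (inf_le_left : W ⊓ centralizer {g ^ 2} ≤ W) (by omega)
      intro y hy
      exact mem_centralizer_singleton_iff.mp (h1.ge hy).2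
  haveI hCn : (centralizer (W : Set G)).Normal := normal_centralizer
  obtain ⟨D, hD⟩ := hd.exists_le_sylow
  have hY : IsPGroup 3 (zpowers (g ^ 2)) := IsPGroup.of_card (by rw [Nat.card_zpowers, hy3])
  obtain ⟨D', hD'⟩ := hY.exists_le_sylow
  obtain ⟨s, hs⟩ := MulAction.exists_smul_eq G D' D
  have hy' : s * g ^ 2 * s⁻¹ ∈ (D : Subgroup G) ⊓ centralizer (W : Set G) := by
    refine ⟨?_, hCn.conj_mem _ hyW s⟩
    rw [← hs]
    exact ⟨g ^ 2, hD' (mem_zpowers _), rfl⟩
  have hy1 : s * g ^ 2 * s⁻¹ ≠ 1 := by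
    intro h
    rw [conj_eq_one_iff] at h
    rw [h, orderOf_one] at hy3
    omega
  obtain ⟨z, hz, hz1, hz2, hz3⟩ := PGrp.exists_central_mod (p := 3) (P := (D : Subgroup G))
    (M := (D : Subgroup G) ⊓ centralizer (W : Set G)) (N := ⊥) D.isPGroup' inf_le_left
    (fun x hx => norm_inf (le_normalizer hx) fun w hw => by simpa using hWn.conj_mem w hw x⁻¹)
    (by rw [normalizer_eq_top_iff.mpr inferInstance]; exact le_top)
    (fun h' => hy1 (mem_bot.mp (h' hy')))
  have hz3' : orderOf z = 3 := orderOf_eq_prime (mem_bot.mp hz2) fun h => hz1 (mem_bot.mpr h)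
  have hzd : Commute z d := commutatorElement_eq_one_iff_mul_comm.mp (mem_bot.mp (hz3 d (hD (mem_zpowers d))))
  have hcop : (Nat.card (D : Subgroup G)).Coprime (Nat.card Q) :=
    IsPGroup.coprime_card_of_ne 3 2 (by norm_num) _ _ D.isPGroup' hQ
  have hdj : ∀ j, 0 < j → j < 3 → W ⊓ centralizer {d ^ j} = ⊥ := by
    intro j h0 h3
    rw [eq_bot_iff, ← hfpf]
    rintro x ⟨hx1, hx2⟩
    refine ⟨hx1, mem_centralizer_singleton_iff.mpr ?_⟩
    have h1 : Commute x (d ^ j) := mem_centralizer_singleton_iff.mp hx2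
    interval_cases j
    · simpa using h1.eq
    · have h2 := h1.pow_right 2
      rw [← pow_mul, show 2 * 2 = 3 + 1 from rfl, pow_succ, hd3, one_mul] at h2
      exact h2.eq
  obtain ⟨k, hk⟩ := IsPGroup.iff_card.mp hQ
  have key : Q ≤ centralizer {z} := by
    refine Core.le_of_centralizers_two (A := (D : Subgroup G)) (q := 3) (a := z) (b := d)
      (by haveI := D.isPGroup'.isNilpotent; infer_instance) (fun x _ => hnQ x) hcop
      (by rw [hk]; exact Nat.Coprime.pow_right _ (by norm_num)) hz.1 (hD (mem_zpowers d)) hzd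
      (by rw [mem_bot.mp hz2]; exact one_mem _) (by rw [hd3]; exact one_mem _) ?_ ?_
    · intro i hi
      rcases Nat.eq_zero_or_pos i with rfl | h0
      · rw [pow_zero, mul_one]; exact inf_le_right
      · rw [hfree]
        · exact bot_le
        rw [eq_bot_iff, ← hdj i h0 hi]
        rintro x ⟨hx1, hx2⟩
        refine ⟨hx1, mem_centralizer_singleton_iff.mpr ?_⟩
        have h1 : x * (z * d ^ i) = z * d ^ i * x := mem_centralizer_singleton_iff.mp hx2
        have h2 : x * z = z * x := hz.2 x hx1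
        rw [← mul_assoc, h2, mul_assoc, mul_assoc] at h1
        exact mul_left_cancel h1
    · intro j h0 h3
      rw [hfree _ (hdj j h0 h3)]
      exact bot_le
  exact hno3 z hz3' fun x hx => mem_centralizer_singleton_iff.mp (key hx)

end Cfsg.Agent.H23.Ord3b
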