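import Mathlib
import Cfsg.Agent.Core.Cores
import Cfsg.Agent.Core.Fitting
import Cfsg.Agent.LocalEven.Sidki
import Cfsg.Agent.H23.Ord3b

set_option autoImplicit false

namespace Cfsg.Agent.H23.E320

open Subgroup
open scoped commutatorElement

variable {G : Type*} [Group G]

theorem cent_five [Finite G] {H : Subgroup G} [H.Normal] (h32 : Nat.card H = 32) {y : G}
    (hy : orderOf y = 5) (hyH : y ∉ centralizer (H : Set G)) :
    Nat.card ↥(H ⊓ centralizer {y}) ≤ 2 := by
  letI : MulAction (zpowers y) G := MulAction.compHom G ((MulAut.conj).comp (zpowers y).subtype)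
  have hsm : ∀ (a : zpowers y) (x : G), a • x = (a : G) * x * (a : G)⁻¹ := fun a x => rfl
  have hcomm : ∀ a : zpowers y, Commute (a : G) y := by
    rintro ⟨a, k, rfl⟩
    exact ((Commute.refl y).zpow_left k)
  have h := H2.card_dvd_ncard_of_free (A := zpowers y)
    ((H : Set G) \ ((H ⊓ centralizer {y} : Subgroup G) : Set G)) ?_ ?_
  · rw [Nat.card_zpowers, hy, Set.ncard_diff (by intro x hx; exact hx.1)] at h
    change 5 ∣ Nat.card H - Nat.card ↥(H ⊓ centralizer {y}) at h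
    have hd : Nat.card ↥(H ⊓ centralizer {y}) ∣ 2 ^ 5 := by
      have := card_dvd_of_le (inf_le_left : H ⊓ centralizer {y} ≤ H)
      rwa [h32] at this
    obtain ⟨k, hk, hk2⟩ := (Nat.dvd_prime_pow Nat.prime_two).mp hd
    have hne : k ≠ 5 := by
      rintro rfl
      have := PGrp.eq_of_le_of_card_le (inf_le_left : H ⊓ centralizer {y} ≤ H) (by omega)
      exact hyH fun x hx => mem_centralizer_singleton_iff.mp (this.ge hx).2
    rw [hk2, h32] at h
    rw [hk2]
    interval_cases k <;> omega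
  · rintro a x ⟨hx1, hx2⟩
    refine ⟨‹H.Normal›.conj_mem x hx1 _, fun h => hx2 ⟨hx1, ?_⟩⟩
    have h2 := mem_centralizer_singleton_iff.mp h.2
    rw [hsm] at h2
    refine mem_centralizer_singleton_iff.mpr ?_
    have h3 := (hcomm a).eq
    calc x * y = (a : G)⁻¹ * ((a : G) * x * (a : G)⁻¹ * ((a : G) * y)) := by group
      _ = (a : G)⁻¹ * ((a : G) * x * (a : G)⁻¹ * y * a) := by rw [h3]; group
      _ = (a : G)⁻¹ * (y * a * x) := by rw [h2]; group
      _ = y * x := by rw [← h3]; group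
  · rintro a x ⟨hx1, hx2⟩ hax
    by_contra ha
    apply hx2
    refine ⟨hx1, ?_⟩
    have h2 : (a : G) ∈ centralizer {x} := by
      rw [mem_centralizer_singleton_iff]
      have : (a : G) * x * (a : G)⁻¹ = x := hax
      exact mul_inv_eq_iff_eq_mul.mp this
    haveI : Fact (Nat.Prime (Nat.card (zpowers y))) := ⟨by rw [Nat.card_zpowers, hy]; norm_num⟩
    have h1 : (⟨y, mem_zpowers y⟩ : zpowers y) ∈ zpowers a :=
      mem_zpowers_of_prime_card rfl ha
    obtain ⟨k, hk⟩ := h1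
    have h3 : y ∈ centralizer {x} := by
      have : (a : G) ^ k = y := by simpa using congrArg Subtype.val hk
      rw [← this]
      exact zpow_mem h2 k
    rw [mem_centralizer_singleton_iff] at h3
    exact mem_centralizer_singleton_iff.mpr h3.symm

/-- elements of `H` centralized by `t` modulo `Z` -/
def K (H Z : Subgroup G) [Z.Normal] (t : G) : Subgroup G :=
  H ⊓ (centralizer {(t : G ⧸ Z)}).comap (QuotientGroup.mk' Z)

theorem mem_K {H Z : Subgroup G} [Z.Normal] {t x : G} :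
    x ∈ K H Z t ↔ x ∈ H ∧ x⁻¹ * (t * x * t⁻¹) ∈ Z := by
  unfold K
  rw [mem_inf, mem_comap, mem_centralizer_singleton_iff, ← QuotientGroup.eq]
  refine and_congr_right fun _ => ?_
  simp only [QuotientGroup.mk'_apply, QuotientGroup.mk_mul, QuotientGroup.mk_inv]
  rw [eq_mul_inv_iff_mul_eq]

theorem main [Finite G] (hG : Nat.card G = 320) (hHF : pCore 2 G = fittingSubgroup G)
    (hex : IsExtraspecial 2 ↥(pCore 2 G)) (h32 : Nat.card ↥(pCore 2 G) = 32)
    (hminus : ∀ A : Subgroup G, A ≤ pCore 2 G → IsElementaryAbelian 2 A → Nat.card ↥A ≤ 4)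
    {T : G} (hT : orderOf T = 2) (hTH : T ∉ pCore 2 G) :
    Nat.card ↥(pCore 2 G ⊓ centralizer ({T} : Set G)) ≤ 4 := by
  haveI : Fact (Nat.Prime 2) := ⟨Nat.prime_two⟩
  set H := pCore 2 G with hH
  haveI hHn : H.Normal := inferInstanceAs (pCore 2 G).Normal
  obtain ⟨hp, hZ2, hcomm, hsq⟩ := PGrp.isExtraspecial_iff.mp hex
  set Z := H ⊓ centralizer (H : Set G) with hZ
  haveI hZn : Z.Normal := by
    haveI : (centralizer (H : Set G)).Normal := normal_centralizer
    infer_instance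
  have hT2 : T * T = 1 := by rw [← sq, ← hT, pow_orderOf_eq_one]
  have hTi : T⁻¹ = T := inv_eq_of_mul_eq_one_right hT2
  obtain ⟨y, hy1, hyo, hyT⟩ := LocalEven.exists_inverted_of_not_mem_pCore hT2 hTH
  have hy5 : orderOf y = 5 := by
    have h1 : orderOf y ∣ 2 ^ 6 * 5 := by
      have := orderOf_dvd_natCard y
      rwa [hG] at this
    have h2 : orderOf y ∣ 5 :=
      (Nat.Coprime.pow_right 6 (Nat.coprime_two_right.mpr hyo)).dvd_of_dvd_mul_left h1
    rcases (Nat.dvd_prime (by norm_num : Nat.Prime 5)).mp h2 with h | h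
    · exact absurd (orderOf_eq_one_iff.mp h) hy1
    · exact h
  have hyp : y ^ 5 = 1 := by rw [← hy5, pow_orderOf_eq_one]
  have hyH : y ∉ centralizer (H : Set G) := by
    intro h
    have hN : H ⊔ zpowers T ≤ normalizer (zpowers y : Set G) := by
      refine sup_le (fun x hx => centralizer_le_normalizer _ ?_) (zpowers_le.mpr ?_)
      · rw [PGrp.centralizer_zpowers]
        exact mem_centralizer_singleton_iff.mpr (h x hx)
      · refine PGrp.mem_normalizer_of_conj_mem ?_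
        rintro _ ⟨k, rfl⟩
        simp only
        rw [← conj_zpow, hyT]
        exact zpow_mem (inv_mem (mem_zpowers y)) k
    have h64 := card_dvd_of_le hN
    rw [PGrp.card_sup_zpowers Nat.prime_two (by rw [normalizer_eq_top_iff.mpr hHn]; trivial)
      (by rw [sq, hT2]; exact one_mem _) hTH, h32] at h64
    have h5 := card_dvd_of_le (le_normalizer (H := zpowers y))
    rw [Nat.card_zpowers, hy5] at h5
    have h320 := (by norm_num : Nat.Coprime (32 * 2) 5).mul_dvd_of_dvd_of_dvd h64 h5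
    have htop : normalizer (zpowers y : Set G) = ⊤ := by
      refine eq_top_of_le_card _ ?_
      rw [hG]
      exact Nat.le_of_dvd Nat.card_pos h320
    have hle := Core.le_fitting_of_isMulCommutative (normalizer_eq_top_iff.mp htop) inferInstance
    rw [← hHF] at hle
    have := card_dvd_of_le hle
    rw [Nat.card_zpowers, hy5, h32] at this
    omega
  have hC5 := cent_five h32 hy5 hyH
  have hZc : ∀ z ∈ Z, ∀ g : G, z * g = g * z := fun z hz g =>
    PGrp.normalizer_le_centralizer_of_card_eq_two hZ2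
      (show g ∈ normalizer (Z : Set G) by rw [normalizer_eq_top_iff.mpr hZn]; trivial) z hz
  have hZsq : ∀ z ∈ Z, z * z = 1 := fun z hz => by
    have := pow_card_eq_one' (x := (⟨z, hz⟩ : Z))
    rw [hZ2, sq] at this
    simpa using congrArg Subtype.val this
  -- the bound on K
  have hKK : K H Z T ⊓ K H Z (y⁻¹ * T * y) ≤ H ⊓ centralizer {y} := by
    rintro x ⟨h1, h2⟩
    obtain ⟨hx, h1⟩ := mem_K.mp h1
    obtain ⟨-, h2⟩ := mem_K.mp h2
    refine ⟨hx, ?_⟩
    have hu : T * (y⁻¹ * T * y) = y ^ 2 := by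
      have : T * y⁻¹ * T = y := by
        rw [← hyT, hTi]
        calc T * (T * y * T) * T = (T * T) * y * (T * T) := by group
          _ = y := by rw [hT2]; group
      rw [sq]
      calc T * (y⁻¹ * T * y) = (T * y⁻¹ * T) * y := by group
        _ = y * y := by rw [this]
    set s := y⁻¹ * T * y
    set a := x⁻¹ * (T * x * T⁻¹) with ha
    set b := x⁻¹ * (s * x * s⁻¹) with hb
    have h3 : y ^ 2 * x * (y ^ 2)⁻¹ = x * (a * b) := by
      rw [← hu]
      calc T * s * x * (T * s)⁻¹ = T * (x * b) * T⁻¹ := by rw [hb]; group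
        _ = T * x * (b * T⁻¹) := by group
        _ = T * x * T⁻¹ * b := by rw [hZc b h2]; group
        _ = x * (a * b) := by rw [ha]; group
    have hab := mul_mem h1 h2
    have h4 : y ^ 2 * (y ^ 2 * x * (y ^ 2)⁻¹) * (y ^ 2)⁻¹ = x := by
      rw [h3]
      calc y ^ 2 * (x * (a * b)) * (y ^ 2)⁻¹ = y ^ 2 * x * (a * b * (y ^ 2)⁻¹) := by group
        _ = y ^ 2 * x * (y ^ 2)⁻¹ * (a * b) := by rw [hZc _ hab]; group
        _ = x * ((a * b) * (a * b)) := by rw [h3]; group
        _ = x := by rw [hZsq _ hab, mul_one]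
    have h5 : y ^ 4 ∈ centralizer {x} := by
      rw [mem_centralizer_singleton_iff]
      calc y ^ 4 * x = y ^ 2 * (y ^ 2 * x * (y ^ 2)⁻¹) * (y ^ 2)⁻¹ * y ^ 4 := by group
        _ = x * y ^ 4 := by rw [h4]
    have h6 : y ∈ centralizer {x} := PGrp.mem_of_pow_mem_of_coprime (by norm_num : Nat.Coprime 4 5) h5
      (by rw [hyp]; exact one_mem _)
    exact mem_centralizer_singleton_iff.mpr (mem_centralizer_singleton_iff.mp h6).symm
  have hKc : Nat.card (K H Z (y⁻¹ * T * y)) = Nat.card (K H Z T) := by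
    refine Nat.card_congr ⟨fun x => ⟨y * x * y⁻¹, ?_⟩, fun x => ⟨y⁻¹ * x * y, ?_⟩, fun x => ?_, fun x => ?_⟩
    · obtain ⟨h1, h2⟩ := mem_K.mp x.2
      refine mem_K.mpr ⟨hHn.conj_mem _ h1 y, ?_⟩
      convert hZn.conj_mem _ h2 y using 1
      group
    · obtain ⟨h1, h2⟩ := mem_K.mp x.2
      refine mem_K.mpr ⟨by simpa using hHn.conj_mem _ h1 y⁻¹, ?_⟩
      convert hZn.conj_mem _ h2 y⁻¹ using 1
      group
    · ext; simp [mul_assoc]
    · ext; simp [mul_assoc]
  have hKH : ∀ t, K H Z t ≤ H := fun t => inf_le_left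
  have hZK : ∀ t, Z ≤ K H Z t := fun t z hz =>
    mem_K.mpr ⟨hz.1, mul_mem (inv_mem hz) (hZn.conj_mem z hz t)⟩
  have hK8 : Nat.card (K H Z T) ≤ 8 := by
    have hn : K H Z (y⁻¹ * T * y) ≤ normalizer (K H Z T : Set G) :=
      (hKH _).trans (PGrp.le_normalizer_of_commutator_le (hZK T)
        ((commutator_mono (hKH T) le_rfl).trans hcomm.le))
    have h1 := PGrp.card_sup_mul_card_inf hn
    rw [hKc] at h1
    have h2 := card_le_of_le (sup_le (hKH T) (hKH (y⁻¹ * T * y)))
    have h3 := card_le_of_le hKK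
    by_contra h
    have h4 : 9 * 9 ≤ Nat.card (K H Z T) * Nat.card (K H Z T) := Nat.mul_le_mul (by omega) (by omega)
    have h5 := Nat.mul_le_mul (h2.trans h32.le) (h3.trans hC5)
    omega
  by_contra hC
  set C := H ⊓ centralizer {T} with hCdef
  have hCK : C ≤ K H Z T := fun x hx => mem_K.mpr ⟨hx.1, by
    rw [← mem_centralizer_singleton_iff.mp hx.2]
    simp⟩
  have hC8 : 8 ≤ Nat.card C := by
    have hd : Nat.card C ∣ 2 ^ 5 := by
      have := card_dvd_of_le (inf_le_left : C ≤ H)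
      rwa [h32] at this
    obtain ⟨k, hk, hk2⟩ := (Nat.dvd_prime_pow Nat.prime_two).mp hd
    rw [hk2] at hC ⊢
    interval_cases k <;> omega
  have hCeq : C = K H Z T := PGrp.eq_of_le_of_card_le hCK (by omega)
  have hcz : ∀ a ∈ H, ∀ b ∈ H, a * b * a⁻¹ * b⁻¹ ∈ Z := fun a ha b hb =>
    hcomm ▸ commutator_mem_commutator ha hb
  have hq : ∀ a ∈ H, ∀ b ∈ H, (a : G ⧸ Z) * b = b * a := fun a ha b hb => by
    rw [← QuotientGroup.mk_mul, ← QuotientGroup.mk_mul, QuotientGroup.eq]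
    have := hcz _ (inv_mem hb) _ (inv_mem ha)
    simpa [mul_assoc] using this
  let φ : H →* G ⧸ Z := MonoidHom.mk' (fun h => (((h : G)⁻¹ * (T * h * T⁻¹) : G) : G ⧸ Z)) (by
    intro a b
    have h1 := hq _ (inv_mem b.2) _ (mul_mem (inv_mem a.2) (hHn.conj_mem _ a.2 T))
    simp only [coe_mul, QuotientGroup.mk_mul, QuotientGroup.mk_inv] at h1 ⊢
    calc ((a : G ⧸ Z) * b)⁻¹ * ((T : G ⧸ Z) * (a * b) * (T : G ⧸ Z)⁻¹)
        = (b : G ⧸ Z)⁻¹ * ((a : G ⧸ Z)⁻¹ * (T * a * (T : G ⧸ Z)⁻¹)) * (T * b * (T : G ⧸ Z)⁻¹) := by group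
      _ = _ := by rw [h1]; group)
  have hker : φ.ker = (K H Z T).subgroupOf H := by
    ext x
    rw [MonoidHom.mem_ker, mem_subgroupOf, mem_K]
    simp only [φ, MonoidHom.mk'_apply, QuotientGroup.eq_one_iff, x.2, true_and]
  have hf : ∀ h ∈ H, h⁻¹ * (T * h * T⁻¹) ∈ C ∧ (h⁻¹ * (T * h * T⁻¹)) ^ 2 = 1 := by
    intro h hh
    have hm : h⁻¹ * (T * h * T⁻¹) ∈ H := mul_mem (inv_mem hh) (hHn.conj_mem _ hh T)
    have hinv : T * (h⁻¹ * (T * h * T⁻¹)) * T⁻¹ = (h⁻¹ * (T * h * T⁻¹))⁻¹ := by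
      rw [hTi]
      calc T * (h⁻¹ * (T * h * T)) * T = T * h⁻¹ * T * h * (T * T) := by group
        _ = (h⁻¹ * (T⁻¹ * h * T⁻¹))⁻¹ := by rw [hT2]; group
        _ = _ := by rw [hTi]
    have hc : h⁻¹ * (T * h * T⁻¹) ∈ C := by
      rw [hCeq]
      refine mem_K.mpr ⟨hm, ?_⟩
      rw [hinv, ← sq]
      exact ⟨pow_mem (inv_mem hm) 2, hsq _ (inv_mem hm)⟩
    refine ⟨hc, ?_⟩
    rw [← mem_centralizer_singleton_iff.mp hc.2, mul_inv_cancel_right] at hinv
    rw [sq]
    exact mul_eq_one_iff_eq_inv.mpr hinv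
  have hrange : φ.range ≤ C.map (QuotientGroup.mk' Z) := by
    rintro _ ⟨h, rfl⟩
    exact ⟨_, (hf h h.2).1, rfl⟩
  have hc1 : Nat.card φ.ker * Nat.card φ.range = 32 := by
    rw [← h32, ← index_ker, card_mul_index]
  have hc2 : Nat.card φ.ker = Nat.card C := by
    rw [hker, Nat.card_congr (subgroupOfEquivOfLe (hKH T)).toEquiv, hCeq]
  have hc3 : Nat.card (C.map (QuotientGroup.mk' Z)) * 2 = Nat.card C := by
    have h1 := PGrp.card_eq_card_mul_relIndex ((hZK T).trans hCeq.ge)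
    rw [h1, hZ2, mul_comm, ← relIndex_ker, QuotientGroup.ker_mk']
  have hC8' : Nat.card C = 8 := by rw [hCeq] at hC8 ⊢; omega
  have heq := PGrp.eq_of_le_of_card_le hrange (by rw [hc2, hC8'] at hc1; omega)
  have hexp : ∀ c ∈ C, c ^ 2 = 1 := by
    intro c hc
    obtain ⟨h, hh⟩ := heq.ge (mem_map_of_mem _ hc)
    have h1 : ((h : G)⁻¹ * (T * h * T⁻¹))⁻¹ * c ∈ Z := QuotientGroup.eq.mp hh
    set a := (h : G)⁻¹ * (T * h * T⁻¹)
    have h2 : a * a = 1 := by rw [← sq]; exact (hf h h.2).2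
    calc c ^ 2 = a * ((a⁻¹ * c) * a) * (a⁻¹ * c) := by rw [sq]; group
      _ = (a * a) * ((a⁻¹ * c) * (a⁻¹ * c)) := by rw [hZc _ h1]; group
      _ = 1 := by rw [h2, hZsq _ h1, one_mul]
  have := hminus C inf_le_left ⟨PGrp.isMulCommutative_iff_forall.mpr fun a ha b hb => ?_, hexp⟩
  · omega
  · have h1 := hexp _ (mul_mem ha hb)
    have h2 := hexp a ha
    have h3 := hexp b hb
    rw [sq] at h1 h2 h3
    calc a * b = a * (a * b * (a * b)) * b := by rw [h1]; group
      _ = (a * a) * b * a * (b * b) := by group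
      _ = b * a := by rw [h2, h3]; group

end Cfsg.Agent.H23.E320
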