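import Mathlib
import Cfsg.Agent.Core.Basic
import Cfsg.Agent.Core.MinNormal
import Cfsg.Agent.Core.PSolvable
import Cfsg.Agent.PGrp.CyclicOdd
import Cfsg.Agent.PGrp.Class
import Cfsg.Agent.H23.PL2

set_option autoImplicit false

namespace Cfsg.Agent.H23.EqOrd

open Subgroup

universe u

theorem pow_eq_one {G : Type*} [Group G] [Finite G] {p : ℕ} [hp : Fact p.Prime] (hp2 : p ≠ 2)
    (hC : ∀ H K : Subgroup G, IsPGroup p H → IsPGroup p K → Nat.card H = Nat.card K →
      ∃ g : G, K = H.map (MulAut.conj g).toMonoidHom) {P : Subgroup G} (hP : IsPGroup p P)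
    (hnc : ¬ IsCyclic P) {x : G} (hx : x ∈ P) : x ^ p = 1 := by
  obtain ⟨E, -, hE, hEc⟩ := PGrp.exists_elementary_sq_of_not_isCyclic hp2 hP hnc
  obtain ⟨m, hm⟩ := PGrp.exists_orderOf_eq_pow_of_mem hP hx
  rcases m with _ | _ | m
  · rw [pow_zero, orderOf_eq_one_iff] at hm; rw [hm, one_pow]
  · rw [← orderOf_dvd_iff_pow_eq_one, hm]; simp
  exfalso
  have ho : orderOf (x ^ p ^ m) = p ^ 2 := by
    rw [orderOf_pow' _ (pow_ne_zero _ hp.out.ne_zero), hm,
      Nat.gcd_eq_right (pow_dvd_pow p (by omega)), Nat.pow_div (by omega) hp.out.pos]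
    congr 1; omega
  have hc : Nat.card (zpowers (x ^ p ^ m)) = p ^ 2 := by rw [Nat.card_zpowers, ho]
  obtain ⟨g, hg⟩ := hC E _ (IsPGroup.of_card hEc) (IsPGroup.of_card hc) (by rw [hEc, hc])
  have hE' := Core.IsElementaryAbelian.map hE (MulAut.conj g).toMonoidHom
  rw [← hg] at hE'
  have := orderOf_dvd_of_pow_eq_one (hE'.2 _ (mem_zpowers _))
  rw [ho] at this
  have h2 := Nat.le_of_dvd hp.out.pos this
  have h3 : p ^ 1 < p ^ 2 := Nat.pow_lt_pow_right hp.out.one_lt (by omega)
  rw [pow_one] at h3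
  omega

theorem main_aux (p : ℕ) [hp : Fact p.Prime] (hp2 : p ≠ 2) (G : Type u) [Group G] [Finite G] :
    (∀ H K : Subgroup G, IsPGroup p H → IsPGroup p K → Nat.card H = Nat.card K →
      ∃ g : G, K = H.map (MulAut.conj g).toMonoidHom) → ∀ (P : Sylow p G) (H : Subgroup G),
      H.Normal → Cfsg.IsPSolvable p H → p ∣ Nat.card H →
      IsMulCommutative P ∧ ((P : Subgroup G) ≤ H ∨ IsCyclic P) := by
  refine Core.induction_on_card (P := fun G _ _ =>
    (∀ H K : Subgroup G, IsPGroup p H → IsPGroup p K → Nat.card H = Nat.card K →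
      ∃ g : G, K = H.map (MulAut.conj g).toMonoidHom) → ∀ (P : Sylow p G) (H : Subgroup G),
      H.Normal → Cfsg.IsPSolvable p H → p ∣ Nat.card H →
      IsMulCommutative P ∧ ((P : Subgroup G) ≤ H ∨ IsCyclic P)) ?_ G
  intro G _ _ ih hC P H hH hs hd
  by_cases hcy : IsCyclic P
  · exact ⟨inferInstance, Or.inr hcy⟩
  have hne : H ≠ ⊥ := by
    rintro rfl
    rw [card_bot] at hd
    exact hp.out.one_lt.ne' (Nat.dvd_one.1 hd)
  obtain ⟨N, hN, hN1, hNH, hmin⟩ := Core.exists_minimal_normal_le H hne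
  rcases Core.minimal_normal_of_isPSolvable N (Core.IsPSolvable.of_le hs hNH) hmin with hNp | hNp
  · obtain ⟨q, -, hq⟩ := Core.minimal_normal_elementary N (Core.solvable_of_isPGroup hNp) hN1 hmin
    obtain ⟨m, hm⟩ := IsPGroup.iff_card.1 hNp
    have hm1 : 1 ≤ m := by
      rcases m with _ | m
      · rw [pow_zero] at hm; exact absurd (eq_bot_of_card_eq N hm) hN1
      · omega
    have hPN : (P : Subgroup G) ≤ N := by
      intro x hx
      have hxp := pow_eq_one hp2 hC P.isPGroup' hcy hx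
      by_cases hx1 : x = 1
      · rw [hx1]; exact N.one_mem
      have hc : Nat.card (zpowers x) = p ^ 1 := by
        rw [Nat.card_zpowers, orderOf_eq_prime hxp hx1, pow_one]
      obtain ⟨K, hK, hxK⟩ := Sylow.exists_subgroup_card_pow_prime_le p
        (hm ▸ N.card_subgroup_dvd_card) _ hc hm1
      obtain ⟨g, hg⟩ := hC N K hNp (IsPGroup.of_card hK) (by rw [hm, hK])
      have := hxK (mem_zpowers x)
      rw [hg] at this
      obtain ⟨y, hy, rfl⟩ := this
      exact hN.conj_mem y hy g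
    exact ⟨Core.isMulCommutative_of_le hq.1 hPN, Or.inl (hPN.trans hNH)⟩
  · let f := QuotientGroup.mk' N
    have hf : Function.Surjective f := QuotientGroup.mk'_surjective N
    have hinf : ∀ S : Subgroup G, IsPGroup p S → S ⊓ f.ker = ⊥ := by
      intro S hS
      rw [QuotientGroup.ker_mk']
      obtain ⟨k, hk⟩ := IsPGroup.iff_card.1 hS
      exact (Core.disjoint_of_coprime (by rw [hk]; exact (hNp.symm.pow_left k))).eq_bot
    have hC' : ∀ A B : Subgroup (G ⧸ N), IsPGroup p A → IsPGroup p B → Nat.card A = Nat.card B →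
        ∃ g : G ⧸ N, B = A.map (MulAut.conj g).toMonoidHom := by
      intro A B hA hB hAB
      obtain ⟨S, hS, rfl⟩ := HH.exists_lift_pGroup hf hA
      obtain ⟨T, hT, rfl⟩ := HH.exists_lift_pGroup hf hB
      rw [HH.card_map_of_inf_ker f (hinf S hS), HH.card_map_of_inf_ker f (hinf T hT)] at hAB
      obtain ⟨g, rfl⟩ := hC S T hS hT hAB
      refine ⟨f g, ?_⟩
      rw [map_map, map_map]
      congr 1
    have hd' : p ∣ Nat.card (H.map f) := by
      have e := PGrp.card_map_mk'_mul N H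
      rw [← e, inf_eq_left.2 hNH] at hd
      exact (Nat.Coprime.dvd_mul_right hNp.symm).1 hd
    obtain ⟨h1, h2⟩ := ih (G ⧸ N) (Core.card_quotient_lt N hN1) hC' (P.mapSurjective hf)
      (H.map f) (hH.map f hf) (Core.IsPSolvable.map hs f) hd'
    have hinj : Function.Injective (f.subgroupMap (P : Subgroup G)) := by
      rw [injective_iff_map_eq_one]
      intro a ha
      have : (a : G) ∈ (P : Subgroup G) ⊓ f.ker := ⟨a.2, congrArg Subtype.val ha⟩
      rw [hinf _ P.isPGroup'] at this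
      exact Subtype.ext this
    refine ⟨⟨⟨fun a b => hinj ?_⟩⟩, ?_⟩
    · rw [map_mul, map_mul]
      exact h1.1.1 _ _
    rcases h2 with h2 | h2
    · left
      intro x hx
      have : f x ∈ H.map f := h2 ⟨x, hx, rfl⟩
      rw [← mem_comap, comap_map_eq, QuotientGroup.ker_mk', sup_eq_left.2 hNH] at this
      exact this
    · right
      haveI : IsCyclic ((P : Subgroup G).map f) := h2
      exact isCyclic_of_injective _ hinj

end Cfsg.Agent.H23.EqOrd
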