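import Mathlib
import Cfsg.Prelude.Def_Transfer
import Cfsg.Agent.PGrp.Basic
import Cfsg.Agent.Transfer.Residual

set_option autoImplicit false

namespace Cfsg.Agent.H23.TTL

open Subgroup MulAction

variable {G : Type*} [Group G]

theorem ttl_aux [Finite G] (P : Sylow 2 G) {A : Type*} [CommGroup A] (φ : (P : Subgroup G) →* A)
    (c : A) (hc : ∀ a : A, a ^ 2 = 1 → a ≠ 1 → a = c) {t : G} (ht2 : t ^ 2 = 1)
    (htZ : t ∈ centralizer ((P : Subgroup G) : Set G))
    (h : ∀ g ∈ normalizer ((P : Subgroup G) : Set G), ∃ h : g⁻¹ * t * g ∈ (P : Subgroup G), φ ⟨_, h⟩ ≠ 1) :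
    ∃ k, Odd k ∧ MonoidHom.transfer φ t = c ^ k := by
  classical
  haveI : Fact (Nat.Prime 2) := ⟨Nat.prime_two⟩
  let S : SubMulAction (P : Subgroup G) (G ⧸ (P : Subgroup G)) :=
    { carrier := {ω | ∃ g : G, (g : G ⧸ (P : Subgroup G)) = ω ∧
        ∃ h : g⁻¹ * t * g ∈ (P : Subgroup G), φ ⟨_, h⟩ ≠ 1}
      smul_mem' := by
        rintro x _ ⟨g, rfl, h1, h2⟩
        have e : ((x : G) * g)⁻¹ * t * (x * g) = g⁻¹ * t * g := by
          rw [mul_inv_rev, mul_assoc, mul_assoc, ← mul_assoc t, ← htZ x x.2]; group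
        exact ⟨x * g, rfl, e ▸ h1, by simpa only [e] using h2⟩ }
  have hS : ∀ g : G, (g : G ⧸ (P : Subgroup G)) ∈ S ↔
      ∃ h : g⁻¹ * t * g ∈ (P : Subgroup G), φ ⟨_, h⟩ ≠ 1 := fun g => by
    refine ⟨?_, fun h => ⟨g, rfl, h⟩⟩
    rintro ⟨g', e, h1, h2⟩
    have hp := QuotientGroup.eq.mp e
    have e2 : g⁻¹ * t * g = (g'⁻¹ * g)⁻¹ * (g'⁻¹ * t * g') * (g'⁻¹ * g) := by group
    refine ⟨e2 ▸ mul_mem (mul_mem (inv_mem hp) h1) hp, fun h3 => h2 ?_⟩
    have e3 : (⟨g⁻¹ * t * g, e2 ▸ mul_mem (mul_mem (inv_mem hp) h1) hp⟩ : (P : Subgroup G)) =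
      (⟨_, hp⟩ : (P : Subgroup G))⁻¹ * ⟨_, h1⟩ * ⟨_, hp⟩ := Subtype.ext e2
    rwa [e3, map_mul, map_mul, map_inv, mul_comm, mul_inv_cancel_left] at h3
  have hodd : Odd (Nat.card S) := by
    have h1 := P.isPGroup'.card_modEq_card_fixedPoints S
    have h2 := P.isPGroup'.card_modEq_card_fixedPoints (G ⧸ (P : Subgroup G))
    have h3 : Nat.card (fixedPoints (P : Subgroup G) S) =
        Nat.card (fixedPoints (P : Subgroup G) (G ⧸ (P : Subgroup G))) := by
      refine Nat.card_congr ⟨fun x => ⟨x.1.1, fun p => congrArg Subtype.val (x.2 p)⟩,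
        fun x => ⟨⟨x.1, ?_⟩, fun p => Subtype.ext (x.2 p)⟩, fun _ => rfl, fun _ => rfl⟩
      obtain ⟨x, hx⟩ := x
      obtain ⟨g, rfl⟩ := QuotientGroup.mk_surjective x
      exact (hS g).mpr (h g (Sylow.mem_fixedPoints_mul_left_cosets_iff_mem_normalizer.mp hx))
    rw [h3] at h1
    have h4 : ¬ 2 ∣ Nat.card (G ⧸ (P : Subgroup G)) := P.not_dvd_index
    have := h1.trans h2.symm
    unfold Nat.ModEq at this
    rw [Nat.odd_iff]; omega
  refine ⟨_, hodd, ?_⟩
  haveI : Fintype (Quotient (orbitRel (zpowers t) (G ⧸ (P : Subgroup G)))) := Fintype.ofFinite _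
  have hfix : ∀ ω : G ⧸ (P : Subgroup G), ω ∈ S → t • ω = ω := fun ω hω => by
    obtain ⟨g, rfl, h1, -⟩ := hω
    rw [Quotient.smul_mk, smul_eq_mul, eq_comm, QuotientGroup.eq, ← mul_assoc]
    exact h1
  rw [MonoidHom.transfer_eq_prod_quotient_orbitRel_zpowers_quot,
    Finset.prod_congr rfl (g := fun q => if q.out ∈ S then c else 1), Finset.prod_ite, Finset.prod_const,
    Finset.prod_const_one, mul_one]
  · congr 1
    rw [← Fintype.card_subtype, ← Nat.card_eq_fintype_card]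
    refine Nat.card_congr (Equiv.ofBijective (fun q => ⟨q.1.out, q.2⟩) ⟨fun q r e => ?_, fun ω => ?_⟩)
    · exact Subtype.ext (Quotient.out_injective (congrArg Subtype.val e))
    · have e : (Quotient.mk (orbitRel (zpowers t) (G ⧸ (P : Subgroup G))) ω.1).out = ω.1 := by
        obtain ⟨⟨_, k, rfl⟩, hk⟩ := orbitRel_apply.mp (Quotient.mk_out (s := orbitRel (zpowers t) _) ω.1)
        rw [← hk]
        exact (zpow_mem (show t ∈ stabilizer G ω.1 from hfix _ ω.2) k : _)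
      exact ⟨⟨Quotient.mk _ ω.1, by rw [e]; exact ω.2⟩, Subtype.ext e⟩
  · intro q _
    have hm := hS q.out.out
    rw [QuotientGroup.out_eq'] at hm
    have hper : Function.minimalPeriod (t • ·) q.out ∣ 2 :=
      Function.IsPeriodicPt.minimalPeriod_dvd (by rw [isPeriodicPt_smul_iff, ht2, one_smul])
    rcases (Nat.dvd_prime Nat.prime_two).mp hper with e | e
    · simp only [e, pow_one]
      split_ifs with h1
      · obtain ⟨h2, h3⟩ := hm.mp h1
        refine hc _ ?_ h3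
        rw [← map_pow, ← map_one φ]
        congr 1
        apply Subtype.ext
        change (q.out.out⁻¹ * t * q.out.out) ^ 2 = 1
        rw [← inv_inv q.out.out, inv_inv q.out.out⁻¹, conj_pow, ht2]; group
      · by_contra h3
        exact h1 (hm.mpr ⟨_, h3⟩)
    · rw [if_neg]
      · simp only [e, ht2]
        rw [← map_one φ]
        congr 1
        apply Subtype.ext
        simp
      · intro h1
        have := Function.minimalPeriod_eq_one_iff_isFixedPt.mpr (show Function.IsFixedPt (t • ·) q.out from hfix _ h1)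
        omega

theorem ttl [Finite G] (hG : ∀ H : Subgroup G, H.index ≠ 2) (P : Sylow 2 G) {A : Type*} [CommGroup A]
    (φ : (P : Subgroup G) →* A) (hc : ∀ a b : A, a ^ 2 = 1 → b ^ 2 = 1 → a ≠ 1 → b ≠ 1 → a = b) {t : G}
    (ht : t ∈ (P : Subgroup G)) (ht2 : t ^ 2 = 1) (htZ : t ∈ centralizer ((P : Subgroup G) : Set G)) :
    ∃ g ∈ normalizer ((P : Subgroup G) : Set G), ∃ h : g⁻¹ * t * g ∈ (P : Subgroup G), φ ⟨_, h⟩ = 1 := by
  haveI : Fact (Nat.Prime 2) := ⟨Nat.prime_two⟩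
  by_contra hne
  push Not at hne
  have h1 : φ ⟨t, ht⟩ ≠ 1 := by simpa using hne 1 (one_mem _) (by simpa using ht)
  have h2 : φ.rangeRestrict ⟨t, ht⟩ ^ 2 = 1 := by
    rw [← map_pow, ← map_one φ.rangeRestrict]
    congr 1
    exact Subtype.ext ht2
  obtain ⟨k, ⟨m, rfl⟩, hk⟩ := ttl_aux P φ.rangeRestrict (φ.rangeRestrict ⟨t, ht⟩)
    (fun a ha ha1 => Subtype.ext (hc _ _ (congrArg Subtype.val ha) (congrArg Subtype.val h2)
      (fun e => ha1 (Subtype.ext e)) h1)) ht2 htZ fun g hg =>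
      ⟨PGrp.conj_mem_of_mem_normalizer' hg ht, fun e => hne g hg _ (congrArg Subtype.val e)⟩
  have hr : pResidual 2 G = ⊤ := by
    by_contra h
    obtain ⟨N, -, h1, -⟩ := Transfer.exists_normal_index_eq_of_pResidual_ne_top h
    exact hG N h1
  have h3 := Transfer.pResidual_le_ker (P.isPGroup'.of_surjective _ φ.rangeRestrict_surjective)
    (MonoidHom.transfer φ.rangeRestrict) (hr ▸ mem_top t)
  rw [MonoidHom.mem_ker, hk, pow_succ, pow_mul, h2, one_pow, one_mul] at h3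
  exact h1 (congrArg Subtype.val h3)

end Cfsg.Agent.H23.TTL
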