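import Mathlib
import Cfsg.Agent.H23.TTL

set_option autoImplicit false

namespace Cfsg.Agent.H23.GL3E8

open Subgroup Matrix Module
open scoped commutatorElement

variable {F : Type*} [Field F]

theorem conj_aux (h2 : (2 : F) ≠ 0) (u : Matrix (Fin 3) (Fin 3) F) (hu : u * u = 1)
    (hL : finrank F (LinearMap.ker (toLin' u - 1)) = 1) :
    ∃ e : Matrix (Fin 3) (Fin 3) F ≃ₐ[F] Matrix (Fin 3) (Fin 3) F,
      (∀ m, (e m).det = m.det) ∧ e u = !![1, 0, 0; 0, -1, 0; 0, 0, -1] := by
  set L := LinearMap.ker (toLin' u - 1) with hLd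
  set W := LinearMap.ker (toLin' u + 1) with hWd
  have mL : ∀ v, v ∈ L ↔ u *ᵥ v = v := fun v => by simp [hLd, sub_eq_zero]
  have mW : ∀ v, v ∈ W ↔ u *ᵥ v = -v := fun v => by simp [hWd, add_eq_zero_iff_eq_neg]
  have hc : IsCompl L W := by
    constructor
    · rw [Submodule.disjoint_def]
      intro v h1 h3
      rw [mL] at h1
      rw [mW, h1, eq_neg_iff_add_eq_zero, ← two_smul F] at h3
      exact (smul_eq_zero.mp h3).resolve_left h2
    · rw [codisjoint_iff, eq_top_iff]
      intro v _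
      have e : v = (2 : F)⁻¹ • (v + u *ᵥ v) + (2 : F)⁻¹ • (v - u *ᵥ v) := by
        rw [← smul_add, add_add_sub_cancel, ← two_smul F, smul_smul, inv_mul_cancel₀ h2, one_smul]
      rw [e]
      refine Submodule.add_mem_sup (L.smul_mem _ ?_) (W.smul_mem _ ?_)
      · rw [mL, mulVec_add, mulVec_mulVec, hu, one_mulVec, add_comm]
      · rw [mW, mulVec_sub, mulVec_mulVec, hu, one_mulVec, neg_sub]
  have hW : finrank F W = 2 := by
    have := Submodule.finrank_add_eq_of_isCompl hc
    rw [hL, finrank_fin_fun] at this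
    omega
  let b : Basis (Fin 3) F (Fin 3 → F) :=
    (((finBasisOfFinrankEq F L hL).prod (finBasisOfFinrankEq F W hW)).map
      (Submodule.prodEquivOfIsCompl L W hc)).reindex finSumFinEquiv
  have b0 : b 0 ∈ L := by
    have : b 0 = finBasisOfFinrankEq F L hL 0 := by
      simp [b, show finSumFinEquiv.symm (0 : Fin (1 + 2)) = Sum.inl 0 from rfl]
    rw [this]; exact Subtype.mem _
  have b1 : b 1 ∈ W := by
    have : b 1 = finBasisOfFinrankEq F W hW 0 := by
      simp [b, show finSumFinEquiv.symm (1 : Fin (1 + 2)) = Sum.inr 0 from rfl]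
    rw [this]; exact Subtype.mem _
  have b2 : b 2 ∈ W := by
    have : b 2 = finBasisOfFinrankEq F W hW 1 := by
      simp [b, show finSumFinEquiv.symm (2 : Fin (1 + 2)) = Sum.inr 1 from rfl]
    rw [this]; exact Subtype.mem _
  refine ⟨toLinAlgEquiv'.trans (LinearMap.toMatrixAlgEquiv b), fun m => ?_, ?_⟩
  · change (LinearMap.toMatrix b b (toLin' m)).det = _
    rw [LinearMap.det_toMatrix, LinearMap.det_toLin']
  · ext i j
    change LinearMap.toMatrix b b (toLin' u) i j = _
    rw [LinearMap.toMatrix_apply, toLin'_apply]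
    fin_cases j
    · simp only [Fin.zero_eta, (mL _).mp b0]
      fin_cases i <;> simp
    · simp only [Fin.mk_one, (mW _).mp b1]
      fin_cases i <;> simp
    · simp only [Fin.reduceFinMk, (mW _).mp b2]
      fin_cases i <;> simp

theorem exists_conj (h2 : (2 : F) ≠ 0) (u : Matrix (Fin 3) (Fin 3) F) (hu : u * u = 1) (h1 : u ≠ 1)
    (hd : u.det = 1) : ∃ e : Matrix (Fin 3) (Fin 3) F ≃ₐ[F] Matrix (Fin 3) (Fin 3) F,
      (∀ m, (e m).det = m.det) ∧ e u = !![1, 0, 0; 0, -1, 0; 0, 0, -1] := by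
  have hne : (-1 : F) ≠ 1 := fun h => h2 (by linear_combination -h)
  have e1 := LinearMap.finrank_range_add_finrank_ker (toLin' u - 1)
  have e2 := LinearMap.finrank_range_add_finrank_ker (toLin' (-u) - 1)
  rw [finrank_fin_fun] at e1 e2
  have h3 : LinearMap.range (toLin' (-u) - 1) ≤ LinearMap.ker (toLin' u - 1) := by
    rintro _ ⟨v, rfl⟩
    simp [mulVec_sub, mulVec_neg, neg_mulVec, hu]
    abel
  have h4 : Disjoint (LinearMap.ker (toLin' u - 1)) (LinearMap.ker (toLin' (-u) - 1)) := by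
    rw [Submodule.disjoint_def]
    intro v h1 h3
    simp only [LinearMap.mem_ker, LinearMap.sub_apply, toLin'_apply, End.one_apply, sub_eq_zero,
      neg_mulVec] at h1 h3
    rw [h1, neg_eq_iff_add_eq_zero, ← two_smul F] at h3
    exact (smul_eq_zero.mp h3).resolve_left h2
  have h5 := Submodule.finrank_mono h3
  have h6 := Submodule.finrank_add_finrank_le_of_disjoint h4
  rw [finrank_fin_fun] at h6
  have top : ∀ w : Matrix (Fin 3) (Fin 3) F, finrank F (LinearMap.ker (toLin' w - 1)) = 3 → w = 1 :=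
    fun w hw => by
      have := Submodule.eq_top_of_finrank_eq (hw.trans (finrank_fin_fun F).symm)
      rw [LinearMap.ker_eq_top, sub_eq_zero] at this
      exact toLin'.injective (by rw [this, toLin'_one]; rfl)
  have h7 : finrank F (LinearMap.ker (toLin' u - 1)) ≠ 3 := fun h => h1 (top u h)
  have h8 : finrank F (LinearMap.ker (toLin' (-u) - 1)) ≠ 3 := fun h => by
    have := top _ h
    rw [neg_eq_iff_eq_neg] at this
    rw [this, det_neg] at hd
    norm_num at hd
    exact hne hd
  have h9 : finrank F (LinearMap.ker (toLin' (-u) - 1)) ≠ 1 := fun h => by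
    obtain ⟨e, he1, he2⟩ := conj_aux h2 (-u) (by simpa using hu) h
    have := he1 (-u)
    rw [he2, det_neg, hd] at this
    simp [det_fin_three] at this
    exact hne (by norm_num at this; exact this.symm)
  exact conj_aux h2 u hu (by omega)

theorem comm2 {s a b : Matrix (Fin 2) (Fin 2) F} (hs : s * s = 1) (h1 : s ≠ 1) (h2 : s ≠ -1)
    (ha : a * s = s * a) (hb : b * s = s * b) : a * b = b * a := by
  have e := fun (m n : Matrix (Fin 2) (Fin 2) F) (h : m = n) i j => congrFun (congrFun h i) j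
  have s1 := e _ _ hs 0 0
  have a1 := e _ _ ha 0 0
  have a2 := e _ _ ha 0 1
  have a3 := e _ _ ha 1 0
  have b1 := e _ _ hb 0 0
  have b2 := e _ _ hb 0 1
  have b3 := e _ _ hb 1 0
  simp [Matrix.mul_apply, Fin.sum_univ_two] at s1 a1 a2 a3 b1 b2 b3
  have hn : s 0 1 ≠ 0 ∨ s 1 0 ≠ 0 ∨ s 0 0 - s 1 1 ≠ 0 := by
    by_contra h
    push Not at h
    obtain ⟨k1, k2, k3⟩ := h
    rw [k1, zero_mul, add_zero, mul_self_eq_one_iff] at s1
    rw [sub_eq_zero] at k3
    rcases s1 with s1 | s1
    · apply h1; ext i j; fin_cases i <;> fin_cases j <;> simp [k1, k2, ← k3, s1]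
    · apply h2; ext i j; fin_cases i <;> fin_cases j <;> simp [k1, k2, ← k3, s1]
  ext i j
  fin_cases i <;> fin_cases j <;> simp [Matrix.mul_apply, Fin.sum_univ_two] <;>
    rcases hn with h | h | h <;> grind

theorem pm_of_det {s : Matrix (Fin 2) (Fin 2) F} (h2 : (2 : F) ≠ 0) (hs : s * s = 1) (hd : s.det = 1) :
    s = 1 ∨ s = -1 := by
  have e := fun (m n : Matrix (Fin 2) (Fin 2) F) (h : m = n) i j => congrFun (congrFun h i) j
  have s1 := e _ _ hs 0 0
  have s2 := e _ _ hs 0 1
  have s3 := e _ _ hs 1 0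
  have s4 := e _ _ hs 1 1
  simp [Matrix.mul_apply, Fin.sum_univ_two] at s1 s2 s3 s4
  rw [det_fin_two] at hd
  have h1 : s 0 0 + s 1 1 ≠ 0 := by grind
  have h3 : s 0 1 = 0 := by grind
  have h4 : s 1 0 = 0 := by grind
  have h5 : s 0 0 = 1 ∨ s 0 0 = -1 := by grind
  rcases h5 with h5 | h5
  · left
    have : s 1 1 = 1 := by grind
    ext i j; fin_cases i <;> fin_cases j <;> simp [*]
  · right
    have : s 1 1 = -1 := by grind
    ext i j; fin_cases i <;> fin_cases j <;> simp [*]

theorem card_ker_ge {E : Type*} [Group E] [Finite E] (hE : ∀ e : E, e ^ 2 = 1) (d : E →* Fˣ) :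
    Nat.card E ≤ Nat.card d.ker * 2 := by
  rw [← d.ker.card_mul_index, Subgroup.index_ker]
  refine Nat.mul_le_mul_left _ ?_
  have h : (d.range : Set Fˣ) ⊆ {1, -1} := by
    rintro _ ⟨e, rfl⟩
    have : d e * d e = 1 := by rw [← map_mul, ← sq, hE, map_one]
    have h3 := congrArg Units.val this
    rw [Units.val_mul, Units.val_one, mul_self_eq_one_iff] at h3
    rcases h3 with h3 | h3
    · exact Or.inl (Units.ext h3)
    · exact Or.inr (Units.ext h3)
  exact (Set.ncard_le_ncard h (Set.toFinite _)).trans ((Set.ncard_insert_le _ _).trans (by simp))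

theorem split {X : Type*} [Group X] [Finite X] (hX : IsPGroup 2 X) (h2 : (2 : F) ≠ 0)
    (f : X →* GL (Fin 3) F) (hf : Function.Injective f) (E : Subgroup X)
    (hE : ∀ e ∈ E, e ^ 2 = 1) (h8 : Nat.card E = 8) :
    ∃ (a : X →* Fˣ) (B : X →* Matrix (Fin 2) (Fin 2) F) (u : X), (∀ x, a x = 1 → B x = 1 → x = 1) ∧
      a u = 1 ∧ B u = -1 := by
  haveI : Fact (Nat.Prime 2) := ⟨Nat.prime_two⟩
  let d : X →* Fˣ := (GeneralLinearGroup.det).comp f
  have hne : d.ker ≠ ⊥ := fun h => by
    have := card_ker_ge (fun e : E => Subtype.ext (hE e e.2)) (d.comp E.subtype)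
    rw [← MonoidHom.comap_ker, h, MonoidHom.comap_bot, Subgroup.ker_subtype, Subgroup.card_bot, h8] at this
    omega
  obtain ⟨u, hu, huZ, hu2⟩ := PGrp.exists_mem_center_orderOf_eq hX d.ker hne
  have hu1 : u ≠ 1 := fun h => by rw [h, orderOf_one] at hu2; omega
  obtain ⟨e, -, he⟩ := exists_conj h2 (f u : Matrix (Fin 3) (Fin 3) F)
    (by rw [← Units.val_mul, ← map_mul, ← sq, ← hu2, pow_orderOf_eq_one, map_one, Units.val_one])
    (fun h => hu1 (hf (by rw [map_one]; exact Units.ext h))) (congrArg Units.val hu)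
  let g : X →* Matrix (Fin 3) (Fin 3) F := e.toMonoidHom.comp ((Units.coeHom _).comp f)
  have hgu : g u = !![1, 0, 0; 0, -1, 0; 0, 0, -1] := he
  have hg : ∀ x, g x 0 1 = 0 ∧ g x 0 2 = 0 ∧ g x 1 0 = 0 ∧ g x 2 0 = 0 := fun x => by
    have h := congrArg g (mem_center_iff.mp huZ x)
    rw [map_mul, map_mul, hgu] at h
    have e := fun i j => congrFun (congrFun h i) j
    have e1 := e 0 1
    have e2 := e 0 2
    have e3 := e 1 0
    have e4 := e 2 0
    simp [Matrix.mul_apply, Fin.sum_univ_three] at e1 e2 e3 e4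
    refine ⟨?_, ?_, ?_, ?_⟩ <;> grind
  let a : X →* F :=
    { toFun := fun x => g x 0 0
      map_one' := by simp
      map_mul' := fun x y => by simp [Matrix.mul_apply, Fin.sum_univ_three, hg] }
  let B : X →* Matrix (Fin 2) (Fin 2) F :=
    { toFun := fun x => !![g x 1 1, g x 1 2; g x 2 1, g x 2 2]
      map_one' := by ext i j; fin_cases i <;> fin_cases j <;> simp
      map_mul' := fun x y => by
        ext i j; fin_cases i <;> fin_cases j <;> simp [Matrix.mul_apply, Fin.sum_univ_three, hg] }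
  refine ⟨a.toHomUnits, B, u, fun x h1 h3 => ?_, Units.ext (by simp [a, hgu]), ?_⟩
  · have h4 : g x 0 0 = 1 := congrArg Units.val h1
    have e' := fun i j => congrFun (congrFun h3 i) j
    have e1 := e' 0 0
    have e2 := e' 0 1
    have e3 := e' 1 0
    have e4 := e' 1 1
    simp [B] at e1 e2 e3 e4
    have : g x = 1 := by ext i j; fin_cases i <;> fin_cases j <;> simp [*]
    apply hf
    rw [map_one]
    exact Units.ext (e.injective (this.trans (map_one e).symm))
  · ext i j; fin_cases i <;> fin_cases j <;> simp [B, hgu]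

theorem main {G : Type*} [Group G] [Finite G] (hG : ∀ H : Subgroup G, H.index ≠ 2) (P : Sylow 2 G)
    (h2 : (2 : F) ≠ 0) (f : (P : Subgroup G) →* GL (Fin 3) F) (hf : Function.Injective f)
    (E : Subgroup (P : Subgroup G)) (hE : ∀ e ∈ E, e ^ 2 = 1) (h8 : Nat.card E = 8) :
    IsMulCommutative (P : Subgroup G) := by
  haveI : Fact (Nat.Prime 2) := ⟨Nat.prime_two⟩
  obtain ⟨a, B, u, hi, hau, hBu⟩ := split P.isPGroup' h2 f hf E hE h8
  have ext : ∀ x y, a x = a y → B x = B y → x = y := fun x y h1 h3 =>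
    mul_inv_eq_one.mp (hi _ (by rw [map_mul, h1, ← map_mul, mul_inv_cancel, map_one])
      (by rw [map_mul, h3, ← map_mul, mul_inv_cancel, map_one]))
  obtain ⟨t, htE, ht1, hBt⟩ : ∃ t ∈ E, t ≠ 1 ∧ B t = 1 := by
    by_contra hn
    push Not at hn
    let d : E →* Fˣ := ((detMonoidHom.comp B).comp E.subtype).toHomUnits
    have h1 := card_ker_ge (fun e : E => Subtype.ext (hE e e.2)) d
    have h3 : Nat.card d.ker ≤ ({1, -1} : Set (Matrix (Fin 2) (Fin 2) F)).ncard := by
      refine Nat.card_le_card_of_injective (fun x => ⟨B x.1.1, ?_⟩) fun x y e => ?_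
      · exact pm_of_det h2 (by rw [← map_mul, ← sq, hE _ x.1.2, map_one]) (congrArg Units.val x.2)
      · have e1 : B x.1.1 = B y.1.1 := congrArg Subtype.val e
        by_contra h
        refine hn _ (mul_mem x.1.2 (inv_mem y.1.2)) (fun e2 => h ?_)
          (by rw [map_mul, e1, ← map_mul, mul_inv_cancel, map_one])
        exact Subtype.ext (Subtype.ext (mul_inv_eq_one.mp e2))
    have := Set.ncard_insert_le (1 : Matrix (Fin 2) (Fin 2) F) {-1}
    rw [Set.ncard_singleton] at this
    omega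
  have htZ : ∀ x, x * t = t * x := fun x =>
    ext _ _ (by rw [map_mul, map_mul, mul_comm]) (by rw [map_mul, map_mul, hBt, mul_one, one_mul])
  by_contra hn
  have key : ∀ s, (∀ x, x * s = s * x) → s ^ 2 = 1 → s ≠ 1 → a s = 1 → s = u := fun s h1 h3 h4 h5 => by
    by_contra h6
    refine hn ⟨⟨fun x y => ext _ _ (by rw [map_mul, map_mul, mul_comm]) ?_⟩⟩
    rw [map_mul, map_mul]
    exact comm2 (s := B s) (by rw [← map_mul, ← sq, h3, map_one]) (fun h => h4 (hi _ h5 h))
      (fun h => h6 (ext _ _ (h5.trans hau.symm) (h.trans hBu.symm)))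
      (by rw [← map_mul, h1, map_mul]) (by rw [← map_mul, h1, map_mul])
  obtain ⟨z, hz, hzZ, hz2⟩ := PGrp.exists_mem_center_orderOf_eq P.isPGroup' (commutator (P : Subgroup G))
    fun h => hn ⟨⟨fun x y => mem_center_iff.mp
      (((commutator_eq_bot_iff_center_eq_top _).mp h) ▸ mem_top y) x⟩⟩
  have hzu : z = u := key z (mem_center_iff.mp hzZ) (by have := pow_orderOf_eq_one z; rwa [hz2] at this)
    (fun h => by rw [h, orderOf_one] at hz2; omega) (Abelianization.commutator_subset_ker a hz)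
  obtain ⟨g, hg, hs, has⟩ := TTL.ttl hG P a (fun x y hx hy hx1 hy1 => by
      have e1 := congrArg Units.val hx
      have e2 := congrArg Units.val hy
      rw [Units.val_pow_eq_pow_val, Units.val_one, sq, mul_self_eq_one_iff] at e1 e2
      exact Units.ext ((e1.resolve_left fun h => hx1 (Units.ext h)).trans
        (e2.resolve_left fun h => hy1 (Units.ext h)).symm)) t.2
    (congrArg Subtype.val (hE t htE)) (fun x hx => congrArg Subtype.val (htZ ⟨x, hx⟩))
  let c := (P : Subgroup G).normalizerMonoidHom ⟨g, hg⟩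
  have hc : c ⟨_, hs⟩ = t := Subtype.ext (by
    change g * (g⁻¹ * t * g) * g⁻¹ = t
    group)
  have hsu := key ⟨_, hs⟩ (fun x => c.injective (by rw [map_mul, map_mul, hc, htZ]))
    (c.injective (by rw [map_pow, hc, map_one, hE t htE])) (fun h => ht1 (by rw [← hc, h, map_one])) has
  have := Abelianization.commutator_subset_ker (a.comp c.toMonoidHom) hz
  rw [hzu, ← hsu] at this
  exact ht1 (hi t (hc ▸ this) hBt)

end Cfsg.Agent.H23.GL3E8
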