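import Mathlib
import Cfsg.Prelude.Def_HallClasses
import Cfsg.Agent.Core.Basic
import Cfsg.Agent.Classical.SLBasic
import Cfsg.Agent.Classical.Borel2
import Cfsg.Agent.S0799

set_option autoImplicit false

namespace Cfsg.Agent.H23.HallAll

open Subgroup
open scoped MatrixGroups

theorem not_E (π : Set ℕ) {p q r : ℕ} (hp : p.Prime) (hq : q.Prime) (hr : r.Prime) (hpq : p < q)
    (hpπ : p ∈ π) (hqπ : q ∈ π) (hrπ : r ∉ π) :
    ∃ (G : Type) (_ : Group G) (_ : Finite G), ¬ IsEPiGroup π G := by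
  have hq2 : q ≠ 2 := by have := hp.two_le; omega
  have hqr : q ≠ r := by rintro rfl; exact hrπ hqπ
  have hco : (p ^ 2 * r ^ 2).Coprime (q ^ 3) := by
    refine Nat.Coprime.pow_right _ (Nat.Coprime.mul_left (Nat.Coprime.pow_left _ ?_)
      (Nat.Coprime.pow_left _ ?_))
    · exact (Nat.coprime_primes hp hq).2 hpq.ne
    · exact (Nat.coprime_primes hr hq).2 hqr.symm
  have hq3 : 0 < q ^ 3 := pow_pos hq.pos 3
  obtain ⟨a, ha1, ha2⟩ := Nat.chineseRemainder hco 1 (q ^ 3 - 1)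
  have hac : a.Coprime (p ^ 2 * r ^ 2 * q ^ 3) := by
    refine Nat.Coprime.mul_right ?_ ?_
    · rw [Nat.Coprime, ha1.gcd_eq]; simp
    · rw [Nat.Coprime, ha2.gcd_eq]
      exact ((Nat.coprime_self_sub_right hq3).2 (by simp)).symm
  obtain ⟨l, hl2, hl, hla⟩ := Nat.forall_exists_prime_gt_and_modEq q
    (Nat.mul_pos (Nat.mul_pos (pow_pos hp.pos 2) (pow_pos hr.pos 2)) hq3).ne' hac
  have h1 : p ^ 2 * r ^ 2 ∣ l - 1 :=
    (Nat.modEq_iff_dvd' hl.one_le).1 ((hla.of_mul_right _).trans ha1).symm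
  have h2 : q ^ 3 ∣ l + 1 := by
    have := ((hla.of_mul_left _).trans ha2).add_right 1
    rw [Nat.sub_add_cancel hq3] at this
    exact (Nat.modEq_zero_iff_dvd.1 (this.trans (Nat.modEq_zero_iff_dvd.2 dvd_rfl)))
  haveI := Fact.mk hl
  have hlodd : l % 2 = 1 := by
    rcases hl.eq_two_or_odd with h | h
    · have := hq.two_le; omega
    · exact h
  have hg : Nat.gcd 2 (l - 1) = 2 := Nat.gcd_eq_left (by omega)
  have hsq : l ^ 2 - 1 = (l + 1) * (l - 1) := by simpa using Nat.sq_sub_sq l 1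
  have nboth : ∀ d, d ∣ l + 1 → d ∣ l - 1 → d ∣ 2 := fun d h1 h2 => by
    have := Nat.dvd_sub h1 h2
    rwa [show l + 1 - (l - 1) = 2 by have := hl.one_le; omega] at this
  have hq1 : q ∣ l + 1 := (dvd_pow_self q (by norm_num)).trans h2
  have hqn : ¬ q ∣ l - 1 := fun h =>
    hq2 ((Nat.prime_dvd_prime_iff_eq hq Nat.prime_two).1 (nboth q hq1 h))
  refine ⟨PSL(2, ZMod l), inferInstance, inferInstance, ?_⟩
  rintro ⟨H, hH1, hH2⟩
  have hG := Classical.SLBasic.card_PSL_two (F := ZMod l)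
  rw [Nat.card_zmod, hg, hsq] at hG
  obtain ⟨c, hc⟩ : ∃ c, l + 1 = 2 * c := ⟨(l + 1) / 2, by omega⟩
  have hG' : Nat.card PSL(2, ZMod l) = l * (c * (l - 1)) := by
    rw [hc] at hG
    refine Nat.eq_of_mul_eq_mul_left (by norm_num : 0 < 2) ?_
    rw [hG]; ring
  have hall : ∀ s k, s.Prime → s ∈ π → s ^ k ∣ Nat.card PSL(2, ZMod l) → s ^ k ∣ Nat.card H := by
    intro s k hs hsπ hd
    rw [← H.card_mul_index] at hd
    exact (Nat.Coprime.pow_left k ((Nat.Prime.coprime_iff_not_dvd hs).2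
      (hH2 s hs hsπ))).dvd_of_dvd_mul_right hd
  have hp2 : p ^ 2 ∣ Nat.card H := hall p 2 hp hpπ (by
    rw [hG']; exact (((dvd_mul_right _ _).trans h1).mul_left c).mul_left l)
  have hq3' : q ^ 3 ∣ Nat.card H := hall q 3 hq hqπ (by
    rw [hG']
    refine (Dvd.dvd.mul_right ?_ _).mul_left l
    rw [hc] at h2
    exact (Nat.Coprime.pow_left 3 ((Nat.coprime_primes hq Nat.prime_two).2 hq2)).dvd_of_dvd_mul_left
      h2)
  have hqH : q ∣ Nat.card H := (dvd_pow_self q (by norm_num)).trans hq3'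
  have hrn : ¬ r ∣ Nat.card H := fun h => hrπ (hH1 r hr h)
  have hr1 : r ∣ l - 1 := ((dvd_pow_self r two_ne_zero).trans (dvd_mul_left _ _)).trans h1
  have small : ¬ Nat.card H ∣ 120 := by
    intro h
    have h3 := hq3'.trans h
    have h4 := Nat.le_of_dvd (by norm_num) h3
    have h5 : q < 5 := by
      by_contra h6
      have := Nat.pow_le_pow_left (show 5 ≤ q by omega) 3
      omega
    have := hq.two_le
    interval_cases q <;> omega
  rcases S0799.result (ZMod.card l) l H with ⟨k, hk, hH⟩ | ⟨P, K, hK, ⟨e⟩⟩ | ⟨⟨e⟩⟩ | ⟨⟨e⟩⟩ |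
    ⟨⟨e⟩⟩ | ⟨K, _, _, m, hm, hK⟩
  · have h3 : Nat.card H ∣ 2 * k := by
      rcases hH with ⟨-, h⟩ | ⟨⟨e⟩⟩
      · rw [h]; exact dvd_mul_left _ _
      · rw [Nat.card_congr e.toEquiv, DihedralGroup.nat_card]
    rw [hg] at hk
    rcases hk with hk | hk
    · have h4 : Nat.card H ∣ l + 1 := by
        refine h3.trans ((Nat.mul_dvd_mul_left 2 hk).trans ?_)
        rw [Nat.mul_div_cancel' (by omega)]
      have := Nat.le_of_dvd (by norm_num)
        (nboth _ (hp2.trans h4) ((dvd_mul_right _ _).trans h1))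
      have := Nat.pow_le_pow_left hp.two_le 2
      omega
    · refine hqn (hqH.trans (h3.trans ((Nat.mul_dvd_mul_left 2 hk).trans ?_)))
      rw [Nat.mul_div_cancel' (by omega)]
  · obtain ⟨c, -, hc⟩ := (Classical.Borel2.isRootSylow_PSL (F := ZMod l) l).exists_of P
    rw [hc.normalizer_eq] at hK
    have h3 := (hqH.trans ((Nat.card_congr e.toEquiv).dvd.trans (card_dvd_of_le hK))).mul_left
      (Nat.gcd 2 (Nat.card (ZMod l) - 1))
    rw [Classical.Borel2.card_stabilizer_PSL, Nat.card_zmod] at h3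
    have h4 : q ∣ l * (l - 1) := h3
    rcases hq.dvd_mul.1 h4 with h | h
    · have := (Nat.prime_dvd_prime_iff_eq hq hl).1 h
      omega
    · exact hqn h
  · apply small
    rw [Nat.card_congr e.toEquiv, nat_card_alternatingGroup]
    simp [Nat.factorial]
  · apply small
    rw [Nat.card_congr e.toEquiv, Nat.card_perm]
    simp [Nat.factorial]
  · apply small
    rw [Nat.card_congr e.toEquiv, nat_card_alternatingGroup]
    simp [Nat.factorial]
  · have hKl : Nat.card K = l := by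
      rw [Nat.card_eq_fintype_card]
      exact (hl.pow_eq_iff.1 hm).1
    apply hrn
    rcases hK with ⟨⟨e⟩⟩ | ⟨⟨e⟩⟩
    · have h3 := Classical.SLBasic.card_PSL_two (F := K)
      rw [hKl, hg, hsq, ← hG, ← Nat.card_congr e.toEquiv] at h3
      rw [Nat.eq_of_mul_eq_mul_left (by norm_num : 0 < 2) h3, hG']
      exact (hr1.mul_left c).mul_left l
    · rw [Nat.card_congr e.toEquiv, Classical.SLBasic.card_PGL_eq_card_SL,
        Classical.SLBasic.card_SL_two, hKl, hsq]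
      exact (hr1.mul_left _).mul_left l

theorem exists_max {G : Type*} [Group G] [Finite G] (π : Set ℕ) {K : Subgroup G}
    (hK : IsPiSubgroup π K) : ∃ H : Subgroup G, K ≤ H ∧ Maximal (IsPiSubgroup π) H :=
  Finite.exists_le_maximal hK

theorem E_of_D {G : Type*} [Group G] [Finite G] {π : Set ℕ} (h : IsDPiGroup π G) :
    IsEPiGroup π G := by
  obtain ⟨H, -, hH⟩ := exists_max π (K := (⊥ : Subgroup G)) fun p hp hd => by
    rw [card_bot] at hd
    exact absurd (Nat.dvd_one.1 hd) hp.one_lt.ne'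
  refine ⟨H, hH.1, fun p hp hpπ => ?_⟩
  haveI := Fact.mk hp
  obtain ⟨P⟩ : Nonempty (Sylow p G) := inferInstance
  obtain ⟨K, hPK, hK⟩ := exists_max π (K := (P : Subgroup G)) fun q hq hd => by
    obtain ⟨n, hn⟩ := IsPGroup.iff_card.1 P.isPGroup'
    rw [hn] at hd
    rwa [(Nat.prime_dvd_prime_iff_eq hq hp).1 (hq.dvd_of_dvd_pow hd)]
  obtain ⟨g, rfl⟩ := h H K hH hK
  have := index_dvd_of_le hPK
  rw [index_map_of_bijective (MulAut.conj g).bijective] at this
  exact fun hd => P.not_dvd_index (hd.trans this)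

theorem D_of {G : Type*} [Group G] [Finite G] {π : Set ℕ}
    (h : (∀ p q : ℕ, p.Prime → q.Prime → p ∈ π → q ∈ π → p = q) ∨ ∀ p : ℕ, p.Prime → p ∈ π) :
    IsDPiGroup π G := by
  intro H K hH hK
  rcases h with h | h
  · obtain ⟨p, hp, hpπ⟩ : ∃ p : ℕ, p.Prime ∧ ∀ q : ℕ, q.Prime → q ∈ π → q = p := by
      by_cases hex : ∃ p : ℕ, p.Prime ∧ p ∈ π
      · obtain ⟨p, hp, hpπ⟩ := hex
        exact ⟨p, hp, fun q hq hqπ => h q p hq hp hqπ hpπ⟩
      · exact ⟨2, Nat.prime_two, fun q hq hqπ => absurd ⟨q, hq, hqπ⟩ hex⟩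
    haveI := Fact.mk hp
    by_cases hin : p ∈ π
    · have key : ∀ H : Subgroup G, Maximal (IsPiSubgroup π) H → ∃ P : Sylow p G, H = P := by
        intro H hH
        have hp' : IsPGroup p H := IsPGroup.of_card (Nat.eq_prime_pow_of_unique_prime_dvd
          Nat.card_pos.ne' fun {d} hd hdd => hpπ d hd (hH.1 d hd hdd))
        obtain ⟨P, hP⟩ := hp'.exists_le_sylow
        refine ⟨P, le_antisymm hP (hH.2 (fun q hq hd => ?_) hP)⟩
        obtain ⟨n, hn⟩ := IsPGroup.iff_card.1 P.isPGroup'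
        rw [hn] at hd
        rwa [(Nat.prime_dvd_prime_iff_eq hq hp).1 (hq.dvd_of_dvd_pow hd)]
      obtain ⟨P, rfl⟩ := key H hH
      obtain ⟨Q, rfl⟩ := key K hK
      obtain ⟨g, rfl⟩ := MulAction.exists_smul_eq G P Q
      exact ⟨g, rfl⟩
    · have key : ∀ H : Subgroup G, Maximal (IsPiSubgroup π) H → H = ⊥ := by
        intro H hH
        by_contra hne
        obtain ⟨q, hq, hd⟩ := Nat.exists_prime_and_dvd (mt (eq_bot_of_card_eq H) hne)
        exact hin (hpπ q hq (hH.1 q hq hd) ▸ hH.1 q hq hd)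
      rw [key H hH, key K hK]
      exact ⟨1, (Subgroup.map_bot _).symm⟩
  · have key : ∀ H : Subgroup G, Maximal (IsPiSubgroup π) H → H = ⊤ := fun H hH =>
      eq_top_iff.2 (hH.2 (fun q hq _ => h q hq) le_top)
    rw [key H hH, key K hK]
    exact ⟨1, (map_top_of_surjective _ (MulAut.conj (1 : G)).surjective).symm⟩

theorem of_E {π : Set ℕ} (h : ∀ (G : Type) [Group G] [Finite G], IsEPiGroup π G) :
    (∀ p q : ℕ, p.Prime → q.Prime → p ∈ π → q ∈ π → p = q) ∨ ∀ p : ℕ, p.Prime → p ∈ π := by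
  by_contra hc
  push Not at hc
  obtain ⟨⟨p, q, hp, hq, hpπ, hqπ, hne⟩, r, hr, hrπ⟩ := hc
  rcases lt_or_gt_of_ne hne with hlt | hlt
  · obtain ⟨G, _, _, hG⟩ := not_E π hp hq hr hlt hpπ hqπ hrπ
    exact hG (h G)
  · obtain ⟨G, _, _, hG⟩ := not_E π hq hp hr hlt hqπ hpπ hrπ
    exact hG (h G)

end Cfsg.Agent.H23.HallAll
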