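import Mathlib

/-! Limits of one-parameter families of subgroups (for Lynd's 2-subnormal offenders). -/

namespace Cfsg.Agent.H23.Ly

set_option autoImplicit false

section lim
variable {X : Type*} [AddCommGroup X]

/-- A quadratic one-parameter family of additive maps. -/
structure OP (X : Type*) [AddCommGroup X] where
  T : ℤ → X →+ X
  N₁ : X →+ X
  N₂ : X →+ X
  eq : ∀ (i : ℤ) (x : X), T i x = x + i • N₁ x + i ^ 2 • N₂ x
  add : ∀ (i j : ℤ) (x : X), T i (T j x) = T (i + j) x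

namespace OP
variable (O : OP X)

theorem zero (x : X) : O.T 0 x = x := by simp [O.eq]

theorem neg_apply (i : ℤ) (x : X) : O.T (-i) (O.T i x) = x := by
  rw [O.add]; simp [O.zero]

theorem apply_neg (i : ℤ) (x : X) : O.T i (O.T (-i) x) = x := by
  rw [O.add]; simp [O.zero]

/-- Leading coefficients of quadratic sections of the family `T i Y`. -/
def Lim (Y : AddSubgroup X) : AddSubgroup X where
  carrier := {c | ∃ a b : X, ∀ i : ℤ, O.T (-i) (a + i • b + i ^ 2 • c) ∈ Y}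
  zero_mem' := ⟨0, 0, fun i => by simp⟩
  add_mem' := by
    rintro c c' ⟨a, b, h⟩ ⟨a', b', h'⟩
    refine ⟨a + a', b + b', fun i => ?_⟩
    have := Y.add_mem (h i) (h' i)
    rw [← map_add] at this
    convert this using 2
    module
  neg_mem' := by
    rintro c ⟨a, b, h⟩
    refine ⟨-a, -b, fun i => ?_⟩
    have := Y.neg_mem (h i)
    rw [← map_neg] at this
    convert this using 2
    module

theorem mem_Lim {Y : AddSubgroup X} {c : X} :
    c ∈ O.Lim Y ↔ ∃ a b : X, ∀ i : ℤ, O.T (-i) (a + i • b + i ^ 2 • c) ∈ Y := Iff.rfl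

theorem Lim_mono {Y Y' : AddSubgroup X} (h : Y ≤ Y') : O.Lim Y ≤ O.Lim Y' := by
  rintro c ⟨a, b, hc⟩
  exact ⟨a, b, fun i => h (hc i)⟩

theorem N₂_mem {Y : AddSubgroup X} {y : X} (hy : y ∈ Y) : O.N₂ y ∈ O.Lim Y :=
  ⟨y, O.N₁ y, fun i => by rw [← O.eq, O.neg_apply]; exact hy⟩

theorem card_le [Finite X] (Y : AddSubgroup X) : Nat.card Y ≤ Nat.card (O.Lim Y) := by
  classical
  let W₁ := {q : X × X // ∀ i : ℤ, O.T (-i) (q.1 + i • q.2) ∈ Y}
  let W₂ := {q : X × X × X // ∀ i : ℤ, O.T (-i) (q.1 + i • q.2.1 + i ^ 2 • q.2.2) ∈ Y}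
  have h1 : Nat.card (Y × W₁) ≤ Nat.card W₂ := by
    refine Nat.card_le_card_of_injective
      (fun z => ⟨(z.1.1, O.N₁ z.1.1 + z.2.1.1, O.N₂ z.1.1 + z.2.1.2), fun i => ?_⟩) ?_
    · have e : z.1.1 + i • (O.N₁ z.1.1 + z.2.1.1) + i ^ 2 • (O.N₂ z.1.1 + z.2.1.2)
          = O.T i z.1.1 + i • (z.2.1.1 + i • z.2.1.2) := by
        rw [O.eq]; module
      show O.T (-i) (z.1.1 + i • (O.N₁ z.1.1 + z.2.1.1) + i ^ 2 • (O.N₂ z.1.1 + z.2.1.2)) ∈ Y
      rw [e, map_add, O.neg_apply, map_zsmul]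
      exact Y.add_mem z.1.2 (Y.zsmul_mem (z.2.2 i) i)
    · rintro ⟨⟨y, hy⟩, ⟨⟨b, c⟩, h⟩⟩ ⟨⟨y', hy'⟩, ⟨⟨b', c'⟩, h'⟩⟩ e
      have e1 : y = y' := congrArg (fun q : W₂ => q.1.1) e
      subst e1
      have e2 : O.N₁ y + b = O.N₁ y + b' := congrArg (fun q : W₂ => q.1.2.1) e
      have e3 : O.N₂ y + c = O.N₂ y + c' := congrArg (fun q : W₂ => q.1.2.2) e
      have e4 := add_left_cancel e2
      have e5 := add_left_cancel e3
      subst e4 e5
      rfl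
  have hs : ∀ c : O.Lim Y, ∃ a b : X, ∀ i : ℤ, O.T (-i) (a + i • b + i ^ 2 • (c : X)) ∈ Y :=
    fun c => c.2
  choose sa sb hs using hs
  have h2 : Nat.card W₂ ≤ Nat.card (O.Lim Y × W₁) := by
    refine Nat.card_le_card_of_injective
      (fun z => (⟨z.1.2.2, z.1.1, z.1.2.1, z.2⟩,
        ⟨(z.1.1 - sa ⟨z.1.2.2, z.1.1, z.1.2.1, z.2⟩, z.1.2.1 - sb ⟨z.1.2.2, z.1.1, z.1.2.1, z.2⟩),
          fun i => ?_⟩)) ?_
    · have := Y.sub_mem (z.2 i) (hs ⟨z.1.2.2, z.1.1, z.1.2.1, z.2⟩ i)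
      rw [← map_sub] at this
      convert this using 2
      module
    · rintro ⟨⟨a, b, c⟩, h⟩ ⟨⟨a', b', c'⟩, h'⟩ e
      simp only [Prod.mk.injEq, Subtype.mk.injEq] at e
      obtain ⟨e1, e2⟩ := e
      have e0 : c = c' := congrArg Subtype.val e1
      subst e0
      have e3 := congrArg (fun q : W₁ => q.1) e2
      simp only [Prod.mk.injEq, sub_left_inj] at e3
      obtain ⟨e4, e5⟩ := e3
      subst e4 e5
      rfl
  rw [Nat.card_prod] at h1 h2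
  have hpos : 0 < Nat.card W₁ := by
    haveI : Nonempty W₁ := ⟨⟨(0, 0), fun i => by simp⟩⟩
    exact Nat.card_pos
  exact Nat.le_of_mul_le_mul_right (h1.trans h2) hpos

theorem two_smul_eq {c a b : X} :
    (2 : ℤ) • c = (a + (1 : ℤ) • b + (1 : ℤ) ^ 2 • c) + (a + (-1 : ℤ) • b + (-1 : ℤ) ^ 2 • c)
      - (2 : ℤ) • (a + (0 : ℤ) • b + (0 : ℤ) ^ 2 • c) := by module

end OP

theorem mem_of_zsmul_mem {p : ℕ} (hX : ∀ x : X, (p : ℤ) • x = 0) {n : ℤ} (hn : IsCoprime n p)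
    {Y : AddSubgroup X} {x : X} (h : n • x ∈ Y) : x ∈ Y := by
  obtain ⟨s, t, hst⟩ := hn
  have : x = s • (n • x) + t • ((p : ℤ) • x) := by
    rw [smul_smul, smul_smul, ← add_smul, hst, one_smul]
  rw [this, hX, smul_zero, add_zero]
  exact Y.zsmul_mem h s

theorem cop_of_five {p : ℕ} (hp : p.Prime) (h5 : 5 ≤ p) (a b : ℕ) :
    IsCoprime ((2 ^ a * 3 ^ b : ℕ) : ℤ) p := by
  rw [Nat.isCoprime_iff_coprime]
  refine Nat.Coprime.mul_left (Nat.Coprime.pow_left _ ?_) (Nat.Coprime.pow_left _ ?_)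
  · exact (Nat.coprime_primes Nat.prime_two hp).2 (by omega)
  · exact (Nat.coprime_primes Nat.prime_three hp).2 (by omega)

theorem OP.lim_le (O : OP X) {p : ℕ} (hX : ∀ x : X, (p : ℤ) • x = 0) (h2 : IsCoprime (2 : ℤ) p)
    {Y Z : AddSubgroup X} (h : ∀ (i : ℤ), ∀ y ∈ Y, O.T i y ∈ Z) : O.Lim Y ≤ Z := by
  rintro c ⟨a, b, hc⟩
  have k : ∀ i : ℤ, a + i • b + i ^ 2 • c ∈ Z := fun i => by
    have := h i _ (hc i)
    rwa [O.apply_neg] at this
  refine mem_of_zsmul_mem hX h2 ?_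
  rw [OP.two_smul_eq (a := a) (b := b)]
  exact Z.sub_mem (Z.add_mem (k 1) (k (-1))) (Z.zsmul_mem (k 0) 2)

theorem fourth {Y Z : Type*} [AddCommGroup Y] [AddCommGroup Z] (B : X →+ Y →+ Z)
    {a b c : X} {a' b' c' : Y}
    (h : ∀ i : ℤ, B (a + i • b + i ^ 2 • c) (a' + i • b' + i ^ 2 • c') = 0) :
    (24 : ℤ) • B c c' = 0 := by
  have e : ∀ i : ℤ, B (a + i • b + i ^ 2 • c) (a' + i • b' + i ^ 2 • c') =
      B a a' + i • (B a b' + B b a') + i ^ 2 • (B a c' + B b b' + B c a')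
        + i ^ 3 • (B b c' + B c b') + i ^ 4 • B c c' := by
    intro i
    simp only [map_add, map_zsmul, AddMonoidHom.add_apply, AddMonoidHom.smul_apply]
    module
  have h0 := h 0
  have h1 := h 1
  have h2 := h 2
  have h3 := h (-1)
  have h4 := h (-2)
  rw [e] at h0 h1 h2 h3 h4
  linear_combination (norm := module) h2 - (4 : ℤ) • h1 + (6 : ℤ) • h0 - (4 : ℤ) • h3 + h4

/-- The potential strictly increases when `Y` is not invariant. -/
theorem OP.pot_lt [Finite X] (O : OP X) {p : ℕ} (hX : ∀ x : X, (p : ℤ) • x = 0)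
    (h2 : IsCoprime (2 : ℤ) p) (Z : ℕ → AddSubgroup X) (N : ℕ) (hZ0 : Z 0 = ⊥) (hZN : Z N = ⊤)
    (hZm : ∀ k, Z k ≤ Z (k + 1))
    (hZ : ∀ k (i : ℤ), ∀ x ∈ Z (k + 1), O.T i x - x ∈ Z k)
    {Y : AddSubgroup X} (hY : ¬ ∀ (i : ℤ), ∀ y ∈ Y, O.T i y ∈ Y) :
    ∑ k ∈ Finset.range (N + 1), Nat.card ↥(Y ⊓ Z k) <
      ∑ k ∈ Finset.range (N + 1), Nat.card ↥(O.Lim Y ⊓ Z k) := by
  classical
  have hinv : ∀ k (i : ℤ), ∀ x ∈ Z k, O.T i x ∈ Z k := by
    intro k i x hx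
    cases k with
    | zero => rw [hZ0] at hx ⊢; simp [AddSubgroup.mem_bot.1 hx]
    | succ k =>
      have := (Z (k + 1)).add_mem (hZm k (hZ k i x hx)) hx
      simpa using this
  have hle : ∀ k, O.Lim (Y ⊓ Z k) ≤ O.Lim Y ⊓ Z k := fun k =>
    le_inf (O.Lim_mono inf_le_left) (O.lim_le hX h2 fun i y hy => hinv k i y hy.2)
  have hex : ∃ k, ¬ ∀ (i : ℤ), ∀ y ∈ Y ⊓ Z k, O.T i y ∈ Y := ⟨N, by simpa [hZN] using hY⟩
  obtain ⟨k, hk, hmin⟩ : ∃ k, (¬ ∀ (i : ℤ), ∀ y ∈ Y ⊓ Z k, O.T i y ∈ Y) ∧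
      ∀ j < k, ∀ (i : ℤ), ∀ y ∈ Y ⊓ Z j, O.T i y ∈ Y :=
    ⟨Nat.find hex, Nat.find_spec hex, fun j hj => by simpa using Nat.find_min hex hj⟩
  have hkN : k ≤ N := by
    by_contra hc
    exact hY (by simpa [hZN] using hmin N (by omega))
  cases k with
  | zero =>
    exfalso
    refine hk fun i y hy => ?_
    have : y = 0 := by have := hy.2; rw [hZ0] at this; exact AddSubgroup.mem_bot.1 this
    simp [this]
  | succ k =>
    have hk' := hmin k (by omega)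
    push Not at hk
    obtain ⟨i, y, hy, hn⟩ := hk
    have a1 := hZ k 1 y hy.2
    have a2 := hZ k (-1) y hy.2
    rw [O.eq] at a1 a2
    have b1 : O.N₁ y ∈ Z k := by
      refine mem_of_zsmul_mem hX h2 ?_
      convert (Z k).sub_mem a1 a2 using 1
      module
    have b2 : O.N₂ y ∈ Z k := by
      refine mem_of_zsmul_mem hX h2 ?_
      convert (Z k).add_mem a1 a2 using 1
      module
    have key : ∃ w ∈ O.Lim Y ⊓ Z k, w ∉ Y := by
      by_cases c2 : O.N₂ y ∈ Y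
      · refine ⟨O.N₁ y, ⟨⟨0, y, fun j => ?_⟩, b1⟩, fun c1 => hn ?_⟩
        · have e : 0 + j • y + j ^ 2 • O.N₁ y = j • (O.T j y - j ^ 2 • O.N₂ y) := by
            rw [O.eq]; module
          rw [e, map_zsmul, map_sub, O.neg_apply, map_zsmul]
          exact Y.zsmul_mem (Y.sub_mem hy.1 (Y.zsmul_mem (hk' _ _ ⟨c2, b2⟩) _)) _
        · rw [O.eq]
          exact Y.add_mem (Y.add_mem hy.1 (Y.zsmul_mem c1 _)) (Y.zsmul_mem c2 _)
      · exact ⟨O.N₂ y, ⟨O.N₂_mem hy.1, b2⟩, c2⟩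
    obtain ⟨w, hw, hwY⟩ := key
    refine Finset.sum_lt_sum (fun j _ => (O.card_le _).trans (AddSubgroup.card_le_of_le (hle j)))
      ⟨k, Finset.mem_range.2 (by omega), ?_⟩
    refine lt_of_le_of_lt (O.card_le _) ?_
    have hlt : O.Lim (Y ⊓ Z k) < O.Lim Y ⊓ Z k := by
      refine lt_of_le_of_ne (hle k) fun e => hwY ?_
      rw [← e] at hw
      exact O.lim_le hX h2 hk' hw
    exact Set.Finite.card_lt_card (Set.toFinite _) hlt

end lim

end Cfsg.Agent.H23.Ly
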