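import Mathlib
import Cfsg.Agent.H23.Ly1

/-! Replacement of a quadratic offender by the limit of its conjugates. -/

namespace Cfsg.Agent.H23.Ly

set_option autoImplicit false

open scoped commutatorElement

theorem exists_filt {X Γ : Type*} [AddCommGroup X] [Finite X] [Group Γ] [Finite Γ] {p : ℕ}
    [Fact p.Prime] (hX : ∀ x : X, (p : ℤ) • x = 0) (hΓ : IsPGroup p Γ)
    (φ : Γ →* MulAut (Multiplicative X)) :
    ∃ (Z : ℕ → AddSubgroup X) (N : ℕ), Z 0 = ⊥ ∧ Z N = ⊤ ∧ (∀ k, Z k ≤ Z (k + 1)) ∧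
      ∀ k g, ∀ x ∈ Z (k + 1), (φ g (Multiplicative.ofAdd x)).toAdd - x ∈ Z k := by
  let S := Multiplicative X ⋊[φ] Γ
  haveI : Finite S := Finite.of_equiv _ (SemidirectProduct.equivProd).symm
  have h1 : IsPGroup p (Multiplicative X) := by
    intro x
    refine ⟨1, ?_⟩
    have := hX x.toAdd
    rw [natCast_zsmul] at this
    rw [pow_one, ← ofAdd_toAdd x, ← ofAdd_nsmul, this, ofAdd_zero]
  have hS : IsPGroup p S := by
    obtain ⟨a, ha⟩ := h1.exists_card_eq
    obtain ⟨b, hb⟩ := hΓ.exists_card_eq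
    exact IsPGroup.of_card (n := a + b) (by rw [SemidirectProduct.card, ha, hb, pow_add])
  obtain ⟨N, hN⟩ := hS.isNilpotent.nilpotent'
  let Z : ℕ → AddSubgroup X := fun k =>
    Subgroup.toAddSubgroup' ((Subgroup.upperCentralSeries S k).comap SemidirectProduct.inl)
  have hZ : ∀ k x, x ∈ Z k ↔ (SemidirectProduct.inl (Multiplicative.ofAdd x) : S) ∈
      Subgroup.upperCentralSeries S k := fun k x => Iff.rfl
  refine ⟨Z, N, ?_, ?_, ?_, ?_⟩
  · ext x
    rw [hZ, Subgroup.upperCentralSeries_zero, Subgroup.mem_bot,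
      map_eq_one_iff _ SemidirectProduct.inl_injective]
    simp
  · ext x
    rw [hZ, hN]
    simp
  · intro k x hx
    rw [hZ] at hx ⊢
    exact Subgroup.upperCentralSeries_mono S (Nat.le_succ k) hx
  · intro k g x hx
    rw [hZ, Subgroup.mem_upperCentralSeries_succ_iff] at hx
    have := (Subgroup.upperCentralSeries S k).inv_mem (hx (SemidirectProduct.inr g))
    rw [hZ]
    convert this using 1
    rw [sub_eq_add_neg, ofAdd_add, map_mul, ofAdd_toAdd, SemidirectProduct.inl_aut, ofAdd_neg,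
      map_inv, map_inv, commutatorElement_inv, commutatorElement_def]

section ring
variable {R : Type*} [Ring R] {M : Type*} [AddCommGroup M] [Module R M]

theorem mul_par {α : R} (h : α * α = 0) (i j : ℤ) :
    (1 + i • α) * (1 + j • α) = 1 + (i + j) • α := by
  simp only [mul_add, add_mul, mul_one, one_mul, smul_mul_assoc, mul_smul_comm, h, smul_zero]
  module

/-- conjugation family on the ring -/
def opR (α : R) (h : α * α = 0) : OP R where
  T i := (AddMonoidHom.mulLeft (1 + (-i) • α)).comp (AddMonoidHom.mulRight (1 + i • α))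
  N₁ := AddMonoidHom.mulRight α - AddMonoidHom.mulLeft α
  N₂ := -(AddMonoidHom.mulLeft α).comp (AddMonoidHom.mulRight α)
  eq i x := by
    simp only [AddMonoidHom.comp_apply, AddMonoidHom.coe_mulLeft, AddMonoidHom.coe_mulRight,
      AddMonoidHom.sub_apply, AddMonoidHom.neg_apply, mul_add, add_mul, mul_one, one_mul,
      smul_mul_assoc, mul_smul_comm]
    module
  add i j x := by
    simp only [AddMonoidHom.comp_apply, AddMonoidHom.coe_mulLeft, AddMonoidHom.coe_mulRight]
    rw [mul_assoc, mul_assoc, mul_par h j i, ← mul_assoc, mul_par h (-i) (-j), add_comm j i,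
      neg_add]

theorem opR_T {α : R} (h : α * α = 0) (i : ℤ) (x : R) :
    (opR α h).T i x = (1 + (-i) • α) * (x * (1 + i • α)) := rfl

/-- the family on the module -/
def opM (M : Type*) [AddCommGroup M] [Module R M] (α : R) (h : α * α = 0) : OP M where
  T i := DistribMulAction.toAddMonoidHom M (1 + (-i) • α)
  N₁ := -DistribMulAction.toAddMonoidHom M α
  N₂ := 0
  eq i x := by
    simp only [DistribMulAction.toAddMonoidHom_apply, AddMonoidHom.neg_apply, add_smul, one_smul,
      smul_assoc, AddMonoidHom.zero_apply]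
    generalize α • x = w
    module
  add i j x := by
    simp only [DistribMulAction.toAddMonoidHom_apply]
    rw [smul_smul, mul_par h, neg_add]

theorem opM_T {α : R} (h : α * α = 0) (i : ℤ) (v : M) :
    (opM M α h).T i v = (1 + (-i) • α) • v := rfl

theorem T_mul {α : R} (h : α * α = 0) (i : ℤ) (x y : R) :
    (opR α h).T i x * (opR α h).T i y = (opR α h).T i (x * y) := by
  simp only [opR_T, mul_assoc]
  rw [← mul_assoc (1 + i • α), mul_par h]
  simp

theorem T_smul {α : R} (h : α * α = 0) (i : ℤ) (x : R) (v : M) :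
    (opR α h).T i x • (opM M α h).T i v = (1 + (-i) • α) • (x • v) := by
  simp only [opR_T, opM_T, smul_smul, mul_assoc]
  rw [mul_par h]
  simp

/-- the annihilated subgroup -/
def Cx (M : Type*) [AddCommGroup M] [Module R M] (L : AddSubgroup R) : AddSubgroup M where
  carrier := {v | ∀ x ∈ L, x • v = 0}
  zero_mem' := fun x _ => smul_zero x
  add_mem' := fun ha hb x hx => by rw [smul_add, ha x hx, hb x hx, add_zero]
  neg_mem' := fun ha x hx => by rw [smul_neg, ha x hx, neg_zero]

theorem lim_mul {p : ℕ} (hp : p.Prime) (h5 : 5 ≤ p) (hR : ∀ x : R, (p : ℤ) • x = 0)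
    {α : R} (h : α * α = 0) {L : AddSubgroup R} (hL : ∀ x ∈ L, ∀ y ∈ L, x * y = 0) :
    ∀ x ∈ (opR α h).Lim L, ∀ y ∈ (opR α h).Lim L, x * y = 0 := by
  rintro c ⟨a, b, hc⟩ c' ⟨a', b', hc'⟩
  have := fourth (AddMonoidHom.mul : R →+ R →+ R) (a := a) (b := b) (c := c) (a' := a')
    (b' := b') (c' := c') (fun i => by
      rw [AddMonoidHom.mul_apply, ← (opR α h).apply_neg i (a + i • b + i ^ 2 • c),
        ← (opR α h).apply_neg i (a' + i • b' + i ^ 2 • c'), T_mul, hL _ (hc i) _ (hc' i),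
        map_zero])
  have k := mem_of_zsmul_mem (Y := ⊥) hR (cop_of_five hp h5 3 1) (x := c * c')
    (by rw [AddSubgroup.mem_bot]; exact_mod_cast this)
  exact AddSubgroup.mem_bot.1 k

theorem lim_Cx {p : ℕ} (hp : p.Prime) (h5 : 5 ≤ p) (hM : ∀ x : M, (p : ℤ) • x = 0)
    {α : R} (h : α * α = 0) (L : AddSubgroup R) :
    (opM M α h).Lim (Cx M L) ≤ Cx M ((opR α h).Lim L) := by
  rintro c' ⟨a', b', hc'⟩ c ⟨a, b, hc⟩
  have := fourth (smulAddHom R M) (a := a) (b := b) (c := c) (a' := a')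
    (b' := b') (c' := c') (fun i => by
      rw [smulAddHom_apply, ← (opR α h).apply_neg i (a + i • b + i ^ 2 • c),
        ← (opM M α h).apply_neg i (a' + i • b' + i ^ 2 • c'), T_smul, hc' i _ (hc i),
        smul_zero])
  have k := mem_of_zsmul_mem (Y := ⊥) hM (cop_of_five hp h5 3 1) (x := c • c')
    (by rw [AddSubgroup.mem_bot]; exact_mod_cast this)
  exact AddSubgroup.mem_bot.1 k

theorem prod_eq {S : AddSubgroup R} (h3 : ∀ a ∈ S, ∀ b ∈ S, ∀ c ∈ S, a * b * c = 0)
    {x y z w₁ w₂ : R} (hx : x ∈ S) (hy : y ∈ S) (hz : z ∈ S) (h1 : w₁ ∈ S) (h2 : w₂ ∈ S)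
    (k1 : ∀ a ∈ S, a * w₁ = 0) (k2 : ∀ a ∈ S, a * w₂ = 0)
    (e : x * y + x * z + y * z = w₁ + w₂) :
    (1 + x) * (1 + y) * (1 + z) * (1 + -w₁) * (1 + -w₂) = 1 + (x + y + z) := by
  have hl : x + y + z ∈ S := S.add_mem (S.add_mem hx hy) hz
  have e1 : (1 + x) * (1 + y) * (1 + z) = 1 + ((x + y + z) + (w₁ + w₂)) := by
    rw [← e]
    have := h3 x hx y hy z hz
    linear_combination (norm := noncomm_ring) this
  have e2 : (1 + ((x + y + z) + (w₁ + w₂))) * (1 + -w₁) = 1 + ((x + y + z) + w₂) := by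
    have := k1 _ (S.add_mem hl (S.add_mem h1 h2))
    linear_combination (norm := noncomm_ring) -this
  rw [e1, e2]
  have := k2 _ (S.add_mem hl h2)
  linear_combination (norm := noncomm_ring) -this

end ring

end Cfsg.Agent.H23.Ly
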