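import Mathlib
import Cfsg.Agent.H23.Ly2

/-! A quadratic offender normalized by every quadratic element. -/

namespace Cfsg.Agent.H23.Ly

set_option autoImplicit false

variable {R : Type*} [Ring R] {Γ : Type*} [Group Γ] (ρ : Γ →* R)

/-- `1 + L` is a quadratic subgroup of the image. -/
def QO (L : AddSubgroup R) : Prop :=
  (∀ x ∈ L, ∀ y ∈ L, x * y = 0) ∧ ∀ x ∈ L, ∃ g, ρ g = 1 + x

/-- `u` normalizes `L`. -/
def Nm (L : AddSubgroup R) (u : Γ) : Prop := ∀ x ∈ L, ρ u⁻¹ * (x * ρ u) ∈ L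

variable {ρ}

theorem rho_inv {u : Γ} {α : R} (hu : ρ u = 1 + α) (h : α * α = 0) : ρ u⁻¹ = 1 + -α := by
  have e : (1 + α) * (1 + -α) = 1 := by linear_combination (norm := noncomm_ring) -h
  calc ρ u⁻¹ = ρ u⁻¹ * ((1 + α) * (1 + -α)) := by rw [e, mul_one]
    _ = 1 + -α := by rw [← hu, ← mul_assoc, ← map_mul, inv_mul_cancel, map_one, one_mul]

theorem rho_zpow {u : Γ} {α : R} (hu : ρ u = 1 + α) (h : α * α = 0) (i : ℤ) :
    ρ (u ^ i) = 1 + i • α := by
  induction i using Int.induction_on with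
  | zero => simp
  | succ i ih =>
    rw [zpow_add_one, map_mul, ih, hu, ← mul_par h, one_smul]
  | pred i ih =>
    rw [zpow_sub_one, map_mul, ih, rho_inv hu h, sub_eq_add_neg, ← mul_par h, neg_smul 1, one_smul]

variable (ρ) in
/-- the subgroup attached to `L` -/
def Eg (L : AddSubgroup R) (hL : ∀ x ∈ L, ∀ y ∈ L, x * y = 0) : Subgroup Γ where
  carrier := {g | ρ g - 1 ∈ L}
  one_mem' := by simp
  mul_mem' := by
    intro a b ha hb
    have := hL _ ha _ hb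
    have e : ρ (a * b) - 1 = (ρ a - 1) + (ρ b - 1) := by
      rw [map_mul]; linear_combination (norm := noncomm_ring) this
    show ρ (a * b) - 1 ∈ L
    rw [e]; exact L.add_mem ha hb
  inv_mem' := by
    intro a ha
    show ρ a⁻¹ - 1 ∈ L
    rw [rho_inv (α := ρ a - 1) (by simp) (hL _ ha _ ha)]
    simpa using L.neg_mem ha

theorem rho_conj {u : Γ} {α : R} (hu : ρ u = 1 + α) (h : α * α = 0) (i : ℤ) {g : Γ} {x : R}
    (hg : ρ g = 1 + x) : ρ (u ^ (-i) * g * u ^ i) = 1 + (opR α h).T i x := by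
  rw [map_mul, map_mul, rho_zpow hu h, rho_zpow hu h, hg, opR_T, mul_assoc, add_mul 1 x, one_mul,
    mul_add, mul_par h]
  simp

theorem nm_conj [Finite Γ] {p : ℕ} [Fact p.Prime] (hΓ : IsPGroup p Γ) {L : AddSubgroup R}
    (hL : QO ρ L) {u : Γ} {α : R} (hu : ρ u = 1 + α) (h : α * α = 0) (hn : ¬ Nm ρ L u)
    (hmin : ∀ (u' : Γ) (α' : R), ρ u' = 1 + α' → α' * α' = 0 → ¬ Nm ρ L u' →
      Nat.card ↥(Eg ρ L hL.1 ⊔ Subgroup.zpowers u) ≤ Nat.card ↥(Eg ρ L hL.1 ⊔ Subgroup.zpowers u'))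
    (j : ℤ) {y : R} (hy : y ∈ L) {x : R} (hx : x ∈ L) :
    (1 + -(opR α h).T j y) * (x * (1 + (opR α h).T j y)) ∈ L := by
  set E := Eg ρ L hL.1 with hE
  set H := E ⊔ Subgroup.zpowers u with hH
  have huH : u ∈ H := (le_sup_right : _ ≤ H) (Subgroup.mem_zpowers u)
  have hne : E.subgroupOf H ≠ ⊤ := by
    intro e
    have : (⟨u, huH⟩ : H) ∈ E.subgroupOf H := by rw [e]; trivial
    have h1 : ρ u - 1 ∈ L := this
    rw [hu, add_sub_cancel_left] at h1
    refine hn fun z hz => ?_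
    rw [rho_inv hu h, hu]
    have a1 := hL.1 _ h1 _ hz
    have a2 := hL.1 _ hz _ h1
    have : (1 + -α) * (z * (1 + α)) = z := by
      linear_combination (norm := noncomm_ring) a2 - a1 - a1 * α
    rwa [this]
  obtain ⟨K, hK, hEK⟩ := (eq_top_or_exists_le_coatom (E.subgroupOf H)).resolve_left hne
  haveI := (hΓ.to_subgroup H).isNilpotent
  have hKn : K.Normal := Subgroup.NormalizerCondition.normal_of_coatom K
    Group.normalizerCondition_of_isNilpotent hK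
  obtain ⟨g, hg⟩ := hL.2 y hy
  have hgE : g ∈ E := by
    show ρ g - 1 ∈ L
    rw [hg]; simpa using hy
  have hgH : g ∈ H := (le_sup_left : _ ≤ H) hgE
  have hq : (opR α h).T j y * (opR α h).T j y = 0 := by rw [T_mul, hL.1 _ hy _ hy, map_zero]
  have hu' := rho_conj hu h j hg
  have hNm : Nm ρ L (u ^ (-j) * g * u ^ j) := by
    by_contra hc
    have h1 := hmin _ _ hu' hq hc
    have h2 : E ⊔ Subgroup.zpowers (u ^ (-j) * g * u ^ j) ≤ K.map H.subtype := by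
      refine sup_le (fun e he => ⟨⟨e, (le_sup_left : _ ≤ H) he⟩, hEK he, rfl⟩) ?_
      rw [Subgroup.zpowers_le]
      refine ⟨_, hKn.conj_mem ⟨g, hgH⟩ (hEK hgE) ((⟨u, huH⟩ : H) ^ (-j)), ?_⟩
      simp
    have h3 := Subgroup.card_le_of_le h2
    rw [Subgroup.card_map_of_injective H.subtype_injective] at h3
    have h4 : Nat.card K < Nat.card H := by
      have := Subgroup.card_top (G := H)
      rw [← this]
      exact Set.Finite.card_lt_card (Set.toFinite _) hK.lt_top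
    omega
  have := hNm x hx
  rwa [rho_inv hu' hq, hu'] at this

theorem lim_QO {p : ℕ} (hp : p.Prime) (h5 : 5 ≤ p) (hR : ∀ x : R, (p : ℤ) • x = 0)
    {L : AddSubgroup R}
    (hL : QO ρ L) {u : Γ} {α : R} (hu : ρ u = 1 + α) (h : α * α = 0)
    (hN : ∀ (j : ℤ), ∀ y ∈ L, ∀ x ∈ L,
      (1 + -(opR α h).T j y) * (x * (1 + (opR α h).T j y)) ∈ L) :
    QO ρ ((opR α h).Lim L) := by
  have h2 : IsCoprime (2 : ℤ) p := by simpa using cop_of_five hp h5 1 0
  refine ⟨lim_mul hp h5 hR h hL.1, ?_⟩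
  set O := opR α h with hO
  have hbr : ∀ (j : ℤ), ∀ y ∈ L, ∀ x ∈ L, x * O.T j y - O.T j y * x ∈ L := by
    intro j y hy x hx
    have a1 := hN j y hy x hx
    have a2 := hN j (-y) (L.neg_mem hy) x hx
    rw [map_neg] at a2
    refine mem_of_zsmul_mem hR h2 ?_
    convert L.sub_mem a1 a2 using 1
    rw [two_smul]; noncomm_ring
  have t0 : ∀ x ∈ L, ∀ y ∈ L, ∀ z ∈ L, x * α * y * α * z = 0 := by
    intro x hx y hy z hz
    have a1 := hL.1 x hx _ (hbr 1 y hy z hz)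
    have a2 := hL.1 x hx z hz
    have a3 := hL.1 x hx y hy
    have a4 := hL.1 y hy z hz
    rw [hO, opR_T] at a1
    simp only [neg_smul, one_smul] at a1
    linear_combination (norm := noncomm_ring) a1 - a2 * ((1 + -α) * (y * (1 + α)))
      + a3 * ((1 + α) * z) - x * α * a4
  have t1 : ∀ (i j k : ℤ), ∀ x ∈ L, ∀ y ∈ L, ∀ z ∈ L, O.T i x * O.T j y * O.T k z = 0 := by
    intro i j k x hx y hy z hz
    have a2 := hL.1 x hx y hy
    have a4 := hL.1 y hy z hz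
    have a5 := t0 x hx y hy z hz
    have e : O.T i x * O.T j y * O.T k z = (1 + (-i) • α) *
        (x * (1 + (i + -j) • α) * y * (1 + (j + -k) • α) * z) * (1 + k • α) := by
      simp only [hO, opR_T, ← mul_par h, mul_assoc]
    have e2 : x * (1 + (i + -j) • α) * y * (1 + (j + -k) • α) * z = 0 := by
      simp only [mul_add, add_mul, mul_one, smul_mul_assoc, mul_smul_comm, a2, zero_mul, a5,
        smul_zero, mul_assoc (x * α) y z, a4, mul_zero, add_zero]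
    rw [e, e2, mul_zero, zero_mul]
  let S : AddSubgroup R := AddSubgroup.closure {w | ∃ i : ℤ, ∃ x ∈ L, w = O.T i x}
  have hS : ∀ (i : ℤ), ∀ x ∈ L, O.T i x ∈ S := fun i x hx => AddSubgroup.subset_closure ⟨i, x, hx, rfl⟩
  have hS0 : ∀ x ∈ L, x ∈ S := fun x hx => by simpa [O.zero] using hS 0 x hx
  have ind : ∀ f : R →+ R, (∀ (i : ℤ), ∀ x ∈ L, f (O.T i x) = 0) → ∀ a ∈ S, f a = 0 := by
    intro f hf a ha
    have : S ≤ f.ker := (AddSubgroup.closure_le _).2 (by rintro _ ⟨i, x, hx, rfl⟩; exact hf i x hx)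
    exact this ha
  have h3 : ∀ a ∈ S, ∀ b ∈ S, ∀ c ∈ S, a * b * c = 0 := by
    intro a ha b hb c hc
    refine ind (AddMonoidHom.mulLeft (a * b)) (fun k z hz => ?_) c hc
    refine ind ((AddMonoidHom.mulRight (O.T k z)).comp (AddMonoidHom.mulLeft a))
      (fun j y hy => ?_) b hb
    exact ind ((AddMonoidHom.mulRight (O.T k z)).comp (AddMonoidHom.mulRight (O.T j y)))
      (fun i x hx => t1 i j k x hx y hy z hz) a ha
  have hr : ∀ (i : ℤ), ∀ x ∈ L, ∃ g, ρ g = 1 + O.T i x := fun i x hx => by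
    obtain ⟨g, hg⟩ := hL.2 x hx
    exact ⟨_, rho_conj hu h i hg⟩
  obtain ⟨s, t, hst⟩ := h2
  have half : ∀ w : R, s • ((2 : ℤ) • w) = w := fun w => by
    have : w = s • ((2 : ℤ) • w) + t • ((p : ℤ) • w) := by
      rw [smul_smul, smul_smul, ← add_smul, hst, one_smul]
    rw [hR, smul_zero, add_zero] at this
    exact this.symm
  intro c hc
  have hcc := lim_mul hp h5 hR h hL.1 c hc c hc
  obtain ⟨a, b, hab⟩ := hc
  obtain ⟨x, hx, y₀, hy, z₀, hz, e⟩ : ∃ x ∈ L, ∃ y ∈ L, ∃ z ∈ L, x + O.T 1 y + O.T (-1) z = c := by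
    refine ⟨(-2 * s) • O.T (-0) (a + (0 : ℤ) • b + (0 : ℤ) ^ 2 • c), L.zsmul_mem (hab 0) _,
      s • O.T (-1) (a + (1 : ℤ) • b + (1 : ℤ) ^ 2 • c), L.zsmul_mem (hab 1) _,
      s • O.T (- -1) (a + (-1 : ℤ) • b + (-1 : ℤ) ^ 2 • c), L.zsmul_mem (hab (-1)) _, ?_⟩
    rw [map_zsmul, map_zsmul, O.apply_neg, O.apply_neg, neg_zero, O.zero]
    conv_rhs => rw [← half c, OP.two_smul_eq (a := a) (b := b)]
    module
  have ez : O.T (-1) z₀ = O.T 1 (O.T (-2) z₀) := by rw [O.add]; norm_num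
  set y := O.T 1 y₀ with hy'
  set z := O.T (-1) z₀ with hz'
  have hw1 : s • ((x * y - y * x) + (x * z - z * x)) ∈ L :=
    L.zsmul_mem (L.add_mem (hbr 1 y₀ hy x hx) (hbr (-1) z₀ hz x hx)) s
  have hw2 : s • (y₀ * O.T (-2) z₀ - O.T (-2) z₀ * y₀) ∈ L := L.zsmul_mem (hbr _ z₀ hz y₀ hy) s
  have ew2 : O.T 1 (s • (y₀ * O.T (-2) z₀ - O.T (-2) z₀ * y₀)) = s • (y * z - z * y) := by
    rw [map_zsmul, map_sub, ← T_mul, ← T_mul, ← ez]
  have hxS := hS0 x hx
  have hyS : y ∈ S := hS 1 y₀ hy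
  have hzS : z ∈ S := hS (-1) z₀ hz
  have key := prod_eq h3 hxS hyS hzS (hS0 _ hw1) (w₂ := s • (y * z - z * y))
    (ew2 ▸ hS 1 _ hw2)
    (fun a ha => by
      simp only [mul_smul_comm, mul_add, mul_sub, ← mul_assoc, h3 a ha x hxS y hyS,
        h3 a ha y hyS x hxS, h3 a ha x hxS z hzS, h3 a ha z hzS x hxS]
      simp)
    (fun a ha => by
      simp only [mul_smul_comm, mul_sub, ← mul_assoc, h3 a ha z hzS y hyS,
        h3 a ha y hyS z hzS]
      simp)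
    (by
      have q1 := hL.1 x hx x hx
      have q2 : y * y = 0 := by rw [hy', T_mul, hL.1 _ hy _ hy, map_zero]
      have q3 : z * z = 0 := by rw [hz', T_mul, hL.1 _ hz _ hz, map_zero]
      rw [← e] at hcc
      rw [← half (x * y + x * z + y * z), ← smul_add]
      congr 1
      rw [two_smul]
      linear_combination (norm := noncomm_ring) hcc - q1 - q2 - q3)
  obtain ⟨g1, e1⟩ := hL.2 x hx
  obtain ⟨g2, e2⟩ := hr 1 y₀ hy
  obtain ⟨g3, e3⟩ := hr (-1) z₀ hz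
  obtain ⟨g4, e4⟩ := hL.2 _ (L.neg_mem hw1)
  obtain ⟨g5, e5⟩ := hr 1 _ (L.neg_mem hw2)
  rw [map_neg, ew2] at e5
  refine ⟨g1 * g2 * g3 * g4 * g5, ?_⟩
  rw [map_mul, map_mul, map_mul, map_mul, e1, e2, e3, e4, e5, key, e]

variable (ρ) in
/-- conjugation action -/
def cjAut : Γ →* MulAut (Multiplicative R) where
  toFun g :=
    { toFun := fun x => Multiplicative.ofAdd (ρ g * (x.toAdd * ρ g⁻¹))
      invFun := fun x => Multiplicative.ofAdd (ρ g⁻¹ * (x.toAdd * ρ g))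
      left_inv := fun x => by
        simp only [toAdd_ofAdd, mul_assoc, ← map_mul, inv_mul_cancel, map_one, mul_one]
        rw [← mul_assoc, ← map_mul]; simp
      right_inv := fun x => by
        simp only [toAdd_ofAdd, mul_assoc, ← map_mul, mul_inv_cancel, map_one, mul_one]
        rw [← mul_assoc, ← map_mul]; simp
      map_mul' := fun x y => by
        rw [toAdd_mul, add_mul, mul_add, ofAdd_add] }
  map_one' := by ext x; simp
  map_mul' g h := by ext x; simp [mul_assoc]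

theorem main [Finite Γ] [Finite R] (M : Type*) [AddCommGroup M] [Module R M] [Finite M]
    {p : ℕ} [hp : Fact p.Prime] (h5 : 5 ≤ p) (hΓ : IsPGroup p Γ)
    (hR : ∀ x : R, (p : ℤ) • x = 0) (hM : ∀ x : M, (p : ℤ) • x = 0)
    {L₀ : AddSubgroup R} (h0 : QO ρ L₀) :
    ∃ L : AddSubgroup R, QO ρ L ∧ Nat.card L₀ ≤ Nat.card L ∧
      Nat.card (Cx M L₀) ≤ Nat.card (Cx M L) ∧
      ∀ (u : Γ) (α : R), ρ u = 1 + α → α * α = 0 → Nm ρ L u := by
  obtain ⟨Z, N, hZ0, hZN, hZm, hZ⟩ := exists_filt hR hΓ (cjAut ρ)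
  have h2 : IsCoprime (2 : ℤ) p := by simpa using cop_of_five hp.out h5 1 0
  obtain ⟨L, ⟨hL, c1, c2⟩, hmax⟩ := Set.exists_max_image
    {L : AddSubgroup R | QO ρ L ∧ Nat.card L₀ ≤ Nat.card L ∧
      Nat.card (Cx M L₀) ≤ Nat.card (Cx M L)}
    (fun L => ∑ k ∈ Finset.range (N + 1), Nat.card ↥(L ⊓ Z k)) (Set.toFinite _)
    ⟨L₀, h0, le_rfl, le_rfl⟩
  refine ⟨L, hL, c1, c2, ?_⟩
  by_contra hc
  push Not at hc
  obtain ⟨u, ⟨α, hu, h, hn⟩, hmin⟩ := Set.exists_min_image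
    {u : Γ | ∃ α : R, ρ u = 1 + α ∧ α * α = 0 ∧ ¬ Nm ρ L u}
    (fun u => Nat.card ↥(Eg ρ L hL.1 ⊔ Subgroup.zpowers u)) (Set.toFinite _)
    (by obtain ⟨u, α, h⟩ := hc; exact ⟨u, α, h⟩)
  have hq := lim_QO hp.out h5 hR hL hu h (fun j y hy x hx =>
    nm_conj hΓ hL hu h hn (fun u' α' a b c => hmin u' ⟨α', a, b, c⟩) j hy hx)
  have hle := hmax _ ⟨hq, c1.trans (OP.card_le _ L), c2.trans (((opM M α h).card_le _).trans
    (AddSubgroup.card_le_of_le (lim_Cx hp.out h5 hM h L)))⟩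
  have hlt := (opR α h).pot_lt hR h2 Z N hZ0 hZN hZm (fun k i x hx => by
    have := hZ k (u ^ (-i)) x hx
    rw [opR_T, ← rho_zpow hu h, ← rho_zpow hu h]
    convert this using 2
    show _ = ρ (u ^ (-i)) * (x * ρ (u ^ (-i))⁻¹)
    rw [zpow_neg, inv_inv]) (Y := L) (fun hY => hn fun x hx => by
      have := hY 1 x hx
      rw [opR_T] at this
      rw [rho_inv hu h, hu]
      simpa using this)
  exact absurd hle (not_le.2 hlt)

end Cfsg.Agent.H23.Ly
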