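import Mathlib
import Cfsg.Agent.H23.Ly3
import Cfsg.Agent.S0599

/-! Lynd's theorem on 2-subnormal quadratic offenders. -/

namespace Cfsg.Agent.H23.Ly

set_option autoImplicit false

open scoped commutatorElement IsMulCommutative

variable {Ω : Type*} [Group Ω]

/-- the conjugation representation -/
def rep (V G : Subgroup Ω) [IsMulCommutative V] (h : G ≤ Subgroup.normalizer (V : Set Ω)) :
    G →* AddMonoid.End (Additive V) where
  toFun g :=
    { toFun := fun v => Additive.ofMul ⟨g * v.toMul * (g : Ω)⁻¹,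
        (Subgroup.mem_normalizer_iff.1 (h g.2) _).1 v.toMul.2⟩
      map_zero' := by
        apply Additive.toMul.injective
        ext; simp
      map_add' := fun a b => by
        apply Additive.toMul.injective
        ext; simp [mul_assoc] }
  map_one' := by
    refine AddMonoidHom.ext fun v => Additive.toMul.injective (Subtype.ext ?_)
    show ((1 : G) : Ω) * v.toMul * ((1 : G) : Ω)⁻¹ = v.toMul
    simp
  map_mul' a b := by
    refine AddMonoidHom.ext fun v => Additive.toMul.injective (Subtype.ext ?_)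
    show ((a * b : G) : Ω) * v.toMul * ((a * b : G) : Ω)⁻¹ =
      (a : Ω) * ((b : Ω) * v.toMul * (b : Ω)⁻¹) * (a : Ω)⁻¹
    simp [mul_assoc]

theorem ring1 {R : Type*} [Ring R] {a b : R} (h : (a - 1) * (b - 1) = 0) :
    a - 1 + (b - 1) = a * b - 1 := by
  linear_combination (norm := noncomm_ring) -h

theorem ring2 {R : Type*} [Ring R] {a b : R} (h : (a - 1) * (b - 1) = 0)
    (h' : (b - 1) * (a - 1) = 0) : a * b = b * a := by
  linear_combination (norm := noncomm_ring) h - h'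

theorem rep_sub {V G : Subgroup Ω} [IsMulCommutative V] (h : G ≤ Subgroup.normalizer (V : Set Ω))
    (g : G) (v : Additive V) :
    (((rep V G h g - 1) • v).toMul : Ω) = ⁅(g : Ω), (v.toMul : Ω)⁆ := by
  rw [sub_smul, one_smul, toMul_sub, div_eq_mul_inv]
  rfl

theorem smul_eq_zero_iff' {V G : Subgroup Ω} [IsMulCommutative V]
    (h : G ≤ Subgroup.normalizer (V : Set Ω)) (g : G) (v : Additive V) :
    (rep V G h g - 1) • v = 0 ↔ ⁅(g : Ω), (v.toMul : Ω)⁆ = 1 := by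
  rw [← rep_sub h, ← toMul_eq_one, OneMemClass.coe_eq_one]

theorem end_eq_zero {M : Type*} [AddCommGroup M] {x : AddMonoid.End M} (h : ∀ v : M, x • v = 0) :
    x = 0 := by
  ext v; exact h v

theorem quad_off [Finite Ω] {p : ℕ} [Fact p.Prime] {V G : Subgroup Ω}
    (hV : Cfsg.IsElementaryAbelian p V) (hGV : G ≤ Subgroup.normalizer (V : Set Ω))
    (hfaith : G ⊓ Subgroup.centralizer (V : Set Ω) = ⊥)
    (hF : ∃ E : Subgroup Ω, E ≤ G ∧ E ≠ ⊥ ∧ Cfsg.IsElementaryAbelian p E ∧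
      Nat.card ↥V ≤ Nat.card ↥E * Nat.card ↥(V ⊓ Subgroup.centralizer (E : Set Ω))) :
    ∃ A : Subgroup Ω, A ≤ G ∧ A ≠ ⊥ ∧
      Nat.card ↥V ≤ Nat.card ↥A * Nat.card ↥(V ⊓ Subgroup.centralizer (A : Set Ω)) ∧
      ∀ a ∈ A, ∀ b ∈ A, ∀ v ∈ V, ⁅a, ⁅b, v⁆⁆ = 1 := by
  obtain ⟨E, hEG, hE, hEa, hc⟩ := hF
  obtain ⟨A, ⟨hAE, hA⟩, hmax⟩ := Set.exists_max_image {A : Subgroup Ω | A ≤ E ∧ A ≠ ⊥}
    (fun A => Nat.card ↥A * Nat.card ↥(V ⊓ Subgroup.centralizer (A : Set Ω))) (Set.toFinite _)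
    ⟨E, le_rfl, hE⟩
  have hbot : Nat.card ↥(⊥ : Subgroup Ω) *
      Nat.card ↥(V ⊓ Subgroup.centralizer ((⊥ : Subgroup Ω) : Set Ω)) = Nat.card V := by
    have : Subgroup.centralizer ((⊥ : Subgroup Ω) : Set Ω) = ⊤ := by
      rw [eq_top_iff]
      intro x _ y hy
      rw [Subgroup.mem_bot.1 hy]; simp
    rw [this, inf_top_eq, Subgroup.card_bot, one_mul]
  have hb : Cfsg.IsBestOffenderOn p V A := by
    refine ⟨fun B hB => ?_, ?_, fun a ha => ?_⟩
    · by_cases e : B = ⊥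
      · subst e
        rw [hbot]
        exact hc.trans (hmax E ⟨le_rfl, hE⟩)
      · exact hmax B ⟨hB.trans hAE, e⟩
    · rw [Subgroup.commutator_le]
      intro a ha b hb
      haveI := hEa.1
      have : a * b = b * a := congrArg Subtype.val (mul_comm' (⟨a, hAE ha⟩ : E) ⟨b, hAE hb⟩)
      rw [commutatorElement_eq_one_iff_mul_comm.2 this]
      exact one_mem _
    · rw [hEa.2 a (hAE ha)]; exact one_mem _
  obtain ⟨h1, -, h3⟩ := S0599.result V A hV ((hAE.trans hEG).trans hGV) hb V le_rfl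
  have hne : ⁅V, A⁆ ≠ ⊥ := by
    intro e
    rw [Subgroup.commutator_comm, Subgroup.commutator_eq_bot_iff_le_centralizer] at e
    exact hA (le_bot_iff.1 (hfaith ▸ le_inf (hAE.trans hEG) e))
  refine ⟨_, inf_le_left.trans (hAE.trans hEG), fun e => h3 hne (by rw [e]; simp), ?_, ?_⟩
  · rw [← hbot]; exact h1.1 ⊥ bot_le
  · intro a ha b hb v hv
    have : ⁅b, v⁆ ∈ ⁅V, A⁆ := by
      rw [Subgroup.commutator_comm]; exact Subgroup.commutator_mem_commutator hb.1 hv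
    exact commutatorElement_eq_one_iff_mul_comm.2 (ha.2 _ this).symm

theorem lynd [Finite Ω] (p : ℕ) [Fact p.Prime] (hp : 5 ≤ p) (V G : Subgroup Ω) (hV : Cfsg.IsElementaryAbelian p V) (hG : IsPGroup p ↥G) (hGV : G ≤ Subgroup.normalizer (V : Set Ω)) (hfaith : G ⊓ Subgroup.centralizer (V : Set Ω) = ⊥) (hF : ∃ E : Subgroup Ω, E ≤ G ∧ E ≠ ⊥ ∧ Cfsg.IsElementaryAbelian p E ∧ Nat.card ↥V ≤ Nat.card ↥E * Nat.card ↥(V ⊓ Subgroup.centralizer (E : Set Ω))) : ∃ A : Subgroup Ω, A ≤ G ∧ A ≠ ⊥ ∧ Cfsg.IsElementaryAbelian p A ∧ Nat.card ↥V ≤ Nat.card ↥A * Nat.card ↥(V ⊓ Subgroup.centralizer (A : Set Ω)) ∧ ⁅⁅V, A⁆, A⁆ = ⊥ ∧ ∀ g ∈ Subgroup.closure {x : Ω | ∃ h ∈ G, ∃ a ∈ A, x = h * a * h⁻¹}, ∀ a ∈ A, g * a * g⁻¹ ∈ A := by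
  obtain ⟨B, hBG, hB, hc, hq⟩ := quad_off hV hGV hfaith hF
  haveI := hV.1
  set ρ := rep V G hGV with hρ
  haveI : Finite (AddMonoid.End (Additive V)) :=
    Finite.of_injective (fun x : AddMonoid.End (Additive V) => (x : Additive V → Additive V))
      DFunLike.coe_injective
  have hM : ∀ v : Additive V, (p : ℤ) • v = 0 := by
    intro v
    rw [natCast_zsmul, ← toMul_eq_one, toMul_nsmul]
    exact Subtype.ext (by simpa using hV.2 _ v.toMul.2)
  have hR : ∀ x : AddMonoid.End (Additive V), (p : ℤ) • x = 0 := fun x =>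
    end_eq_zero fun v => by rw [smul_assoc, hM]
  have hinj : Function.Injective ρ := by
    rw [injective_iff_map_eq_one]
    intro g hg
    have : (g : Ω) ∈ G ⊓ Subgroup.centralizer (V : Set Ω) := by
      refine ⟨g.2, fun v hv => ?_⟩
      have := (smul_eq_zero_iff' hGV g (Additive.ofMul ⟨v, hv⟩)).1 (by rw [← hρ, hg]; simp)
      exact (commutatorElement_eq_one_iff_mul_comm.1 this).symm
    rw [hfaith] at this
    exact Subtype.ext this
  have hprod : ∀ a b : G, (ρ a - 1) * (ρ b - 1) = 0 ↔ ∀ v ∈ V, ⁅(a : Ω), ⁅(b : Ω), v⁆⁆ = 1 := by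
    intro a b
    constructor
    · intro h v hv
      have : (ρ a - 1) • ((ρ b - 1) • (Additive.ofMul ⟨v, hv⟩ : Additive V)) = 0 := by
        rw [smul_smul, h]; rfl
      rw [smul_eq_zero_iff', rep_sub] at this
      exact this
    · intro h
      refine end_eq_zero fun v => ?_
      rw [mul_smul, smul_eq_zero_iff', rep_sub]
      exact h _ v.toMul.2
  have hq' : ∀ a b : G, a.1 ∈ B → b.1 ∈ B → (ρ a - 1) * (ρ b - 1) = 0 :=
    fun a b ha hb => (hprod a b).2 (hq _ ha _ hb)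
  let L₀ : AddSubgroup (AddMonoid.End (Additive V)) :=
    { carrier := {x | ∃ g : G, g.1 ∈ B ∧ x = ρ g - 1}
      zero_mem' := ⟨1, one_mem _, by simp⟩
      add_mem' := by
        rintro _ _ ⟨a, ha, rfl⟩ ⟨b, hb, rfl⟩
        refine ⟨a * b, mul_mem ha hb, ?_⟩
        rw [map_mul]; exact ring1 (hq' a b ha hb)
      neg_mem' := by
        rintro _ ⟨a, ha, rfl⟩
        refine ⟨a⁻¹, inv_mem ha, ?_⟩
        rw [rho_inv (α := ρ a - 1) (by simp) (hq' a a ha ha)]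
        simp }
  have h0 : QO ρ L₀ := by
    refine ⟨?_, ?_⟩
    · rintro _ ⟨a, ha, rfl⟩ _ ⟨b, hb, rfl⟩
      exact hq' a b ha hb
    · rintro _ ⟨a, ha, rfl⟩
      exact ⟨a, by simp⟩
  obtain ⟨L, hL, c1, c2, hN⟩ := main (Additive V) hp hG hR hM h0
  have d1 : Nat.card B ≤ Nat.card L₀ := by
    refine Nat.card_le_card_of_injective (fun b => ⟨ρ ⟨b.1, hBG b.2⟩ - 1, _, b.2, rfl⟩) ?_
    intro a b e
    have e1 : ρ ⟨a.1, hBG a.2⟩ - 1 = ρ ⟨b.1, hBG b.2⟩ - 1 := congrArg Subtype.val e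
    exact Subtype.ext (congrArg (fun g : G => g.1) (hinj (sub_left_inj.1 e1)))
  have d2 : Nat.card ↥(V ⊓ Subgroup.centralizer (B : Set Ω)) ≤ Nat.card (Cx (Additive V) L₀) := by
    refine Nat.card_le_card_of_injective (fun v => ⟨Additive.ofMul ⟨v.1, v.2.1⟩, ?_⟩) ?_
    · rintro _ ⟨a, ha, rfl⟩
      rw [smul_eq_zero_iff']
      exact commutatorElement_eq_one_iff_mul_comm.2 (v.2.2 _ ha)
    · intro a b e
      exact Subtype.ext (congrArg (fun w : Cx (Additive V) L₀ => (w.1.toMul : Ω)) e)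
  set A := (Eg ρ L hL.1).map G.subtype with hA
  have memA : ∀ g : G, g.1 ∈ A ↔ ρ g - 1 ∈ L := fun g =>
    Subgroup.mem_map_iff_mem G.subtype_injective
  have hAG : A ≤ G := Subgroup.map_subtype_le _
  have d3 : Nat.card L ≤ Nat.card A := by
    have := fun x : L => hL.2 x.1 x.2
    choose f hf using this
    refine Nat.card_le_card_of_injective
      (fun x => ⟨(f x).1, (memA _).2 (by rw [hf]; simp)⟩) ?_
    intro a b e
    have e1 : f a = f b := Subtype.ext (congrArg (fun g : A => g.1) e)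
    have e2 := hf a
    rw [e1, hf b] at e2
    exact Subtype.ext (add_left_cancel e2).symm
  have d4 : Nat.card (Cx (Additive V) L) ≤ Nat.card ↥(V ⊓ Subgroup.centralizer (A : Set Ω)) := by
    refine Nat.card_le_card_of_injective (fun v => ⟨(v.1.toMul : Ω), v.1.toMul.2, ?_⟩) ?_
    · intro a ha
      have := v.2 _ ((memA ⟨a, hAG ha⟩).1 ha)
      rw [smul_eq_zero_iff'] at this
      exact commutatorElement_eq_one_iff_mul_comm.1 this
    · intro a b e
      exact Subtype.ext (Additive.toMul.injective (Subtype.ext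
        (congrArg (fun g : ↥(V ⊓ Subgroup.centralizer (A : Set Ω)) => g.1) e)))
  have hAq : ∀ a (ha : a ∈ A) b (hb : b ∈ A), (ρ ⟨a, hAG ha⟩ - 1) * (ρ ⟨b, hAG hb⟩ - 1) = 0 :=
    fun a ha b hb => hL.1 _ ((memA _).1 ha) _ ((memA _).1 hb)
  refine ⟨A, hAG, ?_, ⟨⟨⟨fun a b => ?_⟩⟩, fun a ha => ?_⟩, ?_, ?_, ?_⟩
  · intro e
    have : Nat.card B ≤ 1 := by
      have := d1.trans (c1.trans d3)
      rwa [e, Subgroup.card_bot] at this
    exact hB (Subgroup.eq_bot_of_card_le B this)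
  · have q1 := hAq a.1 a.2 b.1 b.2
    have q2 := hAq b.1 b.2 a.1 a.2
    have : ρ (⟨a.1, hAG a.2⟩ * ⟨b.1, hAG b.2⟩) = ρ (⟨b.1, hAG b.2⟩ * ⟨a.1, hAG a.2⟩) := by
      rw [map_mul, map_mul]; exact ring2 q1 q2
    exact Subtype.ext (congrArg (fun g : G => g.1) (hinj this))
  · have := rho_zpow (ρ := ρ) (u := ⟨a, hAG ha⟩) (α := ρ ⟨a, hAG ha⟩ - 1) (by simp)
      (hAq a ha a ha) p
    rw [hR, add_zero, ← map_one ρ, zpow_natCast] at this
    exact congrArg Subtype.val (hinj this)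
  · exact hc.trans (Nat.mul_le_mul (d1.trans (c1.trans d3)) (d2.trans (c2.trans d4)))
  · rw [Subgroup.commutator_eq_bot_iff_le_centralizer, Subgroup.commutator_le]
    intro v hv a ha b hb
    have := (hprod _ _).1 (hAq b hb a ha) v hv
    have := commutatorElement_eq_one_iff_commute.1 this
    rw [← commutatorElement_inv]
    exact this.inv_right.eq
  · have : Subgroup.closure {x : Ω | ∃ h ∈ G, ∃ a ∈ A, x = h * a * h⁻¹} ≤
        Subgroup.normalizer (A : Set Ω) := by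
      rw [Subgroup.closure_le]
      rintro _ ⟨h, hh, a, ha, rfl⟩
      refine Subgroup.mem_normalizer_fintype fun b hb => ?_
      let u : G := ⟨h, hh⟩ * (⟨a, hAG ha⟩ : G)⁻¹ * (⟨h, hh⟩ : G)⁻¹
      have q := hAq a⁻¹ (inv_mem ha) a⁻¹ (inv_mem ha)
      have k1 : ρ ⟨h, hh⟩ * ρ (⟨h, hh⟩ : G)⁻¹ = 1 := by rw [← map_mul]; simp
      have k2 : ρ (⟨h, hh⟩ : G)⁻¹ * ρ ⟨h, hh⟩ = 1 := by rw [← map_mul]; simp
      have eu : ρ u - 1 = ρ ⟨h, hh⟩ * (ρ ⟨a⁻¹, hAG (inv_mem ha)⟩ - 1) * ρ (⟨h, hh⟩ : G)⁻¹ := by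
        rw [mul_sub, sub_mul, mul_one, k1, ← map_mul, ← map_mul]; rfl
      have hu : (ρ u - 1) * (ρ u - 1) = 0 := by
        rw [eu]
        simp only [mul_assoc]
        rw [← mul_assoc (ρ (⟨h, hh⟩ : G)⁻¹), k2, one_mul, ← mul_assoc (_ - 1), q, zero_mul,
          mul_zero]
      have := hN u (ρ u - 1) (by simp) hu _ ((memA ⟨b, hAG hb⟩).1 hb)
      have e : ρ u⁻¹ * ((ρ ⟨b, hAG hb⟩ - 1) * ρ u) = ρ (u⁻¹ * ⟨b, hAG hb⟩ * u) - 1 := by
        rw [sub_mul, mul_sub, one_mul, ← map_mul, ← map_mul, ← map_mul]; simp [mul_assoc]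
      rw [e, ← memA] at this
      simpa [u, mul_assoc] using this
    intro g hg a ha
    exact (Subgroup.mem_normalizer_iff.1 (this hg) a).1 ha

end Cfsg.Agent.H23.Ly
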