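import Mathlib

/-! Fixed-point-free operators of prime order on finite vector spaces over a prime field. -/

set_option autoImplicit false

namespace Cfsg.Agent.H23.Orb

open Polynomial

theorem exists_equiv {F V W : Type*} [Field F] [AddCommGroup V] [Module F V] [AddCommGroup W]
    [Module F W] [Finite V] [Finite W] (h : Nat.card V = Nat.card W) {v : V} {w : W} (hv : v ≠ 0)
    (hw : w ≠ 0) : ∃ e : V ≃ₗ[F] W, e v = w := by
  have : Finite F := Finite.of_injective _ (smul_left_injective F hv)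
  rw [Module.natCard_eq_pow_finrank (K := F), Module.natCard_eq_pow_finrank (K := F) (V := W)] at h
  let e := LinearEquiv.ofFinrankEq V W (Nat.pow_right_injective (Finite.one_lt_card (α := F)) h)
  have hv' : e v ≠ 0 := by simpa using hv
  obtain ⟨g, hg⟩ := Submodule.exists_linearEquiv_restrict_eq
    ((LinearEquiv.toSpanNonzeroSingleton F W _ hv').symm.trans (LinearEquiv.toSpanNonzeroSingleton F W _ hw))
  refine ⟨e.trans g, ?_⟩
  have := hg (LinearEquiv.toSpanNonzeroSingleton F W _ hv' 1)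
  rw [LinearEquiv.trans_apply, LinearEquiv.symm_apply_apply] at this
  simpa using this.symm

variable {p q : ℕ} [hp : Fact p.Prime] [hq : Fact q.Prime]

theorem order_unit (h : p ≠ q) : ∀ {f : (ZMod p)[X]}, f ∣ cyclotomic q (ZMod p) →
    (Irreducible f ↔ f.natDegree = orderOf (p : ZMod q)) := by
  intro f hf
  have hc : p.Coprime q := (Nat.coprime_primes hp.out hq.out).2 h
  have e : orderOf (ZMod.unitOfCoprime _ (hc.pow_left 1)) = orderOf (p : ZMod q) := by
    rw [← orderOf_units, ZMod.coe_unitOfCoprime, pow_one]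
  rw [← e]
  exact ⟨natDegree_of_dvd_cyclotomic_of_irreducible (by simp) hc hf,
    irreducible_of_dvd_cyclotomic_of_natDegree (by simp) hc hf⟩

variable {V W : Type*} [AddCommGroup V] [Module (ZMod p) V] [AddCommGroup W] [Module (ZMod p) W]

theorem aeval_cyc {T : Module.End (ZMod p) V} (h1 : T ^ q = 1) (h2 : ∀ v, T v = v → v = 0) :
    aeval T (cyclotomic q (ZMod p)) = 0 := by
  have := congrArg (aeval T) (cyclotomic_prime_mul_X_sub_one (ZMod p) q)
  rw [mul_comm, map_mul, map_sub, map_sub, map_pow, aeval_X, h1, map_one, sub_self] at this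
  ext v
  exact h2 _ (sub_eq_zero.1 (LinearMap.congr_fun this v))

omit hq in
theorem aeval_inter {T : Module.End (ZMod p) V} {U : Module.End (ZMod p) W} (e : V →+ W)
    (h : ∀ x, e (T x) = U (e x)) (f : (ZMod p)[X]) (x : V) : e (aeval T f x) = aeval U f (e x) := by
  have h1 : ∀ (n : ℕ) x, e ((T ^ n) x) = (U ^ n) (e x) := fun n => by
    induction n with
    | zero => simp
    | succ n ih => intro x; rw [pow_succ, pow_succ, Module.End.mul_apply, Module.End.mul_apply, ih, h]
  induction f using Polynomial.induction_on' with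
  | add f g hf hg => simp [hf, hg]
  | monomial n a => simp [aeval_monomial, ZMod.map_smul, h1]

theorem exists_inter [Finite V] [Finite W] (hpq : p ≠ q) (ho : orderOf (p : ZMod q) = q - 1)
    (hc : Nat.card V = Nat.card W) {T : Module.End (ZMod p) V} {U : Module.End (ZMod p) W}
    (h1 : T ^ q = 1) (h2 : ∀ v, T v = v → v = 0) (h3 : U ^ q = 1) (h4 : ∀ v, U v = v → v = 0)
    {v : V} {w : W} (hv : v ≠ 0) (hw : w ≠ 0) :
    ∃ e : V ≃+ W, e v = w ∧ ∀ x, e (T x) = U (e x) := by
  have hi : Irreducible (cyclotomic q (ZMod p)) := (order_unit hpq dvd_rfl).2 (by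
    rw [natDegree_cyclotomic, Nat.totient_prime hq.out, ho])
  let I : Ideal (ZMod p)[X] := Ideal.span {cyclotomic q (ZMod p)}
  have : I.IsMaximal := PrincipalIdealRing.isMaximal_of_irreducible hi
  let _ := Ideal.Quotient.field I
  have key : ∀ {A : Type _} [Ring A] [Algebra (ZMod p) A] (a : A), aeval a (cyclotomic q (ZMod p)) = 0 →
      ∀ f ∈ I, (aeval a).toRingHom f = 0 := fun a ha f hf => by
    obtain ⟨g, rfl⟩ := Ideal.mem_span_singleton'.1 hf
    simp [ha]
  have key' : ∀ {A : Type _} [Ring A] [Algebra (ZMod p) A] (a : A), aeval a (cyclotomic q (ZMod p)) = 0 →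
      ∀ f ∈ I, (aeval a).toRingHom f = 0 := fun a ha f hf => by
    obtain ⟨g, rfl⟩ := Ideal.mem_span_singleton'.1 hf
    simp [ha]
  let _ := Module.compHom V (Ideal.Quotient.lift I _ (key T (aeval_cyc h1 h2)))
  let _ := Module.compHom W (Ideal.Quotient.lift I _ (key' U (aeval_cyc h3 h4)))
  obtain ⟨e, he⟩ := exists_equiv (F := (ZMod p)[X] ⧸ I) hc hv hw
  refine ⟨e.toAddEquiv, he, fun x => ?_⟩
  have := e.map_smul (Ideal.Quotient.mk I X) x
  change e (aeval T X x) = aeval U X (e x) at this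
  simpa using this

theorem orderOf_eq [Finite V] [Nontrivial V] (hpq : p ≠ q) {T : Module.End (ZMod p) V}
    (h1 : T ^ q = 1) (h2 : ∀ v, T v = v → v = 0)
    (ha : ∀ v w : V, v ≠ 0 → w ≠ 0 → ∃ (e : V ≃+ V) (k : ℕ), e v = w ∧ ∀ x, e (T x) = (T ^ k) (e x))
    (hb : ∀ k, 0 < k → k < q → ∃ e : V ≃+ V, ∀ x, e (T x) = (T ^ k) (e x)) :
    orderOf (p : ZMod q) = q - 1 := by
  let C : V → Set V := fun b => {a | ∃ f : (ZMod p)[X], a = aeval T f b}
  have hC : ∀ {a b}, a ∈ C b → C a ⊆ C b := by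
    rintro _ b ⟨f, rfl⟩ _ ⟨g, rfl⟩
    exact ⟨g * f, by simp⟩
  have hC1 : ∀ a, a ∈ C a := fun a => ⟨1, by simp⟩
  have hC2 : ∀ {a b}, a ∈ C b → a ≠ 0 → b ∈ C a := fun {a b} h h0 => by
    have hb0 : b ≠ 0 := by
      rintro rfl
      obtain ⟨f, rfl⟩ := h
      exact h0 (map_zero _)
    obtain ⟨e, k, he, hk⟩ := ha b a hb0 h0
    refine (Set.eq_of_subset_of_ncard_le (hC h) (Set.ncard_le_ncard_of_injOn e ?_
      e.injective.injOn)).ge (hC1 b)
    rintro _ ⟨f, rfl⟩
    refine ⟨f.comp (X ^ k), ?_⟩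
    rw [aeval_comp, map_pow, aeval_X, ← he]
    exact aeval_inter e.toAddMonoidHom hk f b
  have hK : ∀ (g : (ZMod p)[X]) v, v ≠ 0 → aeval T g v = 0 → aeval T g = 0 := fun g v hv hg => by
    ext w
    by_contra hw
    have e1 : aeval T g (v + w) = aeval T g w := by rw [map_add, hg, zero_add]
    obtain ⟨f, hf⟩ := hC ⟨g, rfl⟩ (hC2 ⟨g, e1.symm⟩ hw)
    obtain ⟨f', hf'⟩ := hC2 (a := v) (b := w) ⟨f - 1, by simp [← hf]⟩ hv
    refine hw ?_
    rw [hf', ← Module.End.mul_apply, ← map_mul, mul_comm, map_mul, Module.End.mul_apply, hg, map_zero]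
    rfl
  have hint : IsIntegral (ZMod p) T := .of_finite _ _
  have hu : ∀ g h : (ZMod p)[X], minpoly (ZMod p) T = g * h → aeval T h = 0 → IsUnit g := by
    intro g h e h0
    obtain ⟨c, hc⟩ := minpoly.dvd _ _ h0
    have hh : h ≠ 0 := by
      rintro rfl
      exact minpoly.ne_zero hint (by simpa using e)
    refine IsUnit.of_mul_eq_one c (mul_left_cancel₀ hh ?_)
    rw [mul_one, ← mul_assoc, mul_comm h, ← e, ← hc]
  have hi : Irreducible (minpoly (ZMod p) T) := ⟨minpoly.not_isUnit _ _, fun g h e => by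
    by_cases h0 : aeval T h = 0
    · exact .inl (hu g h e h0)
    · obtain ⟨w, hw⟩ := DFunLike.ne_iff.1 h0
      refine .inr (hu h g (e.trans (mul_comm _ _)) (hK g _ hw ?_))
      rw [← Module.End.mul_apply, ← map_mul, ← e, minpoly.aeval]
      rfl⟩
  have hd : minpoly (ZMod p) T ∣ cyclotomic q (ZMod p) := minpoly.dvd _ _ (aeval_cyc h1 h2)
  rw [← (order_unit hpq hd).1 hi]
  refine le_antisymm ((natDegree_le_of_dvd hd (cyclotomic_ne_zero _ _)).trans (by
    rw [natDegree_cyclotomic, Nat.totient_prime hq.out])) ?_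
  have := Fact.mk hi
  let K := AdjoinRoot (minpoly (ZMod p) T)
  let z : K := AdjoinRoot.root _
  have hz : ∀ f : (ZMod p)[X], aeval T f = 0 → aeval z f = 0 := fun f hf => by
    obtain ⟨c, rfl⟩ := minpoly.dvd _ _ hf
    rw [map_mul, AdjoinRoot.aeval_eq, AdjoinRoot.mk_self, zero_mul]
  have : CharP K p := charP_of_injective_algebraMap (algebraMap (ZMod p) K).injective p
  have : NeZero (q : K) := ⟨fun h => hpq ((Nat.prime_dvd_prime_iff_eq hp.out hq.out).1
    ((CharP.cast_eq_zero_iff K p q).1 h))⟩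
  have hz1 : IsPrimitiveRoot z q := by
    rw [← isRoot_cyclotomic_iff, ← map_cyclotomic q (algebraMap (ZMod p) K), IsRoot, eval_map_algebraMap]
    exact hz _ (aeval_cyc h1 h2)
  classical
  have h0 : (minpoly (ZMod p) T).map (algebraMap (ZMod p) K) ≠ 0 := map_ne_zero hi.ne_zero
  have := card_le_degree_of_subset_roots (p := (minpoly (ZMod p) T).map (algebraMap (ZMod p) K))
    (Z := (Finset.Ico 1 q).image (z ^ ·)) (by
      intro y hy
      obtain ⟨k, hk, rfl⟩ := Finset.mem_image.1 (Finset.mem_def.2 hy)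
      rw [Finset.mem_Ico] at hk
      obtain ⟨e, he⟩ := hb k hk.1 hk.2
      rw [mem_roots h0, IsRoot, eval_map_algebraMap]
      have := hz ((minpoly (ZMod p) T).comp (X ^ k)) (by
        rw [aeval_comp, map_pow, aeval_X]
        ext x
        obtain ⟨x, rfl⟩ := e.surjective x
        exact (aeval_inter e.toAddMonoidHom he _ x).symm.trans (by simp))
      rwa [aeval_comp, map_pow, aeval_X] at this)
  rwa [natDegree_map, Finset.card_image_of_injOn fun i hi j hj e => hz1.pow_inj
    (Finset.mem_Ico.1 hi).2 (Finset.mem_Ico.1 hj).2 e, Nat.card_Ico] at this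

end Cfsg.Agent.H23.Orb
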