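import Mathlib
import Cfsg.Prelude.Def_Transfer
import Cfsg.Agent.H23.Orb1
import Cfsg.Agent.Core.CoprimeGen
import Cfsg.Agent.FGS.Basic
import Cfsg.Agent.S0144

/-! Groups whose automorphism group has three orbits. -/

set_option autoImplicit false

namespace Cfsg.Agent.H23.Orb

open Subgroup

section
variable {p q : ℕ} [hp : Fact p.Prime] [hq : Fact q.Prime] {A : Type*} [CommGroup A]

/-- An automorphism as a linear map. -/
def lin [Module (ZMod p) (Additive A)] (σ : MulAut A) : Module.End (ZMod p) (Additive A) :=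
  (MonoidHom.toAdditive σ.toMonoidHom).toZModLinearMap p

theorem lin_pow [Module (ZMod p) (Additive A)] (σ : MulAut A) (n : ℕ) (x : Additive A) :
    (lin (p := p) σ ^ n) x = Additive.ofMul ((σ ^ n) x.toMul) := by
  induction n generalizing x with
  | zero => rfl
  | succ n ih => rw [pow_succ, pow_succ, Module.End.mul_apply, ih]; rfl

theorem exists_inter' [Finite A] (hA : ∀ a : A, a ^ p = 1) (hpq : p ≠ q)
    (ho : orderOf (p : ZMod q) = q - 1) {σ τ : MulAut A} (h1 : σ ^ q = 1) (h2 : ∀ v, σ v = v → v = 1)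
    (h3 : τ ^ q = 1) (h4 : ∀ v, τ v = v → v = 1) {v w : A} (hv : v ≠ 1) (hw : w ≠ 1) :
    ∃ e : MulAut A, e v = w ∧ ∀ x, e (σ x) = τ (e x) := by
  let _ : Module (ZMod p) (Additive A) := AddCommGroup.zmodModule fun x => hA x.toMul
  obtain ⟨e, he, h⟩ := exists_inter (T := lin σ) (U := lin τ) hpq ho rfl
    (by ext x; rw [lin_pow, h1]; rfl) h2 (by ext x; rw [lin_pow, h3]; rfl) h4
    (v := .ofMul v) (w := .ofMul w) hv hw
  exact ⟨MulEquiv.toAdditive.symm e, he, h⟩

theorem orderOf_eq' [Finite A] [Nontrivial A] (hA : ∀ a : A, a ^ p = 1) (hpq : p ≠ q) {σ : MulAut A}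
    (h1 : σ ^ q = 1) (h2 : ∀ v, σ v = v → v = 1)
    (ha : ∀ v w : A, v ≠ 1 → w ≠ 1 → ∃ (e : MulAut A) (k : ℕ), e v = w ∧ ∀ x, e (σ x) = (σ ^ k) (e x))
    (hb : ∀ k, 0 < k → k < q → ∃ e : MulAut A, ∀ x, e (σ x) = (σ ^ k) (e x)) :
    orderOf (p : ZMod q) = q - 1 := by
  let _ : Module (ZMod p) (Additive A) := AddCommGroup.zmodModule fun x => hA x.toMul
  refine orderOf_eq (T := lin σ) hpq (by ext x; rw [lin_pow, h1]; rfl) h2 (fun v w hv hw => ?_)
    fun k h h' => ?_
  · obtain ⟨e, k, he, h⟩ := ha v w hv hw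
    exact ⟨MulEquiv.toAdditive e, k, he, fun x => by rw [lin_pow]; exact h x⟩
  · obtain ⟨e, h⟩ := hb k h h'
    exact ⟨MulEquiv.toAdditive e, fun x => by rw [lin_pow]; exact h x⟩

end

variable {G : Type*} [Group G]

theorem exists_aut {P : Subgroup G} [P.Normal] {x y : G} (ho : orderOf x = orderOf y)
    (hx : P.IsComplement' (zpowers x)) (hy : P.IsComplement' (zpowers y)) (e : MulAut P)
    (h : ∀ v, e (MulAut.conjNormal x v) = MulAut.conjNormal y (e v)) :
    ∃ α : MulAut G, α x = y ∧ ∀ v : P, α v = e v := by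
  have gen : ∀ (z : G) (g : zpowers z), g ∈ zpowers (⟨z, mem_zpowers z⟩ : zpowers z) := by
    rintro z ⟨_, i, rfl⟩
    exact ⟨i, rfl⟩
  let f : zpowers x ≃* zpowers y := mulEquivOfOrderOfEq (gen x) (gen y) (by simpa using ho)
  have hf : f ⟨x, mem_zpowers x⟩ = ⟨y, mem_zpowers y⟩ := mulEquivOfOrderOfEq_apply_gen _ _ _
  have h' : e * MulAut.conjNormal x * e⁻¹ = MulAut.conjNormal y :=
    MulEquiv.ext fun v => (h _).trans (by simp)
  let β := SemidirectProduct.congr
    (φ₁ := (P.normalizerMonoidHom).comp (inclusion (H := zpowers x) (P.normalizer_eq_top ▸ le_top)))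
    (φ₂ := (P.normalizerMonoidHom).comp (inclusion (H := zpowers y) (P.normalizer_eq_top ▸ le_top)))
    e f fun g => by
      obtain ⟨i, rfl⟩ := gen x g
      have : e * MulAut.conjNormal (x ^ i) = MulAut.conjNormal (y ^ i) * e := by
        rw [map_zpow, map_zpow, ← h', conj_zpow, inv_mul_cancel_right]
      ext v
      simp only [map_zpow f, hf]
      exact congrArg Subtype.val (MulEquiv.congr_fun this v)
  let a := SemidirectProduct.mulEquivSubgroup hx
  let b := SemidirectProduct.mulEquivSubgroup hy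
  refine ⟨a.symm.trans (β.trans b), ?_, fun v => ?_⟩
  · have : a.symm x = .inr ⟨x, mem_zpowers x⟩ := a.symm_apply_eq.2 (by simp [a])
    rw [MulEquiv.trans_apply, this]
    simp [β, b, hf]
  · have : a.symm v = .inl v := a.symm_apply_eq.2 (by simp [a])
    rw [MulEquiv.trans_apply, this]
    simp [β, b]

variable [Finite G] {p q : ℕ} [hp : Fact p.Prime] [hq : Fact q.Prime]

open scoped IsMulCommutative in
theorem forward (hpq : p ≠ q) (hq' : q ∣ Nat.card G) {a b : ℕ} (hc : Nat.card G = p ^ a * q ^ b)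
    (h0 : ∀ g : G, g ≠ 1 → orderOf g = p ∨ orderOf g = q)
    (h1 : ∀ g h : G, orderOf g = orderOf h → ∃ α : MulAut G, α g = h)
    (D : Subgroup G) [D.Characteristic] [IsMulCommutative D] {d : G} (hd : d ∈ D) (hdp : orderOf d = p) :
    ∃ n, 1 ≤ n ∧ Nat.card G = p ^ n * q ∧
      (∀ P : Sylow p G, (P : Subgroup G).Normal ∧ IsElementaryAbelian p (P : Subgroup G)) ∧
      orderOf (p : ZMod q) = q - 1 ∧
      ∀ x y : G, orderOf x = q → orderOf y = p → x * y * x⁻¹ ≠ y := by
  have hcop : p.Coprime q := (Nat.coprime_primes hp.out hq.out).2 hpq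
  have fpf : ∀ x y : G, orderOf x = q → orderOf y = p → x * y * x⁻¹ ≠ y := fun x y hx hy e => by
    have := (show Commute y x from (mul_inv_eq_iff_eq_mul.1 e).symm).orderOf_mul_eq_mul_orderOf_of_coprime
      (by rwa [hx, hy])
    rw [hx, hy] at this
    have h2 := hp.out.two_le
    have h3 := hq.out.two_le
    rcases h0 (y * x) (fun e => by rw [e, orderOf_one] at this; nlinarith) with h | h <;> nlinarith
  have hD1 : ∀ g, orderOf g = p → g ∈ D := fun g hg => by
    obtain ⟨α, rfl⟩ := h1 d g (hdp.trans hg.symm)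
    exact (MulAut.characteristic D α ⟨d, hd⟩).2
  have hD2 : ∀ g ∈ D, g ≠ 1 → orderOf g = p := fun g hg h => (h0 g h).resolve_right fun e =>
    fpf g d e hdp (mul_inv_eq_iff_eq_mul.2 (congrArg Subtype.val (mul_comm (⟨g, hg⟩ : D) ⟨d, hd⟩)))
  have hD3 : ∀ g ∈ D, g ^ p = 1 := fun g hg => by
    by_cases h : g = 1
    · rw [h, one_pow]
    · rw [← hD2 g hg h, pow_orderOf_eq_one]
  have hDp : IsPGroup p D := fun g => ⟨1, Subtype.ext (by simpa using hD3 g g.2)⟩
  have hP : ∀ P : Sylow p G, (P : Subgroup G) = D := fun P => (P.is_maximal' hDp fun g hg => by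
    by_cases h : g = 1
    · exact h ▸ one_mem _
    · refine hD1 g ((h0 g h).resolve_right fun e => hpq ?_)
      obtain ⟨k, hk⟩ := IsPGroup.iff_orderOf.1 P.2 ⟨g, hg⟩
      rw [orderOf_mk, e] at hk
      exact ((Nat.prime_dvd_prime_iff_eq hq.out hp.out).1 (hq.out.dvd_of_dvd_pow hk.dvd)).symm).symm
  have hd1 : d ≠ 1 := fun e => hp.out.one_lt.ne (by rw [← hdp, e, orderOf_one])
  obtain ⟨n, hn⟩ := IsPGroup.iff_card.1 hDp
  obtain rfl : b = 1 := by
    by_contra hb
    have hb0 : b ≠ 0 := by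
      rintro rfl
      rw [hc, pow_zero, mul_one] at hq'
      exact hpq ((Nat.prime_dvd_prime_iff_eq hq.out hp.out).1 (hq.out.dvd_of_dvd_pow hq')).symm
    obtain ⟨B, hB⟩ := Sylow.exists_subgroup_card_pow_prime (G := G) q (n := 2)
      (hc ▸ (pow_dvd_pow q (by omega)).mul_left _)
    have hB1 : ∀ g ∈ B, g ≠ 1 → orderOf g = q := fun g hg h => (h0 g h).resolve_left fun e =>
      hp.out.one_lt.ne' (Nat.eq_one_of_dvd_coprimes (hcop.pow_right 2) dvd_rfl
        (by rw [← e, ← hB]; exact B.orderOf_dvd_natCard hg))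
    refine hd1 (Core.le_of_centralizers (L := ⊥) (IsPGroup.isMulCommutative_of_card_eq_prime_sq hB)
      (fun h => ?_) (by rw [normalizer_eq_top]; exact le_top)
      (by rw [hB, hn]; exact (hcop.symm.pow _ _)) (fun g hg h y hy => ?_) hd)
    · obtain ⟨g, hg⟩ := h.exists_ofOrder_eq_natCard
      have h2 := hq.out.two_le
      rw [hB, ← orderOf_coe] at hg
      rw [hB1 g g.2 (fun e => by rw [e, orderOf_one] at hg; nlinarith)] at hg
      nlinarith
    · by_contra h'
      exact fpf g y (hB1 g hg h) (hD2 y hy.1 h')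
        (mul_inv_eq_iff_eq_mul.2 (mem_centralizer_singleton_iff.1 hy.2).symm)
  rw [pow_one] at hc
  have hi : Nat.card (G ⧸ D) = q := by
    obtain ⟨P⟩ := (inferInstance : Nonempty (Sylow p G))
    have e1 := P.card_eq_multiplicity
    rw [hP, hc, Nat.factorization_mul (pow_ne_zero _ hp.out.ne_zero) hq.out.ne_zero, Finsupp.add_apply,
      Nat.factorization_pow_self hp.out, hq.out.factorization, Finsupp.single_eq_of_ne hpq, add_zero] at e1
    have := D.card_mul_index
    rw [e1, hc] at this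
    exact Nat.eq_of_mul_eq_mul_left (pow_pos hp.out.pos _) this
  refine ⟨a, Nat.pos_of_ne_zero ?_, hc, fun P => hP P ▸ ⟨inferInstance, inferInstance, hD3⟩, ?_, fpf⟩
  · rintro rfl
    have := orderOf_dvd_natCard d
    rw [hdp, hc, pow_zero, one_mul] at this
    exact hpq ((Nat.prime_dvd_prime_iff_eq hp.out hq.out).1 this)
  obtain ⟨x, hx⟩ := exists_prime_orderOf_dvd_card' q hq'
  have : Nontrivial D := ⟨⟨d, hd⟩, 1, fun e => hd1 (congrArg Subtype.val e)⟩
  have key : ∀ (α : MulAut G) (k : ℕ), (x ^ k)⁻¹ * α x ∈ D → ∀ v : D,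
      MulAut.characteristic D α (MulAut.conjNormal x v) =
        (MulAut.conjNormal x ^ k : MulAut D) (MulAut.characteristic D α v) := fun α k h v => by
    rw [← map_pow]
    have := congrArg Subtype.val (mul_comm (⟨_, h⟩ : D) (MulAut.characteristic D α v))
    refine Subtype.ext ?_
    change α (x * v * x⁻¹) = x ^ k * α v * (x ^ k)⁻¹
    change _ * α v = α v * _ at this
    rw [map_mul, map_mul, map_inv]
    calc _ = x ^ k * ((x ^ k)⁻¹ * α x * α v) * (α x)⁻¹ := by group
      _ = _ := by rw [this]; group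
  refine orderOf_eq' (A := D) (σ := MulAut.conjNormal x) (fun v => Subtype.ext (hD3 v v.2)) hpq
    (by rw [← map_pow, ← hx, pow_orderOf_eq_one, map_one]) (fun v hv => ?_) (fun v w hv hw => ?_)
    fun k h h' => ?_
  · by_contra h
    exact fpf x v hx (hD2 v v.2 fun e => h (Subtype.ext e)) (congrArg Subtype.val hv)
  · obtain ⟨α, hα⟩ := h1 v w ((hD2 v v.2 fun e => hv (Subtype.ext e)).trans
      (hD2 w w.2 fun e => hw (Subtype.ext e)).symm)
    obtain ⟨k, hk⟩ := mem_powers_of_prime_card hi (g := (x : G ⧸ D)) (g' := (α x : G ⧸ D)) fun e =>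
      hpq ((hD2 x ((QuotientGroup.eq_one_iff x).1 e) fun e =>
        hq.out.one_lt.ne (by rw [← hx, e, orderOf_one])).symm.trans hx)
    exact ⟨_, k, Subtype.ext hα, key α k (QuotientGroup.eq.1 hk)⟩
  · obtain ⟨α, hα⟩ := h1 x (x ^ k) ((Nat.Coprime.orderOf_pow (by
      rw [hx]; exact (Nat.coprime_of_lt_prime h.ne' h' hq.out))).symm)
    exact ⟨_, key α k (by rw [hα, inv_mul_cancel]; exact one_mem _)⟩

open scoped IsMulCommutative in
theorem backward (hpq : p ≠ q) {n : ℕ} (hc : Nat.card G = p ^ n * q) (P : Sylow p G)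
    [(P : Subgroup G).Normal] (hP : IsElementaryAbelian p (P : Subgroup G))
    (ho : orderOf (p : ZMod q) = q - 1)
    (fpf : ∀ x y : G, orderOf x = q → orderOf y = p → x * y * x⁻¹ ≠ y) {d : G} (hd : orderOf d = p) :
    (∀ g : G, g ≠ 1 → orderOf g = p ∨ orderOf g = q) ∧
      (∀ g h : G, orderOf g = p → orderOf h = p → ∃ α : MulAut G, α g = h) ∧
      ∀ g h : G, orderOf g = q → orderOf h = q → ∃ α : MulAut G, α g = h := by
  have := hP.1
  have hcop : p.Coprime q := (Nat.coprime_primes hp.out hq.out).2 hpq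
  have h1 : ∀ g, orderOf g = p → g ∈ (P : Subgroup G) := fun g hg =>
    FGS.mem_sylow_of_normal P (hg.trans (pow_one p).symm)
  have h2 : ∀ g ∈ (P : Subgroup G), g ≠ 1 → orderOf g = p := fun g hg h =>
    orderOf_eq_prime (hP.2 g hg) h
  have e1 : Nat.card (P : Subgroup G) = p ^ n := by
    rw [P.card_eq_multiplicity, hc, Nat.factorization_mul (pow_ne_zero _ hp.out.ne_zero) hq.out.ne_zero,
      Finsupp.add_apply, Nat.factorization_pow_self hp.out, hq.out.factorization,
      Finsupp.single_eq_of_ne hpq, add_zero]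
  have hi : (P : Subgroup G).index = q := by
    have := (P : Subgroup G).card_mul_index
    rw [e1, hc] at this
    exact Nat.eq_of_mul_eq_mul_left (pow_pos hp.out.pos _) this
  have key : ∀ (x y : G) (v w : G), orderOf x = q → orderOf y = q → orderOf v = p → orderOf w = p →
      ∃ α : MulAut G, α x = y ∧ α v = w := fun x y v w hx hy hv hw => by
    have c : ∀ x : G, orderOf x = q → (P : Subgroup G).IsComplement' (zpowers x) := fun x hx =>
      isComplement'_of_coprime (by rw [Nat.card_zpowers, hx, e1, hc])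
        (by rw [Nat.card_zpowers, hx, e1]; exact hcop.pow_left _)
    have f : ∀ x : G, orderOf x = q → (MulAut.conjNormal x : MulAut (P : Subgroup G)) ^ q = 1 ∧
        ∀ v : (P : Subgroup G), MulAut.conjNormal x v = v → v = 1 := fun x hx =>
      ⟨by rw [← map_pow, ← hx, pow_orderOf_eq_one, map_one], fun v hv => by
        by_contra h
        exact fpf x v hx (h2 v v.2 fun e => h (Subtype.ext e)) (congrArg Subtype.val hv)⟩
    have ne : ∀ v (h : orderOf v = p), (⟨v, h1 v h⟩ : (P : Subgroup G)) ≠ 1 := fun v h e =>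
      hp.out.one_lt.ne (by rw [← h, show v = 1 from congrArg Subtype.val e, orderOf_one])
    obtain ⟨e, he, h⟩ := exists_inter' (A := (P : Subgroup G)) (fun v => Subtype.ext (hP.2 v v.2)) hpq ho
      (f x hx).1 (f x hx).2 (f y hy).1 (f y hy).2 (ne v hv) (ne w hw)
    obtain ⟨α, h3, h4⟩ := exists_aut (hx.trans hy.symm) (c x hx) (c y hy) e h
    exact ⟨α, h3, (h4 ⟨v, h1 v hv⟩).trans (congrArg Subtype.val he)⟩
  obtain ⟨x, hx⟩ := exists_prime_orderOf_dvd_card' (G := G) q (hc ▸ dvd_mul_left _ _)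
  refine ⟨fun g hg => ?_, fun g h hg hh => (key x x g h hx hx hg hh).imp fun _ h => h.2,
    fun g h hg hh => (key g h d d hg hh hd hd).imp fun _ h => h.1⟩
  by_cases h : g ^ p = 1
  · exact .inl (orderOf_eq_prime h hg)
  refine .inr (orderOf_eq_prime ?_ hg)
  by_contra h'
  have h3 : g ^ q ∈ (P : Subgroup G) := hi ▸ (P : Subgroup G).pow_index_mem g
  exact fpf (g ^ p) (g ^ q) (orderOf_eq_prime (by rw [← pow_mul, mul_comm, pow_mul, hP.2 _ h3]) h)
    (h2 _ h3 h') (mul_inv_eq_iff_eq_mul.2 (Commute.pow_pow_self g p q))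

end Cfsg.Agent.H23.Orb
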