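import Mathlib
import Cfsg.Agent.H23.B2a
import Cfsg.Agent.Core.CoprimeGen

/-! Groups acting so that every non-trivial vector is fixed by a unique Sylow subgroup. -/

set_option autoImplicit false

namespace Cfsg.Agent.H23.Pal

open Subgroup RegO MulAction
open scoped commutatorElement _root_.Classical Pointwise

variable {K W : Type*} [Group K] [Finite K] [CommGroup W] [Finite W] [MulDistribMulAction K W]
  {q t : ℕ}

/-- Each non-trivial vector has a Sylow `q`-subgroup as a normal subgroup of its stabilizer. -/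
def Pc (K W : Type*) [Group K] [CommGroup W] [MulDistribMulAction K W] (q : ℕ) : Prop :=
  ∀ w : W, w ≠ 1 → ∃ Q : Sylow q K, (Q : Subgroup K) ≤ stabilizer K w ∧
    stabilizer K w ≤ normalizer ((Q : Subgroup K) : Set K)

/-- Non-trivial normal subgroups have no non-trivial fixed vector. -/
def Ir (K W : Type*) [Group K] [CommGroup W] [MulDistribMulAction K W] : Prop :=
  ∀ Z : Subgroup K, Z.Normal → ∀ w : W, w ≠ 1 → Z ≤ stabilizer K w → Z = ⊥

omit [Finite K] in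
theorem syl_eq [Fact q.Prime] {Q Q' : Sylow q K}
    (h : (Q' : Subgroup K) ≤ normalizer ((Q : Subgroup K) : Set K)) : Q' = Q := by
  have h1 := Q'.isPGroup'.inf_normalizer_sylow Q
  have h2 : (Q' : Subgroup K) ≤ Q := by
    have : (Q' : Subgroup K) ⊓ normalizer ((Q : Subgroup K) : Set K) = Q' := inf_eq_left.mpr h
    rw [← this]
    exact (le_of_eq h1).trans inf_le_right
  exact Sylow.ext (Q'.is_maximal' Q.isPGroup' h2).symm

omit [Finite K] [Finite W] in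
theorem Pc.uniq [Fact q.Prime] (h : Pc K W q) {w : W} (hw : w ≠ 1) {Q Q' : Sylow q K}
    (h1 : (Q : Subgroup K) ≤ stabilizer K w) (h2 : (Q' : Subgroup K) ≤ stabilizer K w) : Q = Q' := by
  obtain ⟨S, -, b⟩ := h w hw
  rw [syl_eq (h1.trans b), syl_eq (h2.trans b)]

/-- A vector whose stabilizer in `D` has index at most `t`. -/
def Gd (D : Subgroup K) (w : W) : Prop :=
  w ≠ 1 ∧ ∀ x ∈ D, ∀ y ∈ D, x • w ≠ w → ∃ i : ℕ, (y * x ^ i) • w = w

theorem hyper [Nontrivial W] (ht : t.Prime) (hW : (Nat.card W).Coprime t) {D : Subgroup K}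
    (hc : ∀ x ∈ D, ∀ y ∈ D, x * y = y * x) (he : ∀ x ∈ D, x ^ t = 1) : ∃ w : W, Gd D w := by
  obtain ⟨w, hw, hmax⟩ := Set.exists_max_image {w : W | w ≠ 1}
    (fun w => Nat.card (D ⊓ stabilizer K w : Subgroup K)) (Set.toFinite _) (exists_ne 1)
  refine ⟨w, hw, fun x hx y hy hxw => ?_⟩
  by_contra hn
  push Not at hn
  set B := D ⊓ stabilizer K w with hB
  have hU : ∀ g ∈ D, ∀ u ∈ fx W B, g • u ∈ fx W B := fun g hg u hu a ha => by
    rw [← mul_smul, hc a ha.1 g hg, mul_smul, hu a ha]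
  have key : ∀ g ∈ D, g • w ≠ w → ∀ u ∈ fx W B, g • u = u → u = 1 := by
    intro g hg hgw u hu e
    by_contra h1
    have h2 : B ≤ D ⊓ stabilizer K u := fun a ha => ⟨ha.1, hu a ha⟩
    have h3 := eq_of_le_of_card_ge h2 (hmax u h1)
    have : g ∈ B := h3 ▸ ⟨hg, e⟩
    exact hgw this.2
  letI := B2.res D (fx W B) hU
  let f := MulDistribMulAction.toMonoidEnd D (fx W B)
  have hf : ∀ (g : D) (u : fx W B), f g u = u → (g : K) • (u : W) = u := fun g u e =>
    congrArg Subtype.val e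
  have h := Core.pow_mem_of_fixed_le (f ⟨y, hy⟩) (f ⟨x, hx⟩)
    ((show Commute (⟨y, hy⟩ : D) ⟨x, hx⟩ from Subtype.ext (hc y hy x hx)).map f) (q := t)
    (by rw [← map_pow, show (⟨y, hy⟩ : D) ^ t = 1 from Subtype.ext (he y hy), map_one])
    (by rw [← map_pow, show (⟨x, hx⟩ : D) ^ t = 1 from Subtype.ext (he x hx), map_one]) ⊥
    (fun i _ u e => by
      rw [← map_pow, ← map_mul] at e
      exact mem_bot.mpr (Subtype.ext (key _ (D.mul_mem hy (D.pow_mem hx i)) (hn i) u u.2 (hf _ u e))))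
    (fun j h0 hj u e => by
      rw [← map_pow] at e
      refine mem_bot.mpr (Subtype.ext (key _ (D.pow_mem hx j) (fun e' => hxw ?_) u u.2 (hf _ u e)))
      have hj' : j.Coprime t := (Nat.coprime_of_lt_prime h0.ne' hj ht).symm
      obtain ⟨k, hk⟩ := exists_pow_eq_self_of_coprime
        (hj'.coprime_dvd_right (orderOf_dvd_of_pow_eq_one (he x hx)))
      rw [← hk]
      exact (stabilizer K w).pow_mem (show x ^ j ∈ stabilizer K w from e') k)
    ⟨w, fun a ha => ha.2⟩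
  have h' : w ^ t = 1 := congrArg Subtype.val (mem_bot.mp h)
  exact hw (orderOf_eq_one_iff.mp (Nat.eq_one_of_dvd_coprimes hW (orderOf_dvd_natCard w)
    (orderOf_dvd_of_pow_eq_one h')))

omit [Finite K] [Finite W] in
theorem Gd.smul {N : Subgroup K} [hN : N.Normal] {w : W} (h : Gd N w) (g : K) : Gd N (g • w) := by
  refine ⟨fun e => h.1 (by simpa using congrArg (g⁻¹ • ·) e), fun x hx y hy hxw => ?_⟩
  obtain ⟨i, hi⟩ := h.2 _ (hN.conj_mem' x hx g) _ (hN.conj_mem' y hy g) fun e => hxw (by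
    have := congrArg (g • ·) e
    simpa [mul_smul] using this)
  refine ⟨i, ?_⟩
  have := congrArg (g • ·) hi
  rw [show g⁻¹ * x * g = g⁻¹ * x * g⁻¹⁻¹ by simp, conj_pow] at this
  simpa [mul_smul] using this

/-- The stabilizer in `N`. -/
def Bw (N : Subgroup K) (w : W) : Subgroup K := N ⊓ stabilizer K w

omit [Finite K] [Finite W] in
theorem Bw_smul {N : Subgroup K} [hN : N.Normal] {w : W} {g n : K} :
    n ∈ Bw N (g • w) ↔ g⁻¹ * n * g ∈ Bw N w := by
  simp only [Bw, mem_inf, mem_stabilizer_iff]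
  refine ⟨fun h => ⟨hN.conj_mem' n h.1 g, ?_⟩, fun h => ⟨?_, ?_⟩⟩
  · rw [mul_smul, mul_smul, h.2, inv_smul_smul]
  · simpa [mul_assoc] using hN.conj_mem _ h.1 g
  · have := congrArg (g • ·) h.2
    simpa [mul_smul] using this

omit [Finite K] [Finite W] in
theorem Bw_congr {N : Subgroup K} [N.Normal] {v w : W} (h : Bw N v = Bw N w) (g : K) :
    Bw N (g • v) = Bw N (g • w) := by
  ext n; rw [Bw_smul, Bw_smul, h]

section cyc
variable (ir : Ir K W) {N : Subgroup K} [hN : N.Normal] (hN1 : N ≠ ⊥)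
  (hc : ∀ x ∈ N, ∀ y ∈ N, x * y = y * x)
include ir hN1

omit [Finite K] [Finite W] in
theorem fix_of {v w : W} (hv : Gd N v) {b : K} (hb : b ∈ N) (hb' : b ∉ Bw N v)
    (hw : w ∈ fx W (Bw N v)) (e : b • w = w) : w = 1 := by
  by_contra h1
  refine hN1 (ir N hN w h1 fun n hn => ?_)
  obtain ⟨i, hi⟩ := hv.2 b hb n hn fun e => hb' ⟨hb, e⟩
  have h2 : n * b ^ i ∈ stabilizer K w := hw _ ⟨N.mul_mem hn (N.pow_mem hb i), hi⟩
  exact ((stabilizer K w).mul_mem_cancel_right (pow_mem (show b ∈ stabilizer K w from e) i)).mp h2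

omit [Finite K] [Finite W] in
theorem exists_ne_B {v w : W} (hv : Gd N v) (hw : Gd N w) (h : Bw N v ≠ Bw N w) :
    ∃ b ∈ Bw N w, b ∉ Bw N v := by
  by_contra hn
  push Not at hn
  have : ¬ Bw N v ≤ Bw N w := fun h' => h (le_antisymm h' hn)
  obtain ⟨c, hc, hc'⟩ := SetLike.not_le_iff_exists.mp this
  exact hv.1 (fix_of ir hN1 hw hc.1 hc' (fun a ha => (hn a ha).2) hc.2)

include hc
omit [Finite K] [Finite W] in
theorem indep {v₁ v₂ v₃ v₄ : W} (h1 : Gd N v₁) (h2 : Gd N v₂) (h3 : Gd N v₃) (h4 : Gd N v₄)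
    (e : v₁ * v₂ = v₃ * v₄) (n2 : Bw N v₁ ≠ Bw N v₂) (n3 : Bw N v₁ ≠ Bw N v₃)
    (n4 : Bw N v₁ ≠ Bw N v₄) : False := by
  obtain ⟨b₂, hb₂, hb₂'⟩ := exists_ne_B ir hN1 h1 h2 n2
  obtain ⟨b₃, hb₃, hb₃'⟩ := exists_ne_B ir hN1 h1 h3 n3
  obtain ⟨b₄, hb₄, hb₄'⟩ := exists_ne_B ir hN1 h1 h4 n4
  let δ : K → W →* W := fun b => MulDistribMulAction.toMonoidHom W b / MonoidHom.id W
  have hδ : ∀ b w, δ b w = b • w / w := fun _ _ => rfl
  have m : ∀ v : W, ∀ b ∈ N, ∀ w ∈ fx W (Bw N v), δ b w ∈ fx W (Bw N v) := fun v b hb w hw =>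
    (fx W (Bw N v)).div_mem (fun a ha => by
      change a • b • w = b • w
      rw [← mul_smul, hc a ha.1 b hb, mul_smul, hw a ha]) hw
  have k : ∀ v : W, ∀ b ∈ Bw N v, ∀ w ∈ fx W (Bw N v), δ b w = 1 := fun v b hb w hw => by
    rw [hδ, hw b hb, div_self']
  have s : ∀ v : W, v ∈ fx W (Bw N v) := fun v a ha => ha.2
  have e' := congrArg (fun w => δ b₄ (δ b₃ (δ b₂ w))) e
  simp only [map_mul] at e'
  rw [k v₂ b₂ hb₂ _ (s _), k v₃ b₃ hb₃ _ (m _ _ hb₂.1 _ (s _)),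
    k v₄ b₄ hb₄ _ (m _ _ hb₃.1 _ (m _ _ hb₂.1 _ (s _)))] at e'
  simp only [map_one, mul_one] at e'
  have i : ∀ b ∈ N, b ∉ Bw N v₁ → ∀ w ∈ fx W (Bw N v₁), δ b w = 1 → w = 1 :=
    fun b hb hb' w hw e => fix_of ir hN1 h1 hb hb' hw (div_eq_one.mp e)
  exact h1.1 (i _ hb₂.1 hb₂' _ (s _) (i _ hb₃.1 hb₃' _ (m _ _ hb₂.1 _ (s _))
    (i _ hb₄.1 hb₄' _ (m _ _ hb₃.1 _ (m _ _ hb₂.1 _ (s _))) e')))

omit [Finite K] [Finite W] in
theorem fix_two {v w : W} (hv : Gd N v) (hw : Gd N w) (h : Bw N v ≠ Bw N w) {g : K}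
    (ho : Odd (orderOf g)) (e : g • (v * w) = v * w) : g • v = v ∧ g • w = w := by
  rw [smul_mul'] at e
  have a : Bw N v = Bw N (g • v) ∨ Bw N v = Bw N (g • w) := by
    by_contra hn
    push Not at hn
    exact indep ir hN1 hc hv hw (hv.smul g) (hw.smul g) e.symm h hn.1 hn.2
  have b : Bw N w = Bw N (g • v) ∨ Bw N w = Bw N (g • w) := by
    by_contra hn
    push Not at hn
    exact indep ir hN1 hc hw hv (hv.smul g) (hw.smul g) ((mul_comm _ _).trans e.symm) h.symm hn.1 hn.2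
  have a' : Bw N v = Bw N (g • v) := by
    rcases a with a | a
    · exact a
    rcases b with b | b
    · have c : Bw N ((g * g) • v) = Bw N v := by
        rw [mul_smul, ← Bw_congr b g, a]
      have d : ∀ k : ℕ, Bw N ((g * g) ^ k • v) = Bw N v := fun k => by
        induction k with
        | zero => simp
        | succ k ih => rw [pow_succ', mul_smul, Bw_congr ih, c]
      obtain ⟨k, hk⟩ := ho
      have := d (k + 1)
      rw [← pow_two, ← pow_mul, show 2 * (k + 1) = orderOf g + 1 by omega, pow_succ,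
        pow_orderOf_eq_one, one_mul] at this
      exact this.symm
    · exact absurd (a.trans b.symm) h
  have b' : Bw N w = Bw N (g • w) := b.resolve_left fun b => h (a'.trans b.symm)
  obtain ⟨c, hc1, hc2⟩ := exists_ne_B ir hN1 hv hw h
  have e1 : g • v / v = w / g • w := by
    rw [div_eq_div_iff_mul_eq_mul, e, mul_comm]
  have e2 : g • v / v = 1 := by
    refine fix_of ir hN1 hv hc1.1 hc2 ((fx W _).div_mem (fun a ha => (a' ▸ ha).2) fun a ha => ha.2) ?_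
    rw [e1, smul_div', show c • w = w from hc1.2, show c • g • w = g • w from (b' ▸ hc1).2]
  exact ⟨div_eq_one.mp e2, (div_eq_one.mp (e1.symm.trans e2)).symm⟩

end cyc

omit [Finite W] in
theorem Pc.not_normal [Nontrivial W] [hq : Fact q.Prime] (h : Pc K W q) (ir : Ir K W)
    (hd : q ∣ Nat.card K) (Q : Sylow q K) : ¬ (Q : Subgroup K).Normal := fun hn => by
  obtain ⟨w, hw⟩ := exists_ne (1 : W)
  obtain ⟨S, a, -⟩ := h w hw
  have : S = Q := syl_eq (by rw [normalizer_eq_top]; exact le_top)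
  exact Q.ne_bot_of_dvd_card hd (ir _ hn w hw (this ▸ a))

omit [Finite W] in
theorem Pc.eq_bot [Nontrivial W] [hq : Fact q.Prime] (h : Pc K W q) (ir : Ir K W)
    {N : Subgroup K} [hN : N.Normal] (hp : IsPGroup q N) : N = ⊥ := by
  obtain ⟨w, hw⟩ := exists_ne (1 : W)
  obtain ⟨S, a, -⟩ := h w hw
  exact ir N hN w hw ((hp.le_sylow_of_normal S).trans a)

theorem cop_of_normal [Nontrivial W] {s : ℕ} [hs : Fact s.Prime] (hW : IsPGroup s W) (ir : Ir K W)
    (ht : t.Prime) {N : Subgroup K} [hN : N.Normal] (hp : IsPGroup t N) (h1 : N ≠ ⊥) :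
    (Nat.card W).Coprime t := by
  obtain ⟨n, hn⟩ := hW.exists_card_eq
  rw [hn]
  refine Nat.Coprime.pow_left _ ((Nat.coprime_primes hs.out ht).mpr fun e => ?_)
  subst e
  have h2 : s ∣ Nat.card W := by
    rcases n with _ | n
    · exact absurd hn Finite.one_lt_card.ne'
    · exact hn ▸ dvd_pow_self _ n.succ_ne_zero
  obtain ⟨b, hb, hb1⟩ := hp.exists_fixed_point_of_prime_dvd_card_of_fixed_point W h2
    (a := 1) (fun g => smul_one g)
  exact h1 (ir N hN b hb1.symm fun g hg => hb ⟨g, hg⟩)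

/-- Normal elementary abelian subgroups are cyclic. -/
theorem cyc [Nontrivial W] {s : ℕ} [Fact s.Prime] (hW : IsPGroup s W) (ir : Ir K W)
    [hq : Fact q.Prime] (h : Pc K W q) (hq2 : q ≠ 2) (hd : q ∣ Nat.card K) (ht : t.Prime)
    {N : Subgroup K} [hN : N.Normal] (hc : ∀ x ∈ N, ∀ y ∈ N, x * y = y * x)
    (he : ∀ x ∈ N, x ^ t = 1) {x y : K} (hx : x ∈ N) (hx1 : x ≠ 1) (hy : y ∈ N) :
    y ∈ zpowers x := by
  by_contra hyx
  have hN1 : N ≠ ⊥ := fun e => hx1 (mem_bot.mp (e ▸ hx))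
  obtain ⟨w₁, h₁⟩ := hyper ht (cop_of_normal hW ir ht (N := N)
    (fun g => ⟨1, Subtype.ext (by simpa using he g g.2)⟩) hN1) hc he
  have hB : Bw N w₁ ≠ ⊥ := fun e => by
    by_cases hxw : x • w₁ = w₁
    · exact hx1 (mem_bot.mp (e ▸ (⟨hx, hxw⟩ : x ∈ Bw N w₁)))
    obtain ⟨i, hi⟩ := h₁.2 x hx y hy hxw
    have : y * x ^ i = 1 :=
      mem_bot.mp (e ▸ (⟨N.mul_mem hy (N.pow_mem hx i), hi⟩ : y * x ^ i ∈ Bw N w₁))
    exact hyx (by rw [eq_inv_of_mul_eq_one_left this]; exact inv_mem (npow_mem_zpowers x i))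
  obtain ⟨w₂, h₂, hne⟩ : ∃ w₂ : W, Gd N w₂ ∧ Bw N w₁ ≠ Bw N w₂ := by
    by_contra hn
    push Not at hn
    refine hB (ir _ ⟨fun n hn' g => ?_⟩ w₁ h₁.1 inf_le_right)
    rw [hn _ (h₁.smul g), Bw_smul]
    simpa [mul_assoc] using hn'
  have two : ∀ v w : W, Gd N v → Gd N w → Bw N v ≠ Bw N w → ∃ Q : Sylow q K,
      (Q : Subgroup K) ≤ stabilizer K v ∧ (Q : Subgroup K) ≤ stabilizer K w := fun v w hv hw e => by
    have : v * w ≠ 1 := fun e' => by
      obtain ⟨c, hc1, hc2⟩ := exists_ne_B ir hN1 hv hw e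
      refine hc2 ⟨hc1.1, ?_⟩
      rw [eq_inv_of_mul_eq_one_left e']
      exact (smul_inv' _ _).trans (congrArg _ hc1.2)
    obtain ⟨Q, a, -⟩ := h _ this
    have o : ∀ g ∈ (Q : Subgroup K), Odd (orderOf g) := fun g hg => by
      obtain ⟨k, hk⟩ := (IsPGroup.iff_orderOf.mp Q.isPGroup') ⟨g, hg⟩
      rw [← orderOf_mk g hg, hk]
      exact (hq.out.odd_of_ne_two hq2).pow
    exact ⟨Q, fun g hg => (fix_two ir hN1 hc hv hw e (o g hg) (a hg)).1,
      fun g hg => (fix_two ir hN1 hc hv hw e (o g hg) (a hg)).2⟩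
  obtain ⟨Q, a, b⟩ := two _ _ h₁ h₂ hne
  have all : ∀ w : W, Gd N w → (Q : Subgroup K) ≤ stabilizer K w := fun w hw => by
    by_cases e : Bw N w₁ = Bw N w
    · obtain ⟨Q', a', b'⟩ := two _ _ h₂ hw (e ▸ hne.symm)
      rwa [h.uniq h₂.1 b a']
    · obtain ⟨Q', a', b'⟩ := two _ _ h₁ hw e
      rwa [h.uniq h₁.1 a a']
  refine h.not_normal ir hd Q (normalizer_eq_top_iff.mp (eq_top_iff.mpr fun g _ => ?_))
  refine Sylow.smul_eq_iff_mem_normalizer.mp (h.uniq h₁.1 (fun k hk => ?_) a)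
  rw [Sylow.coe_subgroup_smul, Core.mem_conj_smul_iff] at hk
  have := congrArg (g • ·) (show (g⁻¹ * k * g) • g⁻¹ • w₁ = g⁻¹ • w₁ from all _ (h₁.smul g⁻¹) hk)
  simpa [mul_smul] using this

/-- Counting Sylow subgroups. -/
theorem count [hq : Fact q.Prime] (U : Subgroup W)
    (h : ∀ w : W, w ∈ U ∧ w ≠ 1 → ∃ Q : Sylow q K, (Q : Subgroup K) ≤ stabilizer K w ∧
      stabilizer K w ≤ normalizer ((Q : Subgroup K) : Set K))
    (hU : ∀ g : K, ∀ u ∈ U, g • u ∈ U) (Q : Sylow q K) :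
    Nat.card U - 1 = Nat.card (Sylow q K) * (Nat.card (U ⊓ fx W (Q : Subgroup K) : Subgroup W) - 1) := by
  have c : ∀ V : Subgroup W, Nat.card {u : W // u ∈ V ∧ u ≠ 1} = Nat.card V - 1 := fun V => by
    have := Fintype.ofFinite V
    rw [Nat.card_congr (Equiv.subtypeSubtypeEquivSubtypeInter (· ∈ V) (· ≠ 1)).symm,
      Nat.card_eq_fintype_card, Nat.card_eq_fintype_card]
    have := Fintype.card_subtype_compl (fun u : V => u = 1)
    simp only [Fintype.card_unique] at this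
    rw [← this]
    exact Fintype.card_congr (Equiv.subtypeEquivRight fun u => by simp)
  choose f hf hf' using h
  let F : {u : W // u ∈ U ∧ u ≠ 1} → Sylow q K := fun u => f u.1 u.2
  rw [← c, ← c, ← Nat.card_congr (Equiv.sigmaFiberEquiv F)]
  have := Fintype.ofFinite (Sylow q K)
  rw [Nat.card_sigma, Nat.card_eq_fintype_card, ← Finset.card_univ, ← smul_eq_mul,
    ← Finset.sum_const]
  refine Finset.sum_congr rfl fun S _ => ?_
  obtain ⟨g, rfl⟩ := exists_smul_eq K Q S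
  refine Nat.card_congr
    { toFun := fun u => ⟨g⁻¹ • u.1.1, ⟨hU _ _ u.1.2.1, fun a ha => ?_⟩, fun e => u.1.2.2 ?_⟩
      invFun := fun u => ⟨⟨g • u.1, hU _ _ u.2.1.1, fun e => u.2.2 ?_⟩, ?_⟩
      left_inv := fun u => by simp
      right_inv := fun u => by simp }
  · have : g * a * g⁻¹ ∈ ((F u.1 : Sylow q K) : Subgroup K) := by
      rw [u.2, Sylow.coe_subgroup_smul, Core.mem_conj_smul_iff]; simpa [mul_assoc] using ha
    have e := congrArg (g⁻¹ • ·) (show (g * a * g⁻¹) • u.1.1 = u.1.1 from hf _ u.1.2 this)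
    simpa [mul_smul] using e
  · simpa using congrArg (g • ·) e
  · simpa using congrArg (g⁻¹ • ·) e
  · refine (syl_eq (le_trans (fun a ha => ?_) (hf' _ _))).symm
    rw [Sylow.coe_subgroup_smul, Core.mem_conj_smul_iff] at ha
    have e := congrArg (g • ·) (u.2.1.2 _ ha)
    simpa [mul_smul] using e

theorem arith {p n m a m' b : ℕ} (hp : p.Prime) (ha : 0 < a) (hb : 0 < b) (ham : a < m)
    (hbm : b < m') (h1 : p ^ m - 1 = n * (p ^ a - 1)) (h2 : p ^ m' - 1 = n * (p ^ b - 1)) :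
    m = m' := by
  have pos : ∀ k, 1 ≤ p ^ k := fun k => Nat.one_le_pow _ _ hp.pos
  zify [pos] at h1 h2
  obtain ⟨c, rfl⟩ := Nat.exists_eq_add_of_lt ham
  obtain ⟨d, rfl⟩ := Nat.exists_eq_add_of_lt hbm
  have key : (p : ℤ) ^ a * ((p ^ (c + 1) - 1) * (p ^ b - 1)) =
      p ^ b * ((p ^ (d + 1) - 1) * (p ^ a - 1)) := by
    have e1 : (p : ℤ) ^ (a + c + 1) = p ^ a * p ^ (c + 1) := by ring
    have e2 : (p : ℤ) ^ (b + d + 1) = p ^ b * p ^ (d + 1) := by ring
    rw [e1] at h1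
    rw [e2] at h2
    linear_combination (p ^ b - 1) * h1 - (p ^ a - 1) * h2
  have cp : ∀ k, 0 < k → IsCoprime (p : ℤ) (p ^ k - 1) := fun k hk => by
    obtain ⟨k, rfl⟩ := Nat.exists_eq_succ_of_ne_zero hk.ne'
    exact ⟨p ^ k, -1, by rw [pow_succ]; ring⟩
  have le : ∀ {a b : ℕ} {x y : ℤ}, IsCoprime (p : ℤ) y → (p : ℤ) ^ a * x = p ^ b * y → a ≤ b := by
    intro a b x y hy e
    have : (p : ℤ) ^ a ∣ p ^ b := (hy.pow_left (m := a)).dvd_of_dvd_mul_right ⟨x, e.symm⟩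
    exact (Nat.pow_dvd_pow_iff_le_right hp.one_lt).mp (by exact_mod_cast this)
  obtain rfl : a = b := le_antisymm (le ((cp _ d.succ_pos).mul_right (cp _ ha)) key)
    (le ((cp _ c.succ_pos).mul_right (cp _ hb)) key.symm)
  have : (p : ℤ) ^ (a + c + 1) = p ^ (a + d + 1) := by linarith
  exact Nat.pow_right_injective hp.two_le (by exact_mod_cast this)

theorem arith2 {p n A A' B B' : ℕ} (hp : p.Prime) (hA : ∃ k, A = p ^ k) (hA' : ∃ k, A' = p ^ k)
    (hB : ∃ k, B = p ^ k) (hB' : ∃ k, B' = p ^ k) (h0 : 1 < A) (h : B' < B)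
    (h1 : A - 1 = n * (A' - 1)) (h2 : B - 1 = n * (B' - 1)) : A = B := by
  obtain ⟨m, rfl⟩ := hA
  obtain ⟨a, rfl⟩ := hA'
  obtain ⟨m', rfl⟩ := hB
  obtain ⟨b, rfl⟩ := hB'
  have pos : ∀ k, 1 ≤ p ^ k := fun k => Nat.one_le_pow _ _ hp.pos
  have := pos a
  have := pos b
  have hb : 0 < b := Nat.pos_of_ne_zero fun e => by simp [e] at h h2; omega
  have ha : 0 < a := Nat.pos_of_ne_zero fun e => by simp [e] at h1; omega
  have hn : 2 ≤ n := by
    rcases n with _ | _ | n <;> omega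
  have h3 := Nat.mul_le_mul_right (p ^ a - 1) hn
  have h4 : 1 < p ^ a := Nat.one_lt_pow ha.ne' hp.one_lt
  rw [arith hp ha hb ((Nat.pow_lt_pow_iff_right hp.one_lt).mp (by omega))
    ((Nat.pow_lt_pow_iff_right hp.one_lt).mp h) h1 h2]

end Cfsg.Agent.H23.Pal
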