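import Mathlib
import Cfsg.Agent.H23.Pal1
import Cfsg.Agent.PGrp.Critical
import Cfsg.Agent.PGrp.CyclicTwo
import Cfsg.Agent.H2.Primitive
import Cfsg.Agent.Core.MinNormal

/-! The action of a Sylow subgroup on the Fitting subgroup under Pálfy's condition. -/

set_option autoImplicit false

namespace Cfsg.Agent.H23.Pal

open Subgroup RegO MulAction
open scoped commutatorElement _root_.Classical Pointwise

variable {K W : Type*} [Group K] [Finite K] [CommGroup W] [Finite W] [MulDistribMulAction K W]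
  {q t : ℕ}

theorem cent_of_prime {Y : Subgroup K} (hc : ∀ x ∈ Y, ∀ y ∈ Y, x * y = y * x) {a : K}
    (ha : a ∈ normalizer (Y : Set K)) (hcop : (orderOf a).Coprime (Nat.card Y))
    (h : ∀ y ∈ Y, (orderOf y).Prime → a * y = y * a) : ∀ y ∈ Y, a * y = y * a := by
  suffices ∀ n, ∀ y ∈ Y, orderOf y = n → a * y = y * a from fun y hy => this _ y hy rfl
  intro n
  induction n using Nat.strong_induction_on with
  | _ n ih =>
  intro y hy hn
  by_cases h1 : n = 1
  · rw [orderOf_eq_one_iff.mp (hn.trans h1), mul_one, one_mul]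
  have hp := Nat.minFac_prime h1
  have h0 : 0 < n := hn ▸ orderOf_pos y
  have e := ih _ (by
    rw [orderOf_pow_of_dvd hp.ne_zero (hn ▸ n.minFac_dvd), hn]
    exact Nat.div_lt_self h0 hp.one_lt) _ (Y.pow_mem hy n.minFac) rfl
  have hy' : a * y * a⁻¹ ∈ Y := (mem_normalizer_iff.mp ha y).mp hy
  set c := y⁻¹ * (a * y * a⁻¹) with hcd
  have hcY : c ∈ Y := Y.mul_mem (Y.inv_mem hy) hy'
  have hct : c ^ n.minFac = 1 := by
    rw [hcd, Commute.mul_pow (hc _ (Y.inv_mem hy) _ hy'), conj_pow, e]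
    simp
  have hac : a * c = c * a := by
    rcases (Nat.dvd_prime hp).mp (orderOf_dvd_of_pow_eq_one hct) with e' | e'
    · rw [orderOf_eq_one_iff.mp e', mul_one, one_mul]
    · exact h c hcY (e' ▸ hp)
  have hk : ∀ k : ℕ, a ^ k * y = y * c ^ k * a ^ k := fun k => by
    induction k with
    | zero => simp
    | succ k ih =>
      have e1 : a * y = y * c * a := by rw [hcd]; group
      have e2 : a * c ^ k = c ^ k * a := (Commute.pow_right hac k)
      rw [pow_succ', mul_assoc, ih, ← mul_assoc, ← mul_assoc, e1, mul_assoc (y * c), e2]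
      simp only [pow_succ', mul_assoc]
  have h2 := hk (orderOf a)
  rw [pow_orderOf_eq_one, one_mul, mul_one, left_eq_mul] at h2
  have h3 : c = 1 := orderOf_eq_one_iff.mp (Nat.eq_one_of_dvd_coprimes hcop
    (orderOf_dvd_of_pow_eq_one h2) (Y.orderOf_dvd_natCard hcY))
  have := hk 1
  rwa [h3, one_pow, mul_one, pow_one] at this

theorem crit [Fact t.Prime] {T : Subgroup K} [hT : T.Normal] (hp : IsPGroup t T) :
    ∃ C : Subgroup K, C.Normal ∧ C ≤ T ∧ (∀ x ∈ C, x ^ t ∈ centralizer (C : Set K)) ∧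
      ⁅C, C⁆ ≤ centralizer (C : Set K) ∧
      ∀ a : K, (orderOf a).Coprime t → a ∈ centralizer (C : Set K) → a ∈ centralizer (T : Set K) := by
  obtain ⟨H, hc, h1, h2, h3⟩ := PGrp.exists_critical hp
  refine ⟨H.map T.subtype, inferInstance, map_subtype_le H, ?_, ?_, fun a ha h => ?_⟩
  · rintro _ ⟨x, hx, rfl⟩ _ ⟨y, hy, rfl⟩
    exact congrArg Subtype.val (h1 x hx y hy)
  · rw [commutator_le]
    rintro _ ⟨x, hx, rfl⟩ _ ⟨g, -, rfl⟩ _ ⟨y, hy, rfl⟩
    exact congrArg Subtype.val ((h2 (commutator_mem_commutator hx (mem_top g))).2 y hy)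
  · have haT : a ∈ normalizer (T : Set K) := by rw [normalizer_eq_top]; exact mem_top a
    refine PGrp.mem_centralizer_of_normalizerMonoidHom_eq_one (a := ⟨a, haT⟩) ?_
    refine PGrp.aut_eq_one_of_centralizer_le hp h3
      (ha.coprime_dvd_left (PGrp.orderOf_normalizerMonoidHom_dvd ⟨a, haT⟩)) fun x hx => ?_
    apply Subtype.ext
    rw [PGrp.normalizerMonoidHom_apply_coe, ← h x ⟨x, hx, rfl⟩]
    simp

/-- Normal elementary abelian subgroups are cyclic. -/
def Cy (K : Type*) [Group K] : Prop :=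
  ∀ t : ℕ, t.Prime → ∀ N : Subgroup K, N.Normal → (∀ x ∈ N, ∀ y ∈ N, x * y = y * x) →
    (∀ x ∈ N, x ^ t = 1) → ∀ x ∈ N, x ≠ 1 → ∀ y ∈ N, y ∈ zpowers x

omit [Finite K] in
theorem Cy.zp (cy : Cy K) {Y : Subgroup K} [hY : Y.Normal] (hc : ∀ x ∈ Y, ∀ y ∈ Y, x * y = y * x)
    (ht : t.Prime) {x : K} (hx : x ∈ Y) (h1 : x ≠ 1) (hxt : x ^ t = 1) :
    (zpowers x).Normal ∧ ∀ y ∈ Y, y ^ t = 1 → y ∈ zpowers x := by
  have hc' := Core.isMulCommutative_of_forall hc
  have hn : (Core.powKer Y hc' t).Normal := normalizer_eq_top_iff.mp (eq_top_iff.mpr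
    ((normalizer_eq_top_iff.mpr hY).ge.trans (Core.normalizer_le_normalizer_powKer Y hc' t)))
  have := cy t ht _ hn (fun a ha b hb => hc a (Core.mem_powKer.mp ha).1 b (Core.mem_powKer.mp hb).1)
    (fun a ha => (Core.mem_powKer.mp ha).2) x (Core.mem_powKer.mpr ⟨hx, hxt⟩) h1
  refine ⟨?_, fun y hy e => this y (Core.mem_powKer.mpr ⟨hy, e⟩)⟩
  rwa [show zpowers x = Core.powKer Y hc' t from
    le_antisymm (zpowers_le.mpr (Core.mem_powKer.mpr ⟨hx, hxt⟩)) this]

theorem ord_syl [Fact q.Prime] {Q : Sylow q K} {a : K} (ha : a ∈ (Q : Subgroup K)) :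
    ∃ k, orderOf a = q ^ k := by
  obtain ⟨k, hk⟩ := (IsPGroup.iff_orderOf.mp Q.isPGroup') ⟨a, ha⟩
  exact ⟨k, by rw [← orderOf_mk a ha, hk]⟩

theorem q8 {C Q : Subgroup K} [hq : Fact q.Prime] (hq2 : q ≠ 2) (hQ : IsPGroup q Q)
    (hC : IsPGroup 2 C) (hn : Q ≤ normalizer (C : Set K))
    (h2 : ∀ x ∈ C, x ^ 2 ∈ centralizer (C : Set K)) (hcc : ⁅C, C⁆ ≤ centralizer (C : Set K))
    (hZ : ∀ z ∈ C, z ∈ centralizer (C : Set K) → ∀ a ∈ Q, a * z = z * a) {ζ : K}
    (hu : ∀ e ∈ ⁅C, Q⁆, e ^ 2 = 1 → e ∈ zpowers ζ) (hζ : ζ ^ 2 = 1)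
    (hf : ∀ e ∈ ⁅C, Q⁆, e ^ 2 = 1 → e ∈ centralizer (Q : Set K))
    (hne : ¬ Q ≤ centralizer ((⁅C, Q⁆ : Subgroup K) : Set K)) : q = 3 := by
  set E : Subgroup K := ⁅C, Q⁆ with hE
  have hEC : E ≤ C := Core.commutator_le_of_le_normalizer hn
  have m4 : ∀ a ∈ C, ∀ b ∈ C, (a * b) ^ 4 = a ^ 4 * b ^ 4 := fun a ha b hb => by
    set k := ⁅b⁻¹, a⁻¹⁆ with hk
    have hkc : k ∈ centralizer (C : Set K) :=
      hcc (commutator_mem_commutator (C.inv_mem hb) (C.inv_mem ha))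
    have e1 : b * a = a * b * k := by rw [hk, commutatorElement_def]; group
    have ka : a * k = k * a := hkc a ha
    have kb : b * k = k * b := hkc b hb
    have a2 : b * a ^ 2 = a ^ 2 * b := h2 a ha b hb
    have k2 : k * k = 1 := by
      have : b * a ^ 2 = a ^ 2 * b * (k * k) := by
        calc b * a ^ 2 = b * a * a := by rw [pow_two, mul_assoc]
          _ = a * b * (k * a) := by rw [e1, mul_assoc]
          _ = a * (b * a) * k := by rw [← ka]; group
          _ = _ := by rw [e1]; simp only [pow_two, mul_assoc]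
      rwa [a2, left_eq_mul] at this
    have e2 : (a * b) ^ 2 = a ^ 2 * b ^ 2 * k := by
      calc (a * b) ^ 2 = a * (b * a) * b := by rw [pow_two]; group
        _ = a * a * b * (k * b) := by rw [e1]; group
        _ = _ := by rw [← kb]; simp only [pow_two, mul_assoc]
    have c1 : Commute (a ^ 2) (b ^ 2) := (h2 b hb _ (C.pow_mem ha 2))
    have c2 : Commute (a ^ 2 * b ^ 2) k := hkc _ (C.mul_mem (C.pow_mem ha 2) (C.pow_mem hb 2))
    rw [show 4 = 2 * 2 from rfl, pow_mul, e2, c2.mul_pow, c1.mul_pow, ← pow_mul, ← pow_mul,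
      pow_two k, k2, mul_one]
  let S : Subgroup K :=
    { carrier := {c | c ∈ C ∧ c ^ 4 = 1}
      mul_mem' := fun {a b} ha hb => ⟨C.mul_mem ha.1 hb.1, by rw [m4 a ha.1 b hb.1, ha.2, hb.2, mul_one]⟩
      one_mem' := ⟨C.one_mem, one_pow 4⟩
      inv_mem' := fun {a} ha => ⟨C.inv_mem ha.1, by rw [inv_pow, ha.2, inv_one]⟩ }
  have hES : E ≤ S := commutator_le.mpr fun c hc a ha => by
    refine ⟨hEC (commutator_mem_commutator hc ha), ?_⟩
    have h4 : c ^ 4 ∈ centralizer (C : Set K) := by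
      rw [show 4 = 2 * 2 from rfl, pow_mul]; exact pow_mem (h2 c hc) 2
    rw [show ⁅c, a⁆ = c * (a * c⁻¹ * a⁻¹) by rw [commutatorElement_def]; group,
      m4 c hc _ ((mem_normalizer_iff.mp (hn ha) _).mp (C.inv_mem hc)), conj_pow, inv_pow,
      (show Commute a (c ^ 4) from hZ _ (C.pow_mem hc 4) h4 a ha).inv_right.eq]
    group
  have hE2 : IsPGroup 2 E := hC.to_le hEC
  have hc8 : Nat.card E ∣ 8 := by
    rcases PGrp.isCyclic_or_quaternion_of_unique hE2 (fun H H' hH hH' => by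
      have key : ∀ H : Subgroup E, Nat.card H = 2 → H.map E.subtype = zpowers ζ := fun H hH => by
        refine eq_of_le_of_card_ge ?_ ?_
        · rintro _ ⟨x, hx, rfl⟩
          refine hu x x.2 ?_
          have := pow_card_eq_one' (x := (⟨x, hx⟩ : H))
          rw [hH] at this
          exact congrArg (fun y : H => ((y : E) : K)) this
        · rw [card_subtype, hH, Nat.card_zpowers]
          exact Nat.le_of_dvd two_pos (orderOf_dvd_of_pow_eq_one hζ)
      exact map_injective E.subtype_injective ((key H hH).trans (key H' hH').symm)) with h | ⟨-, m, -, ⟨e⟩⟩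
    · obtain ⟨g, hg⟩ := h.exists_ofOrder_eq_natCard
      exact hg ▸ (orderOf_dvd_of_pow_eq_one (Subtype.ext (hES g.2).2 : g ^ 4 = 1)).trans (by norm_num)
    · have h1 := orderOf_dvd_of_pow_eq_one (Subtype.ext (hES (e.symm (.a 1)).2).2 : e.symm (.a 1) ^ 4 = 1)
      rw [e.symm.orderOf_eq, QuaternionGroup.orderOf_a_one] at h1
      rw [Nat.card_congr e.toEquiv, Nat.card_eq_fintype_card, QuaternionGroup.card]
      obtain ⟨c, hc⟩ := h1
      exact ⟨c, by linarith⟩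
  have hnE : Q ≤ normalizer (E : Set K) := normalizer_commutator_ge_right C Q
  have hm := H2.card_modEq_inf_cent hQ hnE
  have hlt : E ⊓ centralizer (Q : Set K) < E :=
    lt_of_le_of_ne inf_le_left fun e => hne (le_centralizer_iff.mp (inf_eq_left.mp e))
  have hE1 : E ≠ ⊥ := ne_bot_of_gt hlt
  obtain ⟨x, hx⟩ := exists_prime_orderOf_dvd_card' 2 (Core.prime_dvd_card_of_isPGroup hE2 hE1)
  have hx2 : (x : K) ^ 2 = 1 := by
    have := pow_orderOf_eq_one x
    rw [hx] at this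
    exact congrArg Subtype.val this
  have d2 : 2 ∣ Nat.card (E ⊓ centralizer (Q : Set K) : Subgroup K) := by
    rw [← hx, ← orderOf_coe]
    exact orderOf_dvd_natCard _ ⟨x.2, hf x x.2 hx2⟩
  have d3 := card_dvd_of_le hlt.le
  have d4 : Nat.card (E ⊓ centralizer (Q : Set K) : Subgroup K) ≠ Nat.card E := fun e =>
    hlt.ne (eq_of_le_of_card_ge hlt.le e.ge)
  change _ ≡ Nat.card (E ⊓ centralizer (Q : Set K) : Subgroup K) [MOD q] at hm
  generalize Nat.card (E ⊓ centralizer (Q : Set K) : Subgroup K) = a at *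
  generalize Nat.card E = b at *
  have hb := Nat.le_of_dvd (by norm_num) hc8
  have hb0 := Nat.pos_of_dvd_of_pos hc8 (by norm_num)
  have ha := Nat.le_of_dvd hb0 d3
  have hd := (Nat.modEq_iff_dvd' ha).mp hm.symm
  have h6 : q ∣ 24 := by
    refine hd.trans ?_
    interval_cases b <;> interval_cases a <;> omega
  rcases (Nat.Prime.dvd_mul hq.out).mp (show q ∣ 2 ^ 3 * 3 from h6) with h | h
  · exact absurd ((Nat.prime_dvd_prime_iff_eq hq.out Nat.prime_two).mp (hq.out.dvd_of_dvd_pow h)) hq2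
  · exact (Nat.prime_dvd_prime_iff_eq hq.out Nat.prime_three).mp h

theorem syl_le [Fact q.Prime] {N : Subgroup K} [hN : N.Normal] {Q : Sylow q K}
    (h : (Q : Subgroup K) ≤ N) (Q' : Sylow q K) : (Q' : Subgroup K) ≤ N := fun a ha => by
  obtain ⟨g, rfl⟩ := exists_smul_eq K Q Q'
  rw [Sylow.coe_subgroup_smul, Core.mem_conj_smul_iff] at ha
  simpa [mul_assoc] using hN.conj_mem _ (h ha) g

theorem exists_maxel (C : Subgroup K) (t : ℕ) : ∃ D ≤ C, (∀ x ∈ D, ∀ y ∈ D, x * y = y * x) ∧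
    (∀ x ∈ D, x ^ t = 1) ∧ ∀ c ∈ C, c ^ t = 1 → c ∈ centralizer (D : Set K) → c ∈ D := by
  obtain ⟨D, ⟨a, b, c⟩, hmax⟩ := Set.exists_max_image
    {D : Subgroup K | D ≤ C ∧ (∀ x ∈ D, ∀ y ∈ D, x * y = y * x) ∧ ∀ x ∈ D, x ^ t = 1}
    (fun D => Nat.card D) (Set.toFinite _) ⟨⊥, bot_le, by simp, by simp⟩
  refine ⟨D, a, b, c, fun x hx hxt hxD => ?_⟩
  have h1 : D ⊔ zpowers x ≤ centralizer ((D ⊔ zpowers x : Subgroup K) : Set K) := by
    refine sup_le (le_centralizer_iff.mp (sup_le (fun y hy z hz => b z hz y hy) (zpowers_le.mpr hxD)))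
      (le_centralizer_iff.mp (sup_le (le_centralizer_iff.mp (zpowers_le.mpr hxD)) ?_))
    exact le_centralizer (zpowers x)
  have h2 : ∀ y ∈ D ⊔ zpowers x, ∀ z ∈ D ⊔ zpowers x, y * z = z * y := fun y hy z hz => h1 hz y hy
  have h3 : D ⊔ zpowers x ≤ Core.powKer _ (Core.isMulCommutative_of_forall h2) t :=
    sup_le (fun y hy => Core.mem_powKer.mpr ⟨mem_sup_left hy, c y hy⟩)
      (zpowers_le.mpr (Core.mem_powKer.mpr ⟨mem_sup_right (mem_zpowers x), hxt⟩))
  rw [eq_of_le_of_card_ge le_sup_left (hmax _ ⟨sup_le a (zpowers_le.mpr hx), h2,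
    fun y hy => (Core.mem_powKer.mp (h3 hy)).2⟩)]
  exact mem_sup_right (mem_zpowers x)

theorem lemP [Nontrivial W] {s : ℕ} [Fact s.Prime] (hW : IsPGroup s W) (ir : Ir K W)
    [hq : Fact q.Prime] (h : Pc K W q) (cy : Cy K) [ht : Fact t.Prime]
    (hz : ∀ z : K, orderOf z = t → (zpowers z).Normal → ∀ Q : Sylow q K, ∀ a ∈ (Q : Subgroup K),
      a * z = z * a) {T : Subgroup K} [T.Normal] (hT : IsPGroup t T) (Q₀ : Sylow q K)
    (hQ : ¬ (Q₀ : Subgroup K) ≤ centralizer (T : Set K)) : t = 2 ∧ q = 3 := by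
  have hT1 : T ≠ ⊥ := fun e => hQ fun a _ b hb => by
    rw [e] at hb; rw [mem_bot.mp hb, one_mul, mul_one]
  have htq : q ≠ t := fun e => hT1 (h.eq_bot ir (e ▸ hT))
  have cqt : q.Coprime t := (Nat.coprime_primes hq.out ht.out).mpr htq
  obtain ⟨C, hCn, hCT, h2, hcc, hcr⟩ := crit hT
  have hC : IsPGroup t C := hT.to_le hCT
  have cop : ∀ Q : Sylow q K, ∀ a ∈ (Q : Subgroup K), (orderOf a).Coprime t := fun Q a ha => by
    obtain ⟨k, hk⟩ := ord_syl ha
    exact hk ▸ cqt.pow_left k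
  set Z := C ⊓ centralizer (C : Set K) with hZ
  have hZp : IsPGroup t Z := hC.to_le inf_le_left
  have hZc : ∀ x ∈ Z, ∀ y ∈ Z, x * y = y * x := fun x hx y hy => hy.2 x hx.1
  have hZQ : ∀ Q : Sylow q K, ∀ a ∈ (Q : Subgroup K), ∀ z ∈ Z, a * z = z * a := fun Q a ha => by
    refine cent_of_prime hZc (by rw [normalizer_eq_top]; exact mem_top a) ?_ fun y hy hp => ?_
    · obtain ⟨k, hk⟩ := hZp.exists_card_eq
      exact hk ▸ (cop Q a ha).pow_right k
    · obtain ⟨k, hk⟩ := (IsPGroup.iff_orderOf.mp hZp) ⟨y, hy⟩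
      rw [orderOf_mk] at hk
      have e : orderOf y = t :=
        (Nat.prime_dvd_prime_iff_eq hp ht.out).mp (hp.dvd_of_dvd_pow hk.dvd)
      exact hz y e (cy.zp hZc ht.out hy (fun e' => hp.ne_one (by rw [e', orderOf_one]))
        (e ▸ pow_orderOf_eq_one y)).1 Q a ha
  have nC : ∀ Q : Sylow q K, ¬ (Q : Subgroup K) ≤ centralizer (C : Set K) := fun Q e =>
    hQ fun a ha => hcr a (cop _ a ha) (syl_le e Q₀ ha)
  have hC1 : C ≠ ⊥ := fun e => nC Q₀ fun a _ b hb => by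
    rw [e] at hb; rw [mem_bot.mp hb, one_mul, mul_one]
  have hZ1 : Z ≠ ⊥ := fun e => by
    have := (nontrivial_iff_ne_bot C).mpr hC1
    have := hC.center_nontrivial
    obtain ⟨z, hz1⟩ := exists_ne (1 : center C)
    have : ((z : C) : K) ∈ Z :=
      ⟨(z : C).2, fun y hy => congrArg Subtype.val (mem_center_iff.mp z.2 ⟨y, hy⟩)⟩
    exact hz1 (Subtype.ext (Subtype.ext (mem_bot.mp (e ▸ this))))
  obtain ⟨ζ, hζ⟩ := exists_prime_orderOf_dvd_card' t (Core.prime_dvd_card_of_isPGroup hZp hZ1)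
  obtain ⟨ζ, hζZ⟩ := ζ
  rw [orderOf_mk] at hζ
  have hζ1 : ζ ≠ 1 := fun e => ht.out.ne_one (by rw [← hζ, e, orderOf_one])
  have hζt : ζ ^ t = 1 := hζ ▸ pow_orderOf_eq_one ζ
  obtain ⟨hζn, hζu⟩ := cy.zp hZc ht.out hζZ hζ1 hζt
  obtain ⟨D, hDC, hDc, hDe, hDm⟩ := exists_maxel C t
  have hζD : ζ ∈ D := hDm ζ hζZ.1 hζt fun y hy => hζZ.2 y (hDC hy)
  obtain ⟨w, hw, hw'⟩ := hyper ht.out (cop_of_normal hW ir ht.out hT hT1) hDc hDe
  obtain ⟨Q, hQ1, hQ2⟩ := h w hw
  have hζw : ζ • w ≠ w := fun e =>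
    hζ1 (zpowers_eq_bot.mp (ir _ hζn w hw (zpowers_le.mpr e)))
  have hd : Disjoint C (Q : Subgroup K) := IsPGroup.disjoint_of_ne t q htq.symm _ _ hC Q.isPGroup'
  have hDQ : D ≤ centralizer ((Q : Subgroup K) : Set K) := fun d hdD a ha => by
    obtain ⟨i, hi⟩ := hw' ζ hζD d hdD hζw
    have h1 : d * ζ ^ i ∈ C := hDC (D.mul_mem hdD (D.pow_mem hζD i))
    have h3 : ⁅a, d * ζ ^ i⁆ = 1 := by
      refine disjoint_def.mp hd ?_ ?_
      · rw [commutatorElement_def]
        exact C.mul_mem (hCn.conj_mem _ h1 a) (C.inv_mem h1)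
      · rw [commutatorElement_def, mul_assoc, mul_assoc, ← mul_assoc (d * ζ ^ i)]
        exact mul_mem ha ((mem_normalizer_iff.mp (hQ2 hi) _).mp (inv_mem ha))
    have h4 := commutatorElement_eq_one_iff_commute.mp h3
    have h5 : Commute a (ζ ^ i) := hZQ Q a ha _ (Z.pow_mem hζZ i)
    simpa using (h4.mul_right h5.inv_right).eq
  have hn : (Q : Subgroup K) ≤ normalizer (C : Set K) := by rw [normalizer_eq_top]; exact le_top
  have hcop : (Nat.card (Q : Subgroup K)).Coprime (Nat.card C) :=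
    IsPGroup.coprime_card_of_ne q t htq _ _ Q.isPGroup' hC
  set E : Subgroup K := ⁅C, (Q : Subgroup K)⁆ with hE
  have hEC : E ≤ C := Core.commutator_le_of_le_normalizer hn
  set C₀ := C ⊓ centralizer ((Q : Subgroup K) : Set K) with hC₀
  have h3 : ⁅E, C₀⁆ = ⊥ := by
    refine commutator_commutator_eq_bot_of_rotate ?_ ?_
    · rw [commutator_eq_bot_iff_le_centralizer.mpr (le_centralizer_iff.mp inf_le_right),
        commutator_bot_left]
    · refine commutator_eq_bot_iff_le_centralizer.mpr fun z hz' a ha => hZQ Q a ha z ?_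
      have := commutator_mono (inf_le_left : C₀ ≤ C) le_rfl hz'
      exact ⟨commutator_le_left C C this, hcc this⟩
  have h3' : E ≤ centralizer (C₀ : Set K) := commutator_eq_bot_iff_le_centralizer.mp h3
  have hf : ∀ e ∈ E, e ^ t = 1 → e ∈ centralizer ((Q : Subgroup K) : Set K) := fun e he het =>
    hDQ (hDm e (hEC he) het fun d hdD => h3' he d ⟨hDC hdD, hDQ hdD⟩)
  have hne : ¬ (Q : Subgroup K) ≤ centralizer (E : Set K) := fun e =>
    nC Q (Core.le_centralizer_of_commutator_commutator_eq_bot _ _ hn hcop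
      (commutator_eq_bot_iff_le_centralizer.mpr (le_centralizer_iff.mp e)))
  have ht2 : t = 2 := by
    by_contra ht2
    exact hne fun a ha => PGrp.mem_centralizer_of_fix_pow_eq_one ht2 (hC.to_le hEC)
      (normalizer_commutator_ge_right C _ ha) (cop Q a ha) fun x hx e => (hf x hx e a ha).symm
  subst ht2
  refine ⟨rfl, q8 htq Q.isPGroup' hC hn h2 hcc (fun z a b c d => hZQ Q c d z ⟨a, b⟩)
    (fun e he het => hζu e ⟨hEC he, fun c hc => ?_⟩ het) hζt hf hne⟩
  obtain ⟨x, hx, y, hy, rfl⟩ := Core.exists_commutator_mul_centralizer _ _ hn hcop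
    (Or.inr (haveI := hC.isNilpotent; inferInstance)) c hc
  have a1 : e * x = x * e := h3' hx e ⟨hEC he, hf e he het⟩
  have a2 : y * e = e * y := h3' he y hy
  rw [mul_assoc, a2, ← mul_assoc, ← a1, mul_assoc]

end Cfsg.Agent.H23.Pal
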