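import Mathlib
import Cfsg.Agent.H23.Pal2
import Cfsg.Agent.Isaacs.CD3
import Cfsg.Agent.Isaacs.GlS
import Cfsg.Agent.Isaacs.Misc

/-! Pálfy's condition for two primes gives a character degree divisible by both. -/

set_option autoImplicit false

namespace Cfsg.Agent.H23.Pal

open Subgroup RegO MulAction Cfsg Isaacs
open scoped commutatorElement _root_.Classical Pointwise

variable {K W : Type*} [Group K] [Finite K] [CommGroup W] [Finite W] [MulDistribMulAction K W]
  {q r t : ℕ}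

omit [Finite K] in
theorem nt {A N : Subgroup K} [N.Normal] : A ≤ normalizer (N : Set K) := by
  rw [normalizer_eq_top]; exact le_top

theorem lin2 {M Z : Subgroup K} (hl : M ≤ Z) (hc : ⁅Z, Z⁆ ≤ M) {x y : K} (hx : x ∈ Z) (hx' : x ∉ M)
    (hy : y ∈ Z) (hy' : y ∉ M) : ∃ ν, Irr Z ν ∧ ν 1 = 1 ∧ Ker M ν ∧ ν x ≠ 1 ∧ ν y ≠ 1 := by
  have hn : Z ≤ normalizer (M : Set K) :=
    le_normalizer_iff_commutator_le_right.mpr ((commutator_mono le_rfl hl).trans hc)
  obtain ⟨α, a1, a2, a3⟩ := exists_irr_not_ker hn hl hx hx'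
  obtain ⟨β, b1, b2, b3⟩ := exists_irr_not_ker hn hl hy hy'
  have a4 := a1.one_of_ker (a2.mono hc)
  have b4 := b1.one_of_ker (b2.mono hc)
  rw [a4] at a3
  rw [b4] at b3
  by_cases h1 : α y = 1
  · by_cases h2 : β x = 1
    · refine ⟨α * β, a1.mul_lin b1.chr b4, by simp [a4, b4], fun m hm => ?_, by simpa [h2], by simpa [h1]⟩
      simp [a2 m hm, b2 m hm]
    · exact ⟨β, b1, b4, b2, h2, b3⟩
  · exact ⟨α, a1, a4, a2, a3, h1⟩

theorem deg_over {N X : Subgroup K} (hn : X ≤ normalizer (N : Set K)) (hl : N ≤ X) {θ : K → ℂ}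
    (h : Irr N θ) {d : ℕ} (hd : θ 1 = d) : ∃ χ, Irr X χ ∧ inn N χ θ ≠ 0 ∧
      ∃ e : ℕ, χ 1 = (e * ((stab N θ).relIndex X * d) : ℕ) := by
  obtain ⟨χ, a, b⟩ := h.exists_over hl
  obtain ⟨e, he⟩ := (a.chr.res hl).inn_nat h.chr
  exact ⟨χ, a, b, e, by rw [a.deg_eq hn hl h b, he, hd]; push_cast; rfl⟩

theorem zp_eq {y z : K} (hy : y ∈ zpowers z) (h1 : y ≠ 1) (hz : (orderOf z).Prime) :
    zpowers y = zpowers z := by
  refine eq_of_le_of_card_ge (zpowers_le.mpr hy) ?_
  rw [Nat.card_zpowers, Nat.card_zpowers]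
  exact ((Nat.dvd_prime hz).mp (orderOf_dvd_of_mem_zpowers hy)).elim
    (fun e => absurd (orderOf_eq_one_iff.mp e) h1) Eq.ge

theorem stab_le_cent {N : Subgroup K} {z : K} (hz : z ∈ N) (hc : z ∈ centralizer (N : Set K))
    [hn : (zpowers z).Normal] (hp : (orderOf z).Prime) {θ : K → ℂ} (h : Irr N θ) (e : θ z ≠ θ 1) :
    stab N θ ≤ centralizer (zpowers z : Set K) := fun g hg => by
  have hl : zpowers z ≤ N := zpowers_le.mpr hz
  obtain ⟨μ, a, b⟩ := h.exists_under hl
  have a1 := a.one_of_comm fun x hx y hy => le_centralizer (zpowers z) hy x hx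
  have hi : Inv N (zpowers z) μ := fun n hn' x hx => by
    rw [show n * x = x * n from (zpowers_le.mpr hc hx) n hn', mul_inv_cancel_right]
  have c := h.res_smul nt hl a hi b
  have hgz := hn.conj_mem z (mem_zpowers z) g
  have d : μ (g * z * g⁻¹) = μ z := by
    have := (mem_stab.mp hg).2 z hz
    rw [cj_apply, c _ hgz, c _ (mem_zpowers z)] at this
    exact mul_left_cancel₀ b this
  have d1 : μ z ≠ 1 := fun e' => e (by
    rw [c _ (mem_zpowers z), c _ (one_mem _), Pi.smul_apply, Pi.smul_apply, e', a1])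
  have d2 : g * z * g⁻¹ * z⁻¹ = 1 := by
    by_contra h1
    have hm := mul_mem hgz (inv_mem (mem_zpowers z))
    have d3 : μ (g * z * g⁻¹ * z⁻¹) = μ 1 := by
      have e1 := a.chr.map_mul a1 hm (mem_zpowers z)
      rw [inv_mul_cancel_right, d] at e1
      rw [a1]
      exact (mul_right_cancel₀ (a.chr.ne_zero a1 (mem_zpowers z)) (e1.symm.trans (one_mul _).symm))
    have : z ∈ kerS (zpowers z) μ :=
      zpowers_le.mpr (a.chr.mem_kerS.mpr ⟨hm, d3⟩) ((zp_eq hm h1 hp).ge (mem_zpowers z))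
    exact d1 ((a.chr.mem_kerS.mp this).2.trans a1)
  rintro _ ⟨k, rfl⟩
  have : Commute z g := by
    rw [mul_inv_eq_one, mul_inv_eq_iff_eq_mul] at d2
    exact d2.symm
  exact this.zpow_left k

theorem dvd_index [hq : Fact q.Prime] {C : Subgroup K} [C.Normal] {Q : Sylow q K}
    (h : ¬ (Q : Subgroup K) ≤ C) : q ∣ C.index := by
  obtain ⟨a, ha, ha'⟩ := SetLike.not_le_iff_exists.mp h
  obtain ⟨k, hk⟩ := ord_syl ha
  obtain ⟨j, -, hj⟩ := (Nat.dvd_prime_pow hq.out).mp
    (hk ▸ orderOf_map_dvd (QuotientGroup.mk' C) a)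
  rcases j with _ | j
  · exact absurd ((QuotientGroup.eq_one_iff a).mp (orderOf_eq_one_iff.mp hj)) ha'
  · exact (hj ▸ dvd_pow_self q j.succ_ne_zero).trans (orderOf_dvd_natCard _)

theorem syl_normal [Fact q.Prime] {X : Subgroup K} [X.Normal] {Q : Sylow q K}
    (h : (Q : Subgroup K) ≤ X) (h' : X ≤ normalizer ((Q : Subgroup K) : Set K)) :
    (Q : Subgroup K).Normal :=
  normalizer_eq_top_iff.mp (eq_top_iff.mpr ((Q.normalizer_sup_eq_top' h).ge.trans (sup_le le_rfl h')))

/-- Some character degree is divisible by `n`. -/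
def Dg (X : Subgroup K) (n : ℕ) : Prop := ∃ χ, Irr X χ ∧ ∃ d : ℕ, χ 1 = d ∧ n ∣ d

theorem dg_of [hq : Fact q.Prime] [hs : Group.IsSolvable K] {L : Subgroup K} [L.Normal]
    {Q : Sylow q K} (h : (Q : Subgroup K) ≤ L) (hn : ¬ (Q : Subgroup K).Normal) : Dg L q := by
  by_contra h1
  have : CD ⊥ L (¬ q ∣ ·) := fun χ a _ d b c => h1 ⟨χ, a, d, b, c⟩
  have := ito_solv L (Core.isPSolvable_of_solvable q inferInstance) this.sub' (Q.subtype h)
  exact hn (syl_normal h ((normal_subgroupOf_iff_le_normalizer h).mp this))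

/-- A Sylow `q`-subgroup moves a normal subgroup of prime order. -/
def Mv (K : Type*) [Group K] (q : ℕ) : Prop :=
  ∃ z : K, (orderOf z).Prime ∧ (zpowers z).Normal ∧
    ∃ Q : Sylow q K, ¬ (Q : Subgroup K) ≤ centralizer (zpowers z : Set K)

theorem KL1 [Fact q.Prime] [Fact r.Prime] (hqr : q.Coprime r) (h1 : Mv K q) (h2 : Mv K r) :
    Dg (⊤ : Subgroup K) (q * r) := by
  obtain ⟨x, a1, a2, Q, a3⟩ := h1
  obtain ⟨y, b1, b2, R, b3⟩ := h2
  have hxy : Commute x y := by
    by_contra h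
    have h1 : ⁅x, y⁆ ≠ 1 := mt commutatorElement_eq_one_iff_commute.mp h
    have e1 := zp_eq (commutator_le_left _ _ (commutator_mem_commutator (mem_zpowers x)
      (mem_zpowers y))) h1 a1
    have e2 := zp_eq (commutator_le_right _ _ (commutator_mem_commutator (mem_zpowers x)
      (mem_zpowers y))) h1 b1
    exact h (le_centralizer (zpowers y) (mem_zpowers y) x (e2 ▸ e1 ▸ mem_zpowers x))
  set N := zpowers x ⊔ zpowers y
  have c : ∀ z, Commute x z → Commute y z → z ∈ centralizer (N : Set K) := fun z u v =>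
    le_centralizer_iff.mp (sup_le (zpowers_le.mpr fun _ ⟨k, e⟩ => e ▸ (u.zpow_right k).symm)
      (zpowers_le.mpr fun _ ⟨k, e⟩ => e ▸ (v.zpow_right k).symm) : N ≤ centralizer (zpowers z))
      (mem_zpowers z)
  have cx := c x (Commute.refl x) hxy.symm
  have cy := c y hxy (Commute.refl y)
  have hx : x ∈ N := mem_sup_left (mem_zpowers x)
  have hy : y ∈ N := mem_sup_right (mem_zpowers y)
  obtain ⟨ν, n1, n2, -, n3, n4⟩ := lin2 (M := ⊥) (Z := N) bot_le
    (commutator_eq_bot_iff_le_centralizer.mpr (sup_le (zpowers_le.mpr cx) (zpowers_le.mpr cy))).le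
    hx (fun e => a1.ne_one (by rw [mem_bot.mp e, orderOf_one]))
    hy (fun e => b1.ne_one (by rw [mem_bot.mp e, orderOf_one]))
  obtain ⟨χ, a, -, e, b⟩ := deg_over (X := ⊤) nt le_top n1 (d := 1) (by simpa using n2)
  refine ⟨χ, a, _, b, Dvd.dvd.mul_left (Dvd.dvd.mul_right ?_ _) _⟩
  rw [relIndex_top_right]
  exact hqr.mul_dvd_of_dvd_of_dvd
    ((dvd_index a3).trans (index_dvd_of_le (stab_le_cent hx cx a1 n1 (n2 ▸ n3))))
    ((dvd_index b3).trans (index_dvd_of_le (stab_le_cent hy cy b1 n1 (n2 ▸ n4))))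

section
variable [Nontrivial W] [Group.IsSolvable K] {s : ℕ} [Fact s.Prime] (hW : IsPGroup s W) (ir : Ir K W)
  (cy : Cy K)
include ir

theorem nf [hq : Fact q.Prime] (h : Pc K W q) (hd : q ∣ Nat.card K) (Q : Sylow q K) :
    ∃ t : ℕ, t.Prime ∧ ¬ (Q : Subgroup K) ≤ centralizer (pCore t K : Set K) := by
  by_contra hn
  push Not at hn
  have : (Q : Subgroup K) ≤ fittingSubgroup K := by
    refine le_trans (le_centralizer_iff.mp ?_) Core.centralizer_fitting_le
    rw [Core.fitting_eq_iSup_pCore]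
    exact iSup_le fun t => le_centralizer_iff.mp (hn t t.2)
  exact Q.ne_bot_of_dvd_card hd (le_bot_iff.mp ((Core.le_pCore_of_le_fitting Q.isPGroup' this).trans
    (h.eq_bot ir (Core.pCore_isPGroup q)).le))

include hW cy

omit [Group.IsSolvable K] in
theorem lemP' [hq : Fact q.Prime] (h : Pc K W q) (hm : ¬ Mv K q) (ht : t.Prime) {Q : Sylow q K}
    (hQ : ¬ (Q : Subgroup K) ≤ centralizer (pCore t K : Set K)) : t = 2 ∧ q = 3 := by
  have := Fact.mk ht
  refine lemP hW ir h cy (fun z a b S c d => ?_) (Core.pCore_isPGroup t) Q hQ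
  by_contra e
  exact hm ⟨z, a ▸ ht, b, S, fun e' => e (e' d z (mem_zpowers z)).symm⟩

theorem KL2 [hq : Fact q.Prime] [hr : Fact r.Prime] (hqr : q ≠ r) (h : Pc K W q) (h' : Pc K W r)
    (hd : q ∣ Nat.card K) (hd' : r ∣ Nat.card K) (hm : ¬ Mv K q) : Dg (⊤ : Subgroup K) (q * r) := by
  obtain ⟨Q⟩ : Nonempty (Sylow q K) := inferInstance
  obtain ⟨t, ht, hQ⟩ := nf ir h hd Q
  obtain ⟨-, hq3⟩ := lemP' hW ir cy h hm ht hQ
  have hr3 : r ≠ 3 := fun e => hqr (hq3.trans e.symm)
  obtain ⟨z, hz, hzn, R, hR⟩ : Mv K r := by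
    by_contra hm'
    obtain ⟨R⟩ : Nonempty (Sylow r K) := inferInstance
    obtain ⟨t, ht, hR⟩ := nf ir h' hd' R
    exact hr3 (lemP' hW ir cy h' hm' ht hR).2
  have hR2 : (R : Subgroup K) ≤ centralizer (pCore 2 K : Set K) := by
    by_contra e
    refine hr3 (lemP hW ir h' cy (fun z a b S c _ => ?_) (Core.pCore_isPGroup 2) R e).2
    have h1 : c * z * c⁻¹ ∈ zpowers z := b.conj_mem z (mem_zpowers z) c
    rw [mem_zpowers_iff_mem_range_orderOf, a] at h1
    simp only [Finset.mem_image, Finset.mem_range] at h1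
    obtain ⟨i, hi, e⟩ := h1
    interval_cases i
    · have : z = 1 := by simpa using e.symm
      simp [this]
    · rw [pow_one, eq_mul_inv_iff_mul_eq] at e
      exact e.symm
  set L := normalClosure ((Q : Subgroup K) : Set K)
  set M := normalClosure ((R : Subgroup K) : Set K)
  have hQL : (Q : Subgroup K) ≤ L := subset_normalClosure
  have cq : ∀ y : K, (orderOf y).Prime → (zpowers y).Normal →
      (Q : Subgroup K) ≤ centralizer (zpowers y : Set K) := fun y a b => by
    by_contra e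
    exact hm ⟨y, a, b, Q, e⟩
  have hY : ⁅L, M⁆ ≤ centralizer (fittingSubgroup K : Set K) := by
    rw [le_centralizer_iff, Core.fitting_eq_iSup_pCore]
    refine iSup_le fun t => le_centralizer_iff.mp ?_
    by_cases h2 : (t : ℕ) = 2
    · exact (commutator_le_right L M).trans (h2 ▸ normalClosure_le_normal hR2)
    · refine (commutator_le_left L M).trans (normalClosure_le_normal ?_)
      by_contra e
      exact h2 (lemP' hW ir cy h hm t.2 e).1
  have hYc : ∀ x ∈ ⁅L, M⁆, ∀ y ∈ ⁅L, M⁆, x * y = y * x := fun x hx y hy =>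
    hY hy x (Core.centralizer_fitting_le (hY hx))
  have nq : ∀ y : K, orderOf y = q → ¬ (zpowers y).Normal := fun y a b =>
    hq.out.ne_one (by
      rw [← a, zpowers_eq_bot.mp (h.eq_bot ir (N := zpowers y) (IsPGroup.of_card (n := 1)
        (by rw [Nat.card_zpowers, a, pow_one]))), orderOf_one])
  have zp : ∀ y ∈ ⁅L, M⁆, (orderOf y).Prime → (zpowers y).Normal := fun y hy hp =>
    (cy.zp hYc hp hy (fun e => hp.ne_one (by rw [e, orderOf_one])) (pow_orderOf_eq_one y)).1
  have hLY : L ≤ centralizer ((⁅L, M⁆ : Subgroup K) : Set K) := by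
    refine normalClosure_le_normal fun a ha y hy => (cent_of_prime hYc (nt (mem_top a)) ?_
      (fun y hy hp => (cq y hp (zp y hy hp) ha y (mem_zpowers y)).symm) y hy).symm
    obtain ⟨k, hk⟩ := ord_syl ha
    refine hk ▸ Nat.Coprime.pow_left k (hq.out.coprime_iff_not_dvd.mpr fun e => ?_)
    obtain ⟨y, hy⟩ := exists_prime_orderOf_dvd_card' q e
    rw [← orderOf_coe] at hy
    exact nq y hy (zp y y.2 (hy ▸ hq.out))
  have h3 : ⁅⁅L, L⁆, M⁆ = ⊥ := by
    have := commutator_eq_bot_iff_le_centralizer.mpr (le_centralizer_iff.mp hLY)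
    exact commutator_commutator_eq_bot_of_rotate this (by rwa [commutator_comm M])
  have hzL : z ∉ L := fun hzL => by
    let f := QuotientGroup.mk' ⁅L, L⁆
    have e1 : L.map f ≤ fittingSubgroup _ := Core.le_fitting_of_isMulCommutative
      (Normal.map inferInstance f (QuotientGroup.mk'_surjective _))
      (Core.isMulCommutative_iff_commutator_eq_bot.mpr (by
        rw [← map_commutator, Subgroup.map_eq_bot_iff, QuotientGroup.ker_mk']))
    have e2 : L ≤ (pCore q _).comap f := normalClosure_le_normal (map_le_iff_le_comap.mp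
      (Core.le_pCore_of_le_fitting (Q.isPGroup'.map f) ((map_mono hQL).trans e1)))
    obtain ⟨k, hk⟩ := (IsPGroup.iff_orderOf.mp (Core.pCore_isPGroup q)) ⟨f z, mem_comap.mp (e2 hzL)⟩
    rw [orderOf_mk] at hk
    have e3 : f z = 1 := orderOf_eq_one_iff.mp (Nat.eq_one_of_dvd_coprimes
      (((Nat.coprime_primes hq.out hz).mpr fun e => nq z e.symm hzn).pow_left k) hk.dvd
      (orderOf_map_dvd f z))
    refine hR (le_trans subset_normalClosure (le_centralizer_iff.mp (zpowers_le.mpr ?_) : M ≤ _))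
    exact commutator_eq_bot_iff_le_centralizer.mp h3 ((QuotientGroup.eq_one_iff z).mp e3)
  have hLz : L ≤ centralizer (zpowers z : Set K) := normalClosure_le_normal (cq z hz hzn)
  set N := L ⊔ zpowers z
  have hzN : z ∈ N := mem_sup_right (mem_zpowers z)
  have hzc : z ∈ centralizer (N : Set K) :=
    le_centralizer_iff.mp (sup_le hLz (le_centralizer _) : N ≤ _) (mem_zpowers z)
  obtain ⟨ψ, a, d, b, c⟩ := dg_of hQL (h.not_normal ir hd Q)
  obtain ⟨θ, a1, -, e, b1⟩ := deg_over (X := N) nt le_sup_left a b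
  obtain ⟨θ', a2, d', b2, c2, c3⟩ : ∃ θ, Irr N θ ∧ ∃ d : ℕ, θ 1 = d ∧ q ∣ d ∧ θ z ≠ θ 1 := by
    by_cases e : θ z = θ 1
    · obtain ⟨β, u, v, w⟩ := exists_irr_not_ker (K := N) nt le_sup_left hzN hzL
      have hb : β 1 = 1 := u.one_of_ker (v.mono (by
        refine le_trans (commutator_mono le_rfl (?_ : N ≤ L ⊔ centralizer (N : Set K))) ?_
        · exact sup_le_sup_left (zpowers_le.mpr hzc) _
        · rw [commutator_le]
          intro x hx y hy
          rw [← SetLike.mem_coe, normal_mul] at hy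
          obtain ⟨l, hl, k, hk, rfl⟩ := hy
          have : ⁅x, l * k⁆ = ⁅x, l⁆ := by
            have := hk x⁻¹ (N.inv_mem hx)
            simp only [commutatorElement_def, mul_inv_rev, mul_assoc]
            rw [← mul_assoc k, ← this]; group
          exact this ▸ commutator_le_right N L (commutator_mem_commutator hx hl)))
      refine ⟨β * θ, a1.lin_mul u.chr hb, _, by rw [Pi.mul_apply, hb, one_mul, b1],
        (c.mul_left _).mul_left _, fun e' => w ?_⟩
      rw [Pi.mul_apply, Pi.mul_apply, e] at e'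
      exact mul_right_cancel₀ a1.one_ne e'
    · exact ⟨θ, a1, _, b1, (c.mul_left _).mul_left _, e⟩
  obtain ⟨χ, u, -, e', v⟩ := deg_over (X := ⊤) nt le_top a2 b2
  refine ⟨χ, u, _, v, Dvd.dvd.mul_left ?_ _⟩
  rw [relIndex_top_right, mul_comm q]
  exact mul_dvd_mul ((dvd_index hR).trans (index_dvd_of_le (stab_le_cent hzN hzc hz a2 c3))) c2

end

theorem KL [Nontrivial W] [Group.IsSolvable K] {s : ℕ} [Fact s.Prime] (hW : IsPGroup s W)
    (ir : Ir K W) [hq : Fact q.Prime] [hr : Fact r.Prime] (hqr : q ≠ r) (h : Pc K W q)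
    (h' : Pc K W r) (hd : q ∣ Nat.card K) (hd' : r ∣ Nat.card K) : Dg (⊤ : Subgroup K) (q * r) := by
  have cy : Cy K := fun t ht N hN a b x hx h1 y hy => by
    by_cases h2 : q = 2
    · exact cyc hW ir h' (fun e => hqr (h2.trans e.symm)) hd' ht a b hx h1 hy
    · exact cyc hW ir h h2 hd ht a b hx h1 hy
  by_cases h1 : Mv K q
  · by_cases h2 : Mv K r
    · exact KL1 ((Nat.coprime_primes hq.out hr.out).mpr hqr) h1 h2
    · exact mul_comm q r ▸ KL2 hW ir cy hqr.symm h' h hd' hd h2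
  · exact KL2 hW ir cy hqr h h' hd hd' h1

end Cfsg.Agent.H23.Pal
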