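import Mathlib
import Cfsg.Agent.H23.Pal3
import Cfsg.Agent.FGS.Basic
import Cfsg.Agent.PGrp.Aut
import Cfsg.Agent.Core.Coprime2

/-! The action on linear characters of a normal subgroup. -/

set_option autoImplicit false

namespace Cfsg.Agent.H23.Pal

open Subgroup RegO MulAction Cfsg Isaacs
open scoped commutatorElement _root_.Classical Pointwise

variable {G : Type*} [Group G] [Finite G] {p q r n : ℕ} {L N T X : Subgroup G}

/-- Linear characters. -/
def Du (N : Subgroup G) : Type _ := N →* ℂˣ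

noncomputable instance duGroup (N : Subgroup G) : CommGroup (Du N) :=
  inferInstanceAs (CommGroup (N →* ℂˣ))
instance duFinite (N : Subgroup G) : Finite (Du N) := inferInstanceAs (Finite (N →* ℂˣ))

/-- The underlying homomorphism. -/
def Du.h (l : Du N) : N →* ℂˣ := l

instance duAct (N : Subgroup G) [N.Normal] : MulDistribMulAction G (Du N) where
  smul g l := (l.h.comp (MulAut.conjNormal g⁻¹ : MulAut N).toMonoidHom : N →* ℂˣ)
  one_smul l := MonoidHom.ext fun x => congrArg l.h (Subtype.ext (by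
    change (1 : G)⁻¹ * x * (1 : G)⁻¹⁻¹ = x; simp))
  mul_smul a b l := MonoidHom.ext fun x => congrArg l.h (Subtype.ext (by
    change (a * b)⁻¹ * x * (a * b)⁻¹⁻¹ = b⁻¹ * (a⁻¹ * x * a⁻¹⁻¹) * b⁻¹⁻¹; group))
  smul_mul _ _ _ := rfl
  smul_one _ := rfl

/-- The character as a function on `G`. -/
noncomputable def lc (l : Du N) : G → ℂ := ez N fun x => (l.h x : ℂ)

omit [Finite G] in
theorem lc_mem (l : Du N) {x : G} (hx : x ∈ N) : lc l x = l.h ⟨x, hx⟩ := ez_mem _ hx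

omit [Finite G] in
theorem lc_irr (l : Du N) : Irr N (lc l) := irr_ez.mpr (Char.isIrr_linear l.h)

omit [Finite G] in
theorem lc_one (l : Du N) : lc l 1 = 1 := by
  rw [lc_mem l N.one_mem, show (⟨1, N.one_mem⟩ : N) = 1 from rfl, map_one, Units.val_one]

omit [Finite G] in
theorem du_ext {l l' : Du N} (h : Eqv N (lc l) (lc l')) : l = l' :=
  MonoidHom.ext fun x => Units.ext ((lc_mem l x.2).symm.trans ((h x x.2).trans (lc_mem l' x.2)))

omit [Finite G] in
theorem du_one {l : Du N} (h : ∀ x ∈ N, lc l x = 1) : l = 1 :=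
  du_ext fun x hx => (h x hx).trans (lc_mem (1 : Du N) hx).symm

omit [Finite G] in
theorem exists_du {ν : G → ℂ} (h : Irr N ν) (h1 : ν 1 = 1) : ∃ l : Du N, Eqv N (lc l) ν := by
  obtain ⟨l, hl⟩ := h.chr.exists_hom h1
  exact ⟨l, fun x hx => (lc_mem l hx).trans (congrFun hl ⟨x, hx⟩).symm⟩

omit [Finite G] in
theorem stab_lc [hN : N.Normal] (l : Du N) : stab N (lc l) = stabilizer G l := by
  ext g
  rw [← (stabilizer G l).inv_mem_iff, mem_stab, mem_stabilizer_iff]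
  have e : ∀ x ∈ N, cj g (lc l) x = lc (g⁻¹ • l) x := fun x hx => by
    rw [cj_apply, lc_mem l (hN.conj_mem x hx g), lc_mem _ hx]
    exact congrArg (fun y => (l.h y : ℂ)) (Subtype.ext (by
      change g * x * g⁻¹ = g⁻¹⁻¹ * x * g⁻¹⁻¹⁻¹; simp))
  exact ⟨fun h => du_ext fun x hx => (e x hx).symm.trans (h.2 x hx),
    fun h => ⟨by rw [normalizer_eq_top]; exact mem_top g, fun x hx => (e x hx).trans (by rw [h])⟩⟩

omit [Finite G] in
theorem le_stab_du [N.Normal] (l : Du N) : N ≤ stabilizer G l :=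
  stab_lc l ▸ (lc_irr l).inv.le_stab

omit [Finite G] in
theorem cent_le_du [N.Normal] (l : Du N) : centralizer (N : Set G) ≤ stabilizer G l := by
  rw [← stab_lc, le_stab nt]
  intro a ha x hx
  rw [← ha x hx, mul_inv_cancel_right]

theorem du_comm [hN : N.Normal] {l : Du N} {g x : G} (hg : g ∈ stabilizer G l) (hx : x ∈ N) :
    lc l ⁅g, x⁆ = 1 := by
  have h := (lc_irr l).chr
  have e : lc l (g * x * g⁻¹) = lc l x := (mem_stab.mp (stab_lc l ▸ hg)).2 x hx
  rw [commutatorElement_def, h.map_mul (lc_one l) (hN.conj_mem x hx g) (N.inv_mem hx), e,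
    ← h.map_mul (lc_one l) hx (N.inv_mem hx), mul_inv_cancel, lc_one]

theorem du_ker [N.Normal] {l : Du N} (h : X ≤ stabilizer G l) : ⁅X, N⁆ ≤ kerS N (lc l) :=
  commutator_le.mpr fun _ ha _ hb => (lc_irr l).chr.mem_kerS.mpr
    ⟨commutator_le_right X N (commutator_mem_commutator ha hb), (du_comm (h ha) hb).trans (lc_one l).symm⟩

theorem du_one' {l : Du N} (h : N ≤ kerS N (lc l)) : l = 1 :=
  du_one fun _ hx => ((lc_irr l).chr.mem_kerS.mp (h hx)).2.trans (lc_one l)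

theorem du_pgroup [Fact p.Prime] (h : IsPGroup p N) : IsPGroup p (Du N) := fun l => by
  obtain ⟨k, hk⟩ := h.exists_card_eq
  refine ⟨k, MonoidHom.ext fun x => ?_⟩
  change l.h x ^ p ^ k = 1
  rw [← map_pow, ← hk, pow_card_eq_one', map_one]

theorem du_nontrivial (h : ⁅N, N⁆ ≤ ⊥) (h1 : N ≠ ⊥) : Nontrivial (Du N) := by
  obtain ⟨x, hx, hx1⟩ := (bot_or_exists_ne_one N).resolve_left h1
  obtain ⟨ν, a, b, -, c, -⟩ := lin2 bot_le h hx hx1 hx hx1
  obtain ⟨l, hl⟩ := exists_du a b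
  exact ⟨l, 1, fun e => c (by rw [← hl x hx, e, lc_mem _ hx]; rfl)⟩

theorem irG [N.Normal] (hmin : ∀ M : Subgroup G, M.Normal → M ≤ N → M = ⊥ ∨ M = N) [X.Normal]
    {l : Du N} (hl : l ≠ 1) (h : X ≤ stabilizer G l) : X ≤ centralizer (N : Set G) := by
  rcases hmin ⁅X, N⁆ inferInstance (commutator_le_right X N) with e | e
  · exact commutator_eq_bot_iff_le_centralizer.mp e
  · exact absurd (du_one' (e.ge.trans (du_ker h))) hl

theorem Dg.of_normal [N.Normal] (h : Dg N n) : Dg (⊤ : Subgroup G) n := by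
  obtain ⟨χ, a, d, b, c⟩ := h
  obtain ⟨ψ, u, -, e, v⟩ := deg_over (X := ⊤) nt le_top a b
  exact ⟨ψ, u, _, v, (c.mul_left _).mul_left _⟩

omit [Finite G] in
theorem Dg.of_surj {K : Type*} [Group K] {f : G →* K} (hf : Function.Surjective f)
    (h : Dg (⊤ : Subgroup K) n) : Dg (⊤ : Subgroup G) n := by
  obtain ⟨χ, a, d, b, c⟩ := h
  exact ⟨_, a.comap (f := f) (MonoidHom.range_eq_top.mpr hf).ge, d, by rw [map_one, b], c⟩

omit [Finite G] in
theorem cd_of (h : ¬ Dg T n) : CD ⊥ T (¬ n ∣ ·) := fun χ a _ d b c => h ⟨χ, a, d, b, c⟩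

theorem not_dg [Fact q.Prime] [Group.IsSolvable G] {Q : Sylow q G} (h : (Q : Subgroup G).Normal)
    (hc : ⁅(Q : Subgroup G), (Q : Subgroup G)⁆ ≤ ⊥) : ¬ Dg (⊤ : Subgroup G) q :=
  fun ⟨χ, a, d, b, c⟩ => (ito_iff (Core.isPSolvable_of_solvable q inferInstance) Q).mp
    ⟨h, fun _ ha _ hb => comm_of_commutator_eq_bot hc ha hb⟩ χ a ker_bot d b c

theorem uq0 [Fact q.Prime] [Group.IsSolvable G] (h : CD ⊥ T (¬ q ∣ ·)) {Q : Sylow q G}
    (hQ : (Q : Subgroup G) ≤ T) :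
    T ≤ normalizer ((Q : Subgroup G) : Set G) ∧ ⁅(Q : Subgroup G), (Q : Subgroup G)⁆ ≤ ⊥ := by
  obtain ⟨a, b⟩ := (ito_iff (Core.isPSolvable_of_solvable q inferInstance) (Q.subtype hQ)).mpr h.sub'
  exact ⟨(normal_subgroupOf_iff_le_normalizer hQ).mp a, commutator_eq_bot_of_comm fun x hx y hy =>
    congrArg Subtype.val (b ⟨x, hQ hx⟩ hx ⟨y, hQ hy⟩ hy)⟩

theorem uq [Fact q.Prime] [Group.IsSolvable G] [L.Normal]
    (h : CD ⊥ (T.map (QuotientGroup.mk' L)) (¬ q ∣ ·)) {Q Q' : Sylow q G}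
    (hQ : (Q : Subgroup G) ≤ T) (hQ' : (Q' : Subgroup G) ≤ T) :
    (Q' : Subgroup G) ≤ (Q : Subgroup G) ⊔ L ∧ ⁅(Q : Subgroup G), (Q : Subgroup G)⁆ ≤ L := by
  have hf := QuotientGroup.mk'_surjective L
  obtain ⟨a, b⟩ := uq0 h (Q := Q.mapSurjective hf) (map_mono hQ)
  have e : Q'.mapSurjective hf = Q.mapSurjective hf := syl_eq (le_trans (map_mono hQ') a)
  have e' : (Q' : Subgroup G).map (QuotientGroup.mk' L) = (Q : Subgroup G).map (QuotientGroup.mk' L) :=
    congrArg Sylow.toSubgroup e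
  refine ⟨?_, ?_⟩
  · have := map_le_iff_le_comap.mp e'.le
    rwa [comap_map_eq, QuotientGroup.ker_mk'] at this
  · rw [Sylow.coe_mapSurjective, ← map_commutator, map_le_iff_le_comap, MonoidHom.comap_bot,
      QuotientGroup.ker_mk'] at b
    exact b

/-- The local condition at a stabilizer. -/
def Loc (L T : Subgroup G) (q : ℕ) : Prop := ¬ q ∣ T.index ∧ CD L T (¬ q ∣ ·)

theorem Loc.uq [Fact q.Prime] [Group.IsSolvable G] [L.Normal] (h : Loc L T q) {Q Q' : Sylow q G}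
    (hQ : (Q : Subgroup G) ≤ T) (hQ' : (Q' : Subgroup G) ≤ T) :
    (Q' : Subgroup G) ≤ (Q : Subgroup G) ⊔ L ∧ ⁅(Q : Subgroup G), (Q : Subgroup G)⁆ ≤ L :=
  Pal.uq (h.2.push _ (QuotientGroup.ker_mk' L).ge) hQ hQ'

theorem Loc.pc [Fact q.Prime] {K U : Type*} [Group K] [Finite K] [Group.IsSolvable K] [MulAction G U]
    [MulAction K U] {f : G →* K} (hf : Function.Surjective f) (hc : ∀ (g : G) (u : U), f g • u = g • u)
    (hL : L ≤ f.ker) {u : U} (h : Loc L (stabilizer G u) q) : ∃ Q : Sylow q K,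
      (Q : Subgroup K) ≤ stabilizer K u ∧ stabilizer K u ≤ normalizer ((Q : Subgroup K) : Set K) := by
  have e : (stabilizer G u).map f = stabilizer K u := by
    ext k
    obtain ⟨g, rfl⟩ := hf k
    exact ⟨fun ⟨g', a, b⟩ => b ▸ (hc g' u).trans a, fun a => ⟨g, (hc g u).symm.trans a, rfl⟩⟩
  obtain ⟨Q, hQ⟩ := FGS.exists_sylow_le_of_not_dvd_index (H := stabilizer K u) (p := q)
    fun a => h.1 (a.trans (e ▸ index_map_dvd _ hf))
  exact ⟨Q, hQ, (uq0 (e ▸ h.2.push f hL) hQ).1⟩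

omit [Finite G] in
theorem loc_of (hpq : p.Coprime q) (h : ¬ Dg (⊤ : Subgroup G) (p * q))
    (H : ∀ β, Irr T β → Ker L β → ∀ d : ℕ, β 1 = d →
      ∃ χ : G → ℂ, Irr ⊤ χ ∧ ∃ D : ℕ, χ 1 = D ∧ p ∣ D ∧ T.index * d ∣ D) : Loc L T q := by
  refine ⟨fun a => ?_, fun β a b d c e => ?_⟩
  · obtain ⟨χ, u, D, v, w, z⟩ := H _ irr_one (fun _ _ => rfl) 1 Nat.cast_one.symm
    exact h ⟨χ, u, D, v, hpq.mul_dvd_of_dvd_of_dvd w ((a.mul_right _).trans z)⟩
  · obtain ⟨χ, u, D, v, w, z⟩ := H β a b d c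
    exact h ⟨χ, u, D, v, hpq.mul_dvd_of_dvd_of_dvd w ((e.mul_left _).trans z)⟩

/-- The key lemma applied to the dual of a minimal normal subgroup. -/
theorem KLG [Group.IsSolvable G] [N.Normal] {s : ℕ} [Fact s.Prime] (hs : IsPGroup s N)
    (hc : ⁅N, N⁆ ≤ ⊥) (h1 : N ≠ ⊥) (hmin : ∀ M : Subgroup G, M.Normal → M ≤ N → M = ⊥ ∨ M = N)
    (hL : L ≤ centralizer (N : Set G)) [Fact q.Prime] [Fact r.Prime] (hqr : q ≠ r)
    (hq : ∀ l : Du N, l ≠ 1 → Loc L (stabilizer G l) q)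
    (hr : ∀ l : Du N, l ≠ 1 → Loc L (stabilizer G l) r) {Q : Sylow q G} {R : Sylow r G}
    (hQ : ¬ (Q : Subgroup G) ≤ centralizer (N : Set G))
    (hR : ¬ (R : Subgroup G) ≤ centralizer (N : Set G)) : Dg (⊤ : Subgroup G) (q * r) := by
  have := du_nontrivial hc h1
  let φ := MulDistribMulAction.toMulAut G (Du N)
  have hf := φ.rangeRestrict_surjective
  have := solvable_of_surjective hf
  have k1 : centralizer (N : Set G) ≤ φ.rangeRestrict.ker := fun g hg =>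
    Subtype.ext (MulEquiv.ext fun l => cent_le_du l hg)
  obtain ⟨l, hl⟩ := exists_ne (1 : Du N)
  have k2 : φ.rangeRestrict.ker ≤ centralizer (N : Set G) := irG hmin hl fun g hg =>
    congrArg (fun x : φ.range => x • l) hg
  have cd : φ.rangeRestrict.ker.index = Nat.card φ.range := by
    rw [index_ker, MonoidHom.range_eq_top.mpr hf, card_top]
  refine Dg.of_surj hf (KL (W := Du N) (du_pgroup hs) (fun Z hZ w hw h => ?_) hqr
    (fun w hw => (hq w hw).pc hf (fun _ _ => rfl) (hL.trans k1))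
    (fun w hw => (hr w hw).pc hf (fun _ _ => rfl) (hL.trans k1))
    (cd ▸ dvd_index fun e => hQ (e.trans k2)) (cd ▸ dvd_index fun e => hR (e.trans k2)))
  rw [← map_comap_eq_self_of_surjective hf Z, Subgroup.map_eq_bot_iff]
  exact (irG hmin hw fun g hg => h hg).trans k1

theorem ext_split [hN : N.Normal] {H : Subgroup G} (h1 : N ⊔ H = ⊤) (h2 : Disjoint N H) (l : Du N) :
    ∃ φ, Chr (stabilizer G l) φ ∧ Eqv N φ (lc l) := by
  have ex : ∀ g : G, ∃ n ∈ N, n⁻¹ * g ∈ H := fun g => by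
    obtain ⟨n, hn, x, hx, rfl⟩ := (Core.mem_sup_of_le_normalizer nt).mp (h1.ge (mem_top g))
    exact ⟨n, hn, by simpa using hx⟩
  choose ν a b using ex
  have un : ∀ g, ∀ n ∈ N, n⁻¹ * g ∈ H → ν g = n := fun g n hn h => by
    have := disjoint_def.mp h2 (N.mul_mem (N.inv_mem hn) (a g))
      (by simpa [mul_assoc] using H.mul_mem h (H.inv_mem (b g)))
    exact (inv_mul_eq_one.mp this).symm
  let f : stabilizer G l →* ℂˣ := MonoidHom.mk' (fun t => l.h ⟨ν t, a t⟩) fun t u => by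
    have hh : (ν t)⁻¹ * t ∈ stabilizer G l := mul_mem (inv_mem (le_stab_du l (a t))) t.2
    have e := (mem_stab.mp ((stab_lc l).ge hh)).2 _ (a u)
    rw [cj_apply, lc_mem _ (hN.conj_mem _ (a u) _), lc_mem _ (a u)] at e
    rw [← Units.ext e, ← map_mul]
    refine congrArg l.h (Subtype.ext (un _ _ (N.mul_mem (a t) (hN.conj_mem _ (a u) _)) ?_))
    have := H.mul_mem (b t) (b u)
    convert this using 1
    simp only [coe_mul]
    group
  refine ⟨ez _ fun t => (f t : ℂ), chr_ez.mpr (Char.isChar_linear f), fun x hx => ?_⟩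
  rw [ez_mem _ (le_stab_du l hx), lc_mem l hx]
  exact congrArg (fun y => (l.h y : ℂ)) (Subtype.ext (un x x hx (by simp)))

theorem dvd_of_not_ker [hp : Fact p.Prime] {P : Subgroup G} (hP : IsPGroup p P)
    (hn : X ≤ normalizer (P : Set G)) (hl : P ≤ X) {χ : G → ℂ} (h : Irr X χ) (hk : ¬ Ker ⁅P, P⁆ χ)
    {d : ℕ} (hd : χ 1 = d) : p ∣ d := by
  obtain ⟨θ, a, b⟩ := h.exists_under hl
  obtain ⟨k, -, c⟩ := h.deg_dvd_rel hn hl a b
  obtain ⟨e, -, he⟩ := a.deg
  obtain ⟨m, hm⟩ := hP.exists_card_eq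
  obtain ⟨j, -, rfl⟩ := (Nat.dvd_prime_pow hp.out).mp (hm ▸ a.deg_dvd he)
  rcases j with _ | j
  · refine absurd ((h.chr.res hl).inv.ker_of (Core.commutator_le_of_le_normalizer le_normalizer)
      fun ψ u v => ?_) hk
    exact u.chr.ker_comm (by rw [h.deg_under hn hl a u b v, he]; simp)
  · rw [hd, he] at c
    obtain rfl : d = k * p ^ (j + 1) := by exact_mod_cast c
    exact (dvd_pow_self p j.succ_ne_zero).mul_left k

theorem cent_of_le [Fact p.Prime] [hq : Fact q.Prime] (hpq : q.Coprime p) {P : Subgroup G} [P.Normal]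
    (hP : IsPGroup p P) {Q : Sylow q G} (h : ∀ a ∈ (Q : Subgroup G), ∀ x ∈ P, ⁅a, x⁆ ∈ ⁅P, P⁆) :
    (Q : Subgroup G) ≤ centralizer (P : Set G) := fun a ha => by
  have hn : (Q : Subgroup G) ≤ normalizer (P : Set G) := nt
  refine (PGrp.actHom_eq_one_iff hn (a := ⟨a, ha⟩)).mp (PGrp.aut_eq_one_of_frattini hP ?_ fun x => ?_)
  · obtain ⟨k, hk⟩ := ord_syl ha
    exact (hk ▸ hpq.pow_left k : (orderOf a).Coprime p).coprime_dvd_left
      (PGrp.orderOf_actHom_dvd hn ⟨a, ha⟩)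
  · obtain ⟨y, hy, e⟩ := PGrp.commutator_le_map_frattini hP (inv_mem (h a ha _ (P.inv_mem x.2)))
    have : x⁻¹ * PGrp.actHom hn ⟨a, ha⟩ x = y := by
      refine Subtype.ext (Eq.trans ?_ e.symm)
      simp [PGrp.actHom_apply_coe, commutatorElement_def, mul_assoc]
    exact this ▸ hy

omit [Finite G] in
theorem normal_sup [Fact q.Prime] [L.Normal] {Q : Sylow q G}
    (h : ∀ Q' : Sylow q G, (Q' : Subgroup G) ≤ (Q : Subgroup G) ⊔ L) : ((Q : Subgroup G) ⊔ L).Normal := by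
  refine ⟨fun x hx g => ?_⟩
  have : (Q : Subgroup G) ⊔ L ≤ ((Q : Subgroup G) ⊔ L).comap (MulAut.conj g).toMonoidHom := by
    refine sup_le (fun a ha => h (g • Q) ?_) fun a ha => mem_sup_right (Normal.conj_mem ‹_› a ha g)
    rw [Sylow.coe_subgroup_smul, Core.mem_conj_smul_iff]
    simpa [mul_assoc] using ha
  exact this hx

end Cfsg.Agent.H23.Pal
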