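import Mathlib
import Cfsg.Agent.H23.Pal4

/-! Pálfy's three primes theorem. -/

set_option autoImplicit false

namespace Cfsg.Agent.H23.Pal

open Subgroup RegO MulAction Cfsg Isaacs
open scoped commutatorElement _root_.Classical Pointwise

variable {G : Type*} [Group G] [Finite G] [Group.IsSolvable G] {p q r : ℕ} {N : Subgroup G}

theorem caseB [hp : Fact p.Prime] [hq : Fact q.Prime] [hr : Fact r.Prime] (hpq : p ≠ q) (hpr : p ≠ r)
    (hqr : q ≠ r) [hN : N.Normal] (h1 : N ≠ ⊥)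
    (hmin : ∀ M : Subgroup G, M.Normal → M ≤ N → M = ⊥ ∨ M = N)
    (hd : ¬ Dg (⊤ : Subgroup (G ⧸ N)) p) (P : Sylow p G) (Q : Sylow q G) (R : Sylow r G)
    (hP : ¬ (P : Subgroup G).Normal) (hQ : ¬ (Q : Subgroup G).Normal) (hR : ¬ (R : Subgroup G).Normal)
    (n1 : ¬ Dg (⊤ : Subgroup G) (p * q)) (n2 : ¬ Dg (⊤ : Subgroup G) (p * r)) :
    Dg (⊤ : Subgroup G) (q * r) := by
  obtain ⟨s, hs, hel⟩ := Core.minimal_normal_elementary N inferInstance h1 hmin
  have := Fact.mk hs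
  have hsN := Core.IsElementaryAbelian.isPGroup hel
  have hc : ⁅N, N⁆ ≤ ⊥ := (Core.isMulCommutative_iff_commutator_eq_bot.mp hel.1).le
  have hNc : N ≤ centralizer (N : Set G) := commutator_eq_bot_iff_le_centralizer.mp (le_bot_iff.mp hc)
  have un : ∀ P' : Sylow p G, ((P' : Subgroup G) ⊔ N).Normal := fun P' => normal_sup fun P'' =>
    (uq (T := ⊤) (by
      rw [← MonoidHom.range_eq_map, MonoidHom.range_eq_top.mpr (QuotientGroup.mk'_surjective N)]
      exact cd_of hd) le_top le_top).1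
  have nc : ∀ P' : Sylow p G, ¬ (P' : Subgroup G) ≤ centralizer (N : Set G) := fun P' e => by
    have := un P
    have e' : N ≤ normalizer ((P : Subgroup G) : Set G) :=
      (le_centralizer_iff.mp (syl_le e P)).trans (centralizer_le_normalizer _)
    exact hP (syl_normal (X := (P : Subgroup G) ⊔ N) le_sup_left (sup_le le_normalizer e'))
  have hsp : s ≠ p := fun e => by
    subst e
    have := un P
    rw [sup_eq_left.mpr (hsN.le_sylow_of_normal P)] at this
    exact hP this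
  have e1 : N ⊔ normalizer ((P : Subgroup G) : Set G) = ⊤ := by
    have := un P
    refine eq_top_iff.mpr ((P.normalizer_sup_eq_top' (N := (P : Subgroup G) ⊔ N) le_sup_left).ge.trans ?_)
    exact sup_le le_sup_right (sup_le (le_normalizer.trans le_sup_right) le_sup_left)
  have e2 : Disjoint N (normalizer ((P : Subgroup G) : Set G)) := by
    have := un P
    rcases hmin (N ⊓ centralizer (((P : Subgroup G) ⊔ N : Subgroup G) : Set G)) inferInstance
      inf_le_left with e | e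
    · refine disjoint_def.mpr fun {x} hx hx' => mem_bot.mp (e ▸ ⟨hx, ?_⟩)
      refine le_centralizer_iff.mp (sup_le (fun a ha => ?_) ?_ : _ ≤ centralizer (zpowers x : Set G))
        (mem_zpowers x)
      · rintro _ ⟨k, rfl⟩
        refine (Commute.zpow_left (commutatorElement_eq_one_iff_commute.mp ?_) k)
        refine disjoint_def.mp (IsPGroup.disjoint_of_ne s p hsp _ _ hsN P.isPGroup') ?_ ?_
        · exact commutator_le_left N ⊤ (commutator_mem_commutator hx (mem_top a))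
        · exact mul_mem ((mem_normalizer_iff.mp hx' a).mp ha) (inv_mem ha)
      · exact le_centralizer_iff.mp ((zpowers_le.mpr hx).trans hNc)
    · exact absurd (le_sup_left.trans (le_centralizer_iff.mp (inf_eq_left.mp e))) (nc P)
  have H : ∀ l : Du N, l ≠ 1 → ∀ β, Irr (stabilizer G l) β → Ker N β → ∀ d : ℕ, β 1 = d →
      ∃ χ : G → ℂ, Irr ⊤ χ ∧ ∃ D : ℕ, χ 1 = D ∧ p ∣ D ∧ (stabilizer G l).index * d ∣ D := by
    intro l hl β a b d c
    obtain ⟨φ, u, v⟩ := ext_split e1 e2 l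
    refine ⟨_, ((lc_irr l).of_param (K := ⊤) nt le_top (by rw [stab_lc, inf_top_eq]) u v a b).1, _,
      by rw [ind_one, Pi.mul_apply, v.one, lc_one, c, relIndex_top_right, mul_one, ← Nat.cast_mul],
      Dvd.dvd.mul_right ?_ _, dvd_rfl⟩
    by_contra e
    obtain ⟨P', e⟩ := FGS.exists_sylow_le_of_not_dvd_index e
    have := un P'
    exact nc P' (le_sup_left.trans (irG hmin hl (sup_le e (le_stab_du l))))
  have lq := fun l hl => loc_of ((Nat.coprime_primes hp.out hq.out).mpr hpq) n1 (H l hl)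
  have lr := fun l hl => loc_of ((Nat.coprime_primes hp.out hr.out).mpr hpr) n2 (H l hl)
  have := du_nontrivial hc h1
  obtain ⟨l, hl⟩ := exists_ne (1 : Du N)
  have key : ∀ (q : ℕ) [Fact q.Prime] (Q : Sylow q G), Loc N (stabilizer G l) q →
      (Q : Subgroup G) ≤ centralizer (N : Set G) → (Q : Subgroup G).Normal := fun q _ Q a b => by
    refine normalizer_eq_top_iff.mp (eq_top_iff.mpr fun g _ =>
      Sylow.smul_eq_iff_mem_normalizer.mp (syl_eq ?_))
    exact (a.uq (b.trans (cent_le_du l)) ((syl_le b _).trans (cent_le_du l))).1.trans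
      (sup_le le_normalizer ((le_centralizer_iff.mp b).trans (centralizer_le_normalizer _)))
  exact KLG hsN hc h1 hmin hNc hqr lq lr (mt (key q Q (lq l hl)) hQ) (mt (key r R (lr l hl)) hR)

section A
variable [hp : Fact p.Prime] {P : Subgroup G} [hP : P.Normal] (hPp : IsPGroup p P)
  (hi : ¬ p ∣ P.index) (hD : P ≤ centralizer ((⁅P, P⁆ : Subgroup G) : Set G))
include hPp hi

omit [Group.IsSolvable G] in
theorem copP : (Nat.card P).Coprime P.index := by
  obtain ⟨k, hk⟩ := hPp.exists_card_eq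
  exact hk ▸ (hp.out.coprime_iff_not_dvd.mpr hi).pow_left k

include hD

theorem locA [hq : Fact q.Prime] (hpq : p ≠ q) (n1 : ¬ Dg (⊤ : Subgroup G) (p * q))
    {l : Du ⁅P, P⁆} (hl : l ≠ 1) : Loc P (stabilizer G l) q := by
  obtain ⟨H, hH⟩ := exists_right_complement'_of_coprime (copP hPp hi)
  have hPT : P ≤ stabilizer G l := hD.trans (cent_le_du l)
  have hDP : ⁅P, P⁆ ≤ P := commutator_le_left P P
  obtain ⟨θ, a, b, c⟩ := Irr.exists_inv_over (S := H ⊓ stabilizer G l) inferInstance P nt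
    (((copP hPp hi).symm).coprime_dvd_left (hH.symm.index_eq_card ▸ card_dvd_of_le inf_le_left)) nt nt hDP
    (lc_irr l) ((le_stab nt).mp (inf_le_right.trans (stab_lc l).ge))
  have e := a.res_smul nt hDP (lc_irr l) ((le_stab nt).mp (hPT.trans (stab_lc l).ge)) b
  have hT : stab P θ = stabilizer G l := by
    refine le_antisymm ?_ fun t ht => ?_
    · rw [← stab_lc, le_stab nt]
      exact ((inv_stab (L := P) (θ := θ)).mono le_rfl hDP).of_smul nt b e
    · obtain ⟨x, hx, y, hy, rfl⟩ := (Core.mem_sup_of_le_normalizer nt).mp (hH.sup_eq_top.ge (mem_top t))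
      exact mul_mem (a.inv.le_stab hx)
        ((le_stab nt).mpr c ⟨hy, (mul_mem_cancel_left (hPT hx)).mp ht⟩)
  obtain ⟨m, -, hm⟩ := a.deg
  have hpm : p ∣ m := dvd_of_not_ker hPp le_normalizer le_rfl a (fun k => hl (du_one fun x hx => by
    have := k x hx
    rw [e x hx, e 1 (one_mem _), Pi.smul_apply, Pi.smul_apply, lc_one] at this
    exact mul_left_cancel₀ b this)) hm
  refine loc_of ((Nat.coprime_primes hp.out hq.out).mpr hpq) n1 fun β u v d w => ?_
  obtain ⟨χ, x, -, y⟩ := exists_deg_mul (copP hPp hi) a (hT ▸ u) v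
  exact ⟨χ, x, (stabilizer G l).index * d * m, by rw [y, hT, w, hm]; push_cast; ring,
    hpm.mul_left _, dvd_mul_right _ _⟩

omit hi in
theorem claimZ [hr : Fact r.Prime] (hpr : p ≠ r) (n2 : ¬ Dg (⊤ : Subgroup G) (p * r)) {R : Sylow r G}
    [hX : ((R : Subgroup G) ⊔ P).Normal]
    (hR : (R : Subgroup G) ≤ centralizer ((⁅P, P⁆ : Subgroup G) : Set G))
    {l : Du ⁅P, P⁆} (hl : l ≠ 1) {x a : G} (hx : x ∈ P) (h : ∀ y ∈ P, lc l ⁅x, y⁆ = 1)
    (ha : a ∈ (R : Subgroup G)) : ⁅a, x⁆ ∈ ⁅P, P⁆ := by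
  by_contra hax
  set X := (R : Subgroup G) ⊔ P
  have hXD : X ≤ centralizer ((⁅P, P⁆ : Subgroup G) : Set G) := sup_le hR hD
  set M := kerS ⁅P, P⁆ (lc l)
  have cm : ∀ x ∈ P, ∀ y ∈ P, ⁅x, y⁆ ∈ ⁅P, P⁆ := fun x hx y hy => commutator_mem_commutator hx hy
  have cj' : ∀ g ∈ X, ∀ z ∈ ⁅P, P⁆, g * z * g⁻¹ = z := fun g hg z hz => by
    rw [← hXD hg z hz, mul_inv_cancel_right]
  let Z : Subgroup G :=
    { carrier := {x | x ∈ P ∧ ∀ y ∈ P, ⁅x, y⁆ ∈ M}
      mul_mem' := fun {u v} hu hv => ⟨P.mul_mem hu.1 hv.1, fun y hy => by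
        have : ⁅u * v, y⁆ = u * ⁅v, y⁆ * u⁻¹ * ⁅u, y⁆ := by simp only [commutatorElement_def]; group
        rw [this, cj' u (mem_sup_right hu.1) _ (cm v hv.1 y hy)]
        exact M.mul_mem (hv.2 y hy) (hu.2 y hy)⟩
      one_mem' := ⟨P.one_mem, fun y _ => by simp⟩
      inv_mem' := fun {u} hu => ⟨P.inv_mem hu.1, fun y hy => by
        have : ⁅u⁻¹, y⁆ = u⁻¹ * ⁅u, y⁆⁻¹ * u⁻¹⁻¹ := by simp only [commutatorElement_def]; group
        rw [this, cj' u⁻¹ (mem_sup_right (P.inv_mem hu.1)) _ (inv_mem (cm u hu.1 y hy))]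
        exact M.inv_mem (hu.2 y hy)⟩ }
  have hDZ : ⁅P, P⁆ ≤ Z := fun z hz => ⟨commutator_le_left P P hz, fun y hy => by
    rw [commutatorElement_eq_one_iff_mul_comm.mpr (hD hy z hz)]; exact M.one_mem⟩
  have hZX : ∀ g ∈ X, ∀ z ∈ Z, g * z * g⁻¹ ∈ Z := fun g hg z hz =>
    ⟨hP.conj_mem z hz.1 g, fun y hy => by
      have : ⁅g * z * g⁻¹, y⁆ = g * ⁅z, g⁻¹ * y * g⁆ * g⁻¹ := by
        simp only [commutatorElement_def]; group
      rw [this, cj' g hg _ (cm z hz.1 _ (hP.conj_mem' y hy g))]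
      exact hz.2 _ (hP.conj_mem' y hy g)⟩
  have hn : X ≤ normalizer (Z : Set G) := fun g hg => mem_normalizer_fintype (hZX g hg)
  have hxZ : x ∈ Z := ⟨hx, fun y hy =>
    (lc_irr l).chr.mem_kerS.mpr ⟨cm x hx y hy, (h y hy).trans (lc_one l).symm⟩⟩
  obtain ⟨z, hz, hzM⟩ := SetLike.not_le_iff_exists.mp (mt (du_one' (l := l)) hl)
  have hc : ⁅a, x⁆ ∈ Z := Z.mul_mem (hZX a (mem_sup_left ha) x hxZ) (Z.inv_mem hxZ)
  obtain ⟨ν, a1, a2, a3, a4, a5⟩ := lin2 (M := M) (kerS_le.trans hDZ)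
    (commutator_le.mpr fun u hu v hv => hu.2 v hv.1) (hDZ hz) hzM hc fun e => hax (kerS_le e)
  have hZl : Z ≤ X := fun u hu => mem_sup_right hu.1
  obtain ⟨χ, b1, b2, e, b3⟩ := deg_over hn hZl a1 (d := 1) (by simpa using a2)
  refine n2 (Dg.of_normal (N := X) ⟨χ, b1, _, b3,
    ((Nat.coprime_primes hp.out hr.out).mpr hpr).mul_dvd_of_dvd_of_dvd
      (dvd_of_not_ker hPp nt le_sup_right b1 (fun k => a4 ?_) b3)
      (Dvd.dvd.mul_left (Dvd.dvd.mul_right ?_ _) _)⟩)
  · exact (k.constit (b1.chr.res hZl) hDZ a1 b2 z hz).trans a2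
  · have hPs : P ≤ stab Z ν := (le_stab (le_sup_right.trans hn)).mpr fun y hy u hu => by
      have e1 : y * u * y⁻¹ = ⁅u, y⁆⁻¹ * u := by simp only [commutatorElement_def]; group
      have e2 := M.inv_mem (hu.2 y hy)
      rw [e1, a1.chr.mul_of_eq (hDZ (kerS_le e2)) (a3 _ e2) hu]
    obtain ⟨k, hk⟩ := R.isPGroup'.exists_card_eq
    have d1 := relIndex_dvd_of_le_left X hPs
    rw [relIndex_sup_right] at d1
    obtain ⟨j, -, hj⟩ := (Nat.dvd_prime_pow hr.out).mp (hk ▸ d1.trans (relIndex_dvd_card _ _))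
    rcases j with _ | j
    · have e1 := (mem_stab.mp (relIndex_eq_one.mp hj (mem_sup_left ha))).2 x hxZ
      rw [cj_apply, show a * x * a⁻¹ = ⁅a, x⁆ * x by simp [commutatorElement_def],
        a1.chr.map_mul a2 hc hxZ] at e1
      exact absurd (mul_right_cancel₀ (a1.chr.ne_zero a2 hxZ) (e1.trans (one_mul _).symm)) a5
    · exact hj ▸ dvd_pow_self r j.succ_ne_zero

end A

end Cfsg.Agent.H23.Pal
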