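import Mathlib
import Cfsg.Agent.H23.Pal5

/-! Pálfy's three primes theorem, conclusion. -/

set_option autoImplicit false

namespace Cfsg.Agent.H23.Pal

open Subgroup RegO MulAction Cfsg Isaacs
open scoped commutatorElement _root_.Classical Pointwise

universe u

section A
variable {G : Type*} [Group G] [Finite G] [Group.IsSolvable G] {p q r : ℕ}
  [hp : Fact p.Prime] {P : Subgroup G} [hP : P.Normal] (hPp : IsPGroup p P)
  (hi : ¬ p ∣ P.index) (h1 : ⁅P, P⁆ ≠ ⊥)
  (hmin : ∀ M : Subgroup G, M.Normal → M ≤ ⁅P, P⁆ → M = ⊥ ∨ M = ⁅P, P⁆)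
include hPp h1 hmin

omit [Group.IsSolvable G] in
theorem hDc : P ≤ centralizer ((⁅P, P⁆ : Subgroup G) : Set G) :=
  le_centralizer_iff.mp (inf_eq_left.mp ((hmin _ inferInstance inf_le_left).resolve_left
    (Core.inf_centralizer_ne_bot_of_isPGroup (hPp.to_le (commutator_le_left P P)) hPp nt h1)))

omit [Group.IsSolvable G] in
theorem duD : Nontrivial (Du ⁅P, P⁆) :=
  du_nontrivial (commutator_eq_bot_iff_le_centralizer.mpr
    ((commutator_le_left P P).trans (hDc hPp h1 hmin))).le h1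

include hi

theorem unA [hr : Fact r.Prime] (hpr : p ≠ r) (n2 : ¬ Dg (⊤ : Subgroup G) (p * r))
    (dr : Dg (⊤ : Subgroup G) r) {R : Sylow r G}
    (hR : (R : Subgroup G) ≤ centralizer ((⁅P, P⁆ : Subgroup G) : Set G)) :
    (∀ R R' : Sylow r G, (R' : Subgroup G) ≤ (R : Subgroup G) ⊔ P) ∧
      ¬ (R : Subgroup G) ≤ centralizer (P : Set G) := by
  have := duD hPp h1 hmin
  obtain ⟨l, hl⟩ := exists_ne (1 : Du ⁅P, P⁆)
  have h := fun R' R'' : Sylow r G => (locA hPp hi (hDc hPp h1 hmin) hpr n2 hl).uq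
    ((syl_le hR R').trans (cent_le_du l)) ((syl_le hR R'').trans (cent_le_du l))
  refine ⟨fun a b => (h a b).1, fun e => not_dg (Q := R) ?_ ?_ dr⟩
  · have := normal_sup fun R' => (h R R').1
    have e' : P ≤ normalizer ((R : Subgroup G) : Set G) :=
      (le_centralizer_iff.mp e).trans (centralizer_le_normalizer _)
    exact syl_normal (X := (R : Subgroup G) ⊔ P) le_sup_left (sup_le le_normalizer e')
  · exact le_trans (le_inf (h R R).2 (Core.commutator_le_of_le_normalizer le_normalizer))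
      (IsPGroup.disjoint_of_ne p r hpr _ _ hPp R.isPGroup').le_bot

theorem caseAd [hq : Fact q.Prime] [hr : Fact r.Prime] (hpq : p ≠ q) (hpr : p ≠ r) (hqr : q ≠ r)
    (n1 : ¬ Dg (⊤ : Subgroup G) (p * q)) (n2 : ¬ Dg (⊤ : Subgroup G) (p * r))
    (n3 : ¬ Dg (⊤ : Subgroup G) (r * q)) (dr : Dg (⊤ : Subgroup G) r) {Q : Sylow q G} {R : Sylow r G}
    (hQ : ¬ (Q : Subgroup G) ≤ centralizer ((⁅P, P⁆ : Subgroup G) : Set G))
    (hR : (R : Subgroup G) ≤ centralizer ((⁅P, P⁆ : Subgroup G) : Set G)) : False := by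
  obtain ⟨un, hRP⟩ := unA hPp hi h1 hmin hpr n2 dr hR
  have hD := hDc hPp h1 hmin
  have hX := normal_sup (un R)
  have hDP : ⁅P, P⁆ ≤ P := commutator_le_left P P
  have cop : (Nat.card (R : Subgroup G)).Coprime (Nat.card P) :=
    IsPGroup.coprime_card_of_ne r p hpr.symm _ _ R.isPGroup' hPp
  let f := QuotientGroup.mk' ⁅P, P⁆
  have nX : (((R : Subgroup G) ⊔ P).map f).Normal := hX.map f (QuotientGroup.mk'_surjective _)
  set C := P ⊓ (centralizer ((((R : Subgroup G) ⊔ P).map f : Subgroup _) : Set _)).comap f with hC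
  have mC : ∀ x ∈ P, (∀ a ∈ (R : Subgroup G), ⁅a, x⁆ ∈ ⁅P, P⁆) → x ∈ C := fun x hx h => by
    refine ⟨hx, le_centralizer_iff.mp (?_ : ((R : Subgroup G) ⊔ P).map f ≤
      centralizer (zpowers (f x) : Set _)) (mem_zpowers (f x))⟩
    have k : ∀ a, ⁅a, x⁆ ∈ ⁅P, P⁆ → f a ∈ centralizer (zpowers (f x) : Set _) := fun a e => by
      rintro _ ⟨k, rfl⟩
      refine (Commute.zpow_right (commutatorElement_eq_one_iff_commute.mp ?_) k).symm
      rw [← map_commutatorElement]
      exact (QuotientGroup.eq_one_iff _).mpr e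
    exact map_le_iff_le_comap.mpr (sup_le (fun a ha => k a (h a ha))
      fun a ha => k a (commutator_mem_commutator ha hx))
  have hCR : (R : Subgroup G) ≤ centralizer (C : Set G) := by
    refine Core.le_centralizer_of_commutator_le_of_centralizes _ C ⁅P, P⁆
      (cop.coprime_dvd_right (card_dvd_of_le hDP)) hR (commutator_le.mpr fun c hc a ha => ?_)
    refine (QuotientGroup.eq_one_iff _).mp ?_
    change f _ = 1
    rw [map_commutatorElement, commutatorElement_eq_one_iff_mul_comm]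
    exact (hc.2 _ (mem_map_of_mem f (mem_sup_left ha))).symm
  have hDC : ⁅P, P⁆ ≤ C := fun z hz => mC z (hDP hz) fun a ha => by
    rw [commutatorElement_eq_one_iff_mul_comm.mpr (hR ha z hz).symm]; exact one_mem _
  have hE : ⁅⁅P, (R : Subgroup G)⁆, C⁆ = ⊥ := by
    refine commutator_commutator_eq_bot_of_rotate ?_ ?_
    · rw [commutator_eq_bot_iff_le_centralizer.mpr hCR, commutator_bot_left]
    · exact commutator_eq_bot_iff_le_centralizer.mpr
        ((commutator_mono inf_le_left le_rfl).trans (le_centralizer_iff.mp hR))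
  obtain ⟨x, hx, hxC⟩ := SetLike.not_le_iff_exists.mp (fun e : ⁅P, (R : Subgroup G)⁆ ≤ C =>
    hRP (Core.le_centralizer_of_commutator_commutator_eq_bot _ _ nt cop
      (commutator_eq_bot_iff_le_centralizer.mpr (e.trans (le_centralizer_iff.mp hCR)))))
  have hxP : x ∈ P := commutator_le_left P _ hx
  have hxc : x ∈ centralizer (C : Set G) := commutator_eq_bot_iff_le_centralizer.mp hE hx
  let V : Subgroup (Du P) :=
    { carrier := {l | ∀ c : P, (c : G) ∈ C → l.h c = 1}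
      mul_mem' := fun {a b} ha hb c hc => by
        change a.h c * b.h c = 1
        rw [ha c hc, hb c hc, mul_one]
      one_mem' := fun _ _ => rfl
      inv_mem' := fun {a} ha c hc => by
        change (a.h c)⁻¹ = 1
        rw [ha c hc, inv_one] }
  have hV : ∀ g : G, ∀ l ∈ V, g • l ∈ V := fun g l hl c hc =>
    hl _ ((inferInstance : C.Normal).conj_mem _ hc g⁻¹)
  have locV : ∀ l ∈ V, l ≠ 1 → Loc P (stabilizer G l) q := fun l hl hl1 => by
    refine loc_of ((Nat.coprime_primes hr.out hq.out).mpr hqr.symm) n3 fun β a b d c => ?_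
    obtain ⟨χ, u, -, v⟩ := exists_deg_mul (copP hPp hi) (lc_irr l) (stab_lc l ▸ a) b
    refine ⟨χ, u, _, by rw [v, stab_lc, c, lc_one, mul_one, ← Nat.cast_mul],
      Dvd.dvd.mul_right ?_ _, dvd_rfl⟩
    by_contra e
    obtain ⟨R', e⟩ := FGS.exists_sylow_le_of_not_dvd_index e
    refine hl1 (du_one' ((Core.commutator_sup_centralizer _ P nt cop (Or.inl inferInstance)).ge.trans
      (sup_le ?_ fun c hc => ?_)))
    · rw [commutator_comm]
      exact du_ker ((un R' R).trans (sup_le e (le_stab_du l)))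
    · refine (lc_irr l).chr.mem_kerS.mpr ⟨hc.1, ?_⟩
      rw [lc_one, lc_mem l hc.1, hl ⟨c, hc.1⟩ (mC c hc.1 fun a ha => ?_), Units.val_one]
      rw [commutatorElement_eq_one_iff_mul_comm.mpr (hc.2 a ha)]; exact one_mem _
  have hf := QuotientGroup.mk'_surjective P
  letI a1 : MulDistribMulAction (G ⧸ P) (Du P) := MulDistribMulAction.compHom _
    (QuotientGroup.lift P (MulDistribMulAction.toMulAut G (Du P)) fun g hg =>
      MulEquiv.ext fun l => le_stab_du l hg)
  letI a2 : MulDistribMulAction (G ⧸ P) (Du ⁅P, P⁆) := MulDistribMulAction.compHom _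
    (QuotientGroup.lift P (MulDistribMulAction.toMulAut G (Du ⁅P, P⁆)) fun g hg =>
      MulEquiv.ext fun l => cent_le_du l (hD hg))
  have c1 := count V (fun l hl => (locV l hl.1 hl.2).pc hf (fun _ _ => rfl)
    (QuotientGroup.ker_mk' P).ge) (fun g => by
      obtain ⟨g, rfl⟩ := hf g
      exact hV g) (Q.mapSurjective hf)
  have c2 := count (⊤ : Subgroup (Du ⁅P, P⁆)) (fun l hl => (locA hPp hi hD hpq n1 hl.2).pc hf
    (fun _ _ => rfl) (QuotientGroup.ker_mk' P).ge) (fun _ _ _ => mem_top _) (Q.mapSurjective hf)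
  obtain ⟨ν, v1, v2, v3, v4, -⟩ := lin2 (M := C) inf_le_left hDC hxP hxC hxP hxC
  obtain ⟨l₀, hl₀⟩ := exists_du v1 v2
  have m₀ : l₀ ∈ V := fun c hc => Units.ext (by
    rw [← lc_mem l₀ c.2, hl₀ c c.2, v3 c hc, v2]; rfl)
  have n₀ : l₀.h ⟨x, hxP⟩ ≠ 1 := fun e => v4 (by rw [← hl₀ x hxP, lc_mem _ hxP, e]; rfl)
  have pV := du_pgroup hPp
  have pW := du_pgroup (hPp.to_le hDP)
  have := duD hPp h1 hmin
  have e := arith2 hp.out (pV.to_subgroup V).exists_card_eq (pV.to_subgroup _).exists_card_eq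
    (pW.to_subgroup ⊤).exists_card_eq (pW.to_subgroup _).exists_card_eq
    ((one_lt_card_iff_ne_bot V).mpr fun e => n₀ (by rw [mem_bot.mp (e.le m₀)]; rfl))
    (lt_of_le_of_ne (card_le_of_le inf_le_left) fun e => by
      have e' := eq_of_le_of_card_ge inf_le_left e.ge
      obtain ⟨l, hl⟩ := exists_ne (1 : Du ⁅P, P⁆)
      let φ := MulDistribMulAction.toMulAut G (Du ⁅P, P⁆)
      refine hQ (le_trans (fun a ha => MulEquiv.ext fun w => ?_ : _ ≤ φ.ker)
        (irG (X := φ.ker) hmin hl fun g hg =>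
          congrArg (fun y : MulAut (Du ⁅P, P⁆) => y l) (MonoidHom.mem_ker.mp hg)))
      exact (e'.ge (mem_top w)).2 _ (mem_map_of_mem _ ha)) c1 c2
  have cm : ∀ y : P, ⁅x, (y : G)⁆ ∈ ⁅P, P⁆ := fun y => commutator_mem_commutator hxP y.2
  let κ : P →* (⁅P, P⁆ : Subgroup G) := MonoidHom.mk' (fun y => ⟨_, cm y⟩) fun y z => Subtype.ext (by
    change ⁅x, (y : G) * z⁆ = ⁅x, (y : G)⁆ * ⁅x, (z : G)⁆
    have : ⁅x, (y : G) * z⁆ = ⁅x, (y : G)⁆ * (y * ⁅x, (z : G)⁆ * (y : G)⁻¹) := by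
      simp only [commutatorElement_def]; group
    rw [this, ← hD y.2 _ (cm z), mul_inv_cancel_right])
  let B : (⊤ : Subgroup (Du ⁅P, P⁆)) → V := fun m => ⟨(m.1.h.comp κ : P →* ℂˣ), fun c hc => by
    change m.1.h (κ c) = 1
    rw [show κ c = 1 from Subtype.ext (commutatorElement_eq_one_iff_mul_comm.mpr (hxc c hc).symm),
      map_one]⟩
  have inj : Function.Injective B := fun m m' e => by
    by_contra hne
    have h2 : m.1 / m'.1 ≠ 1 := fun e => hne (Subtype.ext (div_eq_one.mp e))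
    refine hxC (mC x hxP fun a ha => claimZ hPp hD hpr n2 hR h2 hxP (fun y hy => ?_) ha)
    have := congrArg (fun l : V => l.1.h ⟨y, hy⟩) e
    rw [lc_mem _ (cm ⟨y, hy⟩)]
    exact Units.val_eq_one.mpr (div_eq_one.mpr this)
  obtain ⟨m, hm⟩ := ((Nat.bijective_iff_injective_and_card B).mpr ⟨inj, e.symm⟩).2 ⟨l₀, m₀⟩
  refine n₀ ((congrArg (fun l : V => l.1.h ⟨x, hxP⟩) hm).symm.trans ?_)
  change m.1.h (κ ⟨x, hxP⟩) = 1
  rw [show κ ⟨x, hxP⟩ = 1 from Subtype.ext (commutatorElement_self x), map_one]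

theorem caseA [hq : Fact q.Prime] [hr : Fact r.Prime] (hpq : p ≠ q) (hpr : p ≠ r) (hqr : q ≠ r)
    (n1 : ¬ Dg (⊤ : Subgroup G) (p * q)) (n2 : ¬ Dg (⊤ : Subgroup G) (p * r))
    (dq : Dg (⊤ : Subgroup G) q) (dr : Dg (⊤ : Subgroup G) r) : Dg (⊤ : Subgroup G) (q * r) := by
  by_contra n3
  obtain ⟨Q⟩ : Nonempty (Sylow q G) := inferInstance
  obtain ⟨R⟩ : Nonempty (Sylow r G) := inferInstance
  have hD := hDc hPp h1 hmin
  have hDP : ⁅P, P⁆ ≤ P := commutator_le_left P P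
  by_cases hQ : (Q : Subgroup G) ≤ centralizer ((⁅P, P⁆ : Subgroup G) : Set G)
  · by_cases hR : (R : Subgroup G) ≤ centralizer ((⁅P, P⁆ : Subgroup G) : Set G)
    · have key : ∀ (q : ℕ) [hq : Fact q.Prime], p ≠ q → ¬ Dg (⊤ : Subgroup G) (p * q) →
          Dg (⊤ : Subgroup G) q → ∀ Q : Sylow q G,
          (Q : Subgroup G) ≤ centralizer ((⁅P, P⁆ : Subgroup G) : Set G) → ∃ c ∈ P, c ∉ ⁅P, P⁆ ∧
          ∀ l : Du P, lc l c ≠ 1 → q ∣ (stabilizer G l).index := fun q hq hpq n d Q hQ => by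
        obtain ⟨un, h⟩ := unA hPp hi h1 hmin hpq n d hQ
        have := mt (cent_of_le ((Nat.coprime_primes hq.out hp.out).mpr hpq.symm) hPp) h
        push Not at this
        obtain ⟨a, ha, x, hx, e⟩ := this
        refine ⟨_, commutator_le_right ⊤ P (commutator_mem_commutator (mem_top a) hx), e, fun l hl => ?_⟩
        by_contra e
        obtain ⟨Q', e⟩ := FGS.exists_sylow_le_of_not_dvd_index e
        exact hl (du_comm (((un Q' Q).trans (sup_le e (le_stab_du l))) ha) hx)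
      obtain ⟨c, c1, c2, c3⟩ := key q hpq n1 dq Q hQ
      obtain ⟨d, d1, d2, d3⟩ := key r hpr n2 dr R hR
      obtain ⟨ν, v1, v2, -, v3, v4⟩ := lin2 hDP le_rfl c1 c2 d1 d2
      obtain ⟨l, hl⟩ := exists_du v1 v2
      obtain ⟨χ, a, -, e, b⟩ := deg_over (X := ⊤) nt le_top (lc_irr l) (d := 1) (by simpa using lc_one l)
      refine n3 ⟨χ, a, _, b, Dvd.dvd.mul_left (Dvd.dvd.mul_right ?_ _) _⟩
      rw [relIndex_top_right, stab_lc]
      exact ((Nat.coprime_primes hq.out hr.out).mpr hqr).mul_dvd_of_dvd_of_dvd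
        (c3 l (hl c c1 ▸ v3)) (d3 l (hl d d1 ▸ v4))
    · exact caseAd hPp hi h1 hmin hpr hpq hqr.symm n2 n1 n3 dq hR hQ
  · by_cases hR : (R : Subgroup G) ≤ centralizer ((⁅P, P⁆ : Subgroup G) : Set G)
    · exact caseAd hPp hi h1 hmin hpq hpr hqr n1 n2 (mul_comm q r ▸ n3) dr hQ hR
    · exact n3 (KLG (hPp.to_le hDP) (commutator_eq_bot_iff_le_centralizer.mpr (hDP.trans hD)).le h1
        hmin hD hqr (fun l hl => locA hPp hi hD hpq n1 hl) (fun l hl => locA hPp hi hD hpr n2 hl) hQ hR)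

end A

/-- The statement for one group. -/
def St (G : Type*) [Group G] : Prop := Group.IsSolvable G → ∀ p q r : ℕ, p.Prime → q.Prime → r.Prime →
  p ≠ q → p ≠ r → q ≠ r → Dg (⊤ : Subgroup G) p → Dg (⊤ : Subgroup G) q → Dg (⊤ : Subgroup G) r →
  ¬ Dg (⊤ : Subgroup G) (p * q) → ¬ Dg (⊤ : Subgroup G) (p * r) → Dg (⊤ : Subgroup G) (q * r)

theorem caseA' {G : Type u} [Group G] [Finite G] [Group.IsSolvable G]
    (ih : ∀ (H : Type u) [Group H] [Finite H], Nat.card H < Nat.card G → St H) {p q r : ℕ}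
    [hp : Fact p.Prime] [hq : Fact q.Prime] [hr : Fact r.Prime] (hpq : p ≠ q) (hpr : p ≠ r)
    (hqr : q ≠ r) (dp : Dg (⊤ : Subgroup G) p) (dq : Dg (⊤ : Subgroup G) q)
    (dr : Dg (⊤ : Subgroup G) r) (n1 : ¬ Dg (⊤ : Subgroup G) (p * q))
    (n2 : ¬ Dg (⊤ : Subgroup G) (p * r)) (P : Sylow p G) (hP : (P : Subgroup G).Normal) :
    Dg (⊤ : Subgroup G) (q * r) := by
  have h1 : ⁅(P : Subgroup G), (P : Subgroup G)⁆ ≠ ⊥ := fun e => not_dg hP e.le dp
  obtain ⟨N, hN, a, b, c⟩ := Core.exists_minimal_normal_le _ h1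
  by_cases e : N = ⁅(P : Subgroup G), (P : Subgroup G)⁆
  · exact caseA P.isPGroup' P.not_dvd_index h1 (e ▸ c) hpq hpr hqr n1 n2 dq dr
  have hf := QuotientGroup.mk'_surjective N
  have U : ∀ (q : ℕ) [Fact q.Prime], ¬ Dg (⊤ : Subgroup (G ⧸ N)) q → ∀ Q Q' : Sylow q G,
      (Q' : Subgroup G) ≤ (Q : Subgroup G) ⊔ N ∧ ⁅(Q : Subgroup G), (Q : Subgroup G)⁆ ≤ N :=
    fun q _ h Q Q' => uq (T := ⊤) (by
      rw [← MonoidHom.range_eq_map, MonoidHom.range_eq_top.mpr hf]
      exact cd_of h) le_top le_top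
  have hNP : N ≤ P := b.trans (commutator_le_left _ _)
  have key : ∀ (q : ℕ) [Fact q.Prime], p ≠ q → Dg (⊤ : Subgroup G) q →
      Dg (⊤ : Subgroup (G ⧸ N)) q := fun q hq hpq d => by
    by_contra h
    obtain ⟨Q⟩ : Nonempty (Sylow q G) := inferInstance
    have := normal_sup fun Q' => (U q h Q Q').1
    have hd := IsPGroup.disjoint_of_ne p q hpq _ _ P.isPGroup' Q.isPGroup'
    have e1 : (Q : Subgroup G) ≤ centralizer ((P : Subgroup G) : Set G) :=
      cent_of_le ((Nat.coprime_primes hq.out hp.out).mpr hpq.symm) P.isPGroup' fun a ha x hx => by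
        have u := commutator_le_left ((Q : Subgroup G) ⊔ N) ⊤
          (commutator_mem_commutator (mem_sup_left ha) (mem_top x))
        have v := commutator_le_right ⊤ (P : Subgroup G) (commutator_mem_commutator (mem_top a) hx)
        obtain ⟨y, hy, z, hz, e⟩ := (Core.mem_sup_of_le_normalizer' nt).mp u
        have : y = 1 := disjoint_def.mp hd
          (by rw [e] at v; exact (mul_mem_cancel_right (hNP hz)).mp v) hy
        rw [e, this, one_mul]
        exact b hz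
    have e' : N ≤ normalizer ((Q : Subgroup G) : Set G) :=
      hNP.trans ((le_centralizer_iff.mp e1).trans (centralizer_le_normalizer _))
    exact not_dg (syl_normal (X := (Q : Subgroup G) ⊔ N) le_sup_left (sup_le le_normalizer e'))
      (le_trans (le_inf ((U q h Q Q).2.trans hNP) (Core.commutator_le_of_le_normalizer le_normalizer))
        hd.le_bot) d
  refine Dg.of_surj hf (ih _ (Core.card_quotient_lt N a) inferInstance p q r hp.out hq.out hr.out hpq hpr
    hqr ?_ (key q hpq dq) (key r hpr dr) (mt (Dg.of_surj hf) n1) (mt (Dg.of_surj hf) n2))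
  by_contra h
  exact e (le_antisymm b (U p h P P).2)

theorem main (G : Type u) [Group G] [Finite G] : St G := by
  refine Core.induction_on_card (P := fun G _ _ => St G) (fun G _ _ ih => ?_) G
  intro hs p q r hp hq hr hpq hpr hqr dp dq dr n1 n2
  have := Fact.mk hp
  have := Fact.mk hq
  have := Fact.mk hr
  by_contra n3
  obtain ⟨P⟩ : Nonempty (Sylow p G) := inferInstance
  obtain ⟨Q⟩ : Nonempty (Sylow q G) := inferInstance
  obtain ⟨R⟩ : Nonempty (Sylow r G) := inferInstance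
  have n1' := mul_comm p q ▸ n1
  have n2' := mul_comm p r ▸ n2
  have n3' := mul_comm q r ▸ n3
  have hP := mt (caseA' ih hpq hpr hqr dp dq dr n1 n2 P) n3
  have hQ := mt (caseA' ih hpq.symm hqr hpr dq dp dr n1' n3 Q) n2
  have hR := mt (caseA' ih hpr.symm hqr.symm hpq dr dp dq n2' n3' R) n1
  obtain ⟨N, hN, a, -, c⟩ := Core.exists_minimal_normal_le (⊤ : Subgroup G) fun e =>
    hP (by rw [eq_bot_iff.mpr (le_top.trans e.le : (P : Subgroup G) ≤ ⊥)]; infer_instance)
  have hf := QuotientGroup.mk'_surjective N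
  by_cases e1 : Dg (⊤ : Subgroup (G ⧸ N)) p
  · by_cases e2 : Dg (⊤ : Subgroup (G ⧸ N)) q
    · by_cases e3 : Dg (⊤ : Subgroup (G ⧸ N)) r
      · exact n3 (Dg.of_surj hf (ih _ (Core.card_quotient_lt N a) inferInstance p q r hp hq hr hpq hpr
          hqr e1 e2 e3 (mt (Dg.of_surj hf) n1) (mt (Dg.of_surj hf) n2)))
      · exact n1 (caseB hpr.symm hqr.symm hpq a c e3 R P Q hR hP hQ n2' n3')
    · exact n2 (caseB hpq.symm hqr hpr a c e2 Q P R hQ hP hR n1' n3)
  · exact n3 (caseB hpq hpr hqr a c e1 P Q R hP hQ hR n1 n2)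

end Cfsg.Agent.H23.Pal
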