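import Mathlib
import Cfsg.Agent.FGS.FT
import Cfsg.Agent.FGS.Basic
import Cfsg.Agent.BG.Defs

/-!
# Hall subgroups of `π`-separable groups
-/

set_option autoImplicit false

namespace Cfsg.Agent.H23.Sep

open Subgroup Cfsg.Agent.BG
open scoped Pointwise

variable {G : Type*} [Group G] [Finite G] {π : Set ℕ}

theorem coprime_of_pi {a b : ℕ} (ha : IsPiNat π a) (hb : IsPiNat πᶜ b) : a.Coprime b :=
  Nat.coprime_of_dvd fun q hq h1 h2 => hb q hq h2 (ha q hq h1)

theorem pi_mul {a b : ℕ} (ha : IsPiNat π a) (hb : IsPiNat π b) : IsPiNat π (a * b) :=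
  fun q hq h => ((Nat.Prime.dvd_mul hq).1 h).elim (ha q hq) (hb q hq)

/-- `K / N` is a Hall `π`-subgroup of `G / N` absorbing all `π`-subgroups up to conjugacy. -/
def Abs (π : Set ℕ) (N K : Subgroup G) : Prop :=
  N ≤ K ∧ IsPiNat π (N.relIndex K) ∧ IsPiNat πᶜ K.index ∧
    ∀ U : Subgroup G, IsPiNat π (Nat.card U) → ∃ g : G, MulAut.conj g • U ≤ K

theorem Abs.step {N M K : Subgroup G} [N.Normal] [M.Normal] (hNM : N ≤ M) (h : Abs π M K)
    (hi : IsPiNat π (N.relIndex M) ∨ IsPiNat πᶜ (N.relIndex M)) : ∃ L, Abs π N L := by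
  obtain ⟨h1, h2, h3, h4⟩ := h
  rcases hi with hi | hi
  · exact ⟨K, hNM.trans h1, relIndex_mul_relIndex _ _ _ hNM h1 ▸ pi_mul hi h2, h3, h4⟩
  have hs := QuotientGroup.mk'_surjective N
  have hc : ∀ X : Subgroup G, Nat.card (X.map (QuotientGroup.mk' N)) = N.relIndex X := fun X => by
    rw [← relIndex_ker, QuotientGroup.ker_mk']
  have hr : (M.map (QuotientGroup.mk' N)).relIndex (K.map (QuotientGroup.mk' N)) =
      M.relIndex K := by
    rw [relIndex_map_map, QuotientGroup.ker_mk', sup_eq_left.2 hNM, sup_eq_left.2 (hNM.trans h1)]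
  have : (M.map (QuotientGroup.mk' N)).Normal := Normal.map inferInstance _ hs
  obtain ⟨H, hH, -, hsup, hcard⟩ := Core.exists_complement_in (M.map (QuotientGroup.mk' N))
    (K.map (QuotientGroup.mk' N)) (map_mono h1) le_normalizer_of_normal
    (by rw [hc, hr]; exact (coprime_of_pi h2 hi).symm)
  have hN : N ≤ H.comap (QuotientGroup.mk' N) := QuotientGroup.le_comap_mk' N H
  have hK : M ⊔ H.comap (QuotientGroup.mk' N) = K := by
    rw [← comap_map_eq_self (f := QuotientGroup.mk' N) (H := K)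
      (by rw [QuotientGroup.ker_mk']; exact hNM.trans h1), ← hsup, ← comap_sup_eq _ _ _ hs,
      comap_map_eq_self (by rw [QuotientGroup.ker_mk']; exact hNM)]
  have h5 : N.relIndex (H.comap (QuotientGroup.mk' N)) = M.relIndex K := by
    rw [← hc, map_comap_eq_self_of_surjective hs, hcard, hr]
  have hL : H.comap (QuotientGroup.mk' N) ≤ K := hK ▸ le_sup_right
  refine ⟨H.comap (QuotientGroup.mk' N), hN, h5 ▸ h2, ?_, fun U hU => ?_⟩
  · have h6 : (H.comap (QuotientGroup.mk' N)).relIndex K = N.relIndex M := by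
      have e1 := relIndex_mul_relIndex _ _ _ hN hL
      rw [← relIndex_mul_relIndex _ _ _ hNM h1, h5, mul_comm (N.relIndex M)] at e1
      exact Nat.eq_of_mul_eq_mul_left (Nat.pos_of_ne_zero index_ne_zero_of_finite) e1
    rw [← relIndex_mul_index hL, h6]
    exact pi_mul hi h3
  · obtain ⟨g, hg⟩ := h4 U hU
    obtain ⟨d, -, hd⟩ := FGS.exists_conj_le_mod N (D := M) hN
      (by rw [FGS.card_conj]; exact coprime_of_pi hU hi) (hK ▸ hg)
    exact ⟨d * g, by rwa [map_mul, mul_smul]⟩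

theorem exists_abs {n : ℕ} (H : Fin (n + 1) → Subgroup G) (h0 : H 0 = ⊥) (h1 : H (Fin.last n) = ⊤)
    (hm : Monotone H) (hn : ∀ i, (H i).Normal)
    (hi : ∀ i : Fin n, IsPiNat π ((H i.castSucc).relIndex (H i.succ)) ∨
      IsPiNat πᶜ ((H i.castSucc).relIndex (H i.succ))) : ∃ K : Subgroup G, Abs π ⊥ K := by
  rw [← h0]
  refine Fin.reverseInduction (motive := fun i => ∃ K, Abs π (H i) K) ?_ (fun i ⟨K, hK⟩ => ?_) 0
  · rw [h1]
    refine ⟨⊤, le_rfl, ?_, ?_, fun U _ => ⟨1, le_top⟩⟩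
    · rw [relIndex_self]
      exact fun q hq h => absurd (Nat.dvd_one.1 h) hq.ne_one
    · rw [index_top]
      exact fun q hq h => absurd (Nat.dvd_one.1 h) hq.ne_one
  · have := hn i.castSucc
    have := hn i.succ
    exact hK.step (hm (Fin.castSucc_le_succ i)) (hi i)

theorem Abs.hall {K : Subgroup G} (h : Abs π ⊥ K) : IsPiHall π K :=
  ⟨relIndex_bot_left K ▸ h.2.1, fun q hq h1 h2 => h.2.2.1 q hq h2 h1⟩

theorem Abs.conj {K L : Subgroup G} (h : Abs π ⊥ K) (hL : IsPiHall π L) :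
    ∃ g : G, MulAut.conj g • L = K := by
  obtain ⟨g, hg⟩ := h.2.2.2 L hL.1
  refine ⟨g, le_antisymm hg (relIndex_eq_one.1 (Nat.eq_one_iff_not_exists_prime_dvd.2
    fun q hq hd => hL.2 q hq (h.hall.1 q hq (hd.trans (relIndex_dvd_card _ _))) ?_))⟩
  rw [← FGS.index_conj L g]
  exact hd.trans (relIndex_dvd_index_of_le hg)

end Cfsg.Agent.H23.Sep
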