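import Mathlib
import Cfsg.Agent.H23.RegO2

set_option autoImplicit false

namespace Cfsg.Agent.H23.RegO

open Subgroup
open scoped commutatorElement _root_.Classical Pointwise

universe u

theorem le_pCore {p : ℕ} [hp : Fact p.Prime] (hp2 : p ≠ 2) (n : ℕ) : ∀ (G : Type u) [Group G] [Finite G],
    Nat.card G = n → Group.IsSolvable G → ∀ A : Subgroup G, IsPGroup p A →
    (∀ c : G, ∃ g : G, IsConj c g ∧ IsPGroup p ↥(A ⊔ A.map (MulAut.conj g).toMonoidHom)) → A ≤ pCore p G := by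
  induction n using Nat.strong_induction_on with
  | _ n ih =>
  intro G _ _ hn hs A hA h
  rcases subsingleton_or_nontrivial G with h1 | h1
  · exact fun a _ => by rw [Subsingleton.elim a 1]; exact one_mem _
  obtain ⟨N, q, hN, hN1, -, hq, hE, hmin⟩ := Core.exists_minimal_normal_elementary_le (⊤ : Subgroup G)
    inferInstance top_ne_bot
  let π := QuotientGroup.mk' N
  have h2 := ih _ (by
      rw [← hn, card_eq_card_quotient_mul_card_subgroup N]
      exact lt_mul_of_one_lt_right Nat.card_pos ((one_lt_card_iff_ne_bot N).mpr hN1)) (G ⧸ N) rfl inferInstance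
    (A.map π) (hA.map π) fun c => by
      obtain ⟨c, rfl⟩ := QuotientGroup.mk'_surjective N c
      obtain ⟨g, h1, h2⟩ := h c
      refine ⟨π g, π.map_isConj h1, ?_⟩
      have := h2.map π
      rw [Subgroup.map_sup, map_map] at this
      rwa [map_map, show (MulAut.conj (π g)).toMonoidHom.comp π = π.comp (MulAut.conj g).toMonoidHom from
        MonoidHom.ext fun x => by simp [π]]
  have hNq := Core.IsElementaryAbelian.isPGroup hE
  by_cases hqp : q = p
  · subst hqp
    rw [← Core.comap_pCore_quotient q N hNq]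
    exact map_le_iff_le_comap.mp h2
  haveI := Fact.mk hq
  let K := normalClosure (A : Set G) ⊔ N
  have hKp : IsPGroup p (K.map π) := (Core.pCore_isPGroup p).to_le (map_le_iff_le_comap.mpr
    (sup_le (normalClosure_le_normal (map_le_iff_le_comap.mp h2)) fun x hx => by
      rw [mem_comap, show π x = 1 from (QuotientGroup.eq_one_iff x).mpr hx]; exact one_mem _))
  have hAK : A ≤ K := le_normalClosure.trans le_sup_left
  obtain ⟨S, hS⟩ := (hA.comap_subtype (K := K)).exists_le_sylow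
  let P := (S : Subgroup K).map K.subtype
  have hP : IsPGroup p P := S.isPGroup'.map _
  have hAP : A ≤ P := fun a ha => ⟨⟨a, hAK ha⟩, hS ha, rfl⟩
  have hPK : P ≤ K := map_subtype_le _
  have hNP : ∀ {Q : Subgroup G}, IsPGroup p Q → ∀ x ∈ N, x ∈ Q → x = 1 := fun hQ x h1 h2 =>
    disjoint_def.mp (IsPGroup.disjoint_of_ne q p hqp _ _ hNq hQ) h1 h2
  have hK : N ⊔ P = K := by
    refine le_antisymm (sup_le le_sup_right hPK) ?_
    have h3 : (N.subgroupOf K ⊔ S : Subgroup K) = ⊤ := by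
      rw [← index_eq_one]
      obtain ⟨k, hk⟩ := hKp.exists_card_eq
      have h4 : (N.subgroupOf K).index = p ^ k := by
        rw [← hk, ← MonoidHom.restrict_range, ← index_ker, MonoidHom.ker_restrict, QuotientGroup.ker_mk']
      exact Nat.eq_one_of_dvd_coprimes (((Nat.Prime.coprime_iff_not_dvd hp.out).mpr S.not_dvd_index).pow_left k)
        (h4 ▸ index_dvd_of_le le_sup_left) (index_dvd_of_le le_sup_right)
    have := congrArg (map K.subtype) h3
    rw [Subgroup.map_sup, map_subgroupOf_eq_of_le le_sup_right, ← MonoidHom.range_eq_map, range_subtype] at this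
    exact this.ge
  let M := normalizer (P : Set G)
  have hPM : P ≤ M := le_normalizer
  have hG : N ⊔ M = ⊤ := by
    rw [eq_top_iff, ← S.normalizer_sup_eq_top]
    exact sup_le le_sup_right (hK.ge.trans (sup_le_sup_left hPM _))
  have dec : ∀ g : G, ∃ v ∈ N, ∃ m ∈ M, v * m = g := fun g =>
    (PGrp.mem_sup_of_le_normalizer (fun r _ => PGrp.mem_normalizer_of_normal N r)).mp (hG ▸ mem_top g)
  have cN : ∀ {x y}, x ∈ N → y ∈ N → x * y = y * x := Core.comm_of_isMulCommutative hE.1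
  rcases hmin (N ⊓ centralizer P) (PGrp.normal_iff_top_le_normalizer.mpr (hG ▸ sup_le
    (fun v hv => PGrp.mem_normalizer_of_conj_mem fun x hx => by rwa [cN hv hx.1, mul_inv_cancel_right])
    (Core.le_normalizer_inf (fun g _ => PGrp.mem_normalizer_of_normal N g)
      (Core.normalizer_le_normalizer_centralizer _)))) inf_le_left with h3 | h3
  swap
  · refine hAP.trans (Core.le_pCore (PGrp.normal_iff_top_le_normalizer.mpr (hG ▸ sup_le ?_ le_rfl)) hP)
    exact (inf_eq_left.mp h3).trans (centralizer_le_normalizer _)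
  letI : CommGroup N := { (inferInstance : Group N) with mul_comm := hE.1.is_comm.comm }
  letI : MulDistribMulAction M N := MulDistribMulAction.compHom N ((MulAut.conjNormal (H := N)).comp M.subtype)
  have hsm : ∀ (m : M) (v : N), ((m • v : N) : G) = m * v * (m : G)⁻¹ := fun m v => rfl
  haveI : Nontrivial N := (nontrivial_iff_ne_bot _).mpr hN1
  obtain ⟨v, C, hC, hPC, hv⟩ := star hp2 _ N rfl (by
      obtain ⟨k, hk⟩ := hNq.exists_card_eq
      exact hk ▸ ((Nat.coprime_primes hq hp.out).mpr hqp).pow_left k) M (P.subgroupOf M) hP.comap_subtype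
    (eq_bot_iff.mpr fun v hv => Subtype.ext (h3.le ⟨v.2, fun g hg =>
      mul_inv_eq_iff_eq_mul.mp (congrArg Subtype.val (hv ⟨g, hPM hg⟩ hg))⟩))
  exfalso
  obtain ⟨g, hg, hpg⟩ := h v
  obtain ⟨c, rfl⟩ := isConj_iff.mp hg
  obtain ⟨u, hu, m, hm, rfl⟩ := dec c
  have hw : m * v * m⁻¹ ∈ N := hN.conj_mem _ v.2 m
  rw [show u * m * v * (u * m)⁻¹ = u * (m * v * m⁻¹) * u⁻¹ by group, cN hu hw, mul_inv_cancel_right] at hpg
  have hAC : ∀ a (ha : a ∈ A), (⟨a, hPM (hAP ha)⟩ : M) ∈ C := fun a ha => by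
    have e := hNP hpg (m * v * m⁻¹ * (a * (m * v * m⁻¹)⁻¹ * a⁻¹)) (mul_mem hw (hN.conj_mem _ (inv_mem hw) a)) (by
      rw [← mul_assoc, ← mul_assoc]
      exact mul_mem (mem_sup_right ⟨a, ha, rfl⟩) (mem_sup_left (inv_mem ha)))
    have := hC.conj_mem _ (hv ((⟨m, hm⟩ : M)⁻¹ * ⟨a, hPM (hAP ha)⟩ * ⟨m, hm⟩)
      (PGrp.conj_mem_of_mem_normalizer' hm (hAP ha)) (Subtype.ext ?_)) ⟨m, hm⟩
    · rwa [mul_assoc, mul_assoc, mul_inv_cancel, mul_one, mul_inv_cancel_left] at this
    · rw [hsm]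
      change m⁻¹ * a * m * v * (m⁻¹ * a * m)⁻¹ = v
      rw [show m⁻¹ * a * m * v * (m⁻¹ * a * m)⁻¹ = m⁻¹ * (m * v * m⁻¹ * (a * (m * v * m⁻¹)⁻¹ * a⁻¹))⁻¹ * m * v
        by group, e]
      group
  let D := (C ⊓ P.subgroupOf M).map M.subtype
  have hD : M ≤ normalizer (D : Set G) := fun g hg => PGrp.mem_normalizer_of_conj_mem (by
    rintro _ ⟨c, hc, rfl⟩
    exact ⟨_, (inferInstance : (C ⊓ P.subgroupOf M).Normal).conj_mem c hc ⟨g, hg⟩, rfl⟩)
  haveI : (N ⊔ D).Normal := PGrp.normal_iff_top_le_normalizer.mpr (hG ▸ sup_le (le_sup_left.trans le_normalizer)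
    (Core.le_normalizer_sup (fun g _ => PGrp.mem_normalizer_of_normal N g) hD))
  have hKD : K ≤ N ⊔ D := sup_le (normalClosure_le_normal fun a ha =>
    mem_sup_right ⟨_, ⟨hAC a ha, hAP ha⟩, rfl⟩) le_sup_left
  refine hPC fun x hx => ?_
  obtain ⟨y, hy, _, ⟨d, hd, rfl⟩, e⟩ :=
    (PGrp.mem_sup_of_le_normalizer (fun r _ => PGrp.mem_normalizer_of_normal N r)).mp (hKD (hPK hx))
  rw [hNP hP y hy (eq_mul_inv_of_mul_eq e ▸ mul_mem hx (inv_mem hd.2)), one_mul] at e
  exact (Subtype.ext e : d = x) ▸ hd.1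

theorem main {G : Type*} [Group G] [Finite G] (hG : Group.IsSolvable G) (p : ℕ) [Fact p.Prime] (hp : p ≠ 2)
    (A : Subgroup G) (hA : IsPGroup p A)
    (h : ∀ c : G, ∃ g : G, IsConj c g ∧ (A.subgroupOf (A ⊔ MulAut.conj g • A)).IsSubnormal) :
    A ≤ pCore p G := by
  refine le_pCore hp _ G rfl hG A hA fun c => ?_
  obtain ⟨g, h1, h2⟩ := h c
  refine ⟨g, h1, ?_⟩
  change IsPGroup p ↥(A ⊔ MulAut.conj g • A)
  set H := A ⊔ MulAut.conj g • A
  have h3 := Core.le_pCore_of_isSubnormal h2 hA.comap_subtype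
  have h4 : IsPGroup p ↥(pCore p H ⊔ (MulAut.conj g • A).subgroupOf H) :=
    (Core.pCore_isPGroup p).to_sup_of_normal_left (hA.map _).comap_subtype
  have h5 : pCore p H ⊔ (MulAut.conj g • A).subgroupOf H = ⊤ := by
    rw [eq_top_iff, ← subgroupOf_self H, subgroupOf_sup le_sup_left le_sup_right]
    exact sup_le_sup_right h3 _
  rw [h5] at h4
  exact h4.of_equiv topEquiv

end Cfsg.Agent.H23.RegO
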