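import Mathlib
import Cfsg.Agent.Core.Basic
import Cfsg.Agent.Classical.SL2Basic
import Cfsg.Agent.Classical.SLBasic

/-! Two commuting copies of `SL₂(q)` with a common involution. -/

set_option autoImplicit false

namespace Cfsg.Agent.H23.SLPair

open Subgroup Cfsg.Agent.Classical.SL2Basic Polynomial
open scoped MatrixGroups

section sl2
variable {F : Type*} [Field F] [Fintype F]

/-- the standard element of order four -/
def w0 (F : Type*) [Field F] : SL(2, F) := mkSL 0 (-1) 1 0 (by simp)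

def w1 (F : Type*) [Field F] : SL(2, F) := mkSL 1 (-2) 1 (-1) (by norm_num)

theorem exists_sq_add_sq (hF : Odd (Fintype.card F)) (c : F) : ∃ x y : F, x ^ 2 + y ^ 2 = c := by
  obtain ⟨a, b, h⟩ := FiniteField.exists_root_sum_quadratic (f := (X : F[X]) ^ 2) (g := X ^ 2 - C c)
    (degree_X_pow 2) (degree_X_pow_sub_C (by decide) _) (Nat.odd_iff.1 hF)
  refine ⟨a, b, ?_⟩
  simp at h
  linear_combination h

theorem conj_w0 (hF : Odd (Fintype.card F)) {g : SL(2, F)} (hg : g * g = -1) :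
    ∃ c : SL(2, F), c * w0 F = g * c := by
  have h2 := two_ne_zero_of_odd hF
  have h1 : g 1 1 = - g 0 0 := by
    have := (mul_self_eq_neg_one_iff h2).1 hg
    simp only [tr] at this; linear_combination this
  have h3 := det_eq g
  rw [h1] at h3
  obtain ⟨x, y, h⟩ : ∃ x y : F, x * (g 1 0 * x - g 0 0 * y) - (g 0 0 * x + g 0 1 * y) * y = 1 := by
    by_cases hc : g 1 0 = 0
    · have ha : g 0 0 ≠ 0 := fun e => by simp [hc, e] at h3
      refine ⟨-(1 + g 0 1) / (2 * g 0 0), 1, ?_⟩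
      rw [hc]; field_simp; ring
    · obtain ⟨x, y, h⟩ := exists_sq_add_sq hF (g 1 0)
      refine ⟨(x + g 0 0 * y) / g 1 0, y, ?_⟩
      field_simp
      linear_combination h + y ^ 2 * h3
  refine ⟨mkSL x (g 0 0 * x + g 0 1 * y) y (g 1 0 * x - g 0 0 * y) h, sl2_ext ?_ ?_ ?_ ?_⟩ <;>
    simp [mul_apply, mkSL_coe, w0, h1]
  · linear_combination x * h3
  · ring
  · linear_combination y * h3

theorem eq_of_comm {g : SL(2, F)} (h0 : g * w0 F = w0 F * g) (h1 : g * w1 F = w1 F * g) :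
    g = 1 ∨ g = -1 := by
  have a := congrArg (fun m : SL(2, F) => m 0 0) h0
  have b := congrArg (fun m : SL(2, F) => m 0 1) h0
  have c := congrArg (fun m : SL(2, F) => m 0 0) h1
  simp [mul_apply, mkSL_coe, w0, w1] at a b c
  have h10 : g 1 0 = 0 := by linear_combination c - a
  exact eq_of_scalar (by rw [a, h10, neg_zero]) h10 b

theorem w0_sq : w0 F * w0 F = -1 := sl2_ext (by simp [mul_apply, mkSL_coe, w0]) (by simp [mul_apply, mkSL_coe, w0])
  (by simp [mul_apply, mkSL_coe, w0]) (by simp [mul_apply, mkSL_coe, w0])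

theorem w1_sq : w1 F * w1 F = -1 := sl2_ext (by simp [mul_apply, mkSL_coe, w1]; norm_num)
  (by simp [mul_apply, mkSL_coe, w1]) (by simp [mul_apply, mkSL_coe, w1]) (by simp [mul_apply, mkSL_coe, w1]; norm_num)

end sl2

variable {G : Type*} [Group G]

/-- the properties of `SL₂(q)` which are used -/
structure Like (L : Subgroup G) (j : G) : Prop where
  mem : j ∈ L
  ne : j ≠ 1
  sq : j * j = 1
  inv : ∀ a ∈ L, a * a = 1 → a = 1 ∨ a = j
  ex : ∃ w ∈ L, w * w = j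
  conj : ∀ a ∈ L, ∀ b ∈ L, a * a = j → b * b = j → ∃ g ∈ L, g * a * g⁻¹ = b
  cent : ∀ g ∈ L, (∀ a ∈ L, a * a = j → g * a = a * g) → g = 1 ∨ g = j

theorem like_of {F : Type*} [Field F] [Fintype F] (hF : Odd (Fintype.card F)) {L : Subgroup G}
    (e : L ≃* SL(2, F)) {j : G} (hj : orderOf j = 2) (hm : j ∈ L) : Like L j := by
  have h2 := two_ne_zero_of_odd hF
  have hne : j ≠ 1 := fun h => by simp [h] at hj
  have hsq : j * j = 1 := by rw [← sq, ← hj, pow_orderOf_eq_one]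
  have hej : e ⟨j, hm⟩ = -1 := (eq_of_mul_self_eq_one h2 (by
    rw [← map_mul, map_eq_one_iff _ e.injective]; exact Subtype.ext hsq)).resolve_left fun h =>
      hne (congrArg Subtype.val ((map_eq_one_iff _ e.injective).1 h))
  have k1 : ∀ a : L, e a = 1 ∨ e a = -1 → (a : G) = 1 ∨ (a : G) = j := fun a h => h.imp
    (fun h => congrArg Subtype.val ((map_eq_one_iff _ e.injective).1 h))
    fun h => congrArg Subtype.val (e.injective (h.trans hej.symm))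
  have k2 : ∀ a : L, (a : G) * a = j ↔ e a * e a = -1 := fun a => by
    rw [← map_mul, ← hej, e.injective.eq_iff, Subtype.ext_iff]; rfl
  refine ⟨hm, hne, hsq, fun a ha h => k1 ⟨a, ha⟩ (eq_of_mul_self_eq_one h2 (by
    rw [← map_mul, map_eq_one_iff _ e.injective]; exact Subtype.ext h)),
    ⟨e.symm (w0 F), (e.symm _).2, (k2 _).2 (by simpa using w0_sq)⟩, fun a ha b hb h1 h2 => ?_,
    fun g hg h => k1 ⟨g, hg⟩ (eq_of_comm ?_ ?_)⟩
  · obtain ⟨c, hc⟩ := conj_w0 hF ((k2 ⟨a, ha⟩).1 h1)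
    obtain ⟨d, hd⟩ := conj_w0 hF ((k2 ⟨b, hb⟩).1 h2)
    refine ⟨e.symm (d * c⁻¹), (e.symm _).2, ?_⟩
    have : e.symm (d * c⁻¹) * ⟨a, ha⟩ * (e.symm (d * c⁻¹))⁻¹ = ⟨b, hb⟩ := e.injective (by
      rw [map_mul, map_mul, map_inv, e.apply_symm_apply]
      calc d * c⁻¹ * e ⟨a, ha⟩ * (d * c⁻¹)⁻¹ = d * c⁻¹ * (e ⟨a, ha⟩ * c) * d⁻¹ := by group
        _ = (d * w0 F) * d⁻¹ := by rw [← hc]; group
        _ = e ⟨b, hb⟩ := by rw [hd]; group)
    exact congrArg Subtype.val this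
  · have := h _ (e.symm (w0 F)).2 ((k2 _).2 (by simpa using w0_sq))
    simpa using congrArg e (show (⟨g, hg⟩ : L) * e.symm (w0 F) = e.symm (w0 F) * ⟨g, hg⟩ from Subtype.ext this)
  · have := h _ (e.symm (w1 F)).2 ((k2 _).2 (by simpa using w1_sq))
    simpa using congrArg e (show (⟨g, hg⟩ : L) * e.symm (w1 F) = e.symm (w1 F) * ⟨g, hg⟩ from Subtype.ext this)

/-- a commuting pair -/
structure Pair (L M : Subgroup G) (j : G) : Prop where
  l : Like L j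
  m : Like M j
  comm : ∀ x ∈ L, ∀ y ∈ M, x * y = y * x
  inf : ∀ x ∈ L, x ∈ M → x = 1 ∨ x = j

variable {L M : Subgroup G} {j : G}

theorem pair_of (l : Like L j) (m : Like M j) (hc : ∀ x ∈ L, ∀ y ∈ M, x * y = y * x)
    (hm : L ⊓ M = zpowers j) : Pair L M j := by
  refine ⟨l, m, hc, fun x h1 h2 => l.inv x h1 ?_⟩
  obtain ⟨k, rfl⟩ : x ∈ zpowers j := hm ▸ ⟨h1, h2⟩
  change j ^ k * j ^ k = 1
  rw [← (Commute.refl j).mul_zpow, l.sq, one_zpow]

theorem Pair.symm (h : Pair L M j) : Pair M L j :=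
  ⟨h.m, h.l, fun x hx y hy => (h.comm y hy x hx).symm, fun x h1 h2 => h.inf x h2 h1⟩

theorem Pair.mem_sup (h : Pair L M j) {g : G} : g ∈ L ⊔ M ↔ ∃ a ∈ L, ∃ b ∈ M, g = a * b :=
  Core.mem_sup_of_le_normalizer fun y hy => centralizer_le_normalizer _ fun x hx => h.comm x hx y hy

theorem Pair.jc (h : Pair L M j) {g : G} (hg : g ∈ L ⊔ M) : g * j = j * g := by
  obtain ⟨a, ha, b, hb, rfl⟩ := h.mem_sup.1 hg
  rw [mul_assoc, ← h.comm j h.l.mem b hb, ← mul_assoc, h.comm a ha j h.m.mem, mul_assoc]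

theorem Pair.sq_mul (h : Pair L M j) {a b : G} (ha : a ∈ L) (hb : b ∈ M) :
    a * b * (a * b) = a * a * (b * b) := by
  rw [mul_assoc, ← mul_assoc b, ← h.comm a ha b hb]; group

theorem Pair.sq_cases (h : Pair L M j) {a b : G} (ha : a ∈ L) (hb : b ∈ M) (hj : a * b * (a * b) ∈ M) :
    a * a = 1 ∨ a * a = j := by
  refine h.inf _ (mul_mem ha ha) ?_
  rw [h.sq_mul ha hb] at hj
  exact (mul_mem_cancel_right (mul_mem hb hb)).1 hj

theorem Pair.two_classes (h : Pair L M j) : ∃ x ∈ L ⊔ M, orderOf x = 2 ∧ x ≠ j ∧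
    ∀ y ∈ L ⊔ M, orderOf y = 2 → y = j ∨ ∃ g ∈ L ⊔ M, g * x * g⁻¹ = y := by
  obtain ⟨u, hu, hu2⟩ := h.l.ex
  obtain ⟨v, hv, hv2⟩ := h.m.ex
  have hn : u * v ∉ M := fun hm => by
    rcases h.inf u hu ((mul_mem_cancel_right hv).1 hm) with e | e
    · exact h.l.ne (by rw [← hu2, e, mul_one])
    · exact h.l.ne (by rw [← hu2, e, h.l.sq])
  refine ⟨u * v, mul_mem (mem_sup_left hu) (mem_sup_right hv), orderOf_eq_prime ?_
    fun e => hn (e ▸ one_mem _), fun e => hn (e ▸ h.m.mem), fun y hy hy2 => ?_⟩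
  · rw [sq, h.sq_mul hu hv, hu2, hv2, h.l.sq]
  obtain ⟨a, ha, b, hb, rfl⟩ := h.mem_sup.1 hy
  have h1 : a * b * (a * b) = 1 := by rw [← sq, ← hy2, pow_orderOf_eq_one]
  have h0 : a * b ≠ 1 := fun e => by simp [e] at hy2
  have h2 := h.sq_cases ha hb (h1 ▸ one_mem _)
  rw [h.sq_mul ha hb] at h1
  rcases h2 with h2 | h2
  · rw [h2, one_mul] at h1
    left
    rcases h.l.inv a ha h2 with rfl | rfl <;> rcases h.m.inv b hb h1 with rfl | e
    · exact absurd (mul_one _) h0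
    · rw [one_mul, e]
    · rw [mul_one]
    · exact absurd (e ▸ h2) h0
  · have h3 : b * b = j := by rw [h2, ← h.l.sq] at h1; exact mul_left_cancel h1
    obtain ⟨c, hc, rfl⟩ := h.l.conj u hu a ha hu2 h2
    obtain ⟨d, hd, rfl⟩ := h.m.conj v hv b hb hv2 h3
    refine Or.inr ⟨c * d, mul_mem (mem_sup_left hc) (mem_sup_right hd), ?_⟩
    calc c * d * (u * v) * (c * d)⁻¹ = c * (d * u) * (v * d⁻¹ * c⁻¹) := by group
      _ = c * (u * d) * (c⁻¹ * (v * d⁻¹)) := by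
        rw [h.comm u hu d hd, h.comm _ (inv_mem hc) _ (mul_mem hv (inv_mem hd))]
      _ = c * u * (d * c⁻¹) * (v * d⁻¹) := by group
      _ = _ := by rw [← h.comm _ (inv_mem hc) d hd]; group

theorem Pair.root (h : Pair L M j) {x : G} (hx : x ∈ L ⊔ M) (h1 : x * x = j) : x ∈ L ∨ x ∈ M := by
  obtain ⟨a, ha, b, hb, rfl⟩ := h.mem_sup.1 hx
  have h2 := h.sq_cases ha hb (h1 ▸ h.m.mem)
  rw [h.sq_mul ha hb] at h1
  rcases h2 with h2 | h2
  · right
    rcases h.l.inv a ha h2 with rfl | rfl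
    exacts [mul_mem (one_mem _) hb, mul_mem h.m.mem hb]
  · left
    rw [h2, mul_eq_left] at h1
    rcases h.m.inv b hb h1 with rfl | rfl
    exacts [mul_mem ha (one_mem _), mul_mem ha h.l.mem]

theorem Pair.conj_mem (h : Pair L M j) {g x : G} (hg : g ∈ L ⊔ M) (hx : x ∈ L) : g * x * g⁻¹ ∈ L := by
  obtain ⟨a, ha, b, hb, rfl⟩ := h.mem_sup.1 hg
  have : a * b * x * (a * b)⁻¹ = a * x * a⁻¹ := by
    rw [mul_assoc a, ← h.comm x hx b hb]; group
  rw [this]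
  exact mul_mem (mul_mem ha hx) (inv_mem ha)

theorem Pair.mem_of_cent (h : Pair L M j) {g : G} (hg : g ∈ L ⊔ M)
    (hc : ∀ a ∈ L, a * a = j → g * a = a * g) : g ∈ M := by
  obtain ⟨a, ha, b, hb, rfl⟩ := h.mem_sup.1 hg
  rcases h.l.cent a ha (fun x hx h1 => by
    have := hc x hx h1
    rw [mul_assoc, ← h.comm x hx b hb, ← mul_assoc, ← mul_assoc] at this
    exact mul_right_cancel this) with rfl | rfl
  exacts [mul_mem (one_mem _) hb, mul_mem h.m.mem hb]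

/-- if two commuting pairs have the same product, then they agree up to order -/
theorem Pair.le_of_root {L' M' : Subgroup G} (h : Pair L M j) (h' : Pair L' M' j) (e : L ⊔ M = L' ⊔ M')
    {x : G} (hx : x ∈ L) (hx' : x ∈ L') (h1 : x * x = j) : M ≤ M' := fun g hg => by
  refine h'.mem_of_cent (e ▸ mem_sup_right hg) fun a ha h2 => ?_
  obtain ⟨c, hc, rfl⟩ := h'.l.conj x hx' a ha h1 h2
  exact (h.comm _ (h.conj_mem (e ▸ mem_sup_left hc) hx) g hg).symm

theorem Pair.eq_of_root {L' M' : Subgroup G} (h : Pair L M j) (h' : Pair L' M' j) (e : L ⊔ M = L' ⊔ M')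
    {x : G} (hx : x ∈ L) (hx' : x ∈ L') (h1 : x * x = j) : L = L' ∧ M = M' := by
  have hM : M = M' := le_antisymm (h.le_of_root h' e hx hx' h1) (h'.le_of_root h e.symm hx' hx h1)
  obtain ⟨v, hv, hv2⟩ := h.m.ex
  have e' : M ⊔ L = M' ⊔ L' := by rw [sup_comm, e, sup_comm]
  exact ⟨le_antisymm (h.symm.le_of_root h'.symm e' hv (hM ▸ hv) hv2)
    (h'.symm.le_of_root h.symm e'.symm (hM ▸ hv) hv hv2), hM⟩

theorem Pair.eq_or {L' M' : Subgroup G} (h : Pair L M j) (h' : Pair L' M' j) (e : L ⊔ M = L' ⊔ M') :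
    (L = L' ∧ M = M') ∨ (L = M' ∧ M = L') := by
  obtain ⟨u, hu, hu2⟩ := h.l.ex
  exact (h'.root (e ▸ mem_sup_left hu) hu2).imp (fun hx => h.eq_of_root h' e hu hx hu2)
    fun hx => h.eq_of_root h'.symm (e.trans (sup_comm _ _)) hu hx hu2

theorem Like.map (h : Like L j) (φ : G ≃* G) (hj : φ j = j) : Like (L.map φ.toMonoidHom) j := by
  have k : ∀ a : G, φ a = j ↔ a = j := fun a => by
    conv_lhs => rw [← hj]
    exact φ.injective.eq_iff
  have k1 : ∀ a : G, a = 1 ∨ a = j → φ a = 1 ∨ φ a = j := by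
    rintro a (rfl | rfl)
    exacts [Or.inl (map_one _), Or.inr hj]
  refine ⟨⟨j, h.mem, hj⟩, h.ne, h.sq, ?_, ?_, ?_, ?_⟩
  · rintro _ ⟨a, ha, rfl⟩ h1
    exact k1 a (h.inv a ha (φ.injective (by simpa using h1)))
  · obtain ⟨w, hw, h1⟩ := h.ex
    exact ⟨φ w, ⟨w, hw, rfl⟩, by rw [← map_mul, h1, hj]⟩
  · rintro _ ⟨a, ha, rfl⟩ _ ⟨b, hb, rfl⟩ h1 h2
    obtain ⟨g, hg, rfl⟩ := h.conj a ha b hb ((k _).1 (by simpa using h1)) ((k _).1 (by simpa using h2))
    exact ⟨φ g, ⟨g, hg, rfl⟩, by simp⟩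
  · rintro _ ⟨g, hg, rfl⟩ h1
    exact k1 g (h.cent g hg fun a ha h2 => φ.injective (by
      simpa using h1 (φ a) ⟨a, ha, rfl⟩ (by rw [← map_mul, h2, hj])))

theorem Pair.map (h : Pair L M j) (φ : G ≃* G) (hj : φ j = j) :
    Pair (L.map φ.toMonoidHom) (M.map φ.toMonoidHom) j := by
  refine ⟨h.l.map φ hj, h.m.map φ hj, ?_, ?_⟩
  · rintro _ ⟨a, ha, rfl⟩ _ ⟨b, hb, rfl⟩
    rw [← map_mul, h.comm a ha b hb, map_mul]
  · rintro _ ⟨a, ha, rfl⟩ hb
    rcases h.inf a ha ((mem_map_iff_mem φ.injective).1 hb) with rfl | rfl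
    exacts [Or.inl (map_one _), Or.inr hj]

theorem Pair.outer (h : Pair L M j) (hle : L ⊔ M ≤ centralizer ({j} : Set G))
    (hi : (L ⊔ M).relIndex (centralizer ({j} : Set G)) = 2) {n : G} (hn : n ∈ centralizer ({j} : Set G))
    (hn' : n ∉ L ⊔ M) :
    (L.map (MulAut.conj n).toMonoidHom = L ∧ M.map (MulAut.conj n).toMonoidHom = M) ∨
      (L.map (MulAut.conj n).toMonoidHom = M ∧ ∃ n' ∈ centralizer ({j} : Set G), n' ∉ L ⊔ M ∧
        L.map (MulAut.conj n').toMonoidHom = M ∧ n' ^ 2 ∈ zpowers j) := by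
  have hnj : MulAut.conj n j = j := by
    rw [MulAut.conj_apply, mem_centralizer_singleton_iff.1 hn, mul_inv_cancel_right]
  have hN : ((L ⊔ M).subgroupOf (centralizer ({j} : Set G))).Normal := normal_of_index_eq_two hi
  have hnn := (normal_subgroupOf_iff_le_normalizer hle).1 hN hn
  have e : L.map (MulAut.conj n).toMonoidHom ⊔ M.map (MulAut.conj n).toMonoidHom = L ⊔ M := by
    rw [← Subgroup.map_sup]
    ext x
    constructor
    · rintro ⟨y, hy, rfl⟩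
      exact (mem_normalizer_iff.1 hnn y).1 hy
    · intro hx
      exact ⟨n⁻¹ * x * n, by simpa using (mem_normalizer_iff.1 (inv_mem hnn) x).1 hx, by simp [mul_assoc]⟩
  refine ((h.map (MulAut.conj n) hnj).eq_or h e).imp id fun ⟨h1, h2⟩ => ⟨h1, ?_⟩
  have hsq : n * n ∈ L ⊔ M := (mul_mem_iff_of_index_two hi (a := ⟨n, hn⟩) (b := ⟨n, hn⟩)).2 Iff.rfl
  obtain ⟨a, ha, b, hb, hab⟩ := h.mem_sup.1 hsq
  have ha' : n * a * n⁻¹ ∈ M := h1 ▸ ⟨a, ha, rfl⟩
  have hb' : n * b * n⁻¹ ∈ L := h2 ▸ ⟨b, hb, rfl⟩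
  refine ⟨n * a⁻¹, mul_mem hn (inv_mem (hle (mem_sup_left ha))),
    fun hc => hn' ((mul_mem_cancel_right (inv_mem (mem_sup_left ha))).1 hc), ?_, ?_⟩
  · rw [← h1]
    ext x
    constructor
    · rintro ⟨y, hy, rfl⟩
      exact ⟨a⁻¹ * y * a, mul_mem (mul_mem (inv_mem ha) hy) ha, by simp [mul_assoc]⟩
    · rintro ⟨y, hy, rfl⟩
      exact ⟨a * y * a⁻¹, mul_mem (mul_mem ha hy) (inv_mem ha), by simp [mul_assoc]⟩
  · have e1 : (n * a⁻¹) ^ 2 = (n * a * n⁻¹)⁻¹ * b := by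
      calc (n * a⁻¹) ^ 2 = (n * a * n⁻¹)⁻¹ * (n * n) * a⁻¹ := by rw [sq]; group
        _ = _ := by rw [hab, h.comm a ha b hb]; group
    have e2 : (n * a * n⁻¹)⁻¹ * b = n * b * n⁻¹ * a⁻¹ := by
      calc (n * a * n⁻¹)⁻¹ * b = (n * a * n⁻¹)⁻¹ * (b * a) * a⁻¹ := by group
        _ = (n * a * n⁻¹)⁻¹ * (n * (n * n) * n⁻¹) * a⁻¹ := by rw [← h.comm a ha b hb, ← hab]; group
        _ = _ := by rw [hab]; group
    rcases h.inf _ (e1.trans e2 ▸ mul_mem hb' (inv_mem ha)) (e1 ▸ mul_mem (inv_mem ha') hb) with e | e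
    · rw [e]; exact one_mem _
    · rw [e]; exact mem_zpowers _

theorem card_eq_of {a b : ℕ} (h : a * (a ^ 2 - 1) = b * (b ^ 2 - 1)) (ha : 1 < a) (hb : 1 < b) : a = b := by
  have key : ∀ x y : ℕ, 1 < x → x < y → x * (x ^ 2 - 1) < y * (y ^ 2 - 1) := fun x y h1 h2 =>
    Nat.mul_lt_mul'' h2 (Nat.sub_lt_sub_right (Nat.one_le_pow _ _ (by omega)) (Nat.pow_lt_pow_left h2 two_ne_zero))
  rcases lt_trichotomy a b with h1 | h1 | h1
  · exact absurd h (key a b ha h1).ne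
  · exact h1
  · exact absurd h (key b a hb h1).ne'

end Cfsg.Agent.H23.SLPair
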