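import Mathlib
import Cfsg.Agent.Core.Basic
import Cfsg.Agent.Core.MinNormal
import Cfsg.Agent.Core.Fitting
import Cfsg.Agent.PGrp.Basic
import Cfsg.Agent.PGrp.CyclicOdd
import Cfsg.Agent.FGS.Basic
import Cfsg.Agent.FGS.Basic2
import Cfsg.Agent.Transfer.SylowConj

set_option autoImplicit false

namespace Cfsg.Agent.H23.SelfNorm

open Subgroup

variable {G : Type*} [Group G]

/-- the commutator map on an abelian normal subgroup -/
def cm (A : Subgroup G) [hA : A.Normal] (hc : IsMulCommutative A) (x : G) : A →* A where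
  toFun a := ⟨(a : G)⁻¹ * (x * a * x⁻¹), A.mul_mem (A.inv_mem a.2) (hA.conj_mem _ a.2 x)⟩
  map_one' := by ext; simp
  map_mul' a b := by
    ext
    simp only [Subgroup.coe_mul]
    have h1 := Core.comm_of_isMulCommutative hc (A.inv_mem b.2)
      (A.mul_mem (A.inv_mem a.2) (hA.conj_mem _ a.2 x))
    calc ((a : G) * b)⁻¹ * (x * (a * b) * x⁻¹)
        = ((b : G)⁻¹ * ((a : G)⁻¹ * (x * a * x⁻¹))) * (x * b * x⁻¹) := by group
      _ = _ := by rw [h1]; group

theorem cm_coe (A : Subgroup G) [hA : A.Normal] (hc : IsMulCommutative A) (x : G) (a : A) :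
    (cm A hc x a : G) = (a : G)⁻¹ * (x * a * x⁻¹) := rfl

theorem nil_of_comm {H : Type*} [Group H] (h : IsMulCommutative H) : Group.IsNilpotent H := by
  letI : CommGroup H := { (inferInstance : Group H) with mul_comm := h.1.1 }
  exact CommGroup.isNilpotent

theorem backward [Finite G] (x : G) (A : Subgroup G) (p : ℕ) (hp : p.Prime) [hA : A.Normal]
    (hc : IsMulCommutative A) {k : ℕ} (hk : orderOf x = p ^ k)
    (hcompl : (zpowers x).IsComplement' A) (hz : x ^ p ∈ center G)
    (hf : ∀ a : G, a ∈ A → a ≠ 1 → x * a * x⁻¹ ≠ a) (H : Subgroup G)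
    (hH : ¬ IsMulCommutative H) : normalizer (H : Set G) = H := by
  have dec : ∀ g : G, ∃ i : ℤ, ∃ a ∈ A, g = x ^ i * a := by
    intro g
    obtain ⟨⟨⟨y, hy⟩, ⟨a, ha⟩⟩, h⟩ := hcompl.2 g
    obtain ⟨i, rfl⟩ := mem_zpowers_iff.1 hy
    exact ⟨i, a, ha, h.symm⟩
  have hex : ∃ h ∈ H, ∃ a ∈ A, h = x * a := by
    by_contra hcon
    apply hH
    have key : ∀ h ∈ H, ∃ z ∈ center G, ∃ a ∈ A, h = z * a := by
      intro h hh
      obtain ⟨i, a, ha, rfl⟩ := dec h
      by_cases hi : (p : ℤ) ∣ i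
      · obtain ⟨j, rfl⟩ := hi
        exact ⟨x ^ (p * j : ℤ), by rw [zpow_mul, zpow_natCast]; exact zpow_mem hz j, a, ha, rfl⟩
      · exfalso
        apply hcon
        obtain ⟨j, hj⟩ := mem_zpowers_iff.1 (PGrp.mem_zpowers_of_coprime hp hk hi)
        refine ⟨(x ^ i * a) ^ j, H.zpow_mem hh j, x⁻¹ * (x ^ i * a) ^ j, ?_, by group⟩
        rw [← QuotientGroup.eq_one_iff] at ha ⊢
        have := congrArg (QuotientGroup.mk' A) hj
        simp only [map_zpow, QuotientGroup.mk'_apply] at this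
        simp [ha, this]
    refine Core.isMulCommutative_of_forall fun g hg h hh => ?_
    obtain ⟨z, hz, a, ha, rfl⟩ := key g hg
    obtain ⟨w, hw, b, hb, rfl⟩ := key h hh
    have e1 := mem_center_iff.1 hz
    have e2 := mem_center_iff.1 hw
    have e3 := Core.comm_of_isMulCommutative hc ha hb
    calc z * a * (w * b) = z * (a * w) * b := by group
      _ = (z * w) * (a * b) := by rw [e2 a]; group
      _ = (w * z) * (b * a) := by rw [e2 z, e3]
      _ = w * (z * b) * a := by group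
      _ = _ := by rw [← e1 b]; group
  obtain ⟨h, hh, a0, ha0, rfl⟩ := hex
  have hinj : Function.Injective (cm A hc (x * a0)) := by
    rw [injective_iff_map_eq_one]
    intro a ha
    by_contra hne
    refine hf a a.2 (fun e => hne (Subtype.ext e)) ?_
    have e := congrArg Subtype.val ha
    rw [cm_coe, OneMemClass.coe_one, inv_mul_eq_one] at e
    have e3 := Core.comm_of_isMulCommutative hc ha0 a.2
    calc x * a * x⁻¹ = x * (a * a0) * a0⁻¹ * x⁻¹ := by group
      _ = x * a0 * a * (x * a0)⁻¹ := by rw [← e3]; group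
      _ = a := e.symm
  refine le_antisymm ?_ le_normalizer
  have hA' : ∀ a ∈ A, a ∈ normalizer (H : Set G) → a ∈ H := by
    intro a ha hn
    let B : Subgroup A := H.subgroupOf A
    have hB : B.map (cm A hc (x * a0)) ≤ B := by
      rintro _ ⟨b, hb, rfl⟩
      have hb' : (b : G) ∈ H := hb
      change (b : G)⁻¹ * (x * a0 * b * (x * a0)⁻¹) ∈ H
      exact H.mul_mem (H.inv_mem hb') (H.mul_mem (H.mul_mem hh hb') (H.inv_mem hh))
    have hB' : B.map (cm A hc (x * a0)) = B :=
      Core.eq_of_le_of_card_le hB (card_map_of_injective hinj).ge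
    have h1 : cm A hc (x * a0) ⟨a, ha⟩ ∈ B := by
      change a⁻¹ * (x * a0 * a * (x * a0)⁻¹) ∈ H
      have := PGrp.conj_mem_of_mem_normalizer' hn hh
      have e : a⁻¹ * (x * a0 * a * (x * a0)⁻¹) = a⁻¹ * (x * a0) * a * (x * a0)⁻¹ := by group
      rw [e]; exact H.mul_mem this (H.inv_mem hh)
    rw [← hB'] at h1
    obtain ⟨b, hb, e⟩ := h1
    rw [hinj e] at hb
    exact hb
  intro g hg
  obtain ⟨i, a, ha, rfl⟩ := dec g
  have h1 : ((x * a0) ^ i)⁻¹ * (x ^ i * a) ∈ A := by
    rw [← QuotientGroup.eq_one_iff] at ha ha0 ⊢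
    simp [ha, ha0]
  have h2 := hA' _ h1 ((normalizer _).mul_mem ((normalizer _).inv_mem
    (le_normalizer (H.zpow_mem hh i))) hg)
  exact (H.mul_mem_cancel_left (H.inv_mem (H.zpow_mem hh i))).1 h2

theorem forward [Finite G] [Group.IsSolvable G] (hnn : ¬ Group.IsNilpotent G)
    (hN : ∀ K : Subgroup G, K.Normal → K ≠ ⊤ → IsMulCommutative K) :
    ∃ (x : G) (A : Subgroup G) (p : ℕ), p.Prime ∧ A.Normal ∧ IsMulCommutative A ∧
      (∃ k : ℕ, orderOf x = p ^ k) ∧ ¬ p ∣ Nat.card A ∧ (zpowers x).IsComplement' A ∧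
      x ^ p ∈ center G ∧ ∀ a : G, a ∈ A → a ≠ 1 → x * a * x⁻¹ ≠ a := by
  haveI : Nontrivial G := by
    by_contra h
    rw [not_nontrivial_iff_subsingleton] at h
    exact hnn inferInstance
  set D := commutator G with hD
  have hDt : D ≠ ⊤ := (IsSolvable.commutator_lt_top_of_nontrivial G).ne
  have hnorm : ∀ K : Subgroup G, D ≤ K → K.Normal := fun K hK =>
    PGrp.normal_of_commutator_le hK (commutator_mono le_top le_rfl)
  obtain ⟨M, hM, hDM⟩ := PGrp.exists_coatom_ge hDt
  haveI hMn := hnorm M hDM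
  have hMc := hN M hMn hM.1
  have huniq : ∀ K : Subgroup G, D ≤ K → K ≠ ⊤ → K ≤ M := by
    intro K hK hKt
    by_contra hle
    haveI := hnorm K hK
    haveI := hN K inferInstance hKt
    have hs : M ⊔ K = ⊤ := hM.2 _ (left_lt_sup.2 hle)
    have := Core.nilpotent_sup_of_normal (M := M) (N := K) (nil_of_comm hMc) (nil_of_comm inferInstance)
    rw [hs] at this
    exact hnn (Group.nilpotent_of_mulEquiv topEquiv)
  have hp : M.index.Prime := FGS.index_prime_of_normal_isCoatom hM
  set p := M.index with hpd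
  haveI := Fact.mk hp
  obtain ⟨x0, hx0⟩ : ∃ x0, x0 ∉ M := by
    by_contra h
    push Not at h
    exact hM.1 (eq_top_iff.2 fun g _ => h g)
  obtain ⟨x, y, -, -, rfl, -, ⟨k, hk⟩, hy⟩ := FGS.exists_pPart p x0
  have hyM : y ∈ M := Core.mem_of_pow_mem_of_coprime (M.pow_index_mem y) hy.symm
  have hxM : x ∉ M := fun h => hx0 (M.mul_mem h hyM)
  have hsup : D ⊔ zpowers x = ⊤ := by
    by_contra h
    exact hxM (huniq _ le_sup_left h (mem_sup_right (mem_zpowers x)))
  have hDc : IsMulCommutative D := Core.isMulCommutative_of_le hMc hDM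
  have dec : ∀ g : G, ∃ d ∈ D, ∃ i : ℤ, d * x ^ i = g := fun g =>
    (PGrp.mem_sup_zpowers (by rw [normalizer_eq_top]; trivial)).1 (hsup ▸ mem_top g)
  -- the commutator map is onto
  let I : Subgroup G := (cm D hDc x).range.map D.subtype
  have hID : I ≤ D := map_subtype_le _
  have hIn : I.Normal := by
    rw [PGrp.normal_iff_top_le_normalizer, ← hsup, sup_le_iff, zpowers_le]
    refine ⟨fun d hd => PGrp.mem_normalizer_of_conj_mem fun n hn => ?_,
      PGrp.mem_normalizer_of_conj_mem ?_⟩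
    · rw [Core.comm_of_isMulCommutative hDc hd (hID hn), mul_inv_cancel_right]; exact hn
    · rintro _ ⟨_, ⟨a, rfl⟩, rfl⟩
      refine ⟨_, ⟨⟨x * a * x⁻¹, (inferInstance : D.Normal).conj_mem _ a.2 x⟩, rfl⟩, ?_⟩
      simp only [coe_subtype, cm_coe]; group
  have hDI : D ≤ I := by
    have hx : ∀ d ∈ D, Commute (x : G ⧸ I) (d : G ⧸ I) := by
      intro d hd
      have : (d⁻¹ * (x * d * x⁻¹) : G) ∈ I := ⟨_, ⟨⟨d, hd⟩, rfl⟩, rfl⟩
      rw [← QuotientGroup.eq_one_iff] at this
      simp only [QuotientGroup.mk_mul, QuotientGroup.mk_inv] at this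
      rw [inv_mul_eq_one, eq_mul_inv_iff_mul_eq] at this
      exact this.symm
    have hd : ∀ d ∈ D, ∀ e ∈ D, Commute (d : G ⧸ I) (e : G ⧸ I) := by
      intro d hd e he
      have := congrArg (QuotientGroup.mk' I) (Core.comm_of_isMulCommutative hDc hd he)
      simpa [Commute, SemiconjBy] using this
    rw [hD, _root_.commutator_def, commutator_le]
    intro g _ h _
    obtain ⟨d, hd', i, rfl⟩ := dec g
    obtain ⟨e, he', j, rfl⟩ := dec h
    rw [← QuotientGroup.eq_one_iff]
    have : Commute ((d * x ^ i : G) : G ⧸ I) ((e * x ^ j : G) : G ⧸ I) := by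
      simp only [QuotientGroup.mk_mul, QuotientGroup.mk_zpow]
      refine Commute.mul_left (Commute.mul_right (hd _ hd' _ he') ((hx d hd').symm.zpow_right j))
        (Commute.mul_right ((hx e he').zpow_left i) (Commute.zpow_zpow_self _ i j))
    have h2 := commutatorElement_eq_one_iff_commute.2 this
    rw [← h2]
    simp [commutatorElement_def]
  have hsurj : Function.Surjective (cm D hDc x) := by
    intro d
    obtain ⟨_, ⟨a, rfl⟩, e⟩ := hDI d.2
    exact ⟨a, Subtype.ext e⟩
  have hinj := Finite.injective_iff_surjective.2 hsurj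
  have hfpf : ∀ a : G, a ∈ D → a ≠ 1 → x * a * x⁻¹ ≠ a := by
    intro a ha ha1 e
    apply ha1
    have : cm D hDc x ⟨a, ha⟩ = 1 := Subtype.ext (by rw [cm_coe]; simp [e])
    exact congrArg Subtype.val ((injective_iff_map_eq_one _).1 hinj _ this)
  have hxp : IsPGroup p (zpowers x) := IsPGroup.of_card (by rw [Nat.card_zpowers, hk])
  have hnd : ¬ p ∣ Nat.card D := by
    intro hd
    have h1 := Transfer.card_modEq_card_inf_centralizer (Q := D) hxp (by rw [normalizer_eq_top]; exact le_top)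
    have h2 : D ⊓ centralizer ((zpowers x : Subgroup G) : Set G) = ⊥ := by
      rw [eq_bot_iff]
      rintro a ⟨ha, hc⟩
      by_contra hne
      refine hfpf a ha hne ?_
      rw [mem_centralizer_iff.1 hc x (mem_zpowers x), mul_inv_cancel_right]
    rw [h2, card_bot] at h1
    have := (Nat.modEq_zero_iff_dvd.2 hd).symm.trans h1
    exact hp.one_lt.ne' (Nat.dvd_one.1 (Nat.modEq_zero_iff_dvd.1 this.symm))
  refine ⟨x, D, p, hp, inferInstance, hDc, ⟨k, hk⟩, hnd, ?_, ?_, hfpf⟩
  · have hdis : Disjoint (zpowers x) D := Core.disjoint_of_coprime (by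
      rw [Nat.card_zpowers, hk]; exact ((Nat.Prime.coprime_iff_not_dvd hp).2 hnd).pow_left k)
    refine isComplement'_of_disjoint_and_mul_eq_univ hdis ?_
    rw [← mul_normal, sup_comm, hsup, coe_top]
  · rw [mem_center_iff]
    intro g
    obtain ⟨d, hd, i, rfl⟩ := dec g
    have e1 := Core.comm_of_isMulCommutative hMc (hDM hd) (M.pow_index_mem x)
    rw [mul_assoc, ((Commute.refl x).pow_right p |>.zpow_left i).eq, ← mul_assoc, e1, mul_assoc]

end Cfsg.Agent.H23.SelfNorm
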