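import Mathlib
import Cfsg.Agent.UGL.Dbl
import Cfsg.Agent.Core.Product
import Cfsg.Agent.Core.Coprime

set_option autoImplicit false

namespace Cfsg.Agent.H23.SylL

open Subgroup Matrix
open scoped Pointwise MatrixGroups

theorem abs {G L : Type*} [Group G] [Finite G] [Group L] (φ : L →* G) (hφ : Function.Injective φ)
    [φ.range.Normal] (hi : φ.range.index = 2) (B : Subgroup L) (hB : IsPGroup 2 B)
    (h1 : normalizer (B : Set L) ≤ B) (w : L)
    (h2 : ∀ g, B ⊓ MulAut.conj g • B = ⊥ → ∃ b ∈ B, ∃ b' ∈ B, g = b * w * b')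
    (H : Sylow 2 G) (x : G) : (H : Subgroup G) ⊓ MulAut.conj x • (H : Subgroup G) ≠ ⊥ := by
  haveI : Finite L := Finite.of_injective φ hφ
  obtain ⟨S, hS⟩ := (hB.map φ).exists_le_sylow
  have hSB : (S : Subgroup G).comap φ = B := by
    have h3 : B ≤ (S : Subgroup G).comap φ := map_le_iff_le_comap.1 hS
    have h4 : IsPGroup 2 ((S : Subgroup G).comap φ) := S.isPGroup'.comap_of_injective φ hφ
    haveI := h4.isNilpotent
    by_contra hne
    have := Group.normalizerCondition_of_isNilpotent (B.subgroupOf ((S : Subgroup G).comap φ))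
      (lt_top_iff_ne_top.2 fun e => hne (le_antisymm (subgroupOf_eq_top.1 e) h3))
    rw [← subgroupOf_normalizer_eq h3] at this
    exact this.not_ge fun y hy => h1 hy
  have hm : ∀ g, φ g ∈ (S : Subgroup G) ↔ g ∈ B := fun g => by rw [← hSB]; rfl
  have htop : φ.range ⊔ S = ⊤ := Core.sup_eq_top_of_coprime_index (by
    rw [hi]; exact (Nat.Prime.coprime_iff_not_dvd Nat.prime_two).2 S.not_dvd_index)
  obtain ⟨s, hs, hsN⟩ : ∃ s ∈ (S : Subgroup G), s ∉ φ.range := by
    by_contra h
    push Not at h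
    rw [sup_eq_left.2 h] at htop
    rw [htop, index_top] at hi
    omega
  obtain ⟨y, rfl⟩ := MulAction.exists_smul_eq G S H
  obtain ⟨_, ⟨n, rfl⟩, s', hs', e⟩ := mem_sup_of_normal_left.1 (htop ▸ mem_top (y⁻¹ * x * y))
  intro h
  have key : ∀ z ∈ (S : Subgroup G), (φ n)⁻¹ * z * φ n ∈ (S : Subgroup G) → z = 1 := by
    intro z h3 h4
    have : y * z * y⁻¹ ∈ (⊥ : Subgroup G) := h ▸ ⟨by
      rw [Sylow.coe_subgroup_smul]; exact Core.mem_conj_smul_iff.2 (by simpa [mul_assoc] using h3), by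
      rw [Sylow.coe_subgroup_smul]
      refine Core.mem_conj_smul_iff.2 (Core.mem_conj_smul_iff.2 ?_)
      have := mul_mem (mul_mem (inv_mem hs') h4) hs'
      convert this using 1
      rw [show x = y * (φ n * s') * y⁻¹ by rw [e]; group]
      group⟩
    simpa using this
  obtain ⟨b, hb, b', hb', e1⟩ := h2 n (eq_bot_iff.2 fun z hz => hφ (by
    rw [map_one]
    exact key _ ((hm _).2 hz.1) (by simpa using (hm _).2 (Core.mem_conj_smul_iff.1 hz.2))))
  obtain ⟨n', hn'⟩ := (inferInstance : φ.range.Normal).conj_mem (φ n) ⟨n, rfl⟩ s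
  obtain ⟨c, hc, c', hc', e2⟩ := h2 n' (eq_bot_iff.2 fun z hz => hφ (by
    have h3 := (hm _).2 (Core.mem_conj_smul_iff.1 hz.2)
    rw [map_mul, map_mul, map_inv, hn'] at h3
    have := key (s⁻¹ * φ z * s) (mul_mem (mul_mem (inv_mem hs) ((hm _).2 hz.1)) hs) (by
      convert mul_mem (mul_mem (inv_mem hs) h3) hs using 1
      group)
    rw [map_one]
    simpa [mul_assoc] using congrArg (fun t => s * t * s⁻¹) this))
  have h3 := key (φ (b * c⁻¹) * s) (mul_mem ((hm _).2 (mul_mem hb (inv_mem hc))) hs) (by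
    convert mul_mem ((hm _).2 (mul_mem (inv_mem hb') hc')) hs using 1
    have : b'⁻¹ * c' = n⁻¹ * (b * c⁻¹) * n' := by rw [e1, e2]; group
    rw [this, map_mul _ _ n', map_mul _ n⁻¹, map_inv, hn']
    group)
  exact hsN ⟨(b * c⁻¹)⁻¹, by rw [map_inv, inv_eq_of_mul_eq_one_right h3]⟩

variable {n : ℕ}

theorem conj_pm (w : Equiv.Perm (Fin n)) (g : GL (Fin n) (ZMod 2)) (i j : Fin n) :
    (UGL.pm (ZMod 2) n w * g * (UGL.pm (ZMod 2) n w)⁻¹).1 (w i) (w j) = g.1 i j := by
  rw [← map_inv, Units.val_mul, Units.val_mul, UGL.pm_val, UGL.pm_val, inv_inv,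
    PEquiv.toMatrix_toPEquiv_mul, PEquiv.mul_toMatrix_toPEquiv]
  simp

def tv {i j : Fin n} (h : i ≠ j) : GL (Fin n) (ZMod 2) :=
  SpecialLinearGroup.toGL ⟨transvection i j 1, det_transvection_of_ne i j h 1⟩

theorem tv_apply {i j : Fin n} (h : i ≠ j) (a b : Fin n) :
    (tv h).1 a b = (if a = b then 1 else 0) + if i = a ∧ j = b then 1 else 0 := by
  show transvection i j (1 : ZMod 2) a b = _
  simp [transvection, one_apply, single_apply]

theorem tv_mem {i j : Fin n} (h : i < j) : tv h.ne ∈ upperTriangularGL n (ZMod 2) := by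
  intro a b hab
  have : b < a := hab
  rw [tv_apply, if_neg this.ne', if_neg (by rintro ⟨rfl, rfl⟩; exact h.not_gt this), add_zero]

theorem perm_eq {w : Equiv.Perm (Fin n)} (h : StrictMono w) : w = 1 :=
  Equiv.ext fun i => congrArg (fun f : Fin n ≃o Fin n => f i)
    (Subsingleton.elim (h.orderIsoOfSurjective w w.surjective) (OrderIso.refl _))

theorem pB : IsPGroup 2 (upperTriangularGL n (ZMod 2)) := by
  rintro ⟨g, hg⟩
  refine ⟨n, Subtype.ext (Units.ext ?_)⟩
  rcases isEmpty_or_nonempty (Fin n) with h | h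
  · exact Subsingleton.elim _ _
  have h1 : ∀ i, g.1 i i = 1 := fun i => by
    have := g.det_ne_zero
    rw [det_of_isUpperTriangular hg, Finset.prod_ne_zero_iff] at this
    have := this i (Finset.mem_univ _)
    generalize g.1 i i = a at this
    revert a; decide
  have h2 := aeval_self_charpoly g.1
  rw [charpoly_of_upperTriangular _ hg] at h2
  simp only [h1, Finset.prod_const, Finset.card_univ, Fintype.card_fin, map_pow, map_sub,
    Polynomial.aeval_X, map_one] at h2
  have h3 := sub_pow_char_pow_of_commute 2 n (Commute.one_right g.1)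
  rw [pow_eq_zero_of_le Nat.lt_two_pow_self.le h2, one_pow] at h3
  exact sub_eq_zero.1 h3.symm

theorem main {G : Type*} [Group G] [Finite G] (N : Subgroup G) [N.Normal]
    (e : N ≃* SL(n, ZMod 2)) (hidx : N.index = 2) (H : Sylow 2 G) (x : G) :
    (H : Subgroup G) ⊓ MulAut.conj x • (H : Subgroup G) ≠ ⊥ := by
  let e' : SL(n, ZMod 2) ≃* GL (Fin n) (ZMod 2) := MulEquiv.ofBijective SpecialLinearGroup.toGL
    ⟨SpecialLinearGroup.toGL_injective, fun g => ⟨⟨g.1, by
      have := g.det_ne_zero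
      generalize g.1.det = a at this
      revert a; decide⟩, Units.ext rfl⟩⟩
  let φ := N.subtype.comp (e.trans e').symm.toMonoidHom
  have hr : φ.range = N := by
    rw [MonoidHom.range_comp, MonoidHom.range_eq_top.2 (e.trans e').symm.surjective,
      ← MonoidHom.range_eq_map, range_subtype]
  haveI : φ.range.Normal := hr ▸ inferInstance
  refine abs φ (N.subtype_injective.comp (e.trans e').symm.injective) (hr ▸ hidx) _ pB
    (fun g hg => ?_) (UGL.pm (ZMod 2) n Fin.revPerm) (fun g hg => ?_) H x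
  · obtain ⟨w, h, hh, k, hk, rfl⟩ := UGL.bruhat g
    have h1 := (Subgroup.mul_mem_cancel_left _ (le_normalizer hh)).1
      ((Subgroup.mul_mem_cancel_right _ (le_normalizer hk)).1 hg)
    rw [perm_eq (w := w) fun i j hij => ?_, map_one, mul_one]
    · exact mul_mem hh hk
    by_contra hn
    have h2 := (mem_normalizer_iff.1 h1 _).1 (tv_mem hij)
      (lt_of_le_of_ne (not_lt.1 hn) (w.injective.ne hij.ne'))
    rw [conj_pm, tv_apply] at h2
    simp [hij.ne] at h2
  · obtain ⟨w, h, hh, k, hk, rfl⟩ := UGL.bruhat g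
    refine ⟨h, hh, k, hk, ?_⟩
    rw [eq_inv_of_mul_eq_one_left (perm_eq (w := w * Fin.revPerm) fun i j hij => ?_)]
    · rfl
    by_contra hn
    have h0 : j.rev < i.rev := Fin.rev_lt_rev.2 hij
    have h1 : w j.rev < w i.rev := lt_of_le_of_ne (not_lt.1 hn) (w.injective.ne h0.ne)
    have h2 : UGL.pm (ZMod 2) n w * tv h0.ne * (UGL.pm (ZMod 2) n w)⁻¹ = tv h1.ne := by
      ext a b
      obtain ⟨a, rfl⟩ := w.surjective a
      obtain ⟨b, rfl⟩ := w.surjective b
      rw [conj_pm, tv_apply, tv_apply]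
      simp
    have h3 : h * tv h1.ne * h⁻¹ ∈ (⊥ : Subgroup _) := hg ▸
      ⟨Subgroup.mul_mem _ (mul_mem hh (tv_mem h1)) (inv_mem hh), Core.mem_conj_smul_iff.2 (by
        convert mul_mem (mul_mem (inv_mem hk) (tv_mem h0)) hk using 1
        rw [← h2]; group)⟩
    have h4 := tv_apply h1.ne (w j.rev) (w i.rev)
    rw [show tv h1.ne = 1 by simpa using h3] at h4
    simp [h1.ne] at h4

end Cfsg.Agent.H23.SylL
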