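import Mathlib
import Cfsg.Agent.Orth.Matrix

set_option autoImplicit false

namespace Cfsg.Agent.H23.SylO

open Orth QuadraticMap Module
open scoped Pointwise

variable {F : Type*} [Field F]

theorem exists_fix {V ι : Type*} [AddCommGroup V] [Module F V] [FiniteDimensional F V] [Fintype ι]
    {Q : QuadraticForm F V} (hQ : ND Q) (a : ι → V) (h : Fintype.card ι + 2 ≤ finrank F V) :
    ∃ τ : OG Q, τ ≠ 1 ∧ ∀ i, τ.1 (a i) = a i := by
  let L : V →ₗ[F] (ι → F) := LinearMap.pi fun i => Q.polarBilin (a i)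
  have hL : ∀ w : LinearMap.ker L, ∀ i, polar Q w.1 (a i) = 0 := fun w i => by
    rw [polar_comm]; exact congrFun w.2 i
  have h1 := L.finrank_range_add_finrank_ker
  have h2 := (LinearMap.range L).finrank_le
  rw [finrank_pi] at h2
  have hne : ∀ w : V, w ≠ 0 → ∃ x, polar Q w x ≠ 0 := fun w hw => by
    by_contra hn; push Not at hn; exact hw (hQ w hn)
  by_cases h3 : ∃ w : LinearMap.ker L, Q w.1 ≠ 0
  · obtain ⟨w, hw⟩ := h3
    refine ⟨refl Q w.1, fun e => ?_, fun i => refl_apply_of_orth (hL w i)⟩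
    have hw0 : w.1 ≠ 0 := fun e => hw (by simp [e])
    obtain ⟨x, hx⟩ := hne _ hw0
    have := refl_apply (Q := Q) w.1 x
    rw [e, OG.one_apply, eq_comm, sub_eq_self] at this
    simp [hw, hx, hw0] at this
  push Not at h3
  haveI : Nontrivial (LinearMap.ker L) := finrank_pos_iff.1 (show 0 < finrank F _ by omega)
  obtain ⟨u, hu⟩ := exists_ne (0 : LinearMap.ker L)
  obtain ⟨v, hv⟩ := exists_linearIndependent_pair_of_one_lt_finrank (R := F) (by omega) hu
  have huv : polar Q u.1 v.1 = 0 := by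
    have := h3 (u + v)
    rw [polar, ← Submodule.coe_add, this, h3, h3]; simp
  refine ⟨eich Q u.1 v.1, fun e => ?_, fun i => eich_apply_of_orth (h3 u) huv (hL u i) (hL v i)⟩
  obtain ⟨x, hx⟩ := hne u.1 (by simpa using hu)
  have := eich_apply (h3 u) huv x
  rw [e, OG.one_apply, add_sub_assoc, left_eq_add, sub_eq_add_neg, ← neg_smul] at this
  exact hx (neg_eq_zero.1 (LinearIndependent.pair_iff.1 hv _ _ (Subtype.ext this)).2)

variable {m : ℕ} (i0 : Fin m)

def E (F : Type*) [Field F] (i : Fin m ⊕ Fin m) : Fin m ⊕ Fin m → F := Pi.single i 1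

def C (F : Type*) [Field F] (i0 : Fin m) : Subgroup (OG (plusQ m F)) where
  carrier := {σ | ∀ i, i ≠ i0 → σ.1 (E F (.inl i)) = E F (.inl i)}
  one_mem' _ _ := rfl
  mul_mem' ha hb i hi := by rw [OG.mul_apply, hb i hi, ha i hi]
  inv_mem' {a} ha i hi := by
    nth_rewrite 1 [← ha i hi]; exact OG.inv_apply_self _ _

theorem polar_l (i : Fin m) (v : Fin m ⊕ Fin m → F) :
    polar (plusQ m F) (E F (.inl i)) v = v (.inr i) := by
  simp [polar_plusQ, E, Pi.single_apply]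

theorem polar_r (i : Fin m) (v : Fin m ⊕ Fin m → F) :
    polar (plusQ m F) (E F (.inr i)) v = v (.inl i) := by
  simp [polar_plusQ, E, Pi.single_apply]

theorem pow_eight (hF : ∀ a : F, a = 0 ∨ a = 1) {σ : OG (plusQ m F)} (hσ : σ ∈ C F i0) :
    σ ^ 8 = 1 := by
  have h2 : (1 : F) + 1 = 0 := (hF _).resolve_right (by simp)
  have hvv : ∀ v : Fin m ⊕ Fin m → F, v + v = 0 := fun v => by
    rw [← one_smul F v, ← add_smul, h2, zero_smul]
  have k1 : ∀ σ ∈ C F i0, ∀ v i, i ≠ i0 → σ.1 v (.inr i) = v (.inr i) := fun σ hσ v i hi => by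
    rw [← polar_l i (σ.1 v), ← hσ i hi, OG.map_polar, polar_l]
  have k2 : ∀ u v : Fin m ⊕ Fin m → F, (∀ i, i ≠ i0 → u (.inr i) = 0) →
      (∀ i, i ≠ i0 → v (.inr i) = 0) → polar (plusQ m F) u v =
        u (.inl i0) * v (.inr i0) + u (.inr i0) * v (.inl i0) := fun u v hu hv => by
    rw [polar_plusQ, Finset.sum_eq_single i0 (fun i _ hi => by simp [hu i hi, hv i hi]) (by simp)]
  have k3 : ∀ u : Fin m ⊕ Fin m → F, (∀ i, i ≠ i0 → u (.inr i) = 0) →
      plusQ m F u = u (.inl i0) * u (.inr i0) := fun u hu => by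
    rw [plusQ_apply, Finset.sum_eq_single i0 (fun i _ hi => by simp [hu i hi]) (by simp)]
  have he : ∀ i, i ≠ i0 → (σ⁻¹).1 (E F (.inl i0)) (.inr i) = 0 := fun i hi => by
    rw [k1 _ (inv_mem hσ) _ i hi]; simp [E]
  have hf : ∀ i, i ≠ i0 → (σ⁻¹).1 (E F (.inr i0)) (.inr i) = 0 := fun i hi => by
    rw [k1 _ (inv_mem hσ) _ i hi]; simp [E, hi]
  have e1 := k3 _ he
  have e2 := k3 _ hf
  have e3 := k2 _ _ he hf
  rw [OG.map_Q, plusQ_apply] at e1 e2
  rw [OG.map_polar, polar_l] at e3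
  simp only [E, Pi.single_apply, reduceCtorEq, if_false, mul_zero, zero_mul, Finset.sum_const_zero,
    if_true] at e1 e2 e3
  have k4 : ∀ u : Fin m ⊕ Fin m → F, (∀ i, i ≠ i0 → u (.inr i) = 0) →
      σ.1 (σ.1 u) (.inl i0) = u (.inl i0) ∧ σ.1 (σ.1 u) (.inr i0) = u (.inr i0) := by
    have k5 := fun (u : Fin m ⊕ Fin m → F) (hu : ∀ i, i ≠ i0 → u (.inr i) = 0) =>
      And.intro (k2 _ u he hu) (k2 _ u hf hu)
    simp only [OG.polar_inv_left, polar_l, polar_r] at k5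
    intro u hu
    have hu' : ∀ i, i ≠ i0 → σ.1 u (.inr i) = 0 := fun i hi => (k1 σ hσ u i hi).trans (hu i hi)
    rw [(k5 _ hu').1, (k5 _ hu').2, (k5 _ hu).1, (k5 _ hu).2]
    simp only [E]
    generalize (σ⁻¹).1 (Pi.single (.inl i0) 1) (.inl i0) = a at *
    generalize (σ⁻¹).1 (Pi.single (.inl i0) 1) (.inr i0) = b at *
    generalize (σ⁻¹).1 (Pi.single (.inr i0) 1) (.inl i0) = c at *
    generalize (σ⁻¹).1 (Pi.single (.inr i0) 1) (.inr i0) = d at *
    rcases hF a with rfl | rfl <;> rcases hF b with rfl | rfl <;> rcases hF c with rfl | rfl <;>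
      rcases hF d with rfl | rfl <;> simp at e1 e2 e3 ⊢
  have k6 : ∀ w : Fin m ⊕ Fin m → F, (∀ i, w (.inr i) = 0) → w (.inl i0) = 0 → σ.1 w = w := by
    intro w h1 h2
    refine sub_eq_zero.1 (nd_plusQ m _ fun x => ?_)
    rw [polar_sub_left, ← OG.polar_inv_right, ← polar_sub_right, k2 _ _ (fun i _ => h1 i)
      (fun i hi => sub_eq_zero.2 (k1 _ (inv_mem hσ) x i hi)), h1, h2]
    simp
  let τ := (σ * σ).1
  have hτ : ∀ v, τ v = σ.1 (σ.1 v) := fun _ => rfl
  have k7 : ∀ v, τ (τ (τ v - v) - (τ v - v)) = τ (τ v - v) - (τ v - v) := by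
    intro v
    have h1 : ∀ i, i ≠ i0 → (τ v - v) (.inr i) = 0 := fun i hi => by
      simp [hτ, k1 σ hσ _ i hi]
    generalize τ v - v = u at h1
    have h3 : σ.1 (τ u - u) = τ u - u := k6 _ (fun i => by
      by_cases hi : i = i0
      · simp [hτ, hi, (k4 u h1).2]
      · simp [hτ, k1 σ hσ _ i hi]) (by simp [hτ, (k4 u h1).1])
    rw [hτ, h3, h3]
  refine OG.ext fun v => ?_
  have : (σ ^ 8).1 v = τ (τ (τ (τ v))) := by
    rw [show σ ^ 8 = σ * σ * (σ * σ) * (σ * σ) * (σ * σ) by simp only [pow_succ, pow_zero, one_mul, mul_assoc]]; rfl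
  have a1 := k7 v
  have a2 := k7 (τ v)
  simp only [map_sub] at a1 a2
  rw [this, OG.one_apply]
  linear_combination a2 - a1 + 2 * hvv (τ (τ (τ v))) - 3 * hvv (τ (τ v)) + 2 * hvv (τ v) - hvv v

theorem main [Fintype F] (hF : Fintype.card F = 2) (hm : 1 ≤ m)
    (H : Sylow 2 (Cfsg.isometryGroup F (plusQ m F))) (x : Cfsg.isometryGroup F (plusQ m F)) :
    (H : Subgroup (Cfsg.isometryGroup F (plusQ m F))) ⊓ MulAut.conj x • (H : Subgroup _) ≠ ⊥ := by
  classical
  have hF' : ∀ a : F, a = 0 ∨ a = 1 := fun a => by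
    obtain ⟨y, -, hy⟩ := (Nat.card_eq_two_iff' (0 : F)).1 (by rwa [Nat.card_eq_fintype_card])
    exact or_iff_not_imp_left.2 fun h => (hy a h).trans (hy 1 one_ne_zero).symm
  let i0 : Fin m := ⟨0, hm⟩
  let e := toOG (plusQ m F)
  have hC : IsPGroup 2 ((C F i0).comap e.toMonoidHom) := fun σ =>
    ⟨3, Subtype.ext (e.injective (by
      rw [Subgroup.coe_pow, map_pow, Subgroup.coe_one, map_one]; exact pow_eight i0 hF' σ.2))⟩
  obtain ⟨S, hS⟩ := hC.exists_le_sylow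
  obtain ⟨g, rfl⟩ := MulAction.exists_smul_eq (Cfsg.isometryGroup F (plusQ m F)) S H
  obtain ⟨τ, h1, h2⟩ := exists_fix (nd_plusQ (F := F) m) (ι := {i // i ≠ i0} ⊕ {i // i ≠ i0})
    (Sum.elim (fun i => (e g).1 (E F (.inl i.1))) fun i => (e (x * g)).1 (E F (.inl i.1))) (by
      simp [Fintype.card_subtype_compl]; omega)
  have key : ∀ g, (∀ i : {i // i ≠ i0}, τ.1 ((e g).1 (E F (.inl i.1))) = (e g).1 (E F (.inl i.1))) →
      e.symm τ ∈ MulAut.conj g • (S : Subgroup _) := fun g hg => by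
    rw [Subgroup.mem_pointwise_smul_iff_inv_smul_mem]
    refine hS fun i hi => ?_
    have := hg ⟨i, hi⟩
    simp only [MulAut.smul_def, MulAut.conj_inv_apply, MulEquiv.coe_toMonoidHom, map_mul, map_inv,
      MulEquiv.apply_symm_apply, OG.mul_apply] at this ⊢
    rw [this, OG.inv_apply_self]
  intro h
  have : e.symm τ ∈ (⊥ : Subgroup _) := h ▸ ⟨key g fun i => h2 (.inl i), by
    rw [Sylow.coe_subgroup_smul, ← mul_smul, ← map_mul]; exact key _ fun i => h2 (.inr i)⟩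
  exact h1 (by simpa using this)

end Cfsg.Agent.H23.SylO
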