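import Mathlib
import Cfsg.Agent.S4710
import Cfsg.Agent.Block.Height
import Cfsg.Agent.Block.Orth

/-! Characters of prime power degree of groups of order `p^a q^b r^c`, `a ≤ 2`. -/

set_option autoImplicit false

namespace Cfsg.Agent.H23.ThreePr

open Subgroup Cfsg.Agent.Char Cfsg.Agent.Block

variable {G : Type*} [Group G] [Finite G]

theorem exists_block {p r : ℕ} (hp : p.Prime) (hr : r.Prime) (h1 : p ∣ Nat.card G)
    (h2 : (Nat.card G).factorization p ≤ 2) :
    ∃ χ : IrrCharacter G, (χ : G → ℂ) ≠ (fun _ => 1) ∧ ¬ p ∣ charDegree (χ : G → ℂ) ∧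
      ¬ r ∣ charDegree (χ : G → ℂ) := by
  classical
  haveI : Fact p.Prime := ⟨hp⟩
  obtain ⟨M, hM⟩ := exists_isPModular hp
  have hB := isPBlock_principalBlock (M := M) (G := G)
  have h0 := oneIrr_mem_principalBlock (G := G) hM
  have hh : ∀ χ ∈ principalBlock M G, ¬ p ∣ charDegree (χ : G → ℂ) := fun χ hχ => by
    have h3 := (S4710.result p M hM _ hB _ rfl).2 χ hχ
    have h4 : blockDefect p (principalBlock M G) ≤ 2 := (Nat.sub_le _ _).trans h2
    have h5 : blockHeight p (principalBlock M G) (χ : G → ℂ) = 0 := by omega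
    rw [blockHeight, Nat.sInf_eq_zero.2 (Or.inl (show 0 ∈ _ '' _ from ⟨_, h0, by
      simp [charDegree]⟩)), Nat.sub_zero] at h5
    obtain ⟨n, hn, e⟩ := isIrr_degree χ.2
    rw [charDegree_of_eq e] at h5 ⊢
    exact fun hd => (hp.factorization_pos_of_dvd hn.ne' hd).ne' h5
  obtain ⟨g, hg⟩ := exists_prime_orderOf_dvd_card' p h1
  have h3 := blockCoeff_eq_zero_of_dvd hM (isV_blockIdem hM hB) (y := g) (by rw [hg])
  rw [blockCoeff_eq_sum, mul_eq_zero, or_iff_right (inv_ne_zero card_ne_zero),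
    ← Finset.add_sum_erase _ _ (Finset.mem_filter.2 ⟨Finset.mem_univ _, h0⟩)] at h3
  by_contra! hc
  have hr0 : (r : ℂ) ≠ 0 := by exact_mod_cast hr.ne_zero
  have h4 : IsIntegral ℤ (∑ χ ∈ (Finset.univ.filter (· ∈ principalBlock M G)).erase (oneIrr G),
      (χ : G → ℂ) 1 * starRingEnd ℂ ((χ : G → ℂ) g) / r) := by
    refine IsIntegral.sum _ fun χ hχ => ?_
    obtain ⟨k, hk⟩ := hc χ (fun h => (Finset.mem_erase.mp hχ).1 (Subtype.ext h))
      (hh χ (Finset.mem_filter.1 (Finset.mem_erase.mp hχ).2).2)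
    have : (χ : G → ℂ) 1 * starRingEnd ℂ ((χ : G → ℂ) g) / r = k * starRingEnd ℂ ((χ : G → ℂ) g) := by
      rw [← charDegree_cast (irr_isChar χ), hk]; push_cast; field_simp
    rw [this]
    exact (isIntegral_natCast' k).mul (isIntegral_conj (isIrr_isIntegral χ.2 g))
  rw [← Finset.sum_div, eq_neg_of_add_eq_zero_right h3] at h4
  have h5 := int_dvd_of_isIntegral_div (a := -1) (b := r) (by exact_mod_cast hr.ne_zero)
    (by simpa [oneIrr] using h4)
  have h6 : r ∣ 1 := by exact_mod_cast (dvd_neg.mp h5)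
  exact hr.one_lt.ne' (Nat.dvd_one.mp h6)

theorem main [Nontrivial G] {p q r a b c : ℕ} (hp : p.Prime) (hq : q.Prime) (hr : r.Prime) (hpq : p ≠ q)
    (hpr : p ≠ r) (ha : a ≤ 2) (hG : Nat.card G = p ^ a * q ^ b * r ^ c) :
    ∃ χ : IrrCharacter G, (χ : G → ℂ) ≠ (fun _ => 1) ∧ ∃ k : ℕ, charDegree (χ : G → ℂ) = q ^ k := by
  rcases Nat.eq_zero_or_pos a with rfl | h0
  · haveI := burnside_of_dvd (G := G) hq hr (a := b) (b := c) (by simp [hG])
    obtain ⟨z, hz⟩ : ∃ z, z ∉ commutator G := by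
      simpa [eq_top_iff'] using (Group.IsSolvable.commutator_lt_top_of_nontrivial G).ne
    obtain ⟨χ, h1, h2, h3⟩ := exists_irr_of_not_mem (commutator G) hz
    refine ⟨⟨χ, h1⟩, fun e => h3 ?_, 0, charDegree_of_eq (by simpa using (isIrr_degree_one_iff h1).2 h2)⟩
    rw [(isIrr_eq_one_iff h1).1 e]; trivial
  obtain ⟨χ, h1, h2, h3⟩ := exists_block (G := G) hp hr
    (hG ▸ ((dvd_pow_self p h0.ne').mul_right _).mul_right _) (by
      rw [hG, Nat.factorization_mul (mul_ne_zero (pow_ne_zero _ hp.ne_zero) (pow_ne_zero _ hq.ne_zero))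
        (pow_ne_zero _ hr.ne_zero), Nat.factorization_mul (pow_ne_zero _ hp.ne_zero) (pow_ne_zero _ hq.ne_zero)]
      simp [hp.factorization, hq.factorization, hr.factorization, hpq, hpr, ha])
  refine ⟨χ, h1, ?_⟩
  have h4 := isIrr_degree_dvd_card χ.2 (charDegree_cast (irr_isChar χ)).symm
  rw [hG, mul_assoc] at h4
  exact eq_pow_of_dvd_of_not_dvd hq hr
    (((Nat.Prime.coprime_iff_not_dvd hp).2 h2).symm.pow_right a |>.dvd_of_dvd_mul_left h4) h3

end Cfsg.Agent.H23.ThreePr
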