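import Mathlib
import Cfsg.Prelude.Def_Transfer
import Cfsg.Agent.PGrp.Basic

set_option autoImplicit false

namespace Cfsg.Agent.H23.WrMod

open Subgroup DihedralGroup

variable {S : Type*} [Group S] {M : Type*} [AddCommGroup M] [Module (ZMod 2) M]

theorem add_self (m : M) : m + m = 0 := by
  rw [← two_smul (ZMod 2) m, show (2 : ZMod 2) = 0 from rfl, zero_smul]

abbrev V4 := ZMod 2 × ZMod 2 × ZMod 2 × ZMod 2

def σ (c : V4) : V4 := (c.1 + c.2.1, c.2.1, c.2.2.1, c.2.2.2)
def α (c : V4) : V4 := (c.2.1, c.1 + c.2.1, c.2.2.1, c.2.2.2)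
def τ (c : V4) : V4 := (c.2.2.1, c.2.2.2, c.1, c.2.1)

theorem core (ρ : Representation (ZMod 2) S M) {a b s t z : S} (hs : s * s = 1) (ht : t * t = 1)
    (ha : a ^ 3 = 1) (hb : b = t * a * t) (hz : z = s * t * s * t) (hsa : s * a = a⁻¹ * s)
    (hsb : s * b = b * s) (hab : a * b = b * a) (hst : s * (t * s * t) = t * s * t * s)
    (hgen : closure {a, s, t} = ⊤) (h0 : ∀ m : M, ρ a m = m → ρ b m = m → m = 0)
    (hirr : ∀ N : Submodule (ZMod 2) M, (∀ s : S, ∀ m ∈ N, ρ s m ∈ N) → N = ⊥ ∨ N = ⊤)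
    {w : M} (hw0 : w ≠ 0) (hw : ρ b w = w) :
    Nat.card M = 16 ∧ Nat.card {m : M // ρ s m = m ∧ ρ z m = m} = 4 ∧
      Nat.card {m : M // ρ t m = m ∧ ρ z m = m} = 2 := by
  have mul : ∀ (g h : S) (m : M), ρ g (ρ h m) = ρ (g * h) m := fun g h m => by
    rw [map_mul]; rfl
  have one : ∀ m : M, ρ 1 m = m := fun m => by rw [map_one]; rfl
  have hti : t⁻¹ = t := inv_eq_of_mul_eq_one_right ht
  have hsi : s⁻¹ = s := inv_eq_of_mul_eq_one_right hs
  set s' := t * s * t with hs'
  have hs'2 : s' * s' = 1 := by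
    rw [hs']
    calc t * s * t * (t * s * t) = t * s * (t * t) * s * t := by group
      _ = 1 := by rw [ht, mul_one, mul_assoc t, hs, mul_one, ht]
  have hs'b : b * s' = s' * b⁻¹ := by
    have h1 : a * s = s * a⁻¹ := by
      calc a * s = a * (s * a) * a⁻¹ := by group
        _ = s * a⁻¹ := by rw [hsa]; group
    rw [hb, hs', mul_inv_rev, mul_inv_rev, hti]
    calc t * a * t * (t * s * t) = t * a * (t * t) * s * t := by group
      _ = t * (a * s) * t := by rw [ht]; group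
      _ = t * s * (t * t) * a⁻¹ * t := by rw [h1, ht]; group
      _ = _ := by group
  have hs'a : s' * a = a * s' := by
    have : a = t * b * t := by
      rw [hb]
      calc a = (t * t) * a * (t * t) := by rw [ht]; group
        _ = _ := by group
    rw [this, hs']
    calc t * s * t * (t * b * t) = t * s * (t * t) * b * t := by group
      _ = t * (s * b) * t := by rw [ht]; group
      _ = t * b * (t * t) * s * t := by rw [hsb, ht]; group
      _ = _ := by group
  obtain ⟨u, hu0, hub, hus⟩ : ∃ u : M, u ≠ 0 ∧ ρ b u = u ∧ ρ s u = u := by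
    by_cases h : ρ s w = w
    · exact ⟨w, hw0, hw, h⟩
    · refine ⟨w + ρ s w, fun h' => h ?_, ?_, ?_⟩
      · rw [← add_self w] at h'
        exact add_left_cancel h'
      · rw [map_add, hw, mul, ← hsb, ← mul, hw]
      · rw [map_add, mul, hs, one, add_comm]
  obtain ⟨v, hv0, hvb, hvs, hvs'⟩ : ∃ v : M, v ≠ 0 ∧ ρ b v = v ∧ ρ s v = v ∧ ρ s' v = v := by
    by_cases h : ρ s' u = u
    · exact ⟨u, hu0, hub, hus, h⟩
    · refine ⟨u + ρ s' u, fun h' => h ?_, ?_, ?_, ?_⟩
      · rw [← add_self u] at h'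
        exact add_left_cancel h'
      · have : ρ b⁻¹ u = u := by
          conv_lhs => rw [← hub]
          rw [mul, inv_mul_cancel, one]
        rw [map_add, hub, mul, hs'b, ← mul, this]
      · rw [map_add, hus, mul, hst, ← mul, hus]
      · rw [map_add, mul, hs'2, one, add_comm]
  have hbav : ρ b (ρ a v) = ρ a v := by rw [mul, ← hab, ← mul, hvb]
  have haa : ρ a (ρ a v) = v + ρ a v := by
    have h1 : v + ρ a v + ρ a (ρ a v) = 0 := by
      refine h0 _ ?_ ?_
      · rw [map_add, map_add, mul a a, mul, show a * (a * a) = a ^ 3 by rw [pow_succ', sq], ha, one]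
        abel
      · rw [map_add, map_add, hvb, hbav, mul b a, ← hab, ← mul, hbav]
    rw [← add_self (v + ρ a v)] at h1
    exact add_left_cancel h1
  have hat : a * t = t * b := by rw [hb, ← mul_assoc, ← mul_assoc, ht, one_mul]
  have hst' : s * t = t * s' := by rw [hs', ← mul_assoc, ← mul_assoc, ht, one_mul]
  have hai : a⁻¹ = a * a := by
    rw [inv_eq_iff_mul_eq_one, ← ha, pow_succ', sq]
  let f : V4 →ₗ[ZMod 2] M :=
    { toFun := fun c => c.1 • v + c.2.1 • ρ a v + c.2.2.1 • ρ t v + c.2.2.2 • ρ t (ρ a v)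
      map_add' := fun c d => by simp only [Prod.fst_add, Prod.snd_add, add_smul]; abel
      map_smul' := fun r c => by
        simp only [Prod.smul_fst, Prod.smul_snd, smul_eq_mul, mul_smul, RingHom.id_apply, smul_add] }
  have hf : ∀ c : V4, f c = c.1 • v + c.2.1 • ρ a v + c.2.2.1 • ρ t v + c.2.2.2 • ρ t (ρ a v) :=
    fun c => rfl
  have hfa : ∀ c, ρ a (f c) = f (α c) := fun c => by
    have h1 : ρ a (ρ t v) = ρ t v := by rw [mul, hat, ← mul, hvb]
    have h2 : ρ a (ρ t (ρ a v)) = ρ t (ρ a v) := by rw [mul, hat, ← mul, hbav]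
    simp only [hf, α, map_add, map_smul, haa, h1, h2, add_smul, smul_add]
    abel
  have hfs : ∀ c, ρ s (f c) = f (σ c) := fun c => by
    have h0 : ρ s (ρ a v) = v + ρ a v := by rw [mul, hsa, ← mul, hvs, hai, ← mul, haa]
    have h1 : ρ s (ρ t v) = ρ t v := by rw [mul, hst', ← mul, hvs']
    have h2 : ρ s (ρ t (ρ a v)) = ρ t (ρ a v) := by
      rw [mul, hst', ← mul, mul s', hs'a, ← mul, hvs']
    simp only [hf, σ, map_add, map_smul, hvs, h0, h1, h2, add_smul, smul_add]
    abel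
  have hft : ∀ c, ρ t (f c) = f (τ c) := fun c => by
    have h1 : ∀ m, ρ t (ρ t m) = m := fun m => by rw [mul, ht, one]
    simp only [hf, τ, map_add, map_smul, h1]
    abel
  have hfz : ∀ c, ρ z (f c) = f (σ (τ (σ (τ c)))) := fun c => by
    rw [hz, ← mul, ← mul, ← mul, hft, hfs, hft, hfs]
  have hsurj : Function.Surjective f := by
    rw [← LinearMap.range_eq_top]
    refine (hirr _ fun g => ?_).resolve_left fun h => hv0 ?_
    · have hg : g ∈ closure {a, s, t} := hgen ▸ mem_top g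
      induction hg using closure_induction'' with
      | mem x hx =>
        rintro _ ⟨c, rfl⟩
        rcases hx with rfl | rfl | rfl
        · exact ⟨_, (hfa c).symm⟩
        · exact ⟨_, (hfs c).symm⟩
        · exact ⟨_, (hft c).symm⟩
      | inv_mem x hx =>
        rintro _ ⟨c, rfl⟩
        rcases hx with rfl | rfl | rfl
        · exact ⟨_, by rw [hai, ← mul, hfa, hfa]⟩
        · exact ⟨_, by rw [hsi, hfs]⟩
        · exact ⟨_, by rw [hti, hft]⟩
      | one => intro m hm; rwa [one]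
      | mul x y _ _ hx hy => intro m hm; rw [← mul]; exact hx _ (hy _ hm)
    · have : v ∈ LinearMap.range f := ⟨(1, 0, 0, 0), by simp [hf]⟩
      rwa [h, Submodule.mem_bot] at this
  have hind : ∀ x y : ZMod 2, x • v + y • ρ a v = 0 → x = 0 ∧ y = 0 := by
    intro x y h
    have hav : ρ a v ≠ 0 := fun h => hv0 (by rw [h, map_zero, add_zero] at haa; exact haa.symm)
    have h01 : ∀ x : ZMod 2, x = 0 ∨ x = 1 := by decide
    have hx := h01 x
    have hy := h01 y
    rcases hx with rfl | rfl <;> rcases hy with rfl | rfl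
    · exact ⟨rfl, rfl⟩
    · exact absurd (by simpa using h) hav
    · exact absurd (by simpa using h) hv0
    · exfalso
      rw [one_smul, one_smul, ← add_self v] at h
      exact hv0 (h0 v (add_left_cancel h) hvb)
  have hinj : Function.Injective f := by
    rw [injective_iff_map_eq_zero]
    have key : ∀ c, f c = 0 → c.1 = 0 ∧ c.2.1 = 0 := by
      intro c hc
      refine hind _ _ (h0 _ ?_ ?_)
      · have h1 : c.1 • v + c.2.1 • ρ a v = f (0, 0, c.2.2.1, c.2.2.2) := by
          rw [hf, add_assoc, ← add_self (c.2.2.1 • ρ t v + c.2.2.2 • ρ t (ρ a v))] at hc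
          rw [add_right_cancel hc, hf]
          simp
        rw [h1, hfa]
        simp [α]
      · rw [map_add, map_smul, map_smul, hvb, hbav]
    intro c hc
    have h1 := key c hc
    have h2 := key (τ c) (by rw [← hft, hc, map_zero])
    exact Prod.ext h1.1 (Prod.ext h1.2 (Prod.ext h2.1 h2.2))
  let e := Equiv.ofBijective f ⟨hinj, hsurj⟩
  refine ⟨?_, ?_, ?_⟩
  · rw [← Nat.card_congr e]
    simp
  · rw [← Nat.card_congr (e.subtypeEquiv (p := fun c => σ c = c ∧ σ (τ (σ (τ c))) = c) fun c => by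
      change _ ↔ ρ s (f c) = f c ∧ ρ z (f c) = f c
      rw [hfs, hfz, hinj.eq_iff, hinj.eq_iff]), Nat.card_eq_fintype_card]
    decide
  · rw [← Nat.card_congr (e.subtypeEquiv (p := fun c => τ c = c ∧ σ (τ (σ (τ c))) = c) fun c => by
      change _ ↔ ρ t (f c) = f c ∧ ρ z (f c) = f c
      rw [hft, hfz, hinj.eq_iff, hinj.eq_iff]), Nat.card_eq_fintype_card]
    decide

def D (i : ZMod 4) : Subgroup (DihedralGroup 4) where
  carrier := {g | g = 1 ∨ g = r 2 ∨ g = sr i ∨ g = sr (i + 2)}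
  mul_mem' := by
    simp only [Set.mem_setOf_eq]
    revert i; decide
  one_mem' := Or.inl rfl
  inv_mem' := by
    simp only [Set.mem_setOf_eq]
    revert i; decide

theorem mem_D {i : ZMod 4} {g : DihedralGroup 4} :
    g ∈ D i ↔ g = 1 ∨ g = r 2 ∨ g = sr i ∨ g = sr (i + 2) := Iff.rfl

theorem card_D (i : ZMod 4) : Nat.card (D i) = 4 := by
  rw [← Nat.card_congr (Equiv.subtypeEquivRight
    (p := fun g : DihedralGroup 4 => g = 1 ∨ g = r 2 ∨ g = sr i ∨ g = sr (i + 2))
    (q := fun g => g ∈ D i) fun g => Iff.rfl), Nat.card_eq_fintype_card]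
  revert i; decide

theorem sq_D (i : ZMod 4) : ∀ g ∈ D i, g ^ 2 = 1 := by
  simp only [mem_D]
  revert i; decide

theorem four_sub (B : Subgroup (DihedralGroup 4)) (h4 : Nat.card B = 4) (h2 : ∀ g ∈ B, g ^ 2 = 1) :
    B = D 0 ∨ B = D 1 := by
  by_cases h : B ≤ D 0
  · left; exact PGrp.eq_of_le_of_card_le h (by rw [card_D, h4])
  right
  refine PGrp.eq_of_le_of_card_le (fun g hg => ?_) (by rw [card_D, h4])
  obtain ⟨x, hx, hx0⟩ := SetLike.not_le_iff_exists.mp h
  have h3 := h2 _ (mul_mem hx hg)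
  have h4 := h2 _ hx
  have h5 := h2 _ hg
  rw [mem_D] at hx0 ⊢
  revert h3 h4 h5 hx0
  clear hx hg
  revert x g
  decide

theorem exists_gen [Finite S] {A : Subgroup S} [hn : A.Normal] (hA : IsElementaryAbelian 3 A)
    (hA9 : Nat.card A = 9) {s t : S} (hs : s * s = 1) (ht : t * t = 1)
    (hst : s * (t * s * t) = t * s * t * s) (h1 : s ∉ centralizer (A : Set S))
    (h2 : s * (t * s * t) ∉ centralizer (A : Set S)) :
    ∃ a ∈ A, s * a = a⁻¹ * s ∧ s * (t * a * t) = t * a * t * s ∧ A = zpowers a ⊔ zpowers (t * a * t) := by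
  have hc := PGrp.isMulCommutative_iff_forall.mp hA.1
  have hti : t⁻¹ = t := inv_eq_of_mul_eq_one_right ht
  have hsi : s⁻¹ = s := inv_eq_of_mul_eq_one_right hs
  have hcj : ∀ g, ∀ x ∈ A, g * g = 1 → g * x * g ∈ A := fun g x hx hg => by
    have := hn.conj_mem x hx g
    rwa [inv_eq_of_mul_eq_one_right hg] at this
  let I : S → Subgroup S := fun u =>
    { carrier := {x | x ∈ A ∧ u * x * u⁻¹ = x⁻¹}
      mul_mem' := by
        rintro x y ⟨hx, hx'⟩ ⟨hy, hy'⟩
        refine ⟨mul_mem hx hy, ?_⟩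
        rw [hc x hx y hy, mul_inv_rev, ← hx', ← hy', hc y hy x hx]; group
      one_mem' := ⟨one_mem _, by group⟩
      inv_mem' := by
        rintro x ⟨hx, hx'⟩
        exact ⟨inv_mem hx, by rw [← conj_inv, hx']⟩ }
  have memI : ∀ u x, x ∈ I u ↔ x ∈ A ∧ u * x * u⁻¹ = x⁻¹ := fun u x => Iff.rfl
  have hIle : ∀ u, I u ≤ A := fun u x hx => hx.1
  have hcomm : ∀ u : S, u * u = 1 → ∀ x ∈ A, x⁻¹ * (u * x * u⁻¹) ∈ I u := fun u hu x hx => by
    refine ⟨mul_mem (inv_mem hx) (hn.conj_mem x hx u), ?_⟩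
    have hui : u⁻¹ = u := inv_eq_of_mul_eq_one_right hu
    calc u * (x⁻¹ * (u * x * u⁻¹)) * u⁻¹ = u * x⁻¹ * u * x * (u * u)⁻¹ := by group
      _ = u * x⁻¹ * u⁻¹ * x := by rw [hu, hui]; group
      _ = _ := by group
  set s' := t * s * t with hs'
  have hs'2 : s' * s' = 1 := by
    rw [hs']
    calc t * s * t * (t * s * t) = t * s * (t * t) * s * t := by group
      _ = 1 := by rw [ht, mul_one, mul_assoc t, hs, mul_one, ht]
  have hs'i : s'⁻¹ = s' := inv_eq_of_mul_eq_one_right hs'2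
  have hII : ∀ x ∈ I s, t * x * t ∈ I s' := fun x hx => by
    refine ⟨hcj t x hx.1 ht, ?_⟩
    have := hx.2
    rw [hs'i, hs', mul_inv_rev, mul_inv_rev, hti, ← this, hsi]
    calc t * s * t * (t * x * t) * (t * s * t) = t * s * (t * t) * x * (t * t) * s * t := by group
      _ = _ := by rw [ht]; group
  have hsame : ¬ (I s ≤ I s' ∧ I s' ≤ I s) := by
    rintro ⟨h3, h4⟩
    apply h2
    intro x hx
    have h5 := hcomm s hs x hx
    have h6 := h4 (hcomm s' hs'2 x hx)
    set c := x⁻¹ * (s * x * s⁻¹) with hc1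
    set d := x⁻¹ * (s' * x * s'⁻¹) with hd1
    have e1 : s * x * s⁻¹ = x * c := by rw [hc1]; group
    have e2 : s' * x * s'⁻¹ = x * d := by rw [hd1]; group
    have e3 : s * (s' * x * s'⁻¹) * s⁻¹ = x * (c * d⁻¹) := by
      rw [e2]
      calc s * (x * d) * s⁻¹ = (s * x * s⁻¹) * (s * d * s⁻¹) := by group
        _ = _ := by rw [e1, h6.2]; group
    have e4 : s' * (s * x * s⁻¹) * s'⁻¹ = x * (d * c⁻¹) := by
      rw [e1]
      calc s' * (x * c) * s'⁻¹ = (s' * x * s'⁻¹) * (s' * c * s'⁻¹) := by group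
        _ = _ := by rw [e2, (h3 h5).2]; group
    have e5 : c * d⁻¹ = d * c⁻¹ := by
      apply mul_left_cancel (a := x)
      rw [← e3, ← e4]
      calc s * (s' * x * s'⁻¹) * s⁻¹ = (s * s') * x * (s * s')⁻¹ := by group
        _ = _ := by rw [hst]; group
    have e6 : c * d⁻¹ = 1 := by
      have h7 := hA.2 _ (mul_mem h5.1 (inv_mem h6.1))
      have h8 : (c * d⁻¹) * (c * d⁻¹) = 1 := by
        nth_rewrite 1 [e5]
        group
      rw [pow_succ, sq, h8, one_mul] at h7
      exact h7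
    rw [e6, mul_one] at e3
    calc x * (s * s') = s * (s' * x * s'⁻¹) * s⁻¹ * (s * s') := by rw [e3]
      _ = _ := by group
  have hcard : ∀ U : Subgroup S, U ≤ A → U ≠ ⊥ → U ≠ A → Nat.card U = 3 := fun U hU hU1 hU2 => by
    have hd : Nat.card U ∣ 3 ^ 2 := by
      have := card_dvd_of_le hU
      rwa [hA9] at this
    obtain ⟨k, hk, hk2⟩ := (Nat.dvd_prime_pow Nat.prime_three).mp hd
    interval_cases k
    · exact absurd (card_eq_one.mp hk2) hU1
    · exact hk2
    · exact absurd (PGrp.eq_of_le_of_card_le hU (by omega)) hU2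
  obtain ⟨x, hx, hxs⟩ : ∃ x ∈ A, x * s ≠ s * x := by
    by_contra h
    push Not at h
    exact h1 h
  set a := x⁻¹ * (s * x * s⁻¹) with ha
  have haI : a ∈ I s := hcomm s hs x hx
  have ha1 : a ≠ 1 := fun h => hxs (by
    calc x * s = x * a * s := by rw [h, mul_one]
      _ = _ := by rw [ha]; group)
  have hsa : s * a = a⁻¹ * s := by rw [← haI.2]; group
  have hb1 : t * a * t ≠ 1 := fun h => ha1 (by
    calc a = (t * t) * a * (t * t) := by rw [ht]; group
      _ = t * (t * a * t) * t := by group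
      _ = 1 := by rw [h, mul_one, ht])
  have hIA : I s ≠ A := fun h => hsame ⟨fun y hy => by
    have h3 := hII (t * y * t) (h.ge (hcj t y hy.1 ht))
    have : t * (t * y * t) * t = y := by
      calc t * (t * y * t) * t = (t * t) * y * (t * t) := by group
        _ = y := by rw [ht]; group
    rwa [this] at h3, (hIle s').trans h.ge⟩
  have hIA' : I s' ≠ A := fun h => hIA (le_antisymm (hIle s) fun y hy => ⟨hy, by
    have h3 := (h.ge (hcj t y hy ht)).2
    rw [hs'i, hs', mul_inv_rev, mul_inv_rev, hti] at h3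
    rw [hsi]
    calc s * y * s = t * (t * s * t * (t * y * t) * (t * s * t)) * t := by
          calc s * y * s = (t * t) * s * (t * t) * y * (t * t) * s * (t * t) := by rw [ht]; group
            _ = _ := by group
      _ = (t * t) * y⁻¹ * (t * t) := by rw [h3]; group
      _ = _ := by rw [ht]; group⟩)
  have hz : ∀ u y, I u ≠ A → y ∈ I u → y ≠ 1 → zpowers y = I u := fun u y hu hy hy1 =>
    PGrp.eq_of_le_of_card_le (zpowers_le.mpr hy) (by
      rw [hcard _ (hIle u) (fun h => hy1 (mem_bot.mp (h ▸ hy))) hu,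
        hcard _ ((zpowers_le.mpr hy).trans (hIle u)) (zpowers_ne_bot.mpr hy1)
          (fun h => hu (le_antisymm (hIle u) (h.ge.trans (zpowers_le.mpr hy))))])
  have hza := hz s a hIA haI ha1
  have hbI := hII a haI
  have hzb := hz s' _ hIA' hbI hb1
  set b := t * a * t with hb
  have hbn : b ∉ I s := fun h => hsame (by rw [← hz s b hIA h hb1, hzb]; exact ⟨le_rfl, le_rfl⟩)
  refine ⟨a, haI.1, hsa, ?_, ?_⟩
  · have h3 : s * b * s⁻¹ ∈ I s' := ⟨hn.conj_mem b hbI.1 s, by
      calc s' * (s * b * s⁻¹) * s'⁻¹ = (s' * s) * b * (s' * s)⁻¹ := by group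
        _ = s * (s' * b * s'⁻¹) * s⁻¹ := by rw [← hst]; group
        _ = _ := by rw [hbI.2]; group⟩
    rw [← hzb] at h3
    have hb3 : orderOf b = 3 := by
      haveI : Fact (Nat.Prime 3) := ⟨Nat.prime_three⟩
      exact orderOf_eq_prime (hA.2 b hbI.1) hb1
    obtain ⟨k, hk⟩ := mem_powers_iff_mem_zpowers.mpr h3
    simp only at hk
    rw [← pow_mod_orderOf, hb3] at hk
    have hk3 : k % 3 < 3 := Nat.mod_lt _ (by norm_num)
    interval_cases k % 3
    · rw [pow_zero, eq_comm, conj_eq_one_iff] at hk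
      exact absurd hk hb1
    · rw [pow_one] at hk
      exact (eq_mul_inv_iff_mul_eq.mp hk).symm
    · refine absurd ⟨hbI.1, ?_⟩ hbn
      rw [← hk, eq_inv_iff_mul_eq_one, ← pow_succ]
      exact hA.2 b hbI.1
  · symm
    refine PGrp.eq_of_le_of_card_le (sup_le (zpowers_le.mpr haI.1) (zpowers_le.mpr hbI.1)) ?_
    rw [PGrp.card_sup_zpowers Nat.prime_three (centralizer_le_normalizer _ (by
      rw [PGrp.centralizer_zpowers]
      exact mem_centralizer_singleton_iff.mpr (hc _ hbI.1 _ haI.1)))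
      (by rw [hA.2 b hbI.1]; exact one_mem _) (by rw [hza]; exact hbn), hza,
      hcard _ (hIle s) (fun h => ha1 (mem_bot.mp (h ▸ haI))) hIA, hA9]

theorem exists_fixed (ρ : Representation (ZMod 2) S M) {a b : S} (ha : a ^ 3 = 1) (hb : b ^ 3 = 1)
    (hab : a * b = b * a) (hM : Nontrivial M) :
    ∃ w : M, w ≠ 0 ∧ (ρ a w = w ∨ ρ b w = w ∨ ρ (a * b⁻¹) w = w ∨ ρ (a⁻¹ * b⁻¹) w = w) := by
  have mul : ∀ (g h : S) (m : M), ρ g (ρ h m) = ρ (g * h) m := fun g h m => by
    rw [map_mul]; rfl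
  have one : ∀ m : M, ρ 1 m = m := fun m => by rw [map_one]; rfl
  by_contra h
  push Not at h
  have key : ∀ c : S, c ^ 3 = 1 → (∀ w : M, ρ c w = w → w = 0) → ∀ w, ρ c (ρ c w) = w + ρ c w := by
    intro c hc h0 v
    have h1 : v + ρ c v + ρ c (ρ c v) = 0 := by
      refine h0 _ ?_
      rw [map_add, map_add, mul c c, mul, show c * (c * c) = c ^ 3 by rw [pow_succ', sq], hc, one]
      abel
    rw [← add_self (v + ρ c v)] at h1
    exact add_left_cancel h1
  have ka := key a ha fun w hw => by by_contra h'; exact (h w h').1 hw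
  have kb := key b hb fun w hw => by by_contra h'; exact (h w h').2.1 hw
  obtain ⟨m, hm⟩ := exists_ne (0 : M)
  have hai : a⁻¹ = a * a := by rw [inv_eq_iff_mul_eq_one, ← ha, pow_succ', sq]
  have h1 : ρ b m + ρ a m ≠ 0 := by
    intro h1
    rw [← add_self (ρ a m)] at h1
    have h2 := add_right_cancel h1
    refine (h m hm).2.2.1 ?_
    rw [((show Commute a b from hab).inv_right).eq, ← mul, ← h2, mul, inv_mul_cancel, one]
  refine (h _ h1).2.2.2 ?_
  have h2 : ρ b (ρ b m + ρ a m) = ρ a⁻¹ (ρ b m + ρ a m) := by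
    rw [map_add, map_add, kb, mul a⁻¹ a, inv_mul_cancel, one, hai, ← mul, ka, mul b a, ← hab, ← mul]
    abel
  rw [((show Commute a b from hab).inv_inv).eq, ← mul, ← h2, mul, inv_mul_cancel, one]

theorem main [Finite S] (A : Subgroup S) [hn : A.Normal] (hA : IsElementaryAbelian 3 A)
    (hA9 : Nat.card A = 9) (hAC : centralizer (A : Set S) = A) (φ : DihedralGroup 4 →* S)
    (hφ : Function.Injective φ) (hAX : A ⊔ φ.range = ⊤) (ρ : Representation (ZMod 2) S M)
    (hfaith : Function.Injective ρ)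
    (hirr : ∀ N : Submodule (ZMod 2) M, (∀ s : S, ∀ m ∈ N, ρ s m ∈ N) → N = ⊥ ∨ N = ⊤)
    (hM : Nontrivial M) :
    Nat.card M = 16 ∧ ∃ i j : ZMod 4, ((i = 0 ∧ j = 1) ∨ (i = 1 ∧ j = 0)) ∧
      Nat.card {m : M // ρ (φ (sr i)) m = m ∧ ρ (φ (r 2)) m = m} = 4 ∧
      Nat.card {m : M // ρ (φ (sr j)) m = m ∧ ρ (φ (r 2)) m = m} = 2 := by
  have mul : ∀ (g h : S) (m : M), ρ g (ρ h m) = ρ (g * h) m := fun g h m => by
    rw [map_mul]; rfl
  have one : ∀ m : M, ρ 1 m = m := fun m => by rw [map_one]; rfl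
  have hnc : ∀ g, g ≠ 1 → φ g ∉ centralizer (A : Set S) := fun g hg h => by
    rw [hAC] at h
    have h1 := hA.2 _ h
    rw [← map_pow, ← map_one φ, hφ.eq_iff] at h1
    revert hg h1
    clear h
    revert g
    decide
  set s := φ (sr 0) with hsd
  set t := φ (sr 1) with htd
  have hs : s * s = 1 := by rw [hsd, ← map_mul, ← map_one φ]; congr 1
  have ht : t * t = 1 := by rw [htd, ← map_mul, ← map_one φ]; congr 1
  have hst : s * (t * s * t) = t * s * t * s := by
    simp only [hsd, htd, ← map_mul]; congr 1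
  have hts : t * (s * t * s) = s * t * s * t := by
    simp only [hsd, htd, ← map_mul]; congr 1
  have hz1 : φ (r 2) = s * t * s * t := by
    simp only [hsd, htd, ← map_mul]; congr 1
  have hz2 : φ (r 2) = t * s * t * s := by
    simp only [hsd, htd, ← map_mul]; congr 1
  obtain ⟨a, haA, hsa, hsb, hAab⟩ := exists_gen hA hA9 hs ht hst (hnc _ (by decide))
    (by rw [hst, ← hz2]; exact hnc _ (by decide))
  set b := t * a * t with hb
  have hbA : b ∈ A := hAab.ge (mem_sup_right (mem_zpowers b))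
  have hab : a * b = b * a := PGrp.isMulCommutative_iff_forall.mp hA.1 a haA b hbA
  have hgen : ∀ K : Subgroup S, a ∈ K → s ∈ K → t ∈ K → K = ⊤ := fun K h1 h2 h3 => by
    rw [eq_top_iff, ← hAX, hAab]
    refine sup_le (sup_le (zpowers_le.mpr h1) (zpowers_le.mpr (mul_mem (mul_mem h3 h1) h3))) ?_
    rintro _ ⟨g, rfl⟩
    have : ∀ g : DihedralGroup 4, ∃ k : Fin 4, g = (sr 0 * sr 1) ^ (k : ℕ) ∨
      g = sr 0 * (sr 0 * sr 1) ^ (k : ℕ) := by decide
    obtain ⟨k, rfl | rfl⟩ := this g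
    · rw [map_pow, map_mul]; exact pow_mem (mul_mem h2 h3) _
    · rw [map_mul, map_pow, map_mul]; exact mul_mem h2 (pow_mem (mul_mem h2 h3) _)
  let St : M → Subgroup S := fun m =>
    { carrier := {g | ρ g m = m}
      mul_mem' := fun {x y} hx hy => by
        change ρ (x * y) m = m
        rw [← mul, hy, hx]
      one_mem' := one m
      inv_mem' := fun {x} hx => by
        change ρ x⁻¹ m = m
        conv_lhs => rw [← show ρ x m = m from hx]
        rw [mul, inv_mul_cancel, one] }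
  have h0 : ∀ m : M, ρ a m = m → ρ b m = m → m = 0 := by
    let N : Submodule (ZMod 2) M :=
      { carrier := {m | ∀ x ∈ A, ρ x m = m}
        add_mem' := fun {u v} hu hv x hx => by rw [map_add, hu x hx, hv x hx]
        zero_mem' := fun x _ => map_zero _
        smul_mem' := fun c u hu x hx => by rw [map_smul, hu x hx] }
    rcases hirr N (fun g m hm x hx => by
      rw [mul, show x * g = g * (g⁻¹ * x * g⁻¹⁻¹) by group, ← mul, hm _ (hn.conj_mem x hx g⁻¹)]) with h | h
    · intro m h1 h2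
      have : m ∈ N := fun x hx =>
        (sup_le (zpowers_le.mpr (show a ∈ St m from h1)) (zpowers_le.mpr (show b ∈ St m from h2)))
          (hAab.le hx)
      rwa [h, Submodule.mem_bot] at this
    · exfalso
      have : A = ⊥ := by
        rw [eq_bot_iff]
        intro x hx
        refine mem_bot.mpr (hfaith ?_)
        ext m
        rw [one]
        exact (h.ge Submodule.mem_top : m ∈ N) x hx
      rw [this, card_bot] at hA9
      omega
  have hta : t * a = b * t := by rw [hb, mul_assoc, ht, mul_one]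
  have htb : t * b = a * t := by rw [hb, ← mul_assoc, ← mul_assoc, ht, one_mul]
  have hC : Commute a b := hab
  have case1 : ∀ w : M, w ≠ 0 → ρ b w = w → Nat.card M = 16 ∧
      Nat.card {m : M // ρ s m = m ∧ ρ (φ (r 2)) m = m} = 4 ∧
      Nat.card {m : M // ρ t m = m ∧ ρ (φ (r 2)) m = m} = 2 := fun w hw0 hw =>
    core ρ hs ht (hA.2 a haA) hb hz1 hsa hsb hab hst
      (hgen _ (subset_closure (by simp)) (subset_closure (by simp)) (subset_closure (by simp)))
      h0 hirr hw0 hw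
  have hb' : a⁻¹ * b⁻¹ = s * (a * b⁻¹) * s := by
    have h1 : s * b⁻¹ = b⁻¹ * s := ((show Commute s b from hsb).inv_right).eq
    rw [← mul_assoc, hsa, mul_assoc a⁻¹, h1, mul_assoc, mul_assoc, hs, mul_one]
  have ha3 := hA.2 a haA
  have hb3 := hA.2 b hbA
  have e1 : a = ((a * b⁻¹) * (a⁻¹ * b⁻¹)⁻¹) ^ 2 := by
    have : (a * b⁻¹) * (a⁻¹ * b⁻¹)⁻¹ = a ^ 2 := by rw [sq]; group
    rw [this, ← pow_mul, show 2 * 2 = 3 + 1 from rfl, pow_succ, ha3, one_mul]
  have e2 : b = (a * b⁻¹) * (a⁻¹ * b⁻¹) := by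
    rw [hC.inv_right.eq]
    calc b = b * (b ^ 3)⁻¹ := by rw [hb3]; group
      _ = _ := by group
  have case2 : ∀ w : M, w ≠ 0 → ρ (a⁻¹ * b⁻¹) w = w → Nat.card M = 16 ∧
      Nat.card {m : M // ρ t m = m ∧ ρ (φ (r 2)) m = m} = 4 ∧
      Nat.card {m : M // ρ s m = m ∧ ρ (φ (r 2)) m = m} = 2 := fun w hw0 hw => by
    have hta' : t * a⁻¹ = b⁻¹ * t := by
      rw [mul_inv_eq_iff_eq_mul, mul_assoc, hta, inv_mul_cancel_left]
    have htb' : t * b⁻¹ = a⁻¹ * t := by
      rw [mul_inv_eq_iff_eq_mul, mul_assoc, htb, inv_mul_cancel_left]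
    refine core ρ (a := a * b⁻¹) ht hs (hA.2 _ (mul_mem haA (inv_mem hbA))) hb' hz2 ?_ ?_ ?_ hts ?_ ?_
      hirr hw0 hw
    · rw [← mul_assoc, hta, mul_assoc, htb']; group
    · rw [← mul_assoc, hta', mul_assoc, htb', ← mul_assoc, hC.inv_inv.eq]
    · exact PGrp.isMulCommutative_iff_forall.mp hA.1 _ (mul_mem haA (inv_mem hbA)) _
        (mul_mem (inv_mem haA) (inv_mem hbA))
    · have h1 : a * b⁻¹ ∈ closure {a * b⁻¹, t, s} := subset_closure (by simp)
      have h2 : s ∈ closure {a * b⁻¹, t, s} := subset_closure (by simp)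
      refine hgen _ ?_ h2 (subset_closure (by simp))
      have h3 : a⁻¹ * b⁻¹ ∈ closure {a * b⁻¹, t, s} := by
        rw [hb']; exact mul_mem (mul_mem h2 h1) h2
      have := pow_mem (mul_mem h1 (inv_mem h3)) 2
      rwa [← e1] at this
    · intro m h1 h2
      have h3 : a * b⁻¹ ∈ St m := h1
      have h4 : a⁻¹ * b⁻¹ ∈ St m := h2
      have h5 := pow_mem (mul_mem h3 (inv_mem h4)) 2
      have h6 := mul_mem h3 h4
      rw [← e1] at h5
      rw [← e2] at h6
      exact h0 m h5 h6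
  have hne : ∀ (g : S) (w : M), w ≠ 0 → ρ g w ≠ 0 := fun g w hw h => hw (by
    rw [← one w, ← inv_mul_cancel g, ← mul, h, map_zero])
  obtain ⟨w, hw0, h | h | h | h⟩ := exists_fixed ρ ha3 hb3 hab hM
  · obtain ⟨h1, h2, h3⟩ := case1 (ρ t w) (hne t w hw0) (by rw [mul, ← hta, ← mul, h])
    exact ⟨h1, 0, 1, Or.inl ⟨rfl, rfl⟩, h2, h3⟩
  · obtain ⟨h1, h2, h3⟩ := case1 w hw0 h
    exact ⟨h1, 0, 1, Or.inl ⟨rfl, rfl⟩, h2, h3⟩
  · obtain ⟨h1, h2, h3⟩ := case2 (ρ s w) (hne s w hw0)
      (by rw [mul, hb', mul_assoc, hs, mul_one, ← mul, h])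
    exact ⟨h1, 1, 0, Or.inr ⟨rfl, rfl⟩, h2, h3⟩
  · obtain ⟨h1, h2, h3⟩ := case2 w hw0 h
    exact ⟨h1, 1, 0, Or.inr ⟨rfl, rfl⟩, h2, h3⟩

theorem fix_D (φ : DihedralGroup 4 →* S) (ρ : Representation (ZMod 2) S M) (i : ZMod 4) :
    Nat.card {m : M // ∀ b ∈ (D i).map φ, ρ b m = m} =
      Nat.card {m : M // ρ (φ (sr i)) m = m ∧ ρ (φ (r 2)) m = m} := by
  refine Nat.card_congr (Equiv.subtypeEquivRight fun m => ⟨fun h => ⟨h _ (mem_map_of_mem _ ?_),
    h _ (mem_map_of_mem _ ?_)⟩, ?_⟩)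
  · exact Or.inr (Or.inr (Or.inl rfl))
  · exact Or.inr (Or.inl rfl)
  · rintro ⟨h1, h2⟩ _ ⟨g, rfl | rfl | rfl | rfl, rfl⟩
    · rw [map_one, map_one]; rfl
    · exact h2
    · exact h1
    · rw [← sr_mul_r, map_mul, map_mul]
      change ρ _ (ρ _ m) = m
      rw [h2, h1]

end Cfsg.Agent.H23.WrMod
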